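/- Blocks in the defining characteristic: Chevalley groups and special linear groups. -/
import Cfsg.Agent.H2.DefBlock
import Cfsg.Agent.H67.LieAll
import Cfsg.Agent.H63.AdMat
import Cfsg.Agent.H57.SLCard

set_option autoImplicit false
set_option linter.unusedSectionVars false

namespace H2

open Cfsg H67 Matrix

variable {p : ℕ} [Fact p.Prime] {M : Ideal AlgInt}

theorem mem_normalClosure_U {G : Type*} [Group G] [Finite G] (D : H67.SBN p G) {x : G}
    (hx : x ^ p = 1) : x ∈ Subgroup.normalClosure (D.U : Set G) := by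
  obtain ⟨g, hg⟩ := D.exists_conj_le_U (K := Subgroup.zpowers x) (by
    rintro ⟨_, k, rfl⟩
    exact ⟨1, Subtype.ext (by
      change (x ^ k) ^ p ^ 1 = 1
      rw [pow_one, ← _root_.zpow_natCast, ← _root_.zpow_mul, mul_comm, _root_.zpow_mul,
        _root_.zpow_natCast, hx, _root_.one_zpow])⟩)
  simpa [mul_assoc] using Subgroup.normalClosure_normal.conj_mem _
    (Subgroup.subset_normalClosure (hg x (Subgroup.mem_zpowers x))) g

theorem pow_eq_one_of_add {G F : Type*} [Group G] [Field F] [CharP F p] {x : F → G}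
    (h0 : x 0 = 1) (h : ∀ t u, x t * x u = x (t + u)) (t : F) : x t ^ p = 1 := by
  have : ∀ k : ℕ, x t ^ k = x (k * t) := fun k => by
    induction k with
    | zero => simp [h0]
    | succ k ih => rw [pow_succ, ih, h]; congr 1; push_cast; ring
  rw [this, CharP.cast_eq_zero, zero_mul, h0]

theorem card_blocks_chev {D : Lie.ChevalleyDatum} (hD : D ∈ [Lie.chevG2, Lie.chevB2, Lie.chevD4,
    Lie.chevF4, Lie.chevE6, Lie.chevE7, Lie.chevE8]) (F : Type*) [Field F] [Finite F] [CharP F p]
    (hM : IsPModular p M) :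
    Nat.card {B : Set (IrrCharacter (D.group F)) // IsPBlock M B} = 2 := by
  obtain ⟨_, _, _⟩ := H65.of_mem hD
  have h := chevSBN_good D F p
  have h1 := (H63.stB_xG (H64.matOK (D := D) (F := F))).toSt
  rw [card_blocks _ h.bt h.irr h.ne h.comm (top_le_iff.1 (H63.GG_xG.ge.trans (H64.GG_le
    fun r t => mem_normalClosure_U _ (pow_eq_one_of_add (h1.x_zero r) (h1.add r r.2) t)))) hM,
    le_bot_iff.1 ((chevSBN D F p).center_le_normalCore.trans h.core.le), Subgroup.card_bot]

section SL
variable (F : Type*) [Field F] [Finite F] [CharP F p] {n : ℕ} (hn : 2 ≤ n)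
include hn

theorem irreducible_lieSL : (ofLieS (H54.lieSL F n p)).P.Irreducible := by
  refine ofGRD_irreducible _ _ _ _ ?_
  by_cases h : 3 ≤ n
  · have := Fintype.ofFinite F
    have := H57.psl_fin_isSimpleGroup (F := F) hn (by omega)
    exact (H54.liePSL F n p).T.connected (H54.liePSL F n p).top
  obtain rfl : n = 2 := by omega
  have key : ∀ i : (H54.htSL F 2).Sim, i.1.1 = Pi.single 0 1 - Pi.single 1 1 := by
    rintro ⟨⟨r, hr⟩, h1⟩
    rcases H54.CD.IsRoot.std_cases (fun a => Or.inr ⟨a, Or.inl rfl⟩) hr with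
      ⟨k, l, hkl, rfl⟩ | ⟨⟨a, k, e⟩, -⟩ | ⟨h, -⟩
    · change H54.htFin 2 1 _ = 1 at h1
      rw [map_sub, H54.htFin_single, H54.htFin_single] at h1
      obtain rfl : k = 0 := by omega
      obtain rfl : l = 1 := by omega
      rfl
    · exact absurd e (H54.single_ne_neg_single a k)
    · exact h.elim
  rintro J ⟨i, hi⟩ ⟨j, hj⟩
  exact absurd (Subtype.ext (Subtype.ext ((key i).trans (key j).symm)) ▸ hi) hj

theorem nonempty_lieSL : (ofLieS (H54.lieSL F n p)).P.S.Nonempty := by
  obtain ⟨-, i, -⟩ := (H54.lieSL F n p).R.exists_simple ⟨_, H54.CD.isRoot_sub (D := H54.cdSL F n)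
    (fun k => ⟨k, rfl⟩) (fin_zero_ne_one hn)⟩
  exact ⟨_, (H54.sEq _ (H54.lieSL F n p).top i).2⟩

omit hn in
theorem gen_SL (D : H67.SBN p (SpecialLinearGroup (Fin n) F)) :
    Subgroup.normalClosure (D.U : Set (SpecialLinearGroup (Fin n) F)) = ⊤ :=
  H57.sl_eq_top_of_transvections _ fun _ _ h c => mem_normalClosure_U D (pow_eq_one_of_add
    (SpecialLinearGroup.transvection_coeff_zero h)
    (fun t u => (SpecialLinearGroup.transvection_add h t u).symm) c)

omit hn in
theorem bt_lieSL : (ofLieS (H54.lieSL F n p)).BT := bt_lieS _ _ _ _ _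

end SL

end H2
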