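/- Spec of S3572 (dihedral groups are B-groups); see blueprints/DIH.md. -/
import Cfsg.Agent.Base

set_option autoImplicit false
set_option linter.unusedSectionVars false

namespace H2.Di

open DihedralGroup

variable {m : ℕ} [NeZero m]

/-- Convolution of integer functions on the dihedral group. -/
def cv (X Y : DihedralGroup m → ℤ) : DihedralGroup m → ℤ := fun g => ∑ h, X h * Y (h⁻¹ * g)

/-- The unit of convolution. -/
def dl : DihedralGroup m → ℤ := fun g => if g = 1 then 1 else 0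

/-- Convolution powers. -/
def pw (X : DihedralGroup m → ℤ) : ℕ → DihedralGroup m → ℤ
  | 0 => dl
  | k + 1 => cv X (pw X k)

/-- A primitive Schur ring over the dihedral group. -/
structure SR (S : Set (DihedralGroup m → ℤ)) : Prop where
  one : dl ∈ S
  mul : ∀ X ∈ S, ∀ Y ∈ S, cv X Y ∈ S
  comp : ∀ X ∈ S, ∀ Y ∈ S, ∀ φ : ℤ → ℤ → ℤ, (fun g => φ (X g) (Y g)) ∈ S
  symm : ∀ X ∈ S, ∀ c, X (r (-c)) = X (r c)
  p1 : ∀ X ∈ S, (∀ c, X (sr c) = 0) → ∀ c, c ≠ 0 → X (r c) = 0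
  p2 : ∀ X ∈ S, (∀ c, X (r c) = 0) → ∀ c, X (sr c) = 0
  p3 : ∀ X ∈ S, ∀ d, d ≠ 0 → (∀ g, X (r d * g) = X g) → ∀ g h, X g = X h

/-- The rotation parts are invariant under the units. -/
def Rat (S : Set (DihedralGroup m → ℤ)) : Prop :=
  ∀ X ∈ S, ∀ (u : (ZMod m)ˣ) (c : ZMod m), X (r (u * c)) = X (r c)

/-- Rank two. -/
def Triv (S : Set (DihedralGroup m → ℤ)) : Prop :=
  ∀ X ∈ S, ∀ g h, g ≠ 1 → h ≠ 1 → X g = X h

/-- Same basic set. -/
def Rel (S : Set (DihedralGroup m → ℤ)) (g h : DihedralGroup m) : Prop := ∀ X ∈ S, X g = X h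

theorem Rel.refl (S : Set (DihedralGroup m → ℤ)) (g : DihedralGroup m) : Rel S g g :=
  fun _ _ => rfl

theorem Rel.symm {S : Set (DihedralGroup m → ℤ)} {g h : DihedralGroup m} (e : Rel S g h) :
    Rel S h g := fun X hX => (e X hX).symm

theorem Rel.trans {S : Set (DihedralGroup m → ℤ)} {g h k : DihedralGroup m} (e : Rel S g h)
    (e' : Rel S h k) : Rel S g k := fun X hX => (e X hX).trans (e' X hX)

namespace SR

variable {S : Set (DihedralGroup m → ℤ)} (hS : SR S)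
include hS

theorem pw_mem {X : DihedralGroup m → ℤ} (hX : X ∈ S) : ∀ k, pw X k ∈ S
  | 0 => hS.one
  | k + 1 => hS.mul X hX _ (pw_mem hX k)

theorem map {X : DihedralGroup m → ℤ} (hX : X ∈ S) (φ : ℤ → ℤ) : (fun g => φ (X g)) ∈ S :=
  hS.comp X hX X hX fun a _ => φ a

theorem exists_univ : ∃ X ∈ S, ∀ g h, X g = X h → Rel S g h := by
  classical
  obtain ⟨X, hX, hmin⟩ := exists_minimalFor_of_wellFoundedLT (· ∈ S)
    (fun X => Finset.univ.filter fun p : DihedralGroup m × DihedralGroup m => X p.1 = X p.2)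
    ⟨_, hS.one⟩
  refine ⟨X, hX, fun g h e Y hY => ?_⟩
  let φ : ℤ → ℤ → ℤ := fun a b => (Encodable.encode (a, b) : ℕ)
  have hφ : ∀ a b a' b', φ a b = φ a' b' → a = a' ∧ b = b' := fun a b a' b' e =>
    Prod.mk.inj (Encodable.encode_injective (Int.natCast_inj.1 e))
  have := hmin (hS.comp X hX Y hY φ) (fun p hp => by
    simp only [Finset.mem_filter, Finset.mem_univ, true_and] at hp ⊢
    exact (hφ _ _ _ _ hp).1) (x := (g, h)) (by simpa using e)
  simp only [Finset.mem_filter, Finset.mem_univ, true_and] at this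
  exact (hφ _ _ _ _ this).2

/-- Every function constant on the basic sets lies in the ring. -/
theorem mem_of_rel {Z : DihedralGroup m → ℤ} (hZ : ∀ g h, Rel S g h → Z g = Z h) : Z ∈ S := by
  classical
  obtain ⟨X, hX, h⟩ := hS.exists_univ
  convert hS.map hX fun a => if e : ∃ g, X g = a then Z e.choose else 0 using 2 with g
  have e : ∃ g', X g' = X g := ⟨g, rfl⟩
  rw [dif_pos e, hZ _ _ (h _ _ e.choose_spec)]

open Classical in
/-- The indicator of a basic set. -/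
theorem ind_mem (g : DihedralGroup m) : (fun h => if Rel S g h then 1 else 0) ∈ S :=
  hS.mem_of_rel fun _ _ e => if_congr ⟨fun k => k.trans e, fun k => k.trans e.symm⟩ rfl rfl

theorem eq_one_of_rel {g : DihedralGroup m} (e : Rel S g 1) : g = 1 := by
  have := e _ hS.one
  by_contra h
  simp [dl, h] at this

/-- Every basic set contains a rotation. -/
theorem exists_rel_r (g : DihedralGroup m) : ∃ c, Rel S g (r c) := by
  classical
  by_contra hc
  push Not at hc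
  rcases g with c | c
  · exact hc c (Rel.refl _ _)
  · simpa [Rel.refl] using hS.p2 _ (hS.ind_mem (sr c)) (fun c => if_neg (hc c)) c

theorem modEq_of_r {X Y : DihedralGroup m → ℤ} (hX : X ∈ S) (hY : Y ∈ S) {q : ℤ}
    (h : ∀ c, X (r c) ≡ Y (r c) [ZMOD q]) (g : DihedralGroup m) : X g ≡ Y g [ZMOD q] := by
  obtain ⟨c, e⟩ := hS.exists_rel_r g
  rw [e X hX, e Y hY]; exact h c

theorem triv_of_r (h : ∀ c c' : ZMod m, c ≠ 0 → c' ≠ 0 → Rel S (r c) (r c')) : Triv S := by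
  intro X hX g g' hg hg'
  obtain ⟨c, e⟩ := hS.exists_rel_r g
  obtain ⟨c', e'⟩ := hS.exists_rel_r g'
  refine (e.trans ((h c c' ?_ ?_).trans e'.symm)) X hX
  · rintro rfl; exact hg (hS.eq_one_of_rel e)
  · rintro rfl; exact hg' (hS.eq_one_of_rel e')

end SR

/-- Powers. -/
def JobM : Prop := ∀ (m : ℕ) [NeZero m] (X : DihedralGroup m → ℤ),
  (∀ k, ∑ g, pw X k g = (∑ g, X g) ^ k) ∧
  (∀ Y, cv X Y = cv Y X → ∀ k, pw (cv X Y) k = cv (pw X k) (pw Y k)) ∧
  ∀ q : ℕ, q.Prime → (∀ c, X (r (-c)) = X (r c)) →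
    (q ≠ 2 → ∀ c, pw X q (r c) ≡
      ∑ y ∈ Finset.univ.filter (fun y : ZMod m => (q : ZMod m) * y = c), X (r y) [ZMOD q]) ∧
    ∀ d : ZMod m, addOrderOf d = q → (∀ c, X (sr (c + d)) = X (sr c)) → ∀ c,
      pw X q (sr c) ≡ 0 [ZMOD q] ∧ pw X q (r c) ≡
        ∑ y ∈ Finset.univ.filter (fun y : ZMod m => (q : ZMod m) * y = c), X (r y) [ZMOD q]

/-- Numerics of a set whose square is trivial. -/
def JobN : Prop := ∀ (m : ℕ) [NeZero m] (K : DihedralGroup m → ℤ) (p : ℕ) (d : ZMod m) (μ : ℤ),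
  p.Prime → addOrderOf d = p → (∀ g, K g = 0 ∨ K g = 1) → (∀ c, K (r (-c)) = K (r c)) →
  K 1 = 0 → (∃ c, K (r c) = 1) → (∀ c, K (r (c + d)) = K (r c)) → (∀ g, g ≠ 1 → cv K K g = μ) →
  (p ≠ 2 ∨ ∃ e : ZMod m, e ≠ 0 ∧ ∃ v, ∀ c, e * c ≠ 0 → K (r c) = v) → False

/-- The rational case. -/
def RatCase : Prop := ∀ (m : ℕ) [NeZero m] (S : Set (DihedralGroup m → ℤ)), SR S → Rat S → Triv S

/-- The general case. -/
def GenCase : Prop := ∀ (m : ℕ) [NeZero m] (S : Set (DihedralGroup m → ℤ)), SR S → Triv S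

/-- Elements with an invariant reflection part are trivial. -/
def JobK : Prop := ∀ (m : ℕ) [NeZero m] (S : Set (DihedralGroup m → ℤ)), SR S → Rat S →
  ∀ (p : ℕ) (d : ZMod m), p.Prime → addOrderOf d = p → ∀ X ∈ S, (∀ c, X (sr (c + d)) = X (sr c)) →
    ∀ g h, g ≠ 1 → h ≠ 1 → X g = X h

/-- No proper invariant set (`JobK` with `JobN`). -/
def JobL : Prop := ∀ (m : ℕ) [NeZero m] (S : Set (DihedralGroup m → ℤ)), SR S → Rat S →
  ∀ (p : ℕ) (d : ZMod m), p.Prime → addOrderOf d = p → ∀ K ∈ S, (∀ g, K g = 0 ∨ K g = 1) →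
    K 1 = 0 → (∃ g, K g = 1) → (∀ c, K (r (c + d)) = K (r c)) →
    (p ≠ 2 ∨ ∃ e : ZMod m, e ≠ 0 ∧ ∃ v, ∀ c, e * c ≠ 0 → K (r c) = v) → False

/-- Odd primes: all rotations of order divisible by `p` lie in one basic set. -/
def JobO : Prop := ∀ (m : ℕ) [NeZero m] (S : Set (DihedralGroup m → ℤ)), SR S → Rat S →
  ∀ p : ℕ, p.Prime → p ≠ 2 → ∀ x : ZMod m, p ∣ addOrderOf x → Rel S (r x) (r 1)

end H2.Di
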