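/- S3572, job F: the rational case. -/
import Cfsg.Agent.H2.DiSpec

set_option autoImplicit false
set_option linter.unusedSectionVars false
set_option linter.style.haveILetI false

namespace H2.Di

open DihedralGroup

variable {m : ℕ} [NeZero m] {S : Set (DihedralGroup m → ℤ)}

theorem ord_unit {u : ZMod m} (hu : IsUnit u) (x : ZMod m) : addOrderOf (u * x) = addOrderOf x :=
  addOrderOf_injective (AddMonoidHom.mulLeft u) hu.mul_right_injective x

theorem unit_of_ord {x y : ZMod m} (h : addOrderOf x = addOrderOf y) :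
    ∃ u : (ZMod m)ˣ, y = u * x := by
  obtain ⟨d, hd, _, ⟨u, rfl⟩, rfl⟩ := x.eq_unit_mul_divisor
  obtain ⟨d', hd', _, ⟨u', rfl⟩, rfl⟩ := y.eq_unit_mul_divisor
  rw [ord_unit u.isUnit, ord_unit u'.isUnit, ZMod.addOrderOf_coe _ (NeZero.ne m),
    ZMod.addOrderOf_coe _ (NeZero.ne m), Nat.gcd_eq_right hd, Nat.gcd_eq_right hd'] at h
  have : d = d' := by
    rw [← Nat.div_div_self hd (NeZero.ne m), h, Nat.div_div_self hd' (NeZero.ne m)]
  exact ⟨u' * u⁻¹, by simp [this, mul_assoc]⟩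

theorem Rat.rel (h : Rat S) {x y : ZMod m} (e : addOrderOf x = addOrderOf y) :
    Rel S (r x) (r y) := fun X hX => by
  obtain ⟨u, rfl⟩ := unit_of_ord e
  exact (h X hX u x).symm

theorem jobF (hO : JobO) (hL : JobL) : RatCase := by
  classical
  intro m _ S hS hR
  have O := hO m S hS hR
  have dv : ∀ x : ZMod m, addOrderOf x ∣ m := fun x => by
    simpa using addOrderOf_dvd_natCard x
  have pr : ∀ x : ZMod m, x ≠ 0 → ∃ p, p.Prime ∧ p ∣ addOrderOf x := fun x hx =>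
    Nat.exists_prime_and_dvd (by simpa using hx)
  have m0 := NeZero.pos m
  rcases Nat.even_or_odd' m with ⟨k, hk | hk⟩
  swap
  · have : ∀ x : ZMod m, x ≠ 0 → Rel S (r x) (r 1) := fun x hx => by
      obtain ⟨p, hp, h⟩ := pr x hx
      refine O p hp ?_ x h
      rintro rfl
      have := h.trans (dv x)
      omega
    exact hS.triv_of_r fun c c' hc hc' => (this c hc).trans (this c' hc').symm
  have nz : ∀ l j : ℕ, l.Prime → m = l * j → (j : ZMod m) ≠ 0 := fun l j hl e h => by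
    have h1 := hl.two_le
    have j0 : 0 < j := Nat.pos_of_ne_zero (by rintro rfl; omega)
    have := Nat.le_of_dvd j0 ((ZMod.natCast_eq_zero_iff j m).1 h)
    nlinarith
  have kill : ∀ (j : ℕ) (x : ZMod m), addOrderOf x ∣ j → (j : ZMod m) * x = 0 := fun j x h => by
    rw [← nsmul_eq_mul]; exact addOrderOf_dvd_iff_nsmul_eq_zero.1 h
  have kk : (2 : ℕ) • (k : ZMod m) = 0 := by
    rw [nsmul_eq_mul, ← Nat.cast_mul, ← hk, ZMod.natCast_self]
  have oz : addOrderOf (k : ZMod m) = 2 := addOrderOf_eq_prime kk (nz 2 k Nat.prime_two hk)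
  obtain ⟨e, e0, he⟩ : ∃ e : ZMod m, e ≠ 0 ∧ ∀ x, e * x ≠ 0 → Rel S (r x) (r 1) := by
    by_cases h : ∃ l : ℕ, l.Prime ∧ l ≠ 2 ∧ l ∣ m
    · obtain ⟨l, hl, l2, j, hj⟩ := h
      refine ⟨j, nz l j hl hj, fun x hx => O l hl l2 x ?_⟩
      by_contra hn
      exact hx (kill j x (((Nat.Prime.coprime_iff_not_dvd hl).2 hn).symm.dvd_of_dvd_mul_left
        (hj ▸ dv x)))
    · refine ⟨k, nz 2 k Nat.prime_two hk, fun x hx => hR.rel ?_⟩
      rw [ZMod.addOrderOf_one]
      obtain ⟨j, hj⟩ := dv x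
      by_cases j1 : j = 1
      · simpa [j1] using hj.symm
      obtain ⟨l, hl, i, rfl⟩ := Nat.exists_prime_and_dvd j1
      have l2 : l = 2 := by
        by_contra l2
        exact h ⟨l, hl, l2, hj ▸ Dvd.dvd.mul_left (Dvd.intro _ rfl) _⟩
      subst l2
      exact absurd (kill k x ⟨i, by nlinarith⟩) hx
  let K : DihedralGroup m → ℤ := fun g => if g = 1 ∨ Rel S g (r k) then 0 else 1
  have hK : K ∈ S := hS.mem_of_rel fun g g' h => if_congr (or_congr
    ⟨fun e => hS.eq_one_of_rel (e ▸ h.symm), fun e => hS.eq_one_of_rel (e ▸ h)⟩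
    ⟨h.symm.trans, h.trans⟩) rfl rfl
  have K0 : ∀ y : ZMod m, (2 : ℕ) • y = 0 → K (r y) = 0 := fun y hy => if_pos (by
    by_cases y0 : y = 0
    · exact Or.inl (y0 ▸ rfl)
    · exact Or.inr (hR.rel ((addOrderOf_eq_prime hy y0).trans oz.symm)))
  have key : ∀ g, g ≠ 1 → Rel S g (r k) := fun g hg => by
    by_contra hn
    refine hL m S hS hR 2 k Nat.prime_two oz K hK (fun g => by simp only [K]; split_ifs <;> simp)
      (if_pos (Or.inl rfl)) ⟨g, if_neg (not_or.2 ⟨hg, hn⟩)⟩ (fun y => ?_)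
      (Or.inr ⟨e, e0, K (r 1), fun x hx => he x hx K hK⟩)
    have e2 : (2 : ℕ) • (y + k) = (2 : ℕ) • y := by rw [nsmul_add, kk, add_zero]
    by_cases hy : (2 : ℕ) • y = 0
    · rw [K0 y hy, K0 _ (e2.trans hy)]
    obtain ⟨p, hp, h⟩ := pr _ hy
    have h1 := h.trans (addOrderOf_smul_dvd (x := y) 2)
    have h2 := (e2 ▸ h).trans (addOrderOf_smul_dvd (x := y + k) 2)
    by_cases p2 : p = 2
    · subst p2
      refine hR.rel ?_ K hK
      rw [← Nat.div_mul_cancel h1, ← Nat.div_mul_cancel h2,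
        ← addOrderOf_nsmul_of_dvd two_ne_zero h1, ← addOrderOf_nsmul_of_dvd two_ne_zero h2, e2]
    · exact ((O p hp p2 _ h2).trans (O p hp p2 _ h1).symm) K hK
  exact fun X hX g g' hg hg' => ((key g hg).trans (key g' hg').symm) X hX

end H2.Di
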