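/- S3572, job M: powers in the group ring of a dihedral group. -/
import Cfsg.Agent.H2.DiSpec
import Cfsg.Agent.Rz.H2_Di_pw_eq_def

set_option autoImplicit false
set_option linter.unusedSectionVars false
set_option linter.style.haveILetI false

namespace H2.Di

open DihedralGroup MonoidAlgebra

theorem sum_pow_comm {A ι : Type*} [Semiring A] (q : ℕ) [hq : Fact q.Prime] [CharP A q]
    (s : Finset ι) (f : ι → A) (h : ∀ i j, Commute (f i) (f j)) :
    (∑ i ∈ s, f i) ^ q = ∑ i ∈ s, f i ^ q := by
  classical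
  induction s using Finset.induction_on with
  | empty => simp [hq.out.ne_zero]
  | insert a s ha ih =>
    rw [Finset.sum_insert ha, Finset.sum_insert ha,
      add_pow_char_of_commute _ (Commute.sum_right _ _ _ fun j _ => h a j), ih]

theorem sum_eq_zero_of_inv {G : Type*} [Group G] [Fintype G] {q : ℕ} {x : G} (hx : orderOf x = q)
    (F : G → ZMod q) (hF : ∀ h, F (h * x) = F h) : ∑ h, F h = 0 := by
  classical
  have h1 : ∀ z ∈ Subgroup.zpowers x, ∀ h, F (h * z) = F h := fun z hz => by
    obtain ⟨k, rfl⟩ := (mem_powers_iff_mem_zpowers.2 hz : z ∈ Submonoid.powers x)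
    induction k with
    | zero => simp
    | succ k ih =>
      intro h
      simp only [pow_succ, ← mul_assoc, hF]
      exact ih (Subgroup.npow_mem_zpowers x k) h
  rw [← Finset.sum_fiberwise Finset.univ (fun h : G => (h : G ⧸ Subgroup.zpowers x))]
  refine Finset.sum_eq_zero fun Q _ => ?_
  obtain ⟨g, rfl⟩ := QuotientGroup.mk_surjective Q
  rw [Finset.sum_congr rfl (g := fun _ => F g) fun h hh => by
    rw [← mul_inv_cancel_left g h, h1 _ (QuotientGroup.eq.1 (Finset.mem_filter.1 hh).2.symm)],
    Finset.sum_const]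
  have := QuotientGroup.card_preimage_mk (Subgroup.zpowers x) {(g : G ⧸ Subgroup.zpowers x)}
  rw [Nat.card_zpowers, hx, Nat.card_unique (α := ({(g : G ⧸ Subgroup.zpowers x)} : Set _)), mul_one,
    Nat.card_eq_card_toFinset] at this
  have e : (Finset.univ.filter fun h : G => (h : G ⧸ Subgroup.zpowers x) = g).card = q := by
    rw [← this]; congr 1; ext; simp
  rw [e, nsmul_eq_mul, ZMod.natCast_self, zero_mul]

variable {m : ℕ} [NeZero m]

theorem sum_dih {M : Type*} [AddCommMonoid M] (F : DihedralGroup m → M) :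
    ∑ g, F g = ∑ c, F (r c) + ∑ c, F (sr c) := by
  rw [← Equiv.sum_comp equivSum.symm, Fintype.sum_sum_type]; rfl

theorem coeff_mul' {R : Type*} [Semiring R] (x y : MonoidAlgebra R (DihedralGroup m))
    (g : DihedralGroup m) : (x * y).coeff g = ∑ h, x.coeff h * y.coeff (h⁻¹ * g) := by
  rw [coeff_mul_apply_left, Finsupp.sum_fintype _ _ (by simp)]

/-- The element of the group ring. -/
noncomputable def tA (R : Type*) [Ring R] (X : DihedralGroup m → ℤ) :
    MonoidAlgebra R (DihedralGroup m) := ∑ g, single g (X g : R)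

theorem coeff_tA (R : Type*) [Ring R] (X : DihedralGroup m → ℤ) (g : DihedralGroup m) :
    (tA R X).coeff g = X g := by
  simp [tA, coeff_sum, Finsupp.single_apply]

theorem tA_cv (R : Type*) [Ring R] (X Y : DihedralGroup m → ℤ) :
    tA R (cv X Y) = tA R X * tA R Y := by
  ext g; simp [coeff_mul', coeff_tA, cv]

theorem tA_pw (R : Type*) [Ring R] (X : DihedralGroup m → ℤ) : ∀ k, tA R (pw X k) = tA R X ^ k
  | 0 => by
    ext g
    rw [coeff_tA, pw, dl, pow_zero, MonoidAlgebra.one_def, coeff_single,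
      Finsupp.single_apply]
    simp only [eq_comm (a := g)]
    split_ifs <;> simp
  | k + 1 => by rw [pw, tA_cv, tA_pw, pow_succ']

theorem tA_inj {X Y : DihedralGroup m → ℤ} (h : tA ℤ X = tA ℤ Y) : X = Y := by
  funext g; simpa [coeff_tA] using congrArg (fun x => x.coeff g) h

theorem sum_cv (X Y : DihedralGroup m → ℤ) : ∑ g, cv X Y g = (∑ g, X g) * ∑ g, Y g := by
  simp only [cv]
  rw [Finset.sum_comm, Finset.sum_mul]
  refine Finset.sum_congr rfl fun h _ => ?_
  rw [← Finset.mul_sum, Equiv.sum_comp (Equiv.mulLeft h⁻¹) Y |>.symm]; rfl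

theorem jobM : JobM := by
  intro m _ X
  refine ⟨fun k => ?_, fun Y h k => tA_inj ?_, fun q hq hs => ?_⟩
  · induction k with
    | zero => simp [pw, dl]
    | succ k ih => rw [pw, sum_cv, ih, pow_succ']
  · have : Commute (tA ℤ X) (tA ℤ Y) := by rw [Commute, SemiconjBy, ← tA_cv, h, tA_cv]
    rw [tA_pw, tA_cv, tA_cv, tA_pw, tA_pw, this.mul_pow]
  haveI : Fact q.Prime := ⟨hq⟩
  haveI : CharP (MonoidAlgebra (ZMod q) (DihedralGroup m)) q :=
    charP_of_injective_algebraMap (R := ZMod q) (algebraMap (ZMod q) _).injective q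
  let a : MonoidAlgebra (ZMod q) (DihedralGroup m) := ∑ c, single (r c) (X (r c) : ZMod q)
  let b : MonoidAlgebra (ZMod q) (DihedralGroup m) := ∑ c, single (sr c) (X (sr c) : ZMod q)
  have hab : Commute a b := Commute.sum_right _ _ _ fun c _ => by
    simp only [Commute, SemiconjBy, a, Finset.sum_mul, Finset.mul_sum, single_mul_single, r_mul_sr,
      sr_mul_r]
    rw [← Equiv.sum_comp (Equiv.neg (ZMod m))]
    simp [hs, mul_comm]
  have ha : a ^ q = ∑ c, single (r ((q : ZMod m) * c)) (X (r c) : ZMod q) := by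
    rw [sum_pow_comm q _ _ fun i j => by
      simp [Commute, SemiconjBy, single_mul_single, add_comm, mul_comm]]
    simp [single_pow, ZMod.pow_card, mul_comm]
  have hX : ∀ g, ((pw X q g : ℤ) : ZMod q) = (a ^ q).coeff g + (b ^ q).coeff g := fun g => by
    rw [← coeff_tA, tA_pw, tA, sum_dih, add_pow_char_of_commute _ hab]; rfl
  have br : ∀ c, b.coeff (r c) = 0 := fun c => by simp [b, coeff_sum]
  have bs : ∀ c, b.coeff (sr c) = X (sr c) := fun c => by simp [b, coeff_sum, Finsupp.single_apply]
  have key : ∀ c, (b ^ q).coeff (r c) = 0 → pw X q (r c) ≡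
      ∑ y ∈ Finset.univ.filter (fun y : ZMod m => (q : ZMod m) * y = c), X (r y) [ZMOD q] := by
    intro c hc
    rw [← ZMod.intCast_eq_intCast_iff, hX, hc, ha]
    simp [coeff_sum, Finsupp.single_apply, Finset.sum_filter]
  refine ⟨fun h2 c => key c ?_, fun d hd hb c => ?_⟩
  · have : ∀ k c, (b ^ (2 * k + 1)).coeff (r c) = 0 := fun k => by
      induction k with
      | zero => simpa using br
      | succ k ih =>
        intro c
        rw [show 2 * (k + 1) + 1 = 2 * k + 1 + 1 + 1 by ring, pow_succ', pow_succ', coeff_mul']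
        refine Finset.sum_eq_zero ?_
        rintro (e | e) -
        · rw [br, zero_mul]
        · rw [coeff_mul', Finset.sum_eq_zero, mul_zero]
          rintro (e' | e') -
          · rw [br, zero_mul]
          · rw [inv_sr, inv_sr, sr_mul_r, sr_mul_sr, ih, mul_zero]
    obtain ⟨k, hk⟩ := hq.odd_of_ne_two h2
    have := this k c
    rwa [← hk] at this
  · have h0 : b * b = 0 := by
      ext g
      rw [coeff_mul']
      refine sum_eq_zero_of_inv (x := r d) (orderOf_eq_prime (by
        rw [r_pow, mul_comm, ← nsmul_eq_mul, ← hd, addOrderOf_nsmul_eq_zero]; rfl) fun e => by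
        rw [r.inj e, addOrderOf_zero] at hd; exact hq.one_lt.ne hd) _ fun h => ?_
      have e1 : ∀ h, b.coeff (h * r d) = b.coeff h := by
        rintro (e | e) <;> simp [br, bs, hb]
      have e2 : ∀ h, b.coeff (r (-d) * h) = b.coeff h := by
        rintro (e | e) <;> simp [br, bs, hb]
      rw [e1, mul_inv_rev, inv_r, mul_assoc, e2]
    have h1 : b ^ q = 0 := pow_eq_zero_of_le hq.two_le (by rw [pow_two, h0])
    refine ⟨?_, key c (by simp [h1])⟩
    rw [← ZMod.intCast_eq_intCast_iff, hX, h1, ha]
    simp [coeff_sum]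

end H2.Di
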