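/- S3572, job Q: reduction to the rational case. -/
import Cfsg.Agent.H2.DiM

set_option autoImplicit false
set_option linter.unusedSectionVars false
set_option linter.style.haveILetI false

namespace H2.Di

open DihedralGroup

variable {m : ℕ} [NeZero m] {S : Set (DihedralGroup m → ℤ)}

theorem eq_of_modEq_large {a b : ℤ} (u : (ZMod m)ˣ)
    (h : ∀ q : ℕ, q.Prime → q ≠ 2 → (q : ZMod m) = u → a ≡ b [ZMOD q]) : a = b := by
  obtain ⟨q, h1, h2, h3⟩ := Nat.forall_exists_prime_gt_and_eq_mod u.isUnit ((b - a).natAbs + 2)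
  have := Int.eq_zero_of_dvd_of_natAbs_lt_natAbs (h q h2 (by omega) h3).dvd (by simp; omega)
  omega

theorem pw_unit {X : DihedralGroup m → ℤ} (hs : ∀ c, X (r (-c)) = X (r c)) {q : ℕ} (hq : q.Prime)
    (h2 : q ≠ 2) {u : (ZMod m)ˣ} (hu : (q : ZMod m) = u) (c : ZMod m) :
    pw X q (r (u * c)) ≡ X (r c) [ZMOD q] := by
  have := ((jobM m X).2.2 q hq hs).1 h2 (u * c)
  rwa [show Finset.univ.filter (fun y : ZMod m => (q : ZMod m) * y = u * c) = {c} by
    ext y; simp [hu], Finset.sum_singleton] at this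

theorem cv_modEq {X Y X' Y' : DihedralGroup m → ℤ} {q : ℕ} (h : ∀ g, X g ≡ X' g [ZMOD q])
    (h' : ∀ g, Y g ≡ Y' g [ZMOD q]) (g : DihedralGroup m) : cv X Y g ≡ cv X' Y' g [ZMOD q] := by
  simp only [← ZMod.intCast_eq_intCast_iff] at h h' ⊢
  simp [cv, h, h']

namespace SR

variable (hS : SR S)
include hS

theorem inv_eq {X : DihedralGroup m → ℤ} (hX : X ∈ S) (g : DihedralGroup m) : X g⁻¹ = X g := by
  rcases g with c | c
  · exact hS.symm X hX c
  · rfl

theorem comm {X Y : DihedralGroup m → ℤ} (hX : X ∈ S) (hY : Y ∈ S) : cv X Y = cv Y X := by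
  funext g
  rw [← hS.inv_eq (hS.mul X hX Y hY)]
  simp only [cv]
  rw [← Equiv.sum_comp (Equiv.mulLeft g) fun h => Y h * X (h⁻¹ * g)]
  refine Finset.sum_congr rfl fun h _ => ?_
  rw [← mul_inv_rev, hS.inv_eq hY, mul_comm, ← hS.inv_eq hX]
  simp

theorem rel_of_unit (u : (ZMod m)ˣ) {c c' : ZMod m} (h : Rel S (r (u * c)) (r (u * c'))) :
    Rel S (r c) (r c') := fun X hX => eq_of_modEq_large u fun q hq h2 hu =>
  (pw_unit (hS.symm X hX) hq h2 hu c).symm.trans
    (h _ (hS.pw_mem hX q) ▸ pw_unit (hS.symm X hX) hq h2 hu c')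

theorem rel_unit (u : (ZMod m)ˣ) {c c' : ZMod m} :
    Rel S (r (u * c)) (r (u * c')) ↔ Rel S (r c) (r c') :=
  ⟨hS.rel_of_unit u, fun h => hS.rel_of_unit u⁻¹ (by simpa using h)⟩

theorem ratSR : SR {X | X ∈ S ∧ ∀ (u : (ZMod m)ˣ) (c : ZMod m), X (r (u * c)) = X (r c)} where
  one := ⟨hS.one, fun u c => by simp [dl, one_def, -r_zero]⟩
  mul X hX Y hY := ⟨hS.mul X hX.1 Y hY.1, fun u c => eq_of_modEq_large u fun q hq h2 hu => by
    have key : ∀ Z ∈ S, (∀ (u : (ZMod m)ˣ) (c : ZMod m), Z (r (u * c)) = Z (r c)) →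
        ∀ g, Z g ≡ pw Z q g [ZMOD q] := fun Z hZ h =>
      hS.modEq_of_r hZ (hS.pw_mem hZ q) fun c => by
        have := pw_unit (hS.symm Z hZ) hq h2 hu (u⁻¹ * c)
        rw [Units.mul_inv_cancel_left, h] at this
        exact this.symm
    refine (cv_modEq (key X hX.1 hX.2) (key Y hY.1 hY.2) _).trans ?_
    rw [← (jobM m X).2.1 Y (hS.comm hX.1 hY.1)]
    exact pw_unit (hS.symm _ (hS.mul X hX.1 Y hY.1)) hq h2 hu c⟩
  comp X hX Y hY φ := ⟨hS.comp X hX.1 Y hY.1 φ, fun u c => by simp only [hX.2, hY.2]⟩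
  symm X hX := hS.symm X hX.1
  p1 X hX := hS.p1 X hX.1
  p2 X hX := hS.p2 X hX.1
  p3 X hX := hS.p3 X hX.1

end SR

theorem jobQ (h : RatCase) : GenCase := by
  classical
  intro m _ S hS
  have T := h m _ hS.ratSR fun X hX => hX.2
  let α : DihedralGroup m → ℤ := fun g => ∑ c, if Rel S g (r c) then 1 else 0
  let τ : DihedralGroup m → ℤ := fun g => ∑ k, if Rel S g k then 1 else 0
  have rc : ∀ {g g'}, Rel S g g' → ∀ k, Rel S g k ↔ Rel S g' k := fun e k =>
    ⟨e.symm.trans, e.trans⟩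
  have hα := T α ⟨hS.mem_of_rel fun g g' e => by simp only [α, rc e], fun u c => by
    simp only [α]
    rw [← Equiv.sum_comp u.mulLeft]
    simp [hS.rel_unit]⟩
  have hτ := T τ ⟨hS.mem_of_rel fun g g' e => by simp only [τ, rc e], fun u c =>
    eq_of_modEq_large u fun q hq h2 hu => by
      haveI : Fact q.Prime := ⟨hq⟩
      have i1 := hS.ind_mem (r c)
      have := hS.modEq_of_r (hS.ind_mem (r (u * c))) (hS.pw_mem i1 q) (q := q) fun c' => by
        have := pw_unit (hS.symm _ i1) hq h2 hu (u⁻¹ * c')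
        rw [← hS.rel_unit u, Units.mul_inv_cancel_left] at this
        exact this.symm
      simp only [← ZMod.intCast_eq_intCast_iff] at this ⊢
      have e := congrArg (Int.cast : ℤ → ZMod q) ((jobM m fun k => if Rel S (r c) k then 1 else 0).1 q)
      rw [Int.cast_pow, ZMod.pow_card, Int.cast_sum] at e
      rw [← e, Int.cast_sum]
      exact Finset.sum_congr rfl fun g _ => this g⟩
  refine hS.triv_of_r fun c c' hc hc' => ?_
  have ne : ∀ {c : ZMod m}, c ≠ 0 → (r c : DihedralGroup m) ≠ 1 := fun hc e => hc (r.inj e)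
  have cnt : ∑ g, α g = ∑ k, τ (r k) := by
    simp only [α, τ]
    rw [Finset.sum_comm]
    exact Finset.sum_congr rfl fun k _ => Finset.sum_congr rfl fun g _ =>
      if_congr ⟨Rel.symm, Rel.symm⟩ rfl rfl
  have r1 : ∀ k, Rel S 1 k ↔ k = 1 := fun k =>
    ⟨fun e => hS.eq_one_of_rel e.symm, fun e => e ▸ Rel.refl _ _⟩
  have a1 : α 1 = 1 := by
    simp only [α, r1]
    simp only [one_def, r.injEq, Finset.sum_ite_eq', Finset.mem_univ, if_true]
  have t1 : τ (r 0) = 1 := by
    simp only [τ, r_zero, r1]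
    convert Finset.sum_ite_eq' Finset.univ (1 : DihedralGroup m) fun _ => (1 : ℤ)
    simp
  rw [← Finset.add_sum_erase _ _ (Finset.mem_univ 1), ← Finset.add_sum_erase _ _ (Finset.mem_univ 0),
    Finset.sum_congr rfl fun g hg => hα g (r c) (Finset.ne_of_mem_erase hg) (ne hc),
    Finset.sum_congr rfl fun k hk => hτ (r k) (r c) (ne (Finset.ne_of_mem_erase hk)) (ne hc),
    a1, t1] at cnt
  simp only [Finset.sum_const, Finset.card_erase_of_mem (Finset.mem_univ _), Finset.card_univ,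
    DihedralGroup.card, ZMod.card, nsmul_eq_mul, add_right_inj] at cnt
  set F := Finset.univ.filter fun k : ZMod m => Rel S (r c) (r k) with hF
  have eF : α (r c) = F.card := by simp [α, hF]
  have sub : F ⊆ Finset.univ.erase 0 := fun k hk => Finset.mem_erase.2 ⟨by
    rintro rfl
    exact ne hc (hS.eq_one_of_rel (Finset.mem_filter.1 hk).2), Finset.mem_univ _⟩
  have pos : 0 < F.card := Finset.card_pos.2 ⟨c, by simp [hF, Rel.refl]⟩
  have m0 := NeZero.pos m
  have hd : m - 1 ∣ F.card := by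
    rw [← Int.natCast_dvd_natCast]
    refine ⟨τ (r c) - 2 * F.card, ?_⟩
    rw [eF, Nat.cast_sub (by omega)] at cnt
    rw [Nat.cast_sub (by omega)] at cnt ⊢
    push_cast at cnt ⊢
    linear_combination cnt
  have := Finset.eq_of_subset_of_card_le sub (by
    rw [Finset.card_erase_of_mem (Finset.mem_univ _), Finset.card_univ, ZMod.card]
    exact Nat.le_of_dvd pos hd)
  have : c' ∈ F := this ▸ Finset.mem_erase.2 ⟨hc', Finset.mem_univ _⟩
  exact (Finset.mem_filter.1 this).2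

end H2.Di
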