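/- S3572: reduction to Schur rings over the dihedral group (port of `H30.SRing`). -/
import Cfsg.Agent.H2.DiSpec

set_option autoImplicit false
set_option linter.unusedSectionVars false
set_option linter.style.haveILetI false

namespace H2.Di

section
variable {H : Type*} [Group H]

/-- The point stabilizer of a group containing the translations. -/
structure IsS (K : Subgroup (Equiv.Perm H)) : Prop where
  one : ∀ τ ∈ K, τ 1 = 1
  mul : ∀ τ ∈ K, ∀ a : H, ∃ τ' ∈ K, ∀ h : H, τ (a * h) = τ a * τ' h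

variable {K : Subgroup (Equiv.Perm H)}

theorem IsS.div (hK : IsS K) {τ : Equiv.Perm H} (hτ : τ ∈ K) (a : H) :
    ∃ τ' ∈ K, ∀ h : H, (τ a)⁻¹ * τ h = τ' (a⁻¹ * h) := by
  obtain ⟨τ', h1, h2⟩ := hK.mul τ hτ a
  refine ⟨τ', h1, fun h => ?_⟩
  have := h2 (a⁻¹ * h)
  rw [mul_inv_cancel_left] at this
  rw [this, inv_mul_cancel_left]

theorem IsS.closure_inv (hK : IsS K) (Y : Set H) (hY : ∀ τ ∈ K, ∀ y ∈ Y, τ y ∈ Y) :
    ∀ τ ∈ K, ∀ h ∈ Subgroup.closure Y, τ h ∈ Subgroup.closure Y := by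
  intro τ hτ h hh
  induction hh using Subgroup.closure_induction generalizing τ with
  | mem x hx => exact Subgroup.subset_closure (hY τ hτ x hx)
  | one => rw [hK.one τ hτ]; exact one_mem _
  | mul x y _ _ ihx ihy =>
    obtain ⟨τ', h1, h2⟩ := hK.mul τ hτ x
    rw [h2]
    exact mul_mem (ihx τ hτ) (ihy τ' h1)
  | inv x _ ih =>
    obtain ⟨τ', h1, h2⟩ := hK.div hτ x⁻¹
    have := h2 1
    rw [hK.one τ hτ, mul_one, mul_one, inv_inv] at this
    have h3 := ih τ' h1
    rw [← this] at h3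
    simpa using h3

def Prim (K : Subgroup (Equiv.Perm H)) : Prop :=
  ∀ L : Subgroup H, (∀ τ ∈ K, ∀ h ∈ L, τ h ∈ L) → L = ⊥ ∨ L = ⊤

open MulAction in
theorem two_trans {G Ω : Type*} [Group G] [MulAction G Ω] (hprim : IsPreprimitive G Ω)
    (f : H →* G) (a : Ω) (hbij : Function.Bijective fun h : H => f h • a)
    [Nontrivial H] (htr : ∀ K : Subgroup (Equiv.Perm H), IsS K → Prim K → ∀ x y : H, x ≠ 1 → y ≠ 1 →
      ∃ τ ∈ K, τ x = y) : IsMultiplyPretransitive G Ω 2 := by
  let e : H ≃ Ω := Equiv.ofBijective _ hbij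
  have he : ∀ h, e h = f h • a := fun _ => rfl
  let φ : G →* Equiv.Perm H := (e.symm.permCongrHom : Equiv.Perm Ω →* Equiv.Perm H).comp
    (MulAction.toPermHom G Ω)
  have hφ : ∀ g h, e (φ g h) = g • e h := by
    intro g h
    simp [φ]
  let K : Subgroup (Equiv.Perm H) := (stabilizer G a).map φ
  have hK : IsS K := by
    constructor
    · rintro _ ⟨g, hg, rfl⟩
      apply e.injective
      rw [hφ, he, map_one, one_smul]
      exact hg
    · rintro _ ⟨g, hg, rfl⟩ b
      refine ⟨φ ((f (φ g b))⁻¹ * g * f b), ⟨_, ?_, rfl⟩, fun h => ?_⟩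
      · rw [SetLike.mem_coe, mem_stabilizer_iff, mul_smul, mul_smul, ← he, ← hφ, he,
          inv_smul_smul]
      · apply e.injective
        rw [hφ, he (φ g b * _), map_mul f, mul_smul, ← he, hφ, mul_smul, mul_smul, smul_inv_smul,
          he, he, map_mul, mul_smul]
  haveI : Nontrivial Ω := e.symm.nontrivial
  have hP : Prim K := by
    intro L hL
    have hdec : ∀ g : G, ∃ s ∈ stabilizer G a, g = f (e.symm (g • a)) * s := by
      intro g
      refine ⟨(f (e.symm (g • a)))⁻¹ * g, ?_, by simp⟩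
      rw [mem_stabilizer_iff, mul_smul, inv_smul_eq_iff, ← he, Equiv.apply_symm_apply]
    have hkey : ∀ s ∈ stabilizer G a, ∀ l l' : H, l ∈ L → l' ∈ L →
        e.symm (f l • s • f l' • a) ∈ L := by
      intro s hs l l' hl hl'
      have h1 := hL (φ s) ⟨s, hs, rfl⟩ l' hl'
      rw [← he, ← hφ, he, ← mul_smul, ← map_mul, ← he, Equiv.symm_apply_apply]
      exact L.mul_mem hl h1
    let M : Subgroup G :=
      { carrier := {g | e.symm (g • a) ∈ L}
        one_mem' := by
          have : e.symm a = 1 := by rw [Equiv.symm_apply_eq, he, map_one, one_smul]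
          simp only [Set.mem_ofPred_eq, one_smul, this]
          exact L.one_mem
        mul_mem' := by
          intro x y hx hy
          obtain ⟨s, hs, h1⟩ := hdec x
          have h2 : y • a = f (e.symm (y • a)) • a := by rw [← he, Equiv.apply_symm_apply]
          simp only [Set.mem_ofPred_eq] at hx hy ⊢
          rw [mul_smul, h2, h1, mul_smul]
          exact hkey s hs _ _ hx hy
        inv_mem' := by
          intro x hx
          obtain ⟨s, hs, h1⟩ := hdec x
          simp only [Set.mem_ofPred_eq] at hx ⊢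
          have := hkey s⁻¹ (inv_mem hs) 1 _ L.one_mem (L.inv_mem hx)
          rw [map_one, one_smul, map_inv, ← mul_smul, ← mul_inv_rev, ← h1] at this
          exact this }
    have hM : ∀ h : H, f h ∈ M ↔ h ∈ L := by
      intro h
      show e.symm (f h • a) ∈ L ↔ _
      rw [← he, Equiv.symm_apply_apply]
    have hle : stabilizer G a ≤ M := by
      intro s hs
      show e.symm (s • a) ∈ L
      rw [mem_stabilizer_iff.1 hs]
      have := M.one_mem
      change e.symm ((1 : G) • a) ∈ L at this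
      rwa [one_smul] at this
    have hco := IsPreprimitive.isCoatom_stabilizer_of_isPreprimitive G a
    rcases hle.eq_or_lt with h0 | h0
    · left
      rw [eq_bot_iff]
      intro h hh
      rw [← hM, ← h0, mem_stabilizer_iff] at hh
      apply e.injective
      rw [he, hh, he, map_one, one_smul]
    · right
      rw [eq_top_iff]
      intro h _
      rw [← hM, hco.2 M h0]
      trivial
  have hst : ∀ b c : Ω, b ≠ a → c ≠ a → ∃ g ∈ stabilizer G a, g • b = c := by
    intro b c hb hc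
    have h1 : ∀ b : Ω, b ≠ a → e.symm b ≠ 1 := by
      intro b hb h
      rw [Equiv.symm_apply_eq, he, map_one, one_smul] at h
      exact hb h
    obtain ⟨_, ⟨g, hg, rfl⟩, h2⟩ := htr K hK hP _ _ (h1 b hb) (h1 c hc)
    refine ⟨g, hg, ?_⟩
    have := congrArg e h2
    rwa [hφ, Equiv.apply_symm_apply, Equiv.apply_symm_apply] at this
  rw [is_two_pretransitive_iff]
  intro x y z w hxy hzw
  obtain ⟨g1, hg1⟩ := exists_smul_eq G x a
  obtain ⟨g2, hg2⟩ := exists_smul_eq G z a
  obtain ⟨g, hg, h3⟩ := hst (g1 • y) (g2 • w) (by rw [← hg1]; simpa using hxy.symm)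
    (by rw [← hg2]; simpa using hzw.symm)
  refine ⟨g2⁻¹ * g * g1, ?_, ?_⟩
  · rw [mul_smul, mul_smul, hg1, mem_stabilizer_iff.1 hg, ← hg2, inv_smul_smul]
  · rw [mul_smul, mul_smul, h3, inv_smul_smul]

end

open DihedralGroup

variable {m : ℕ} [NeZero m] {K : Subgroup (Equiv.Perm (DihedralGroup m))}

/-- The rotations. -/
def rot (m : ℕ) : Subgroup (DihedralGroup m) where
  carrier := {g | ∃ c, g = r c}
  one_mem' := ⟨0, rfl⟩
  mul_mem' := by rintro _ _ ⟨a, rfl⟩ ⟨b, rfl⟩; exact ⟨a + b, rfl⟩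
  inv_mem' := by rintro _ ⟨a, rfl⟩; exact ⟨-a, rfl⟩

theorem IsS.exists_sr (hK : IsS K) (hP : Prim K) {c : ZMod m} (hc : c ≠ 0) :
    ∃ τ ∈ K, ∃ d, τ (r c) = sr d := by
  by_contra hn
  push Not at hn
  have h1 : Subgroup.closure {g | ∃ τ ∈ K, τ (r c) = g} ≤ rot m := by
    rw [Subgroup.closure_le]
    rintro _ ⟨τ, hτ, rfl⟩
    rcases e : τ (r c) with d | d
    · exact ⟨d, rfl⟩
    · exact absurd e (hn τ hτ d)
  rcases hP _ (hK.closure_inv {g | ∃ τ ∈ K, τ (r c) = g} (by
    rintro σ hσ _ ⟨τ, hτ, rfl⟩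
    exact ⟨σ * τ, K.mul_mem hσ hτ, rfl⟩)) with e | e
  · have : r c ∈ Subgroup.closure {g | ∃ τ ∈ K, τ (r c) = g} :=
      Subgroup.subset_closure ⟨1, K.one_mem, rfl⟩
    rw [e, Subgroup.mem_bot, one_def] at this
    exact hc (r.inj this)
  · obtain ⟨d, hd⟩ := h1 (e ▸ Subgroup.mem_top (sr 0))
    cases hd

theorem IsS.exists_r (hK : IsS K) (hP : Prim K) (hm : m ≠ 1) (c : ZMod m) :
    ∃ τ ∈ K, ∃ d, τ (sr c) = r d := by
  by_contra hn
  push Not at hn
  have hs : ∀ τ ∈ K, ∃ d, τ (sr c) = sr d := fun τ hτ => by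
    rcases e : τ (sr c) with d | d
    · exact absurd e (hn τ hτ d)
    · exact ⟨d, rfl⟩
  have hfix : ∀ τ ∈ K, τ (sr c) = sr c := fun τ hτ => by
    obtain ⟨d, hd⟩ := hs τ hτ
    by_contra hne
    obtain ⟨σ, hσ, e, he⟩ := hK.exists_sr hP (c := d - c)
      (fun e => hne (by rw [hd, sub_eq_zero.1 e]))
    obtain ⟨σ', hσ', h1⟩ := hK.mul σ hσ (sr c)
    obtain ⟨a, ha⟩ := hs σ hσ
    obtain ⟨b, hb⟩ := hs (σ' * τ) (K.mul_mem hσ' hτ)
    have := h1 (sr d)
    rw [sr_mul_sr, he, ha, ← hd, ← Equiv.Perm.mul_apply, hb, sr_mul_sr] at this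
    cases this
  rcases hP _ (hK.closure_inv {sr c} (by rintro σ hσ _ rfl; exact hfix σ hσ)) with e | e
  · have : sr c ∈ Subgroup.closure {sr c} := Subgroup.subset_closure rfl
    rw [e, Subgroup.mem_bot, one_def] at this
    cases this
  · have := congrArg (fun L : Subgroup (DihedralGroup m) => Nat.card L) e
    simp only [← Subgroup.zpowers_eq_closure, Nat.card_zpowers, orderOf_sr, Subgroup.card_top,
      nat_card] at this
    omega

theorem IsS.sr (hK : IsS K) (hP : Prim K) (hm : m ≠ 1) :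
    SR {X : DihedralGroup m → ℤ | ∀ τ ∈ K, ∀ h, X (τ h) = X h} where
  one τ hτ h := by
    have : τ h = 1 ↔ h = 1 := by
      rw [← hK.one τ hτ, τ.apply_eq_iff_eq, hK.one τ hτ]
    simp only [dl, this]
  mul X hX Y hY τ hτ g := by
    simp only [cv]
    rw [← Equiv.sum_comp τ]
    refine Finset.sum_congr rfl fun h _ => ?_
    obtain ⟨τ', h1, h2⟩ := hK.div hτ h
    rw [hX τ hτ, h2, hY τ' h1]
  comp X hX Y hY φ τ hτ g := by simp only [hX τ hτ, hY τ hτ]
  symm X hX c := by
    by_cases hc : c = 0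
    · simp [hc]
    obtain ⟨τ, hτ, d, hd⟩ := hK.exists_sr hP hc
    obtain ⟨τ', h1, h2⟩ := hK.div hτ (r c)
    have := h2 1
    rw [hK.one τ hτ, mul_one, mul_one, hd, inv_sr, inv_r] at this
    rw [← hX τ' h1, ← this, ← hd, hX τ hτ]
  p1 X hX h c hc := by
    obtain ⟨τ, hτ, d, hd⟩ := hK.exists_sr hP hc
    rw [← hX τ hτ, hd, h]
  p2 X hX h c := by
    obtain ⟨τ, hτ, d, hd⟩ := hK.exists_r hP hm c
    rw [← hX τ hτ, hd, h]
  p3 X hX d hd h := by
    let L : Subgroup (DihedralGroup m) :=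
      { carrier := {g | ∀ k, X (g * k) = X k}
        one_mem' := fun k => by rw [one_mul]
        mul_mem' := fun {a b} ha hb k => by rw [mul_assoc, ha, hb]
        inv_mem' := fun {a} ha k => by rw [← ha, mul_inv_cancel_left] }
    rcases hP L (fun τ hτ g hg k => by
      obtain ⟨τ', h1, h2⟩ := hK.mul τ hτ g
      obtain ⟨k, rfl⟩ := τ'.surjective k
      rw [← h2, hX τ hτ, hg, hX τ' h1]) with e | e
    · have : r d ∈ L := h
      rw [e, Subgroup.mem_bot, one_def] at this
      exact absurd (r.inj this) hd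
    · intro a b
      have := (e ▸ Subgroup.mem_top (a * b⁻¹) : a * b⁻¹ ∈ L) b
      rwa [inv_mul_cancel_right] at this

theorem IsS.trans (hG : GenCase) (hK : IsS K) (hP : Prim K) (x y : DihedralGroup m) (hx : x ≠ 1)
    (hy : y ≠ 1) : ∃ τ ∈ K, τ x = y := by
  classical
  by_cases hm : m = 1
  · subst hm
    refine ⟨1, K.one_mem, ?_⟩
    revert x y
    decide
  have := hG m _ (hK.sr hP hm) (fun g => if ∃ τ ∈ K, τ x = g then 1 else 0) (fun σ hσ g => by
    refine if_congr ⟨?_, ?_⟩ rfl rfl <;> rintro ⟨τ, hτ, e⟩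
    · exact ⟨σ⁻¹ * τ, K.mul_mem (K.inv_mem hσ) hτ, by simp [e]⟩
    · exact ⟨σ * τ, K.mul_mem hσ hτ, by simp [e]⟩) x y hx hy
  by_contra hn
  simp only [if_neg hn] at this
  rw [if_pos ⟨1, K.one_mem, rfl⟩] at this
  exact one_ne_zero this

theorem final (hG : GenCase) {G Ω : Type*} [Group G] [Finite G] [MulAction G Ω]
    (hprim : MulAction.IsPreprimitive G Ω) (D : Subgroup G) (m : ℕ)
    (hD : Nonempty (↥D ≃* DihedralGroup m))
    (hDreg : MulAction.IsPretransitive ↥D Ω ∧ ∀ a : Ω, MulAction.stabilizer ↥D a = ⊥) :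
    MulAction.IsMultiplyPretransitive G Ω 2 := by
  obtain ⟨e⟩ := hD
  rcases isEmpty_or_nonempty Ω with h | ⟨⟨a⟩⟩
  · rw [MulAction.is_two_pretransitive_iff]
    intro x
    exact h.elim x
  haveI : NeZero m := ⟨by
    rintro rfl
    haveI := Finite.of_equiv _ e.toEquiv
    exact not_finite (DihedralGroup 0)⟩
  refine two_trans hprim (D.subtype.comp e.symm.toMonoidHom) a ⟨fun x y h => ?_, fun b => ?_⟩
    fun K hK hP => hK.trans hG hP
  · have : (e.symm y)⁻¹ * e.symm x ∈ MulAction.stabilizer D a := by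
      rw [MulAction.mem_stabilizer_iff, mul_smul, inv_smul_eq_iff]; exact h
    rw [hDreg.2, Subgroup.mem_bot, inv_mul_eq_one] at this
    exact (e.symm.injective this).symm
  · obtain ⟨g, hg⟩ := hDreg.1.exists_smul_eq a b
    exact ⟨e g, by simpa [Subgroup.smul_def] using hg⟩

end H2.Di
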