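import Cfsg.Agent.H8.TransferEval
import Cfsg.Agent.H98.Sylow
import Cfsg.Agent.H92.Syl
import Cfsg.Agent.H4.ClassMisc

/-! Non-real elements of order three with small centraliser: a transfer lemma. -/

set_option autoImplicit false

namespace H2.Fx3

open Subgroup
open scoped commutatorElement

universe u
variable {G : Type u} [Group G]

instance f3 : Fact (Nat.Prime 3) := ⟨Nat.prime_three⟩

/-- Every `3`-subgroup of the centraliser of `x` has order at most nine. -/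
def Sm (x : G) : Prop :=
  ∀ D : Subgroup G, IsPGroup 3 D → D ≤ centralizer {x} → Nat.card D ≤ 9

theorem mc {x d : G} : d ∈ centralizer ({x} : Set G) ↔ d * x = x * d := mem_centralizer_singleton_iff

theorem Sm.conj {x : G} (h : Sm x) (g : G) : Sm (g * x * g⁻¹) := by
  intro D hD hle
  rw [← H98.card_cj g⁻¹ D]
  refine h _ (H98.isPGroup_cj _ hD) fun y hy => ?_
  rw [H98.mem_cj, inv_inv] at hy
  have := mc.1 (hle hy)
  rw [mc]
  calc y * x = g⁻¹ * (g * y * g⁻¹ * (g * x * g⁻¹)) * g := by group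
    _ = x * y := by rw [this]; group

theorem Sm.inv {x : G} (h : Sm x) : Sm x⁻¹ := by
  intro D hD hle
  refine h D hD fun y hy => ?_
  have : Commute y x⁻¹ := mc.1 (hle hy)
  exact mc.2 (Commute.inv_right_iff.1 this)

theorem three_mul_le [Finite G] {A B : Subgroup G} (hB : IsPGroup 3 B) (h : A < B) :
    3 * Nat.card A ≤ Nat.card B := by
  obtain ⟨b, hb⟩ := IsPGroup.iff_card.1 hB
  obtain ⟨a, ha⟩ := IsPGroup.iff_card.1 (hB.to_le h.le)
  have : Nat.card A < Nat.card B := by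
    by_contra hc
    exact h.ne (eq_of_le_of_card_ge h.le (not_lt.1 hc))
  rw [ha, hb] at this ⊢
  have := (Nat.pow_lt_pow_iff_right (by norm_num)).1 this
  rw [← pow_succ']
  exact Nat.pow_le_pow_right (by norm_num) this

theorem cube_of {z : G} (hz : orderOf z = 3) : z ^ 3 = 1 := by rw [← hz, pow_orderOf_eq_one]

theorem zp3 {x : G} (hx : x ^ 3 = 1) (i : ℤ) : x ^ i = 1 ∨ x ^ i = x ∨ x ^ i = x⁻¹ := by
  have h3 : x ^ (3 : ℤ) = 1 := by exact_mod_cast hx
  rw [zpow_eq_zpow_emod i h3]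
  have : i % 3 = 0 ∨ i % 3 = 1 ∨ i % 3 = 2 := by omega
  rcases this with h | h | h <;> rw [h]
  · simp
  · simp
  · refine Or.inr (Or.inr ?_)
    rw [eq_inv_iff_mul_eq_one, ← zpow_add_one]; exact h3

theorem mem_zp {z w : G} (hz : z ^ 3 = 1) (hw : w ∈ zpowers z) : w = 1 ∨ w = z ∨ w = z⁻¹ := by
  obtain ⟨i, rfl⟩ := hw
  exact zp3 hz i

theorem ne_inv {z : G} (hz : orderOf z = 3) : z ≠ z⁻¹ := by
  intro h
  have : z ^ 2 = 1 := by rw [pow_two]; nth_rewrite 1 [h]; exact inv_mul_cancel z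
  have := orderOf_dvd_of_pow_eq_one this
  rw [hz] at this; omega

theorem ne_one {z : G} (hz : orderOf z = 3) : z ≠ 1 := by
  rintro rfl; simp at hz

theorem cm_of_sq {d x : G} (hd : Odd (orderOf d)) (h : Commute (d * d) x) : Commute d x := by
  obtain ⟨k, hk⟩ := hd
  have : d = (d * d) ^ (k + 1) := by
    rw [← pow_two, ← pow_mul, show 2 * (k + 1) = orderOf d + 1 by omega, pow_succ,
      pow_orderOf_eq_one, one_mul]
  rw [this]; exact h.pow_left _

theorem not_inv {d x : G} (hx : orderOf x = 3) (hd : Odd (orderOf d)) : d * x * d⁻¹ ≠ x⁻¹ := by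
  intro h
  have h2 : Commute (d * d) x := by
    have : d * d * x * (d * d)⁻¹ = x := by
      calc d * d * x * (d * d)⁻¹ = d * (d * x * d⁻¹) * d⁻¹ := by group
        _ = d * x⁻¹ * d⁻¹ := by rw [h]
        _ = (d * x * d⁻¹)⁻¹ := by group
        _ = x := by rw [h, inv_inv]
    exact mul_inv_eq_iff_eq_mul.1 this
  have h3 := cm_of_sq hd h2
  rw [h3.eq, mul_inv_cancel_right] at h
  exact ne_inv hx h

theorem comm_of_odd {d z : G} (hz : orderOf z = 3) (hd : Odd (orderOf d))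
    (h : d * z * d⁻¹ ∈ zpowers z) : d * z = z * d := by
  rcases mem_zp (cube_of hz) h with h | h | h
  · exact absurd (by simpa using h) (ne_one hz)
  · exact mul_inv_eq_iff_eq_mul.1 h
  · exact absurd h (not_inv hz hd)

theorem odd_of {D : Subgroup G} (hD : IsPGroup 3 D) {d : G} (hd : d ∈ D) : Odd (orderOf d) := by
  obtain ⟨k, hk⟩ := hD ⟨d, hd⟩
  have h1 : d ^ 3 ^ k = 1 := congrArg Subtype.val hk
  exact Odd.of_dvd_nat (Odd.pow (by decide)) (orderOf_dvd_of_pow_eq_one h1)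

theorem cm_zp {x z w : G} (h : x * z = z * x) (hw : w ∈ zpowers z) : x * w = w * x := by
  obtain ⟨i, rfl⟩ := hw
  exact (Commute.zpow_right (a := x) h i).eq

theorem tri [Finite G] {D : Subgroup G} (hD : IsPGroup 3 D) {x z : G} (hxD : x ∈ D) (hzD : z ∈ D)
    (hx : x ^ 3 = 1) (hz : orderOf z = 3) (hc : x * z = z * x) (hxz : x ∉ zpowers z)
    (h9 : Nat.card D ≤ 9) :
    Nat.card D = 9 ∧ ∀ u ∈ D, ∃ w ∈ zpowers z, u = w ∨ u = x * w ∨ u = x⁻¹ * w := by
  let W : Subgroup G :=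
    { carrier := {u | ∃ i : ℤ, ∃ w ∈ zpowers z, u = x ^ i * w}
      one_mem' := ⟨0, 1, one_mem _, by simp⟩
      mul_mem' := by
        rintro _ _ ⟨i, w, hw, rfl⟩ ⟨j, w', hw', rfl⟩
        refine ⟨i + j, w * w', mul_mem hw hw', ?_⟩
        have : Commute w (x ^ j) := (Commute.symm (cm_zp hc hw)).zpow_right j
        rw [zpow_add, mul_assoc, ← mul_assoc w, this.eq]; group
      inv_mem' := by
        rintro _ ⟨i, w, hw, rfl⟩
        refine ⟨-i, w⁻¹, inv_mem hw, ?_⟩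
        have : Commute w⁻¹ (x ^ (-i)) := ((Commute.symm (cm_zp hc hw)).zpow_right _).inv_left
        rw [mul_inv_rev, ← zpow_neg, this.eq] }
  have hWD : W ≤ D := by
    rintro _ ⟨i, w, hw, rfl⟩
    exact mul_mem (zpow_mem hxD i) ((zpowers_le.2 hzD) hw)
  have hlt : zpowers z < W := by
    refine lt_of_le_of_ne (fun w hw => ⟨0, w, hw, by simp⟩) fun h => hxz ?_
    rw [h]; exact ⟨1, 1, one_mem _, by simp⟩
  have h1 := three_mul_le (hD.to_le hWD) hlt
  rw [Nat.card_zpowers, hz] at h1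
  have h2 : W = D := eq_of_le_of_card_ge hWD (by omega)
  refine ⟨by rw [← h2] at h9 ⊢; omega, fun u hu => ?_⟩
  rw [← h2] at hu
  obtain ⟨i, w, hw, rfl⟩ := hu
  refine ⟨w, hw, ?_⟩
  rcases zp3 hx i with h | h | h <;> rw [h] <;> simp

theorem shift [Finite G] {D : Subgroup G} (hD : IsPGroup 3 D) {x z : G} (hxD : x ∈ D) (hzD : z ∈ D)
    (hx : x ^ 3 = 1) (hz : orderOf z = 3) (hc : x * z = z * x) (hxz : x ∉ zpowers z)
    (h9 : Nat.card ↥(D ⊓ centralizer {x}) ≤ 9) (hnc : ¬ D ≤ centralizer {x})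
    (hn : ∀ d ∈ D, d * z * d⁻¹ ∈ D ⊓ centralizer {x} → d * z * d⁻¹ ∈ zpowers z) :
    ∃ y ∈ D, y * z = z * y ∧ y * x * y⁻¹ = x * z := by
  have hlt : D ⊓ centralizer {x} < D := lt_of_le_of_ne inf_le_left fun h => hnc (h ▸ inf_le_right)
  obtain ⟨y, hy, hyn, hyV⟩ := H92.exists_mem_normalizer_not_mem hD hlt
  have hxV : x ∈ D ⊓ centralizer {x} := ⟨hxD, mc.2 rfl⟩
  have hzV : z ∈ D ⊓ centralizer {x} := ⟨hzD, mc.2 hc.symm⟩
  have hyz : y * z = z * y :=
    comm_of_odd hz (odd_of hD hy) (hn y hy ((mem_normalizer_iff.1 hyn z).1 hzV))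
  obtain ⟨-, ht⟩ := tri (hD.to_le inf_le_left) hxV hzV hx hz hc hxz h9
  obtain ⟨w, hw, h⟩ := ht _ ((mem_normalizer_iff.1 hyn x).1 hxV)
  have hyw : y * w = w * y := cm_zp hyz hw
  have hxw : x * w = w * x := cm_zp hc hw
  have hnx : y * x ≠ x * y := fun h => hyV ⟨hy, mc.2 h⟩
  rcases h with h | h | h
  · exfalso; apply hxz
    have : x = w := by
      calc x = y⁻¹ * (y * x * y⁻¹) * y := by group
        _ = w := by rw [h, mul_assoc, ← hyw]; group
    rwa [this]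
  · rcases mem_zp (cube_of hz) hw with rfl | rfl | rfl
    · exact absurd (by simpa [mul_inv_eq_iff_eq_mul] using h) hnx
    · exact ⟨y, hy, hyz, h⟩
    · refine ⟨y⁻¹, inv_mem hy, (Commute.inv_left (a := y) hyz).eq, ?_⟩
      have e : x = y * x * y⁻¹ * z := by rw [h]; group
      calc y⁻¹ * x * y⁻¹⁻¹ = y⁻¹ * (y * x * y⁻¹ * z) * y := by rw [← e, inv_inv]
        _ = x * (y⁻¹ * (z * y)) := by group
        _ = x * z := by rw [← hyz]; group
  · exfalso; apply hnx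
    refine (cm_of_sq (odd_of hD hy) ?_).eq
    have : y * y * x * (y * y)⁻¹ = x := by
      calc y * y * x * (y * y)⁻¹ = y * (y * x * y⁻¹) * y⁻¹ := by group
        _ = y * (x⁻¹ * w) * y⁻¹ := by rw [h]
        _ = (y * x * y⁻¹)⁻¹ * (y * w * y⁻¹) := by group
        _ = w⁻¹ * (x * w) := by rw [h, hyw]; group
        _ = x := by rw [hxw]; group
    exact mul_inv_eq_iff_eq_mul.1 this

theorem tr [Finite G] (hG : commutator G = ⊤) {P M : Subgroup G} (hP : H98.IsSyl 3 P ⊤)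
    (hM : ⁅P, P⁆ ≤ M) {x : G} (hxP : x ∈ P) (hx : x ^ 3 = 1) (hxM : x ∉ M)
    (h : ∀ g : G, g * x * g⁻¹ ∈ P → x⁻¹ * (g * x * g⁻¹) ∈ M) : False := by
  have hle : commutator P ≤ M.subgroupOf P := by
    rw [commutator_def, commutator_le]
    intro a _ b _
    exact hM (commutator_mem_commutator a.2 b.2)
  have : (M.subgroupOf P).Normal := Normal.of_commutator_le _ hle
  let : CommGroup (P ⧸ M.subgroupOf P) :=
    { (inferInstance : Group (P ⧸ M.subgroupOf P)) with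
      mul_comm := ((Normal.quotient_commutative_iff_commutator_le).2 hle).is_comm.comm }
  let φ : P →* P ⧸ M.subgroupOf P := QuotientGroup.mk' _
  have h3 : φ ⟨x, hxP⟩ ^ 3 = 1 := by
    rw [← map_pow]; rw [show (⟨x, hxP⟩ : P) ^ 3 = 1 from Subtype.ext hx, map_one]
  have k1 : ∀ (a : G) (e : a⁻¹ * x * a ∈ P), φ ⟨_, e⟩ = φ ⟨x, hxP⟩ := fun a e => by
    refine (QuotientGroup.eq.2 ?_).symm
    have := h a⁻¹ (by rwa [inv_inv])
    rwa [inv_inv] at this
  have key := H8.transfer_eq_pow_of_forall φ x (φ ⟨x, hxP⟩) (by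
    intro k a e
    have hk : k % 3 = 0 ∨ k % 3 = 1 ∨ k % 3 = 2 := by omega
    have e1 : x ^ k = x ^ (k % 3) := pow_eq_pow_mod k hx
    rw [pow_eq_pow_mod k h3]
    rcases hk with hk | hk | hk
    · rw [hk, pow_zero] at e1 ⊢
      have : (⟨a⁻¹ * x ^ k * a, e⟩ : P) = 1 := Subtype.ext (by simp [e1])
      rw [this, map_one]
    · rw [hk, pow_one] at e1 ⊢
      have e' : a⁻¹ * x * a ∈ P := e1 ▸ e
      have : (⟨a⁻¹ * x ^ k * a, e⟩ : P) = ⟨_, e'⟩ := Subtype.ext (by simp [e1])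
      rw [this, k1]
    · rw [hk] at e1 ⊢
      have e2 : a⁻¹ * x * a = (a⁻¹ * x ^ k * a) * (a⁻¹ * x ^ k * a) := by
        rw [e1]
        calc a⁻¹ * x * a = a⁻¹ * (x * x ^ 3) * a := by rw [hx, mul_one]
          _ = _ := by group
      have e' : a⁻¹ * x * a ∈ P := e2 ▸ mul_mem e e
      have : (⟨a⁻¹ * x ^ k * a, e⟩ : P) = ⟨_, e'⟩ ^ 2 := Subtype.ext (by
        show a⁻¹ * x ^ k * a = (a⁻¹ * x * a) ^ 2
        rw [e1, pow_two, pow_two]; group)
      rw [this, map_pow, k1])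
  have h1 : φ.transfer x = 1 := by
    have := Abelianization.commutator_subset_ker φ.transfer
    rw [hG] at this
    exact this (mem_top x)
  rw [h1] at key
  have hi : ¬ 3 ∣ P.index := by
    have := hP.not_dvd_relIndex
    rwa [relIndex_top_right] at this
  have h4 : orderOf (φ ⟨x, hxP⟩) ∣ Nat.gcd 3 P.index :=
    Nat.dvd_gcd (orderOf_dvd_of_pow_eq_one h3) (orderOf_dvd_of_pow_eq_one key.symm)
  rw [(Nat.Prime.coprime_iff_not_dvd Nat.prime_three).2 hi, Nat.dvd_one, orderOf_eq_one_iff] at h4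
  exact hxM ((QuotientGroup.eq_one_iff (N := M.subgroupOf P) ⟨x, hxP⟩).1 h4)

end H2.Fx3
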