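import Cfsg.Agent.H2.Fx3a
import Cfsg.Agent.H95.AltSimple

/-! Non-real elements of order three with small centraliser. -/

set_option autoImplicit false

namespace H2.Fx3

open Subgroup
open scoped commutatorElement

universe u

theorem lemT {A : Type*} [AddCommGroup A] (h3 : ∀ u : A, u + u + u = 0) (X : Set A)
    (hinv : ∀ u ∈ X, -u ∉ X)
    (htr : ∀ u ∈ X, ∀ v ∈ X, ∃ τ : A →+ A, Function.Injective τ ∧ τ u = v ∧ ∀ w ∈ X, τ w ∈ X)
    {a b : A} (ha : a ∈ X) (hb : b ∈ X) (hab : a + b ∈ X)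
    (gen : ∀ u : A, ∃ w, (w = 0 ∨ w = b ∨ w = -b) ∧ (u = w ∨ u = a + w ∨ u = -a + w)) : False := by
  have h0 : (0 : A) ∉ X := fun h => hinv 0 h (by rwa [neg_zero])
  have cases : ∀ u ∈ X, u = a ∨ u = b ∨ u = a + b ∨ u = a + -b ∨ u = -a + b := by
    intro u hu
    obtain ⟨w, hw, h⟩ := gen u
    rcases hw with rfl | rfl | rfl <;> rcases h with rfl | rfl | rfl
    · exact absurd hu h0
    · simp
    · exact absurd (by simpa using hu) (hinv a ha)
    · simp
    · simp
    · simp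
    · exact absurd hu (hinv b hb)
    · simp
    · exact absurd (by rw [neg_add]; exact hu) (hinv _ hab)
  have hne : a ≠ b := by
    rintro rfl
    refine hinv a ha ?_
    have : -a = a + a := by linear_combination (norm := abel) -(h3 a)
    rwa [this]
  obtain ⟨τ, hτ, ta, tX⟩ := htr a ha b hb
  have tb : τ b = a := by
    rcases cases _ (tX b hb) with h | h | h | h | h
    · exact h
    · exact absurd (hτ (ta.trans h.symm)) hne
    · exfalso
      have e1 : τ (a + b) = a + -b := by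
        rw [map_add, ta, h]; linear_combination (norm := abel) (h3 b)
      have e2 : τ (a + -b) = -a := by
        rw [map_add, map_neg, ta, h]; abel
      exact hinv a ha (e2 ▸ tX _ (e1 ▸ tX _ hab))
    · exfalso
      have e2 : τ (a + -b) = -(a + b) := by
        rw [map_add, map_neg, ta, h]; linear_combination (norm := abel) (h3 b)
      exact hinv _ hab (e2 ▸ tX _ (h ▸ tX b hb))
    · exfalso
      have e2 : τ (a + b) = -(a + b) := by
        rw [map_add, ta, h]; linear_combination (norm := abel) (h3 b)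
      exact hinv _ hab (e2 ▸ tX _ hab)
  have n1 : a + -b ∉ X := fun h => hinv _ h (by
    have : τ (a + -b) = -(a + -b) := by rw [map_add, map_neg, ta, tb]; abel
    exact this ▸ tX _ h)
  have n2 : -a + b ∉ X := fun h => hinv _ h (by
    have : τ (-a + b) = -(-a + b) := by rw [map_add, map_neg, ta, tb]; abel
    exact this ▸ tX _ h)
  obtain ⟨σ, hσ, sa, sX⟩ := htr a ha _ hab
  rcases cases _ (sX b hb) with h | h | h | h | h
  · have : σ (a + b) = -a + b := by
      rw [map_add, sa, h]; linear_combination (norm := abel) (h3 a)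
    exact n2 (this ▸ sX _ hab)
  · have : σ (a + b) = a + -b := by
      rw [map_add, sa, h]; linear_combination (norm := abel) (h3 b)
    exact n1 (this ▸ sX _ hab)
  · exact hne (hσ (sa.trans h.symm))
  · exact n1 (h ▸ sX b hb)
  · exact n2 (h ▸ sX b hb)

variable {G : Type u} [Group G]

theorem lemT' [Finite G] {P : Subgroup G} (hP : H98.IsSyl 3 P ⊤)
    (hab : ∀ a ∈ P, ∀ b ∈ P, a * b = b * a) (h3 : ∀ a ∈ P, a ^ 3 = 1) (h9 : Nat.card P ≤ 9)
    {x : G} (hx : orderOf x = 3) (hr : ¬ IsConj x x⁻¹) {a b : G} (haP : a ∈ P) (hbP : b ∈ P)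
    (ha : IsConj x a) (hb : IsConj x b) (hc : IsConj x (a * b)) : False := by
  have hcm : IsMulCommutative P := ⟨⟨fun a b => Subtype.ext (hab _ a.2 _ b.2)⟩⟩
  let : CommGroup P := { (inferInstance : Group P) with mul_comm := hcm.is_comm.comm }
  have hni : ∀ u : G, IsConj x u → ¬ IsConj x u⁻¹ := fun u h1 h2 => by
    obtain ⟨c, rfl⟩ := isConj_iff.1 h1
    refine hr (h2.trans (isConj_iff.2 ⟨c⁻¹, by group⟩))
  have ho : ∀ u : G, IsConj x u → orderOf u = 3 := fun u h1 => by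
    obtain ⟨c, rfl⟩ := isConj_iff.1 h1
    rw [← hx]; exact (MulAut.conj c).orderOf_eq x
  refine lemT (A := Additive P) (fun u => ?_) {u | IsConj x (Additive.toMul u : P)}
    (fun u hu => hni _ hu) (fun u hu v hv => ?_) (a := Additive.ofMul ⟨a, haP⟩)
    (b := Additive.ofMul ⟨b, hbP⟩) ha hb hc (fun u => ?_)
  · apply Additive.toMul.injective
    apply Subtype.ext
    have := h3 _ (Additive.toMul u).2
    rw [pow_three'] at this
    exact this
  · obtain ⟨c, hc⟩ := isConj_iff.1 (IsConj.trans (IsConj.symm hu) hv)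
    obtain ⟨n, hn, e⟩ := hP.toSylowTop.conj_eq_normalizer_conj_of_mem (_hP := hcm)
      ((Additive.toMul u : P) : G) c⁻¹ (Additive.toMul u).2
      (by rw [inv_inv, hc]; exact (Additive.toMul v).2)
    have hn' : n⁻¹ ∈ normalizer (P : Set G) := inv_mem hn
    let t : P ≃* P := P.normalizerMonoidHom ⟨n⁻¹, hn'⟩
    have ht : ∀ w : P, ((t w : P) : G) = n⁻¹ * w * n⁻¹⁻¹ := fun w => rfl
    refine ⟨MonoidHom.toAdditive t.toMonoidHom, fun p q h => ?_, ?_, fun w hw => ?_⟩
    · exact Additive.toMul.injective (t.injective h)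
    · apply Additive.toMul.injective
      apply Subtype.ext
      show ((t _ : P) : G) = _
      rw [ht, inv_inv, ← e, inv_inv, hc]
    · show IsConj x ((t _ : P) : G)
      rw [ht]
      exact IsConj.trans hw (isConj_iff.2 ⟨n⁻¹, rfl⟩)
  · have hnz : a ∉ zpowers b := fun h => by
      rcases mem_zp (h3 b hbP) h with h | h | h
      · exact ne_one (ho a ha) h
      · refine hni a ha ?_
        have : a⁻¹ = a * b := by
          rw [← h, inv_eq_iff_mul_eq_one, ← mul_assoc, ← pow_three']; exact h3 a haP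
        rwa [this]
      · exact hni b hb (h ▸ ha)
    obtain ⟨w, hw, h⟩ := (tri hP.isPGroup haP hbP (h3 a haP) (ho b hb) (hab a haP b hbP) hnz h9).2
      _ (Additive.toMul u).2
    refine ⟨Additive.ofMul ⟨w, (zpowers_le.2 hbP) hw⟩, ?_, ?_⟩
    · rcases mem_zp (h3 b hbP) hw with h | h | h
      · exact Or.inl (Additive.toMul.injective (Subtype.ext h))
      · exact Or.inr (Or.inl (Additive.toMul.injective (Subtype.ext h)))
      · exact Or.inr (Or.inr (Additive.toMul.injective (Subtype.ext h)))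
    · rcases h with h | h | h
      · exact Or.inl (Additive.toMul.injective (Subtype.ext h))
      · exact Or.inr (Or.inl (Additive.toMul.injective (Subtype.ext h)))
      · exact Or.inr (Or.inr (Additive.toMul.injective (Subtype.ext h)))

theorem exp3 [Finite G] {P : Subgroup G} (hP : IsPGroup 3 P) (h9 : Nat.card P ≤ 9)
    (hc : ¬ IsCyclic P) : Nat.card P = 9 ∧ ∀ a ∈ P, a ^ 3 = 1 := by
  obtain ⟨k, hk⟩ := IsPGroup.iff_card.1 hP
  have hk2 : k ≤ 2 := by
    rw [hk] at h9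
    exact (Nat.pow_le_pow_iff_right (by norm_num)).1 (show 3 ^ k ≤ 3 ^ 2 from h9)
  have h99 : Nat.card P = 9 := by
    interval_cases k
    · exact absurd (isCyclic_of_card_dvd_prime (p := 3) (by rw [hk]; norm_num)) hc
    · exact absurd (isCyclic_of_card_dvd_prime (p := 3) (by rw [hk]; norm_num)) hc
    · exact hk
  refine ⟨h99, fun a ha => ?_⟩
  have h1 : orderOf (⟨a, ha⟩ : P) ∣ 3 ^ 2 := by
    have := orderOf_dvd_natCard (⟨a, ha⟩ : P)
    rwa [h99] at this
  obtain ⟨i, hi, e⟩ := (Nat.dvd_prime_pow Nat.prime_three).1 h1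
  have : (⟨a, ha⟩ : P) ^ 3 = 1 := by
    apply orderOf_dvd_iff_pow_eq_one.1
    interval_cases i
    · rw [e]; norm_num
    · rw [e]; norm_num
    · exact absurd (isCyclic_of_orderOf_eq_card _ (e.trans h99.symm)) hc
  exact congrArg Subtype.val this

theorem base [Finite G] {P : Subgroup G} (hP : H98.IsSyl 3 P ⊤)
    (hab : ∀ a ∈ P, ∀ b ∈ P, a * b = b * a) {x : G} (hxP : x ∈ P) (hx : orderOf x = 3)
    (hr : ¬ IsConj x x⁻¹) (hs : Sm x) (hc : ¬ IsCyclic P) :
    ∃ M : Subgroup G, ⁅P, P⁆ ≤ M ∧ x ∉ M ∧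
      ∀ g : G, g * x * g⁻¹ ∈ P → x⁻¹ * (g * x * g⁻¹) ∈ M := by
  have h9 : Nat.card P ≤ 9 := hs P hP.isPGroup fun a ha => mc.2 (hab a ha x hxP)
  obtain ⟨-, h3⟩ := exp3 hP.isPGroup h9 hc
  have hPP : ⁅P, P⁆ = ⊥ := by
    rw [eq_bot_iff, commutator_le]
    intro a ha b hb
    rw [mem_bot, commutatorElement_eq_one_iff_mul_comm]; exact hab a ha b hb
  have hni : ∀ u : G, IsConj x u → ¬ IsConj x u⁻¹ := fun u h1 h2 => by
    obtain ⟨c, rfl⟩ := isConj_iff.1 h1
    refine hr (h2.trans (isConj_iff.2 ⟨c⁻¹, by group⟩))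
  have ho : ∀ u : G, IsConj x u → orderOf u = 3 := fun u h1 => by
    obtain ⟨c, rfl⟩ := isConj_iff.1 h1
    rw [← hx]; exact (MulAut.conj c).orderOf_eq x
  by_cases hy : ∃ y ∈ P, IsConj x y ∧ y ≠ x
  · obtain ⟨y, hyP, hxy, hne⟩ := hy
    have hnz : x ∉ zpowers y := fun h => by
      rcases mem_zp (h3 y hyP) h with h | h | h
      · exact ne_one hx h
      · exact hne h.symm
      · exact hni y hxy (h ▸ IsConj.refl x)
    have cm := hab x hxP y hyP
    have hxx : x⁻¹ * x⁻¹ = x := by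
      calc x⁻¹ * x⁻¹ = x⁻¹ * x⁻¹ * x ^ 3 := by rw [h3 x hxP, mul_one]
        _ = x := by group
    refine ⟨zpowers (x⁻¹ * y), by rw [hPP]; exact bot_le, fun h => ?_, fun g hg => ?_⟩
    · rcases mem_zp (h3 _ (mul_mem (inv_mem hxP) hyP)) h with h | h | h
      · exact ne_one hx h
      · refine hni x (IsConj.refl x) ?_
        have : y = x⁻¹ := by
          calc y = x * (x⁻¹ * y) := by group
            _ = x * (x⁻¹ * x⁻¹) := by rw [← h, hxx]
            _ = x⁻¹ := by group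
        rwa [← this]
      · refine ne_one (ho y hxy) ?_
        have h' : x * (x⁻¹ * y) = 1 := by
          nth_rewrite 1 [h]; exact inv_mul_cancel _
        rwa [mul_inv_cancel_left] at h'
    · have hv : IsConj x (g * x * g⁻¹) := isConj_iff.2 ⟨g, rfl⟩
      obtain ⟨w, hw, h⟩ := (tri hP.isPGroup hxP hyP (h3 x hxP) (ho y hxy) cm hnz h9).2 _ hg
      generalize g * x * g⁻¹ = v at *
      rcases mem_zp (h3 y hyP) hw with rfl | rfl | rfl <;> rcases h with rfl | rfl | rfl
      · exact absurd rfl (ne_one (ho _ hv))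
      · simp
      · exact absurd (by simpa using hv) hr
      · exact mem_zpowers _
      · exact (lemT' hP hab h3 h9 hx hr hxP hyP (IsConj.refl x) hxy hv).elim
      · exact (lemT' hP hab h3 h9 hx hr hxP hg (IsConj.refl x) hv (by simpa using hxy)).elim
      · exact absurd hv (hni _ hxy)
      · exact (lemT' hP hab h3 h9 hx hr hg hyP hv hxy (by rw [inv_mul_cancel_right])).elim
      · have : x⁻¹ * (x⁻¹ * y⁻¹) = (x⁻¹ * y)⁻¹ := by
          rw [← mul_assoc, hxx, mul_inv_rev, inv_inv]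
          exact (Commute.inv_right (a := x) cm).eq
        rw [this]; exact inv_mem (mem_zpowers _)
  · refine ⟨⊥, hPP.le, fun h => ne_one hx h, fun g hg => ?_⟩
    have : g * x * g⁻¹ = x := by
      by_contra hne
      exact hy ⟨_, hg, isConj_iff.2 ⟨g, rfl⟩, hne⟩
    rw [this]; simp

/-- The conjugates of `x` in `P` are conjugate in the normaliser of the centre. -/
theorem ctrl [Finite G] {P : Subgroup G} (hP : IsPGroup 3 P) {x z : G} (hxP : x ∈ P)
    (hx : orderOf x = 3) (hs : Sm x) (hzP : z ∈ P) (hz : orderOf z = 3)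
    (hcz : ∀ a ∈ P, a * z = z * a) (h9 : 9 < Nat.card P) :
    (∀ g : G, g * x * g⁻¹ ∈ P → g * x * g⁻¹ ∉ zpowers z ∧
      ∀ w ∈ zpowers z, IsConj (g * x * g⁻¹) (g * x * g⁻¹ * w)) ∧
    ∀ g : G, g * x * g⁻¹ ∈ P → ∃ n ∈ normalizer (zpowers z : Set G), n * x * n⁻¹ = g * x * g⁻¹ := by
  have nc : ∀ v : G, Sm v → ¬ P ≤ centralizer {v} := fun v hv h => by
    have := hv P hP h
    omega
  have nz : ∀ v : G, Sm v → v ∉ zpowers z := fun v hv h =>
    nc v hv fun a ha => mc.2 (cm_zp (hcz a ha) h)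
  have o3 : ∀ g : G, orderOf (g * x * g⁻¹) = 3 := fun g => by
    rw [← hx]; exact (MulAut.conj g).orderOf_eq x
  have A : ∀ g : G, g * x * g⁻¹ ∈ P → g * x * g⁻¹ ∉ zpowers z ∧
      ∀ w ∈ zpowers z, IsConj (g * x * g⁻¹) (g * x * g⁻¹ * w) := by
    intro g hg
    have hv := hs.conj g
    have hv3 := o3 g
    generalize g * x * g⁻¹ = v at *
    refine ⟨nz v hv, fun w hw => ?_⟩
    obtain ⟨y, -, hyz, hy⟩ := shift hP hg hzP (cube_of hv3) hz (hcz v hg) (nz v hv)
      (hv _ (hP.to_le inf_le_left) inf_le_right) (nc v hv)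
      (fun d hd _ => by rw [hcz d hd, mul_inv_cancel_right]; exact mem_zpowers z)
    rcases mem_zp (cube_of hz) hw with rfl | rfl | rfl
    · rw [mul_one]
    · exact isConj_iff.2 ⟨y, hy⟩
    · refine isConj_iff.2 ⟨y⁻¹, ?_⟩
      calc y⁻¹ * v * y⁻¹⁻¹ = y⁻¹ * (v * z) * y * (y⁻¹ * z⁻¹ * y) := by group
        _ = v * (y⁻¹ * (z⁻¹ * y)) := by rw [← hy]; group
        _ = v * z⁻¹ := by rw [← (Commute.inv_right (a := y) hyz).eq]; group
  refine ⟨A, fun g hg => ?_⟩
  have hv := hs.conj g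
  obtain ⟨h9v, ht⟩ := tri (D := P ⊓ centralizer {g * x * g⁻¹}) (hP.to_le inf_le_left)
    ⟨hg, mc.2 rfl⟩ ⟨hzP, mc.2 (hcz _ hg).symm⟩ (cube_of (o3 g)) hz (hcz _ hg) (nz _ hv)
    (hv _ (hP.to_le inf_le_left) inf_le_right)
  obtain ⟨T, hT⟩ := H98.exists_isSyl 3 (centralizer ({g * x * g⁻¹} : Set G))
  have hS := hT.of_card_ge (Q := P ⊓ centralizer {g * x * g⁻¹}) (hP.to_le inf_le_left) inf_le_right
    (by rw [h9v]; exact hv T hT.isPGroup hT.le)
  have hz3 : IsPGroup 3 (zpowers z) := hP.to_le (zpowers_le.2 hzP)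
  obtain ⟨c, hc, hle⟩ := hS.exists_cj_le (Q := H98.cj g (zpowers z)) (H98.isPGroup_cj g hz3) (by
    rintro _ ⟨w, hw, rfl⟩
    have := cm_zp (hcz x hxP) hw
    rw [mc]
    show g * w * g⁻¹ * _ = _ * (g * w * g⁻¹)
    calc g * w * g⁻¹ * (g * x * g⁻¹) = g * (w * x) * g⁻¹ := by group
      _ = _ := by rw [← this]; group)
  rw [H98.cj_cj] at hle
  have e : c * g * x * (c * g)⁻¹ = g * x * g⁻¹ := by
    calc c * g * x * (c * g)⁻¹ = c * (g * x * g⁻¹) * c⁻¹ := by group
      _ = _ := by rw [mc.1 hc, mul_inv_cancel_right]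
  refine ⟨c * g, H98.mem_normalizer_of_cj_le ?_, e⟩
  have hm : c * g * z * (c * g)⁻¹ ∈ zpowers z := by
    obtain ⟨w, hw, h⟩ := ht _ (hle (H98.conj_mem_cj (mem_zpowers z)))
    have nsz : ¬ Sm (c * g * z * (c * g)⁻¹) := fun h => by
      have := h.conj (c * g)⁻¹
      rw [show (c * g)⁻¹ * (c * g * z * (c * g)⁻¹) * (c * g)⁻¹⁻¹ = z by group] at this
      exact nz z this (mem_zpowers z)
    rcases h with h | h | h
    · rwa [h]
    · exfalso; apply nsz
      obtain ⟨d, hd⟩ := isConj_iff.1 ((A g hg).2 w hw)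
      rw [h, ← hd]; exact hv.conj d
    · exfalso; apply nsz
      obtain ⟨d, hd⟩ := isConj_iff.1 ((A g hg).2 w⁻¹ (inv_mem hw))
      have : (g * x * g⁻¹)⁻¹ * w = (g * x * g⁻¹ * w⁻¹)⁻¹ := by
        rw [mul_inv_rev (g * x * g⁻¹), inv_inv]
        exact (Commute.inv_left (a := g * x * g⁻¹) (cm_zp (hcz _ hg) hw)).eq
      rw [h, this, ← hd]; exact (hv.conj d).inv
  rintro _ ⟨_, ⟨i, rfl⟩, rfl⟩
  show c * g * z ^ i * (c * g)⁻¹ ∈ _
  rw [← conj_zpow]; exact zpow_mem hm i

theorem nr : ∀ (n : ℕ) (G : Type u) [Group G] [Finite G], Nat.card G = n →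
    ∀ (P : Subgroup G) (x : G), H98.IsSyl 3 P ⊤ → x ∈ P → orderOf x = 3 → ¬ IsConj x x⁻¹ →
    Sm x → ¬ IsCyclic P → ∃ M : Subgroup G, ⁅P, P⁆ ≤ M ∧ x ∉ M ∧
      ∀ g : G, g * x * g⁻¹ ∈ P → x⁻¹ * (g * x * g⁻¹) ∈ M := by
  intro n
  induction n using Nat.strong_induction_on with
  | _ n ih =>
  intro G _ _ hn P x hP hxP hx hr hs hc
  by_cases hab : ∀ a ∈ P, ∀ b ∈ P, a * b = b * a
  · exact base hP hab hxP hx hr hs hc
  have h9 : 9 < Nat.card P := by
    by_contra h
    have := IsPGroup.isMulCommutative_of_card_eq_prime_sq (p := 3)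
      (exp3 hP.isPGroup (not_lt.1 h) hc).1
    exact hab fun a ha b hb => congrArg Subtype.val (this.is_comm.comm (⟨a, ha⟩ : P) ⟨b, hb⟩)
  obtain ⟨z, hzP, hz, hcz⟩ := H95.exists_central_of_normal hP.isPGroup le_rfl
    (fun s hs t ht => mul_mem (mul_mem hs ht) (inv_mem hs))
    (fun h => by rw [h, card_bot] at h9; omega)
  obtain ⟨A, B⟩ := ctrl hP.isPGroup hxP hx hs hzP hz hcz h9
  have A1 := A 1 (by simpa using hxP)
  simp only [one_mul, inv_one, mul_one] at A1
  set N := normalizer (zpowers z : Set G) with hN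
  have hPN : P ≤ N := fun a ha => H98.mem_normalizer_of_cj_le (by
    rintro _ ⟨w, hw, rfl⟩
    show a * w * a⁻¹ ∈ _
    rwa [cm_zp (hcz a ha) hw, mul_inv_cancel_right])
  let Z : Subgroup N := (zpowers z).subgroupOf N
  have : Z.Normal := normal_subgroupOf_of_le_normalizer le_rfl
  let π : N →* N ⧸ Z := QuotientGroup.mk' Z
  have hπ : Function.Surjective π := QuotientGroup.mk'_surjective Z
  have hk : ∀ a : N, π a = 1 ↔ (a : G) ∈ zpowers z := fun a => QuotientGroup.eq_one_iff a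
  have hZc : Nat.card Z = 3 := by
    rw [Nat.card_congr (subgroupOfEquivOfLe le_normalizer).toEquiv, Nat.card_zpowers, hz]
  have hlt : Nat.card (N ⧸ Z) < n := by
    have h1 := Z.card_eq_card_quotient_mul_card_subgroup
    have h2 : Nat.card N ≤ Nat.card G := card_le_card_group N
    have h3 : 0 < Nat.card (N ⧸ Z) := Nat.card_pos
    rw [hZc] at h1; omega
  have hP' : H98.IsSyl 3 ((P.subgroupOf N).map π) ⊤ := by
    have := ((hP.of_le hPN le_top).subgroupOf_top).map π
    rwa [map_top_of_surjective π hπ] at this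
  let x' : N := ⟨x, hPN hxP⟩
  obtain ⟨M, hM1, hM2, hM3⟩ := ih _ hlt (N ⧸ Z) rfl _ (π x') hP' ⟨x', hxP, rfl⟩
    (orderOf_eq_prime (by
      rw [← map_pow, show x' ^ 3 = 1 from Subtype.ext (cube_of hx), map_one])
      (fun h => A1.1 ((hk _).1 h)))
    (fun h => by
      obtain ⟨c, hc⟩ := isConj_iff.1 h
      obtain ⟨c, rfl⟩ := hπ c
      have h1 : π (x' * (c * x' * c⁻¹)) = 1 := by
        rw [map_mul, map_mul, map_mul, map_inv, hc, mul_inv_cancel]
      have h2 : x * (c * x * (c : G)⁻¹) ∈ zpowers z := (hk _).1 h1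
      obtain ⟨d, hd⟩ := isConj_iff.1 (A1.2 _ (inv_mem h2))
      have h3 := cm_zp (hcz x hxP) (inv_mem h2)
      apply hr
      refine isConj_iff.2 ⟨d⁻¹ * c, ?_⟩
      have h4 : d * x * d⁻¹ = (c * x * (c : G)⁻¹)⁻¹ := by rw [hd, h3]; group
      calc d⁻¹ * c * x * (d⁻¹ * c)⁻¹ = d⁻¹ * (c * x * (c : G)⁻¹)⁻¹⁻¹ * d := by group
        _ = x⁻¹ := by rw [← h4]; group)
    (fun D hD hle => by
      let E : Subgroup G := (D.comap π).map N.subtype
      have hE : IsPGroup 3 E := by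
        refine (hD.comap_of_ker_isPGroup π ?_).map _
        rw [QuotientGroup.ker_mk']
        exact IsPGroup.of_card (n := 1) hZc
      have c1 : Nat.card E = 3 * Nat.card D := by
        rw [card_map_of_injective N.subtype_injective]
        have h1 := (D.comap π).card_mul_index
        have h2 := D.card_mul_index
        have h3 := Z.card_eq_card_quotient_mul_card_subgroup
        rw [index_comap_of_surjective D hπ] at h1
        rw [hZc, ← h2, ← h1] at h3
        have h4 : 0 < D.index := Nat.pos_of_ne_zero index_ne_zero_of_finite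
        refine Nat.eq_of_mul_eq_mul_right h4 ?_
        rw [h3]; ring
      have c2 : (centralizer ({x} : Set G)).relIndex E ≤ 3 := by
        rw [H4.relIndex_cent_eq_ncard]
        refine (Set.ncard_le_ncard (t := (fun w => x * w) '' (zpowers z : Set G)) ?_).trans ?_
        · rintro _ ⟨_, ⟨d, hd, rfl⟩, rfl⟩
          refine ⟨x⁻¹ * (d * x * d⁻¹), (hk (x'⁻¹ * (d * x' * d⁻¹))).1 ?_, by simp⟩
          rw [map_mul, map_mul, map_mul, map_inv, map_inv, mc.1 (hle hd)]; group
        · refine (Set.ncard_image_le).trans ?_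
          rw [← Nat.card_coe_set_eq, SetLike.coe_sort_coe, Nat.card_zpowers, hz]
      have c3 := hs (centralizer {x} ⊓ E) (hE.to_le inf_le_right) inf_le_left
      have c4 := ((centralizer ({x} : Set G)).subgroupOf E).card_mul_index
      rw [← inf_subgroupOf_right, Nat.card_congr (subgroupOfEquivOfLe inf_le_right).toEquiv,
        inf_subgroupOf_right] at c4
      change _ * (centralizer ({x} : Set G)).relIndex E = _ at c4
      have : Nat.card E ≤ 9 * 3 := c4 ▸ Nat.mul_le_mul c3 c2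
      omega)
    (fun h => by
      let f : P →* (P.subgroupOf N).map π :=
        (π.comp (inclusion hPN)).codRestrict _ fun a => ⟨inclusion hPN a, a.2, rfl⟩
      have := f.isMulCommutative_of_isCyclic_of_ker_le_center (fun a ha => by
        have h1 : (a : G) ∈ zpowers z := (hk (inclusion hPN a)).1 (congrArg Subtype.val ha)
        rw [mem_center_iff]
        exact fun b => Subtype.ext (cm_zp (hcz b b.2) h1))
      exact hab fun a ha b hb => congrArg Subtype.val (this.is_comm.comm (⟨a, ha⟩ : P) ⟨b, hb⟩))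
  refine ⟨(M.comap π).map N.subtype, ?_, ?_, fun g hg => ?_⟩
  · rw [commutator_le]
    intro a ha b hb
    refine ⟨⁅(⟨a, hPN ha⟩ : N), (⟨b, hPN hb⟩ : N)⁆, ?_, rfl⟩
    show π _ ∈ M
    rw [map_commutatorElement]
    exact hM1 (commutator_mem_commutator ⟨_, ha, rfl⟩ ⟨_, hb, rfl⟩)
  · rintro ⟨y, hy, e⟩
    have : y = x' := Subtype.ext e
    exact hM2 (this ▸ hy)
  · obtain ⟨m, hm, e⟩ := B g hg
    refine ⟨x'⁻¹ * (⟨m, hm⟩ * x' * ⟨m, hm⟩⁻¹), ?_, by rw [← e]; rfl⟩
    show π _ ∈ M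
    rw [map_mul, map_mul, map_mul, map_inv, map_inv]
    refine hM3 _ ⟨⟨m, hm⟩ * x' * ⟨m, hm⟩⁻¹, ?_, by rw [map_mul, map_mul, map_inv]⟩
    show m * x * m⁻¹ ∈ P
    rwa [e]

theorem nr_false [Finite G] (hG : commutator G = ⊤) {P : Subgroup G} (hP : H98.IsSyl 3 P ⊤)
    {x : G} (hxP : x ∈ P) (hx : orderOf x = 3) (hr : ¬ IsConj x x⁻¹) (hs : Sm x)
    (hc : ¬ IsCyclic P) : False := by
  obtain ⟨M, h1, h2, h3⟩ := nr _ G rfl P x hP hxP hx hr hs hc
  exact tr hG hP h1 hxP (cube_of hx) h2 h3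

end H2.Fx3
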