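/- Tower IV (S3929): the dihedral ring identities. -/
import Cfsg.Agent.H42.IVSpec

set_option autoImplicit false

namespace H2.IvDih
open H42.IV
universe u

theorem cheb_eq {R : Type*} [Ring R] {x y : R} (h1 : x * y = 1) (h2 : y * x = 1) (i : ℕ) :
    cheb (x + y) i = x ^ 2 ^ i + y ^ 2 ^ i := by
  have c : Commute x y := h1.trans h2.symm
  induction i with
  | zero => rw [pow_zero, pow_one, pow_one]; rfl
  | succ i ih =>
    have a : x ^ 2 ^ i * y ^ 2 ^ i = 1 := by rw [← c.mul_pow, h1, one_pow]
    have b : y ^ 2 ^ i * x ^ 2 ^ i = 1 := by rw [← c.symm.mul_pow, h2, one_pow]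
    show cheb (x + y) i * cheb (x + y) i - 2 = _
    rw [ih, pow_succ, pow_mul, pow_mul, add_mul, mul_add, mul_add, a, b, sq, sq,
      ← one_add_one_eq_two (R := R)]
    abel

theorem cp_eq {R : Type*} [Ring R] {x y : R} (h1 : x * y = 1) (h2 : y * x = 1) (i : ℕ) :
    cp (x + y) i * (x - y) = x ^ 2 ^ i - y ^ 2 ^ i := by
  have c : Commute x y := h1.trans h2.symm
  induction i with
  | zero => rw [pow_zero, pow_one, pow_one]; exact one_mul _
  | succ i ih =>
    have d : Commute (x ^ 2 ^ i + y ^ 2 ^ i) (x - y) :=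
      (((Commute.refl x).sub_right c).pow_left _).add_left
        ((c.symm.sub_right (Commute.refl y)).pow_left _)
    have e : Commute (x ^ 2 ^ i) (y ^ 2 ^ i) := c.pow_pow _ _
    show cp (x + y) i * cheb (x + y) i * _ = _
    rw [cheb_eq h1 h2, mul_assoc, d.eq, ← mul_assoc, ih, pow_succ, pow_mul, pow_mul, sub_mul,
      mul_add, mul_add, e.eq, sq, sq]
    abel

theorem jobDih : JobDih.{u} := by
  intro R _ s t k hs ht
  have h1 : s * t * (t * s) = 1 := by rw [mul_assoc, ← mul_assoc t, ht, one_mul, hs]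
  have h2 : t * s * (s * t) = 1 := by rw [mul_assoc, ← mul_assoc s, hs, one_mul, ht]
  refine ⟨⟨?_, ?_⟩, fun N M hN hM => ?_, fun a b => ?_⟩
  · show _ = _
    rw [add_mul, mul_add, mul_assoc t, hs, ← mul_assoc s s, hs, mul_assoc, add_comm, mul_one,
      one_mul]
  · show _ = _
    rw [add_mul, mul_add, mul_assoc s, ht, ← mul_assoc t t, ht, mul_assoc, add_comm, mul_one,
      one_mul]
  · generalize s * t = x at *
    generalize t * s = y at *
    have c : Commute x y := h1.trans h2.symm
    have two : ∀ r : R, Commute (2 : R) r := fun r => by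
      rw [← one_add_one_eq_two]; exact (Commute.one_left r).add_left (Commute.one_left r)
    have n2 : IsNilpotent (2 : R) := ⟨M, hM⟩
    obtain ⟨r, hr⟩ := (Commute.one_right x).exists_add_pow_prime_pow_eq Nat.prime_two N
    have n1 : IsNilpotent (x + 1) := by
      refine IsNilpotent.of_pow (m := 2 ^ N) ?_
      have : (x + 1) ^ 2 ^ N = 2 * (1 + x * r) := by
        rw [hr, hN, one_pow, one_add_one_eq_two, mul_add, mul_one, mul_one, Nat.cast_ofNat,
          mul_assoc]
      rw [this]
      exact (two _).isNilpotent_mul_right n2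
    have e : x + y = y * (x + 1) ^ 2 - 2 := by
      rw [sq, ← mul_assoc, mul_add y, h2, mul_one, add_mul, mul_add y, h2, one_mul, mul_one,
        ← one_add_one_eq_two]
      abel
    rw [e]
    refine (two _).symm.isNilpotent_sub ?_ n2
    exact ((c.symm.add_right (Commute.one_right y)).pow_right 2).isNilpotent_mul_left
      (n1.pow_succ 1)
  · have e : s * t - t * s = (1 + s) * (1 + t) - (1 + t) * (1 + s) := by noncomm_ring
    have z := cp_eq h1 h2 k
    rw [e, mul_sub, ← mul_assoc, ← mul_assoc, a, b, zero_mul, zero_mul, sub_self, eq_comm,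
      sub_eq_zero] at z
    have c : Commute (s * t) (t * s) := h1.trans h2.symm
    rw [pow_succ, pow_mul, sq]
    nth_rewrite 2 [z]
    rw [← c.mul_pow, h1, one_pow]

end H2.IvDih
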