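/- The smallest degree of a non-trivial complex representation of `SL_n(q)`, `n ≥ 3`. -/
import Cfsg.Agent.H2.MDSL2

set_option autoImplicit false
set_option linter.unusedSectionVars false

namespace H2.MD

open Module Finset Submodule

variable {F U : Type*} [Field F] [AddCommGroup U] [Module F U] [FiniteDimensional F U]
variable [Finite F] [Fintype U]
variable {V : Type*} [AddCommGroup V] [Module ℂ V] [FiniteDimensional ℂ V] {ψ : AddChar F ℂ}
  {R : SpecialLinearGroup F U →* End ℂ V} {L : Submodule F U}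

open Classical in
theorem one_sub_PP (hψ : ψ ≠ 1) {u : U} (hu : u ≠ 0) (h : u ∈ L) :
    (Nat.card F : ℂ) • (1 - PP ψ R L u) = ∑ w ∈ univ.filter (· ∉ L), ee ψ R u w := by
  have : (Nat.card F : ℂ) • (1 - PP ψ R L u) = (∑ w, ee ψ R u w) * (1 - PP ψ R L u) := by
    rw [sum_ee hψ hu, smul_mul_assoc, one_mul]
  rw [this, Finset.sum_mul, Finset.sum_filter]
  refine Finset.sum_congr rfl fun w _ => ?_
  by_cases hw : w ∈ L
  · simp [hw, mul_sub, ee_mul_PP_of_mem h hw]
  · simp [hw, mul_sub, ee_mul_PP_of_notMem hψ h hw]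

theorem Mult1.tr_ee_PP (H : Mult1 ψ R) {u₁ u₂ w : U} (h1 : u₁ ≠ 0) (h2 : u₂ ∉ span F {u₁})
    (hw : w ∉ span F {u₁, u₂}) :
    (Nat.card F : ℂ) * tr (ee ψ R u₁ w * PP ψ R (span F {u₁, u₂}) u₂) = 1 := by
  classical
  have := Fintype.ofFinite F
  set L := span F {u₁, u₂} with hLdef
  have m1 : u₁ ∈ L := subset_span (by simp)
  have m2 : u₂ ∈ L := subset_span (by simp)
  have hw1 : w ∉ span F {u₁} := fun h => hw ((span_singleton_le_iff_mem _ _).2 m1 h)
  have hu2 : u₂ ∉ span F {u₁, w} := by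
    intro h
    have e := span_pair_eq (finrank_span_pair h1 hw1) h1 h2 (subset_span (by simp)) h
    apply hw
    rw [hLdef, e]
    exact subset_span (by simp)
  have a1 : ∀ φ : L.dualAnnihilator,
      (Nat.card F : ℂ) * tr (ee ψ R u₁ w * R (tv φ.1 u₂)) = ∑ s : F, ψ (φ.1 (s • w)) := by
    intro φ
    have b1 := sum_psi H.hψ ((φ.1 w) • (LinearMap.id : Dual F F))
    simp only [LinearMap.smul_apply, LinearMap.id_apply, smul_eq_mul] at b1
    simp only [map_smul, smul_eq_mul, mul_comm _ (φ.1 w), b1]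
    by_cases hφ : φ.1 w = 0
    · rw [H.th2 u₁ w u₂ h1 hw1 hu2 _ (ann_zero φ m1) hφ (ann_zero φ m2), H.one _ _ h1 hw1, hφ]
      simp
    · rw [if_neg (fun h => hφ (by simpa using LinearMap.congr_fun h 1))]
      have c1 := conj_ee (ψ := ψ) (R := R) (tv φ.1 u₂) u₁ w
      rw [tv_apply (ann_zero φ m2), tv_apply (ann_zero φ m2), ann_zero φ m1, zero_smul,
        add_zero] at c1
      have c2 : ee ψ R u₁ w * ee ψ R u₁ (w + φ.1 w • u₂) = 0 := by
        refine ee_orth H.hψ fun h => h2 ?_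
        rw [sub_add_cancel_left, neg_mem_iff] at h
        exact (smul_mem_iff _ hφ).1 h
      rw [← ee_idem H.hψ u₁ w, mul_assoc, tr_comm, mul_assoc, c1, ← mul_assoc, c2]
      simp [tr]
  have a2 : ∑ φ : L.dualAnnihilator, ∑ s : F, ψ (φ.1 (s • w)) = Fintype.card L.dualAnnihilator := by
    rw [Finset.sum_comm, Finset.sum_eq_single 0]
    · simp
    · intro s _ hs
      refine sum_psi_of_ne (M := L.dualAnnihilator) H.hψ (β := ev L.dualAnnihilator (s • w))
        fun h => ?_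
      obtain ⟨φ, e1, e2⟩ := exists_dual hw
      have := LinearMap.congr_fun h ⟨φ, (mem_dualAnnihilator φ).2 e2⟩
      simp [e1, hs] at this
    · simp
  unfold PP ide
  simp only [LinearMap.zero_apply, neg_zero, AddChar.map_zero_eq_one, one_smul, tau]
  rw [mul_smul_comm, tr_smul, Finset.mul_sum, mul_left_comm]
  unfold tr at a1 ⊢
  rw [map_sum, Finset.mul_sum, Finset.sum_congr rfl fun φ _ => a1 φ, a2,
    inv_mul_cancel₀ (card_ne_zero _)]

theorem Mult1.tr_one_sub_P (H : Mult1 ψ R) {u₁ u₂ : U} (h1 : u₁ ≠ 0) (h2 : u₂ ∉ span F {u₁}) :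
    (Nat.card F : ℂ) ^ 2 * tr (1 - PP ψ R (span F {u₁, u₂}) u₁ * PP ψ R (span F {u₁, u₂}) u₂) =
      (Nat.card F + 1) * ((Nat.card F : ℂ) ^ finrank F U - (Nat.card F : ℂ) ^ 2) := by
  classical
  set L := span F {u₁, u₂} with hLdef
  have hL : finrank F L = 2 := finrank_span_pair h1 h2
  have m1 : u₁ ∈ L := subset_span (by simp)
  have m2 : u₂ ∈ L := subset_span (by simp)
  have h2' : u₂ ≠ 0 := by
    rintro rfl
    exact h2 (zero_mem _)
  have a1 : (Nat.card F : ℂ) * tr (1 - PP ψ R L u₂) =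
      (Nat.card F : ℂ) ^ finrank F U - (Nat.card F : ℂ) ^ 2 := by
    rw [← tr_smul, one_sub_PP H.hψ h2' m2, tr_sum_const _ _ 1, card_filter_notMem, hL, mul_one]
    intro w hw
    exact H.one _ _ h2' fun h => (mem_filter.1 hw).2 ((span_singleton_le_iff_mem _ _).2 m2 h)
  have a2 : (Nat.card F : ℂ) * ((Nat.card F : ℂ) * tr ((1 - PP ψ R L u₁) * PP ψ R L u₂)) =
      (Nat.card F : ℂ) ^ finrank F U - (Nat.card F : ℂ) ^ 2 := by
    rw [← tr_smul (Nat.card F : ℂ) (_ * _), ← smul_mul_assoc, one_sub_PP H.hψ h1 m1, Finset.sum_mul,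
      ← tr_smul, Finset.smul_sum, tr_sum_const _ _ 1, card_filter_notMem, hL, mul_one]
    intro w hw
    rw [tr_smul]
    exact H.tr_ee_PP h1 h2 (mem_filter.1 hw).2
  have a3 : 1 - PP ψ R L u₁ * PP ψ R L u₂ =
      (1 - PP ψ R L u₂) + (1 - PP ψ R L u₁) * PP ψ R L u₂ := by
    rw [sub_mul, one_mul]
    abel
  rw [a3, tr_add]
  linear_combination (Nat.card F : ℂ) * a1 + a2

theorem Mult1.tr_one_sub_pi (H : Mult1 ψ R) {u : U} (hu : u ≠ 0) :
    (Nat.card F : ℂ) * tr (1 - ee ψ R u 0) = (Nat.card F : ℂ) ^ finrank F U - Nat.card F := by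
  classical
  rw [← tr_smul, one_sub_pi H.hψ hu, tr_sum_const _ _ 1, card_filter_notMem,
    finrank_span_singleton hu, mul_one, pow_one]
  intro w hw
  exact H.one _ _ hu (mem_filter.1 hw).2

theorem Mult1.glob (H : Mult1 ψ R)
    (hS : ∀ T : End ℂ V, (∀ g, R g * T = T * R g) → ∃ c : ℂ, T = c • 1)
    {u₁ u₂ : U} (h1 : u₁ ≠ 0) (h2 : u₂ ∉ span F {u₁}) :
    ∃ Λ : ℂ, Λ * finrank ℂ V = ((Nat.card F : ℂ) ^ finrank F U - 1) * tr (1 - ee ψ R u₁ 0) ∧
      Λ * tr (1 - ee ψ R u₁ 0) = (Nat.card F - 1) * tr (1 - ee ψ R u₁ 0) +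
        ((Nat.card F : ℂ) ^ finrank F U - Nat.card F) *
          tr ((1 - ee ψ R u₁ 0) * (1 - ee ψ R u₂ 0)) := by
  classical
  obtain ⟨Λ, hΛ⟩ := hS (∑ u ∈ univ.filter (· ∉ (⊥ : Submodule F U)), (1 - ee ψ R u 0)) fun g => by
    rw [Finset.mul_sum, Finset.sum_mul]
    refine Finset.sum_equiv g.1.toEquiv (fun w => by simp) (fun w _ => ?_)
    rw [mul_sub, sub_mul, conj_ee, map_zero, mul_one, one_mul]
    rfl
  refine ⟨Λ, ?_, ?_⟩
  · have := congrArg tr hΛ
    rw [tr_smul, tr_sum_const _ _ (tr (1 - ee ψ R u₁ 0)), card_filter_notMem, finrank_bot,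
      pow_zero] at this
    · rw [this]
      simp [tr]
    · intro u hu
      apply mul_left_cancel₀ (qne F)
      rw [H.tr_one_sub_pi h1, H.tr_one_sub_pi (by simpa using hu)]
  · have := congrArg (fun T => tr ((1 - ee ψ R u₁ 0) * T)) hΛ
    simp only [mul_smul_comm, mul_one, tr_smul] at this
    rw [← this, Finset.mul_sum, ← Finset.sum_filter_add_sum_filter_not _ (· ∈ span F {u₁}),
      Finset.filter_filter, Finset.filter_filter, tr_add,
      tr_sum_const _ _ (tr (1 - ee ψ R u₁ 0)),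
      tr_sum_const _ _ (tr ((1 - ee ψ R u₁ 0) * (1 - ee ψ R u₂ 0)))]
    · have d1 := card_filter_diff (F := F) (p := ⊥) (p' := span F {u₁}) bot_le
      have d2 := card_filter_notMem (F := F) (span F {u₁})
      rw [finrank_span_singleton h1] at d1 d2
      rw [finrank_bot, pow_zero, pow_one] at d1
      rw [pow_one] at d2
      have d3 : univ.filter (fun x => x ∉ (⊥ : Submodule F U) ∧ x ∈ span F {u₁}) =
          univ.filter (fun x => x ∈ span F {u₁} ∧ x ∉ (⊥ : Submodule F U)) :=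
        Finset.filter_congr fun x _ => and_comm
      have d4 : univ.filter (fun x => x ∉ (⊥ : Submodule F U) ∧ x ∉ span F {u₁}) =
          univ.filter (fun x => x ∉ span F {u₁}) :=
        Finset.filter_congr fun x _ => ⟨fun h => h.2,
          fun h => ⟨fun h' => h (bot_le (a := span F {u₁}) h'), h⟩⟩
      rw [d3, d4, d1, d2]
    · intro u hu
      simp only [mem_filter, mem_univ, true_and, mem_bot] at hu
      obtain ⟨g, g1, g2⟩ := exists_sl_pair H.dim (li_pair h1 h2) (li_pair h1 hu.2)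
      refine (tr_conj R (g := g) ?_).symm
      have e : ∀ x, R g * (1 - ee ψ R x 0) = (1 - ee ψ R (g.1 x) 0) * R g := fun x => by
        rw [mul_sub, sub_mul, conj_ee, map_zero, mul_one, one_mul]
      rw [← mul_assoc, e, mul_assoc, e, g1, g2, mul_assoc]
    · intro u hu
      simp only [mem_filter, mem_univ, true_and, mem_bot] at hu
      obtain ⟨c, rfl⟩ := mem_span_singleton.1 hu.2
      have hc : c ≠ 0 := by
        rintro rfl
        simp at hu
      rw [ee_smul_zero hc, one_sub_idem (ee_idem H.hψ _ _)]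

theorem Mult1.rel (H : Mult1 ψ R) {u₁ u₂ : U} (h1 : u₁ ≠ 0) (h2 : u₂ ∉ span F {u₁}) :
    tr ((1 - ee ψ R u₁ 0) * (1 - ee ψ R u₂ 0)) =
      tr (ff ψ R (span F {u₁, u₂}) u₁ * ff ψ R (span F {u₁, u₂}) u₂) +
      tr (1 - ee ψ R u₁ 0) + tr (1 - ee ψ R u₂ 0) - 2 * (Nat.card F - 1) -
      tr (1 - PP ψ R (span F {u₁, u₂}) u₁ * PP ψ R (span F {u₁, u₂}) u₂) := by
  set L := span F {u₁, u₂} with hLdef
  have hL : finrank F L = 2 := finrank_span_pair h1 h2
  have m1 : u₁ ∈ L := subset_span (by simp)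
  have m2 : u₂ ∈ L := subset_span (by simp)
  have h2' : u₂ ≠ 0 := by
    rintro rfl
    exact h2 (zero_mem _)
  have e1 := (H.ff_eq (u₁ := u₁) (u₂ := u₂) rfl hL h1 m1).1
  have e2 := (H.ff_eq (u₁ := u₁) (u₂ := u₂) rfl hL h2' m2).2
  have e3 := P_idem (ψ := ψ) (R := R) (u₁ := u₁) (u₂ := u₂) rfl
  have t1 := H.tr_ff hL h1 m1
  have t2 := H.tr_ff hL h2' m2
  rw [← hLdef] at e1 e2 e3
  have e4 : ee ψ R u₁ 0 * (PP ψ R L u₁ * PP ψ R L u₂) * ee ψ R u₂ 0 =
      ee ψ R u₁ 0 * ee ψ R u₂ 0 := by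
    rw [← mul_assoc, ee_mul_PP_of_mem m1 (zero_mem _), mul_assoc, ← PP_comm_ee m2,
      ee_mul_PP_of_mem m2 (zero_mem _)]
  rw [← e1] at t1
  rw [← e2] at t2
  rw [← e1, ← e2]
  generalize PP ψ R L u₁ * PP ψ R L u₂ = P at *
  generalize ee ψ R u₁ 0 = a at *
  generalize ee ψ R u₂ 0 = b at *
  have e5 : (1 - a) * (1 - b) = (1 - a) * P * (P * (1 - b)) + (1 - a) + (1 - b) -
      ((1 - a) * P + P * (1 - b)) - (1 - P) := by
    rw [mul_assoc, ← mul_assoc P, e3]
    simp only [mul_sub, sub_mul, one_mul, mul_one, ← mul_assoc, e4]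
    abel
  rw [e5]
  simp only [tr_sub _ (1 - P), tr_sub _ ((1 - a) * P + P * (1 - b)), tr_add, t1, t2]
  ring

theorem arith_sl {q y D g : ℕ} (hq : 2 ≤ q) (hy : q ≤ y) (hy2 : q = 2 → 4 ≤ y) (hg : q ≤ g + 1)
    (h : (D : ℤ) * (q * (q - 1) * (y - 1) * g + (q ^ 2 - 1) * (q - 1)) =
      (q ^ 2 * y - 1) * (q * y - 1) * g) : (q ^ 2 * y - q) / (q - 1) ≤ D := by
  have hq' : (2 : ℤ) ≤ q := by exact_mod_cast hq
  have hy' : (q : ℤ) ≤ y := by exact_mod_cast hy
  rcases (show g + 1 = q ∨ q ≤ g by omega) with h1 | h1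
  · exfalso
    have h1' : (g : ℤ) = q - 1 := by omega
    rw [h1'] at h
    have h2 : (D : ℤ) * (q - 1) * (q * y + 1) = (q ^ 2 * y - 1) * (q * y - 1) := by
      apply mul_right_cancel₀ (show (q : ℤ) - 1 ≠ 0 by omega)
      linear_combination h
    have h3 : (q * y + 1 : ℤ) ∣ 2 * (q + 1) :=
      ⟨D * (q - 1) - q ^ 2 * y + 2 * q + 1, by linear_combination (-1 : ℤ) * h2⟩
    have h4 := Int.le_of_dvd (by positivity) h3
    rcases (show q = 2 ∨ 3 ≤ q by omega) with h5 | h5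
    · have h6 : (4 : ℤ) ≤ y := by exact_mod_cast hy2 h5
      subst h5
      push_cast at h4
      omega
    · have h6 : (3 : ℤ) ≤ q := by exact_mod_cast h5
      nlinarith
  · have h1' : (q : ℤ) ≤ g := by exact_mod_cast h1
    have h2 : (q : ℤ) * (q * y - 1) ≤ D * (q - 1) := by
      have a1 : (0 : ℤ) < (q ^ 2 * y - 1) * g := mul_pos (by nlinarith) (by omega)
      refine le_of_mul_le_mul_right ?_ a1
      have a2 : (0 : ℤ) ≤ D * ((q ^ 2 - 1) * (q - 1)) * (g - q) := by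
        refine mul_nonneg (mul_nonneg (by positivity) (mul_nonneg (by nlinarith) (by omega))) ?_
        omega
      nlinarith
    refine Nat.div_le_of_le_mul ?_
    zify [show q ≤ q ^ 2 * y by nlinarith, show 1 ≤ q by omega]
    nlinarith

theorem Mult1.bound (H : Mult1 ψ R)
    (hS : ∀ T : End ℂ V, (∀ g, R g * T = T * R g) → ∃ c : ℂ, T = c • 1)
    (h2 : Nat.card F = 2 → 4 ≤ finrank F U) :
    (Nat.card F ^ finrank F U - Nat.card F) / (Nat.card F - 1) ≤ finrank ℂ V := by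
  have hd := H.dim
  obtain ⟨u₁, -, h1⟩ := exists_notMem (p := (⊥ : Submodule F U)) (q := ⊤)
    (by rw [finrank_top, finrank_bot]; omega)
  have h1 : u₁ ≠ 0 := by simpa using h1
  obtain ⟨u₂, -, h3⟩ := exists_notMem (p := span F {u₁}) (q := ⊤)
    (by rw [finrank_top, finrank_span_singleton h1]; omega)
  have h3' : u₂ ≠ 0 := by
    rintro rfl
    exact h3 (zero_mem _)
  obtain ⟨lam, g, a1, a2, a3⟩ := H.plane h1 h3
  obtain ⟨Λ, a4, a5⟩ := H.glob hS h1 h3
  have a6 := H.rel h1 h3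
  have a7 := H.tr_one_sub_P h1 h3
  have a8 := H.tr_one_sub_pi h1
  have a9 := H.tr_one_sub_pi h3'
  obtain ⟨k, hk⟩ : ∃ k, finrank F U = k + 3 := ⟨finrank F U - 3, by omega⟩
  have hq : 2 ≤ Nat.card F := Finite.one_lt_card
  have hq0 := qne F
  rw [hk] at a4 a5 a7 a8 a9 h2 ⊢
  generalize Nat.card F = q at *
  have hy : q ≤ q ^ (k + 1) := by
    calc q = q ^ 1 := (pow_one q).symm
      _ ≤ _ := Nat.pow_le_pow_right (by omega) (by omega)
  have hy2 : q = 2 → 4 ≤ q ^ (k + 1) := fun h => by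
    have := h2 h
    calc 4 = q ^ 2 := by rw [h]
      _ ≤ _ := Nat.pow_le_pow_right (by omega) (by omega)
  have e1 : q ^ (k + 3) = q ^ 2 * q ^ (k + 1) := by ring
  have e2 : (q : ℂ) ^ (k + 3) = q ^ 2 * ((q ^ (k + 1) : ℕ) : ℂ) := by push_cast; ring
  rw [e1]
  rw [e2] at a4 a5 a7 a8 a9
  refine arith_sl hq hy hy2 a1 ?_
  have hy3 : 2 ≤ q * q ^ (k + 1) := by nlinarith
  generalize q ^ (k + 1) = y at *
  have b1 : tr (1 - ee ψ R u₁ 0) = q * y - 1 := by
    apply mul_left_cancel₀ hq0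
    rw [a8]
    ring
  have b2 : tr (1 - ee ψ R u₂ 0) = q * y - 1 := by
    apply mul_left_cancel₀ hq0
    rw [a9]
    ring
  have b3 : tr (1 - PP ψ R (span F {u₁, u₂}) u₁ * PP ψ R (span F {u₁, u₂}) u₂) =
      (q + 1) * (y - 1) := by
    apply mul_left_cancel₀ (pow_ne_zero 2 hq0)
    rw [a7]
    ring
  have b4 : (q : ℂ) * y - 1 ≠ 0 := by
    rw [sub_ne_zero]
    exact_mod_cast (show q * y ≠ 1 by omega)
  rw [b1] at a4 a5
  rw [b1, b2, b3] at a6
  have b5 : Λ = q * (q - 1) * (y - 1) + lam := by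
    apply mul_right_cancel₀ b4
    rw [a5, a6, a3]
    ring
  have b6 : (finrank ℂ V : ℂ) * (q * (q - 1) * (y - 1) * g + (q ^ 2 - 1) * (q - 1)) =
      (q ^ 2 * y - 1) * (q * y - 1) * g := by
    rw [← a4, ← a2, b5]
    ring
  exact_mod_cast b6

theorem sl_bound (hψ : ψ ≠ 1) (hU : 3 ≤ finrank F U)
    (hex : (finrank F U, Nat.card F) ≠ (3, 2) ∧ (finrank F U, Nat.card F) ≠ (3, 4) ∧
      (finrank F U, Nat.card F) ≠ (4, 2) ∧ (finrank F U, Nat.card F) ≠ (4, 3))
    (hS : ∀ T : End ℂ V, (∀ g, R g * T = T * R g) → ∃ c : ℂ, T = c • 1)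
    {φ₀ : Dual F U} {u₀ : U} (h0 : φ₀ u₀ = 0) (hne : R (tv φ₀ u₀) ≠ 1) :
    (Nat.card F ^ finrank F U - Nat.card F) / (Nat.card F - 1) ≤ finrank ℂ V := by
  classical
  have hq : 2 ≤ Nat.card F := Finite.one_lt_card
  have hu : u₀ ≠ 0 := by
    rintro rfl
    apply hne
    have : tv φ₀ (0 : U) = 1 := sl_ext fun x => by rw [tv_apply h0]; simp
    rw [this, map_one]
  obtain ⟨w₀, -, hw⟩ := exists_notMem (p := span F {u₀}) (q := ⊤)
    (by rw [finrank_top, finrank_span_singleton hu]; omega)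
  have hm := tr_idem (ee_idem (R := R) hψ u₀ w₀)
  set m := finrank ℂ (LinearMap.range (ee ψ R u₀ w₀))
  have hm' : ∀ u w, u ≠ 0 → w ∉ span F {u} → tr (ee ψ R u w) = m := fun u w h1 h2 => by
    rw [← hm]
    exact tr_ee_eq hU (li_pair h1 h2) (li_pair hu hw)
  have hroot : ∀ d : ℕ, 0 < d → ¬ Nat.card F - 1 ∣ d → ∃ c : F, c ≠ 0 ∧ c ^ d ≠ 1 := by
    intro d _ hd
    obtain ⟨c, hc⟩ := IsCyclic.exists_ofOrder_eq_natCard (α := Fˣ)
    refine ⟨c, c.ne_zero, fun h => hd ?_⟩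
    rw [← Nat.card_units, ← hc]
    exact orderOf_dvd_of_pow_eq_one (Units.ext (by simpa using h))
  rcases (show m = 0 ∨ m = 1 ∨ 2 ≤ m by omega) with h | h | h
  · exfalso
    apply hne
    have a1 : (Nat.card F : ℂ) • (1 - ee ψ R u₀ 0) = 0 := by
      rw [one_sub_pi hψ hu]
      refine Finset.sum_eq_zero fun w hw => ?_
      refine LinearMap.IsIdempotentElem.eq_zero_of_trace_eq_zero (ee_idem hψ _ _) ?_
      have := hm' u₀ w hu (mem_filter.1 hw).2
      rwa [h, Nat.cast_zero] at this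
    have a2 : ee ψ R u₀ 0 = 1 := (sub_eq_zero.1 ((smul_eq_zero.1 a1).resolve_left (qne F))).symm
    have a3 := tv_mul_ee (ψ := ψ) (R := R) (w := 0) h0
    simpa [a2] using a3
  · rw [h, Nat.cast_one] at hm'
    simp only [ne_eq, Prod.mk.injEq, not_and] at hex
    refine Mult1.bound ⟨hψ, hU, hm', fun u w a b φ c d => theta1 hψ ?_ (hm' u w a b) c d,
      fun u w v a b b' φ c d e => theta2 hψ ?_ (li_pair a b) b' (hm' u w a b) c d e⟩ hS
      fun h => by omega
    · by_cases h3 : finrank F U = 3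
      · refine Or.inr ⟨h3, hroot 3 (by norm_num) fun h => ?_⟩
        have := (Nat.dvd_prime Nat.prime_three).1 h
        omega
      · exact Or.inl (by omega)
    · by_cases h4 : finrank F U = 4
      · refine Or.inr (hroot 2 (by norm_num) fun h => ?_)
        have := (Nat.dvd_prime Nat.prime_two).1 h
        omega
      · exact Or.inl h4
  · have a1 : (Nat.card F : ℂ) * tr (1 - ee ψ R u₀ 0) =
        ((Nat.card F : ℂ) ^ finrank F U - Nat.card F) * m := by
      rw [← tr_smul, one_sub_pi hψ hu, tr_sum_const _ _ m, card_filter_notMem,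
        finrank_span_singleton hu, pow_one]
      intro w hw
      exact hm' _ _ hu (mem_filter.1 hw).2
    rw [tr_idem (one_sub_idem (ee_idem hψ _ _))] at a1
    have a2 := Submodule.finrank_le (LinearMap.range (1 - ee ψ R u₀ 0))
    generalize finrank ℂ (LinearMap.range (1 - ee ψ R u₀ 0)) = r at a1 a2
    have a3 : Nat.card F ≤ Nat.card F ^ finrank F U := by
      calc Nat.card F = Nat.card F ^ 1 := (pow_one _).symm
        _ ≤ _ := Nat.pow_le_pow_right (by omega) (by omega)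
    rw [← Nat.cast_pow, ← Nat.cast_sub a3] at a1
    have a4 : Nat.card F * r = (Nat.card F ^ finrank F U - Nat.card F) * m := by exact_mod_cast a1
    refine Nat.div_le_of_le_mul ?_
    generalize Nat.card F ^ finrank F U - Nat.card F = x at *
    obtain ⟨p, hp⟩ : ∃ p, Nat.card F = p + 2 := ⟨Nat.card F - 2, by omega⟩
    rw [hp] at a4 ⊢
    rw [show p + 2 - 1 = p + 1 by omega]
    nlinarith

end H2.MD
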