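/- The multiplicity one bound for `SL(U)` without irreducibility, with its equality case. -/
import Cfsg.Agent.H2.MDSL3

set_option autoImplicit false
set_option linter.unusedSectionVars false

namespace H2.MD

open Module Finset Submodule

variable {F U : Type*} [Field F] [AddCommGroup U] [Module F U] [FiniteDimensional F U]
variable [Finite F] [Fintype U]
variable {V : Type*} [AddCommGroup V] [Module ℂ V] [FiniteDimensional ℂ V] {ψ : AddChar F ℂ}
  {R : SpecialLinearGroup F U →* End ℂ V} {L : Submodule F U}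

theorem q_sub_one_ne (F : Type*) [Field F] [Finite F] : (Nat.card F : ℂ) - 1 ≠ 0 := by
  have : 1 < Nat.card F := Finite.one_lt_card
  rw [sub_ne_zero]
  exact_mod_cast this.ne'

theorem q_add_one_ne (F : Type*) [Field F] [Finite F] : (Nat.card F : ℂ) + 1 ≠ 0 := by
  exact_mod_cast Nat.succ_ne_zero (Nat.card F)

theorem exists_rank {Z : End ℂ V} {lam : ℂ} (h : Z * Z = lam • Z) (h0 : tr Z ≠ 0) :
    lam ≠ 0 ∧ (lam⁻¹ • Z) * (lam⁻¹ • Z) = lam⁻¹ • Z ∧
      lam * finrank ℂ (LinearMap.range (lam⁻¹ • Z)) = tr Z := by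
  have hlam0 : lam ≠ 0 := by
    rintro rfl
    have hn : IsNilpotent Z := ⟨2, by rw [sq, h, zero_smul]⟩
    exact h0 (LinearMap.isNilpotent_trace_of_isNilpotent hn).eq_zero
  have b1 : (lam⁻¹ • Z) * (lam⁻¹ • Z) = lam⁻¹ • Z := by
    rw [smul_mul_assoc, mul_smul_comm, h, smul_smul, smul_smul]
    congr 1
    field_simp
  exact ⟨hlam0, b1, by rw [← tr_idem b1, tr_smul, mul_inv_cancel_left₀ hlam0]⟩

theorem ZZ_comm_ee {u : U} (h : u ∈ L) (w : U) :
    ZZ ψ R L * ee ψ R u w = ee ψ R u w * ZZ ψ R L := by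
  refine comm_ide (fun φ => (comm_ZZ _ fun x => ?_).symm) _
  rw [tv_apply (mem_An.1 φ.2)]
  exact L.add_mem_iff_left (L.smul_mem _ h)

theorem ZZ_comm_ff {u : U} (h : u ∈ L) : ZZ ψ R L * ff ψ R L u = ff ψ R L u * ZZ ψ R L := by
  unfold ff
  rw [mul_smul_comm, smul_mul_assoc, Finset.mul_sum, Finset.sum_mul]
  congr 1
  exact Finset.sum_congr rfl fun w _ => ZZ_comm_ee h w

theorem Mult1.ff_idem (H : Mult1 ψ R) {u₁ u₂ : U} (hL : span F {u₁, u₂} = L)
    (hL2 : finrank F L = 2) {u : U} (hu : u ≠ 0) (huL : u ∈ L) :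
    ff ψ R L u * ff ψ R L u = ff ψ R L u := by
  obtain ⟨e1, e2⟩ := H.ff_eq hL hL2 hu huL
  have e3 := one_sub_idem (ee_idem (R := R) H.hψ u 0)
  have e4 := P_idem (ψ := ψ) (R := R) hL
  generalize PP ψ R L u₁ * PP ψ R L u₂ = P at e1 e2 e4
  calc ff ψ R L u * ff ψ R L u = (1 - ee ψ R u 0) * P * (P * (1 - ee ψ R u 0)) := by
        rw [e1, e2]
    _ = (1 - ee ψ R u 0) * (P * (1 - ee ψ R u 0)) := by rw [mul_assoc, ← mul_assoc P, e4]
    _ = _ := by rw [e2, ← e1, ← mul_assoc, e3]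

theorem Mult1.plane' (H : Mult1 ψ R) {u₁ u₂ : U} (h1 : u₁ ≠ 0) (h2 : u₂ ∉ span F {u₁})
    (hLdef : span F {u₁, u₂} = L) :
    ∃ lam : ℂ, (∀ u, u ≠ 0 → u ∈ L → ff ψ R L u * ZZ ψ R L = lam • ff ψ R L u) ∧
      ZZ ψ R L * ZZ ψ R L = lam • ZZ ψ R L ∧
      tr (ZZ ψ R L) = ((Nat.card F : ℂ) ^ 2 - 1) * (Nat.card F - 1) ∧
      lam = (Nat.card F - 1) + Nat.card F * tr (ff ψ R L u₁ * ff ψ R L u₂) := by
  classical
  have hL : finrank F L = 2 := hLdef ▸ finrank_span_pair h1 h2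
  have m1 : u₁ ∈ L := hLdef ▸ subset_span (by simp)
  have m2 : u₂ ∈ L := hLdef ▸ subset_span (by simp)
  obtain ⟨lam, hlam⟩ := H.exists_lam hL
  have q1 := q_sub_one_ne F
  have a1 : ∀ u, u ≠ 0 → u ∈ L → ff ψ R L u * ZZ ψ R L = lam • ff ψ R L u := by
    intro u hu huL
    unfold ff
    rw [smul_mul_assoc, smul_comm lam, Finset.sum_mul]
    congr 1
    rw [Finset.smul_sum]
    refine Finset.sum_congr rfl fun w hw => ?_
    simp only [mem_filter, mem_univ, true_and] at hw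
    exact hlam u w hu hw.2 huL hw.1
  have a2 : ZZ ψ R L * ZZ ψ R L = lam • ZZ ψ R L := by
    conv_lhs => rw [show ZZ ψ R L * ZZ ψ R L = (∑ u ∈ univ.filter
      (fun u => u ∈ L ∧ u ∉ (⊥ : Submodule F U)), ff ψ R L u) * ZZ ψ R L from rfl]
    rw [Finset.sum_mul]
    conv_rhs => unfold ZZ
    rw [Finset.smul_sum]
    refine Finset.sum_congr rfl fun u hu => ?_
    simp only [mem_filter, mem_univ, true_and, mem_bot] at hu
    exact a1 u hu.2 hu.1
  have a3 : tr (ZZ ψ R L) = ((Nat.card F : ℂ) ^ 2 - 1) * (Nat.card F - 1) := by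
    unfold ZZ
    rw [tr_sum_const _ _ ((Nat.card F : ℂ) - 1), card_filter_diff bot_le, hL, finrank_bot, pow_zero]
    intro u hu
    simp only [mem_filter, mem_univ, true_and, mem_bot] at hu
    exact H.tr_ff hL hu.2 hu.1
  refine ⟨lam, a1, a2, a3, ?_⟩
  have c1 : tr (ff ψ R L u₁ * ZZ ψ R L) = lam * (Nat.card F - 1) := by
    rw [a1 u₁ h1 m1, ← H.tr_ff hL h1 m1, tr_smul]
  set σ := tr (ff ψ R L u₁ * ff ψ R L u₂) with hσ
  have c2 : tr (ff ψ R L u₁ * ZZ ψ R L) = (Nat.card F - 1) * (Nat.card F - 1) +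
      ((Nat.card F : ℂ) ^ 2 - Nat.card F) * σ := by
    unfold ZZ
    rw [Finset.mul_sum, ← Finset.sum_filter_add_sum_filter_not _ (· ∈ span F {u₁}),
      Finset.filter_filter, Finset.filter_filter, tr_add,
      tr_sum_const _ _ ((Nat.card F : ℂ) - 1), tr_sum_const _ _ σ]
    · have d1 := card_filter_diff (F := F) (p := ⊥) (p' := span F {u₁}) bot_le
      have d2 := card_filter_diff (F := F) (p := span F {u₁}) (p' := L)
        ((span_singleton_le_iff_mem _ _).2 m1)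
      rw [finrank_span_singleton h1] at d1 d2
      rw [finrank_bot, pow_zero, pow_one] at d1
      rw [hL, pow_one] at d2
      have d3 : univ.filter (fun x => (x ∈ L ∧ x ∉ (⊥ : Submodule F U)) ∧ x ∈ span F {u₁}) =
          univ.filter (fun x => x ∈ span F {u₁} ∧ x ∉ (⊥ : Submodule F U)) :=
        Finset.filter_congr fun x _ => ⟨fun h => ⟨h.2, h.1.2⟩,
          fun h => ⟨⟨(span_singleton_le_iff_mem _ _).2 m1 h.1, h.2⟩, h.1⟩⟩
      have d4 : univ.filter (fun x => (x ∈ L ∧ x ∉ (⊥ : Submodule F U)) ∧ x ∉ span F {u₁}) =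
          univ.filter (fun x => x ∈ L ∧ x ∉ span F {u₁}) :=
        Finset.filter_congr fun x _ => ⟨fun h => ⟨h.1.1, h.2⟩,
          fun h => ⟨⟨h.1, fun h' => h.2 (bot_le (a := span F {u₁}) h')⟩, h.2⟩⟩
      rw [d3, d4, d1, d2]
    · intro u hu
      simp only [mem_filter, mem_univ, true_and, mem_bot] at hu
      obtain ⟨g, g1, g2⟩ := exists_sl_pair H.dim (li_pair h1 h2) (li_pair h1 hu.2)
      have hg := stab_of_pair hL h1 h2 m1 m2 g (g1.symm ▸ m1) (g2 ▸ hu.1.1)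
      refine (tr_conj R (g := g) ?_).symm
      rw [← mul_assoc, conj_ff g hg, mul_assoc, conj_ff g hg, g1, g2, mul_assoc]
    · intro u hu
      simp only [mem_filter, mem_univ, true_and, mem_bot] at hu
      obtain ⟨c, rfl⟩ := mem_span_singleton.1 hu.2
      have hc : c ≠ 0 := by
        rintro rfl
        simp at hu
      have : ff ψ R L (c • u₁) = ff ψ R L u₁ := by
        rw [← (H.ff_eq hLdef hL hu.1.2 hu.1.1).1, ← (H.ff_eq hLdef hL h1 m1).1, ee_smul_zero hc]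
      rw [this, H.ff_idem hLdef hL h1 m1]
      exact H.tr_ff hL h1 m1
  apply mul_right_cancel₀ q1
  rw [← c1, c2]
  ring

theorem Mult1.glob' (H : Mult1 ψ R) {u₁ u₂ : U} (h1 : u₁ ≠ 0) (h2 : u₂ ∉ span F {u₁}) :
    ∃ (Λ : ℂ) (D : ℕ), D ≤ finrank ℂ V ∧
      Λ * D = ((Nat.card F : ℂ) ^ finrank F U - 1) * tr (1 - ee ψ R u₁ 0) ∧
      Λ * tr (1 - ee ψ R u₁ 0) = (Nat.card F - 1) * tr (1 - ee ψ R u₁ 0) +
        ((Nat.card F : ℂ) ^ finrank F U - Nat.card F) *
          tr ((1 - ee ψ R u₁ 0) * (1 - ee ψ R u₂ 0)) := by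
  classical
  set Z := ∑ u ∈ univ.filter (· ∉ (⊥ : Submodule F U)), (1 - ee ψ R u 0) with hZ
  have hc : ∀ g, R g * Z = Z * R g := fun g => by
    rw [hZ, Finset.mul_sum, Finset.sum_mul]
    refine Finset.sum_equiv g.1.toEquiv (fun w => by simp) (fun w _ => ?_)
    rw [mul_sub, sub_mul, conj_ee, map_zero, mul_one, one_mul]
    rfl
  have h3 := rank_one_mul (ee_idem H.hψ u₁ u₂) (H.one _ _ h1 h2)
    (comm_ide (fun φ => (hc _).symm) _ : Z * ee ψ R u₁ u₂ = ee ψ R u₁ u₂ * Z)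
  generalize tr (ee ψ R u₁ u₂ * Z) = Λ at h3
  have a0 : ∀ u w, u ≠ 0 → w ∉ span F {u} → ee ψ R u w * Z = Λ • ee ψ R u w := by
    intro u w b1 b2
    obtain ⟨g, g1, g2⟩ := exists_sl_pair H.dim (li_pair h1 h2) (li_pair b1 b2)
    have e := conj_ee (ψ := ψ) (R := R) g u₁ u₂
    rw [g1, g2] at e
    apply cancel_R (R := R) (g := g)
    rw [mul_assoc, ← hc g, ← mul_assoc, ← e, mul_assoc, h3, smul_mul_assoc, ← e, mul_smul_comm]
  have a1 : ∀ u, u ≠ 0 → (1 - ee ψ R u 0) * Z = Λ • (1 - ee ψ R u 0) := by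
    intro u hu
    apply smul_right_injective _ (qne F)
    simp only
    rw [← smul_mul_assoc, smul_comm, one_sub_pi H.hψ hu, Finset.sum_mul, Finset.smul_sum]
    exact Finset.sum_congr rfl fun w hw => a0 u w hu (mem_filter.1 hw).2
  have a2 : Z * Z = Λ • Z := by
    conv_lhs => rw [show Z * Z = (∑ u ∈ univ.filter (· ∉ (⊥ : Submodule F U)),
      (1 - ee ψ R u 0)) * Z from rfl]
    rw [Finset.sum_mul, hZ, Finset.smul_sum]
    exact Finset.sum_congr rfl fun u hu => a1 u (by simpa using hu)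
  have a3 : tr Z = ((Nat.card F : ℂ) ^ finrank F U - 1) * tr (1 - ee ψ R u₁ 0) := by
    rw [hZ, tr_sum_const _ _ (tr (1 - ee ψ R u₁ 0)), card_filter_notMem, finrank_bot, pow_zero]
    intro u hu
    apply mul_left_cancel₀ (qne F)
    rw [H.tr_one_sub_pi h1, H.tr_one_sub_pi (by simpa using hu)]
  have a4 : tr Z ≠ 0 := by
    have hq : 2 ≤ Nat.card F := Finite.one_lt_card
    have hd := H.dim
    have b1 : Nat.card F < Nat.card F ^ finrank F U := by
      calc Nat.card F = Nat.card F ^ 1 := (pow_one _).symm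
        _ < _ := Nat.pow_lt_pow_right (by omega) (by omega)
    rw [a3]
    refine mul_ne_zero (sub_ne_zero.2 ?_) fun h => ?_
    · exact_mod_cast (show Nat.card F ^ finrank F U ≠ 1 by omega)
    · have := H.tr_one_sub_pi h1
      rw [h, mul_zero, eq_comm, sub_eq_zero] at this
      exact b1.ne' (by exact_mod_cast this)
  obtain ⟨-, -, a5⟩ := exists_rank a2 a4
  refine ⟨Λ, _, Submodule.finrank_le _, a5.trans a3, ?_⟩
  have := congrArg tr (a1 u₁ h1)
  rw [tr_smul] at this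
  rw [← this, hZ, Finset.mul_sum, ← Finset.sum_filter_add_sum_filter_not _ (· ∈ span F {u₁}),
    Finset.filter_filter, Finset.filter_filter, tr_add,
    tr_sum_const _ _ (tr (1 - ee ψ R u₁ 0)),
    tr_sum_const _ _ (tr ((1 - ee ψ R u₁ 0) * (1 - ee ψ R u₂ 0)))]
  · have d1 := card_filter_diff (F := F) (p := ⊥) (p' := span F {u₁}) bot_le
    have d2 := card_filter_notMem (F := F) (span F {u₁})
    rw [finrank_span_singleton h1] at d1 d2
    rw [finrank_bot, pow_zero, pow_one] at d1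
    rw [pow_one] at d2
    have d3 : univ.filter (fun x => x ∉ (⊥ : Submodule F U) ∧ x ∈ span F {u₁}) =
        univ.filter (fun x => x ∈ span F {u₁} ∧ x ∉ (⊥ : Submodule F U)) :=
      Finset.filter_congr fun x _ => and_comm
    have d4 : univ.filter (fun x => x ∉ (⊥ : Submodule F U) ∧ x ∉ span F {u₁}) =
        univ.filter (fun x => x ∉ span F {u₁}) :=
      Finset.filter_congr fun x _ => ⟨fun h => h.2,
        fun h => ⟨fun h' => h (bot_le (a := span F {u₁}) h'), h⟩⟩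
    rw [d3, d4, d1, d2]
  · intro u hu
    simp only [mem_filter, mem_univ, true_and, mem_bot] at hu
    obtain ⟨g, g1, g2⟩ := exists_sl_pair H.dim (li_pair h1 h2) (li_pair h1 hu.2)
    refine (tr_conj R (g := g) ?_).symm
    have e : ∀ x, R g * (1 - ee ψ R x 0) = (1 - ee ψ R (g.1 x) 0) * R g := fun x => by
      rw [mul_sub, sub_mul, conj_ee, map_zero, mul_one, one_mul]
    rw [← mul_assoc, e, mul_assoc, e, g1, g2, mul_assoc]
  · intro u hu
    simp only [mem_filter, mem_univ, true_and, mem_bot] at hu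
    obtain ⟨c, rfl⟩ := mem_span_singleton.1 hu.2
    have hc : c ≠ 0 := by
      rintro rfl
      simp at hu
    rw [ee_smul_zero hc, one_sub_idem (ee_idem H.hψ _ _)]

theorem arith_sl' {q y D g : ℕ} (hq : 2 ≤ q) (hy : q ≤ y) (hg : q ≤ g + 1)
    (h : (D : ℤ) * (q * (q - 1) * (y - 1) * g + (q ^ 2 - 1) * (q - 1)) =
      (q ^ 2 * y - 1) * (q * y - 1) * g) :
    q ^ 2 * y + D ≤ q * D + q ∧ (g = q ∨ q ^ 2 * y + D ≤ q * D + 1) := by
  have hq' : (2 : ℤ) ≤ q := by exact_mod_cast hq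
  have hy' : (q : ℤ) ≤ y := by exact_mod_cast hy
  rcases (show g + 1 = q ∨ g = q ∨ q + 1 ≤ g by omega) with h1 | h1 | h1
  · exfalso
    have h1' : (g : ℤ) = q - 1 := by omega
    rw [h1'] at h
    have h2 : (D : ℤ) * (q - 1) * (q * y + 1) = (q ^ 2 * y - 1) * (q * y - 1) := by
      apply mul_right_cancel₀ (show (q : ℤ) - 1 ≠ 0 by omega)
      linear_combination h
    have h3 : (q * y + 1 : ℤ) ∣ 2 * (q + 1) :=
      ⟨D * (q - 1) - q ^ 2 * y + 2 * q + 1, by linear_combination (-1 : ℤ) * h2⟩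
    have h4 := Int.le_of_dvd (by positivity) h3
    rcases (show q = 2 ∨ 3 ≤ q by omega) with h5 | h5
    · subst h5
      push_cast at h4 h3
      obtain rfl : y = 2 := by omega
      norm_num at h3
    · have h6 : (3 : ℤ) ≤ q := by exact_mod_cast h5
      nlinarith
  · refine ⟨?_, Or.inl h1⟩
    subst h1
    have h2 : (D : ℤ) * (g - 1) = g * (g * y - 1) := by
      apply mul_right_cancel₀ (show (g : ℤ) ^ 2 * y - 1 ≠ 0 by nlinarith)
      linear_combination h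
    zify
    nlinarith
  · have h1' : (q : ℤ) + 1 ≤ g := by exact_mod_cast h1
    have h2 : (q : ℤ) ^ 2 * y - 1 ≤ D * (q - 1) := by
      have a1 : (0 : ℤ) < (q * y - 1) * g := mul_pos (by nlinarith) (by omega)
      refine le_of_mul_le_mul_right ?_ a1
      have a2 : (0 : ℤ) ≤ D * ((q - 1) * (q - 1)) * (g - (q + 1)) := by
        refine mul_nonneg (mul_nonneg (by positivity) (mul_self_nonneg _)) ?_
        omega
      nlinarith
    have h3 : q ^ 2 * y + D ≤ q * D + 1 := by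
      zify
      nlinarith
    exact ⟨by omega, Or.inr h3⟩

theorem Mult1.bound' (H : Mult1 ψ R) {u₁ u₂ : U} (h1 : u₁ ≠ 0) (h3 : u₂ ∉ span F {u₁})
    (hL : span F {u₁, u₂} = L) :
    ∃ D ≤ finrank ℂ V, Nat.card F ^ finrank F U + D ≤ Nat.card F * D + Nat.card F ∧
      (Nat.card F ^ finrank F U + D ≤ Nat.card F * D + 1 ∨
        ∃ E : End ℂ V, E * E = E ∧ tr E = Nat.card F ∧ (∃ c : ℂ, E = c • ZZ ψ R L) ∧
          ∀ u, u ≠ 0 → u ∈ L → ff ψ R L u * E = ff ψ R L u) := by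
  have hd := H.dim
  have h3' : u₂ ≠ 0 := by
    rintro rfl
    exact h3 (zero_mem _)
  have hL2 : finrank F L = 2 := hL ▸ finrank_span_pair h1 h3
  have m1 : u₁ ∈ L := hL ▸ subset_span (by simp)
  obtain ⟨lam, c1, c2, c3, a3⟩ := H.plane' h1 h3 hL
  obtain ⟨c4, c5, a2⟩ := exists_rank c2 (by
    rw [c3, show ((Nat.card F : ℂ) ^ 2 - 1) = (Nat.card F - 1) * (Nat.card F + 1) by ring]
    exact mul_ne_zero (mul_ne_zero (q_sub_one_ne F) (q_add_one_ne F)) (q_sub_one_ne F))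
  have c6 : ∀ u, u ≠ 0 → u ∈ L → ff ψ R L u * (lam⁻¹ • ZZ ψ R L) = ff ψ R L u := fun u a b => by
    rw [mul_smul_comm, c1 u a b, smul_smul, inv_mul_cancel₀ c4, one_smul]
  have c7 := tr_idem c5
  have a1 : Nat.card F ≤ finrank ℂ (LinearMap.range (lam⁻¹ • ZZ ψ R L)) + 1 := by
    have b2 : (lam⁻¹ • ZZ ψ R L) * ff ψ R L u₁ = ff ψ R L u₁ := by
      rw [smul_mul_assoc, ZZ_comm_ff m1, ← mul_smul_comm, c6 u₁ h1 m1]
    have d1 := Submodule.finrank_mono (range_le_of_mul_eq b2)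
    have d2 := tr_idem (H.ff_idem hL hL2 h1 m1)
    rw [H.tr_ff hL2 h1 m1, sub_eq_iff_eq_add] at d2
    have d3 : Nat.card F = finrank ℂ (LinearMap.range (ff ψ R L u₁)) + 1 := by exact_mod_cast d2
    omega
  rw [c3] at a2
  generalize finrank ℂ (LinearMap.range (lam⁻¹ • ZZ ψ R L)) = g at a1 a2 c7
  obtain ⟨Λ, D, hD, a4, a5⟩ := H.glob' h1 h3
  have a6 := H.rel h1 h3
  have a7 := H.tr_one_sub_P h1 h3
  have a8 := H.tr_one_sub_pi h1
  have a9 := H.tr_one_sub_pi h3'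
  rw [hL] at a6 a7
  suffices key : Nat.card F ^ finrank F U + D ≤ Nat.card F * D + Nat.card F ∧
      (g = Nat.card F ∨ Nat.card F ^ finrank F U + D ≤ Nat.card F * D + 1) by
    refine ⟨D, hD, key.1, key.2.symm.imp id fun h => ⟨_, c5, by rw [c7, h], ⟨_, rfl⟩, c6⟩⟩
  clear c1 c2 c3 c5 c6 c7
  obtain ⟨k, hk⟩ : ∃ k, finrank F U = k + 3 := ⟨finrank F U - 3, by omega⟩
  have hq : 2 ≤ Nat.card F := Finite.one_lt_card
  have hq0 := qne F
  rw [hk] at a4 a5 a7 a8 a9 ⊢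
  generalize Nat.card F = q at *
  have hy : q ≤ q ^ (k + 1) := by
    calc q = q ^ 1 := (pow_one q).symm
      _ ≤ _ := Nat.pow_le_pow_right (by omega) (by omega)
  have e1 : q ^ (k + 3) = q ^ 2 * q ^ (k + 1) := by ring
  have e2 : (q : ℂ) ^ (k + 3) = q ^ 2 * ((q ^ (k + 1) : ℕ) : ℂ) := by push_cast; ring
  rw [e1]
  rw [e2] at a4 a5 a7 a8 a9
  refine arith_sl' hq hy a1 ?_
  have hy3 : 2 ≤ q * q ^ (k + 1) := by nlinarith
  generalize q ^ (k + 1) = y at *
  have b1 : tr (1 - ee ψ R u₁ 0) = q * y - 1 := by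
    apply mul_left_cancel₀ hq0
    rw [a8]
    ring
  have b2 : tr (1 - ee ψ R u₂ 0) = q * y - 1 := by
    apply mul_left_cancel₀ hq0
    rw [a9]
    ring
  have b3 : tr (1 - PP ψ R L u₁ * PP ψ R L u₂) = (q + 1) * (y - 1) := by
    apply mul_left_cancel₀ (pow_ne_zero 2 hq0)
    rw [a7]
    ring
  have b4 : (q : ℂ) * y - 1 ≠ 0 := by
    rw [sub_ne_zero]
    exact_mod_cast (show q * y ≠ 1 by omega)
  rw [b1] at a4 a5
  rw [b1, b2, b3] at a6
  have b5 : Λ = q * (q - 1) * (y - 1) + lam := by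
    apply mul_right_cancel₀ b4
    rw [a5, a6, a3]
    ring
  have b6 : (D : ℂ) * (q * (q - 1) * (y - 1) * g + (q ^ 2 - 1) * (q - 1)) =
      (q ^ 2 * y - 1) * (q * y - 1) * g := by
    rw [← a4, ← a2, b5]
    ring
  exact_mod_cast b6

end H2.MD
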