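/- Idempotents of the Eichler groups of an orthogonal group in a complex representation. -/
import Cfsg.Agent.H2.MDSL4
import Cfsg.Agent.H60.Ext
import Cfsg.Agent.H56.OrthCard
import Cfsg.Agent.H56.Root

set_option autoImplicit false
set_option linter.unusedSectionVars false

namespace H2.MD

open Module Finset Submodule H56 QuadraticMap

section Res

variable {V : Type*} [AddCommGroup V] [Module ℂ V]

/-- `T'` is the restriction of `T` to `p`. -/
def Res (p : Submodule ℂ V) (T : End ℂ V) (T' : End ℂ p) : Prop := ∀ x : p, (T' x : V) = T x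

variable {p : Submodule ℂ V}

theorem Res.mul {S T : End ℂ V} {S' T' : End ℂ p} (h : Res p S S') (h' : Res p T T') :
    Res p (S * T) (S' * T') := fun x => by
  rw [Module.End.mul_apply, Module.End.mul_apply, h, h']

theorem Res.one : Res p 1 1 := fun _ => rfl

theorem Res.zero : Res p 0 0 := fun _ => rfl

theorem Res.smul {T : End ℂ V} {T' : End ℂ p} (h : Res p T T') (c : ℂ) :
    Res p (c • T) (c • T') := fun x => by simp [h x]

theorem Res.sub {S T : End ℂ V} {S' T' : End ℂ p} (h : Res p S S') (h' : Res p T T') :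
    Res p (S - T) (S' - T') := fun x => by simp [h x, h' x]

theorem Res.sum {ι : Type*} (s : Finset ι) {T : ι → End ℂ V} {T' : ι → End ℂ p}
    (h : ∀ i ∈ s, Res p (T i) (T' i)) : Res p (∑ i ∈ s, T i) (∑ i ∈ s, T' i) := fun x => by
  simp only [LinearMap.coe_sum, Finset.sum_apply, Submodule.coe_sum]
  exact Finset.sum_congr rfl fun i hi => h i hi x

theorem Res.ide {F M : Type*} [Field F] [AddCommGroup M] [Module F M] [Fintype M]
    {ψ : AddChar F ℂ} {τ : M → End ℂ V} {τ' : M → End ℂ p} (h : ∀ a, Res p (τ a) (τ' a))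
    (β : Dual F M) : Res p (ide ψ τ β) (ide ψ τ' β) :=
  (Res.sum _ fun a _ => (h a).smul _).smul _

theorem Res.eq {S T : End ℂ V} {S' T' : End ℂ p} (h : Res p S S') (h' : Res p T T')
    (e : ∀ x ∈ p, S x = T x) : S' = T' :=
  LinearMap.ext fun x => Subtype.ext (by rw [h, h', e x x.2])

theorem Res.congr {S T : End ℂ V} {S' : End ℂ p} (h : Res p S S') (e : ∀ x ∈ p, S x = T x) :
    Res p T S' := fun x => by rw [h, e x x.2]

theorem eq_on_range {π S T : End ℂ V} (h : S * π = T * π) : ∀ x ∈ LinearMap.range π, S x = T x := by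
  rintro _ ⟨y, rfl⟩
  exact LinearMap.congr_fun h y

theorem Res.tr_eq [FiniteDimensional ℂ V] {π T : End ℂ V} (hπ : π * π = π)
    {T' : End ℂ (LinearMap.range π)} (h : Res _ T T') : tr T' = tr (T * π) := by
  have e1 : T * π = (LinearMap.range π).subtype ∘ₗ (T' ∘ₗ π.rangeRestrict) := by
    ext x
    simp [h _]
  have e2 : π.rangeRestrict ∘ₗ (LinearMap.range π).subtype = LinearMap.id := by
    ext ⟨_, y, rfl⟩
    exact LinearMap.congr_fun hπ y
  unfold tr
  rw [e1, LinearMap.trace_comp_comm', LinearMap.comp_assoc, e2, LinearMap.comp_id]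

theorem Res.tr_of_le [FiniteDimensional ℂ V] {T : End ℂ V} {T' : End ℂ p} (h : Res p T T')
    (hp : ∀ x, T x ∈ p) : tr T' = tr T := by
  have e1 : T = p.subtype ∘ₗ T.codRestrict p hp := by
    ext x
    simp
  have e2 : T.codRestrict p hp ∘ₗ p.subtype = T' := by
    ext x
    simp [h x]
  unfold tr
  conv_rhs => rw [e1]
  rw [LinearMap.trace_comp_comm', e2]

/-- Restriction of a representation to an invariant subspace. -/
def resHom {G : Type*} [Group G] (R : G →* End ℂ V) (p : Submodule ℂ V)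
    (h : ∀ g, ∀ x ∈ p, R g x ∈ p) : G →* End ℂ p where
  toFun g := (R g).restrict (h g)
  map_one' := by
    ext x
    simp
  map_mul' g g' := by
    ext x
    simp

theorem res_resHom {G : Type*} [Group G] (R : G →* End ℂ V) (p : Submodule ℂ V)
    (h : ∀ g, ∀ x ∈ p, R g x ∈ p) (g : G) : Res p (R g) (resHom R p h g) := fun _ => rfl

theorem mem_range_idem {π : End ℂ V} (hπ : π * π = π) {x : V} :
    x ∈ LinearMap.range π ↔ π x = x :=
  ⟨by rintro ⟨y, rfl⟩; exact LinearMap.congr_fun hπ y, fun h => ⟨x, h⟩⟩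

end Res

section IdeL

variable {V : Type*} [AddCommGroup V] [Module ℂ V]
variable {F : Type*} [Field F] {M : Type*} [AddCommGroup M] [Module F M]
variable [Fintype M] {ψ : AddChar F ℂ} {τ : M → End ℂ V}

theorem ide_mul_eq_self {T : End ℂ V} {β : Dual F M}
    (h : ∀ a, τ a * T = ψ (β a) • T) : ide ψ τ β * T = T := by
  unfold ide
  simp [Finset.sum_mul, h, smul_smul, ← AddChar.map_add_eq_mul, ← Nat.cast_smul_eq_nsmul ℂ,
    card_ne_zero M]

theorem ide_mul_eq_zero (hψ : ψ ≠ 1) {T : End ℂ V} {β γ : Dual F M}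
    (h : ∀ a, τ a * T = ψ (γ a) • T) (hb : β ≠ γ) : ide ψ τ β * T = 0 := by
  unfold ide
  rw [smul_mul_assoc, Finset.sum_mul]
  simp only [smul_mul_assoc, h, smul_smul, ← AddChar.map_add_eq_mul, ← Finset.sum_smul]
  have := sum_psi_of_ne hψ (sub_ne_zero.2 hb.symm)
  simp only [LinearMap.sub_apply] at this
  simp only [sub_eq_neg_add] at this
  rw [this]
  simp

/-- The average over `M` of the indicator function of a hyperplane. -/
theorem tr_mul_ide_zero [Finite F] (hψ : ψ ≠ 1) {T : End ℂ V} {γ : Dual F M} (hγ : γ ≠ 0) {m : ℂ}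
    (h0 : ∀ a, γ a = 0 → tr (T * τ a) = m) (h1 : ∀ a, γ a ≠ 0 → tr (T * τ a) = 0) :
    (Nat.card F : ℂ) * tr (T * ide ψ τ (0 : Dual F M)) = m := by
  classical
  have := Fintype.ofFinite F
  have a1 : ∀ a, (Nat.card F : ℂ) * tr (T * τ a) = m * ∑ s : F, ψ (s * γ a) := by
    intro a
    have b1 := sum_psi hψ ((γ a) • (LinearMap.id : Dual F F))
    simp only [LinearMap.smul_apply, LinearMap.id_apply, smul_eq_mul] at b1
    simp only [mul_comm _ (γ a), b1]
    by_cases h : γ a = 0
    · rw [h0 a h, h]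
      simp [mul_comm]
    · rw [if_neg (fun h' => h (by simpa using LinearMap.congr_fun h' 1)), h1 a h]
      simp
  have a2 : ∑ a, ∑ s : F, ψ (s * γ a) = Fintype.card M := by
    rw [Finset.sum_comm, Finset.sum_eq_single 0]
    · simp
    · intro s _ hs
      exact sum_psi_of_ne hψ (β := s • γ) (smul_ne_zero hs hγ)
    · simp
  unfold ide
  simp only [LinearMap.zero_apply, neg_zero, AddChar.map_zero_eq_one, one_smul]
  rw [mul_smul_comm, tr_smul, Finset.mul_sum, mul_left_comm]
  unfold tr at a1 ⊢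
  rw [map_sum, Finset.mul_sum, Finset.sum_congr rfl fun a _ => a1 a, ← Finset.mul_sum, a2,
    mul_left_comm, inv_mul_cancel₀ (card_ne_zero _), mul_one]

end IdeL

variable {F W : Type*} [Field F] [AddCommGroup W] [Module F W] [FiniteDimensional F W]

/-- An Eichler transformation as an element of `EG Q`. -/
noncomputable def EE (Q : QuadraticForm F W) (u v : W) : EG Q := ⟨eich Q u v, eich_mem_EG u v⟩

/-- The functional `polar Q α` on a subspace. -/
def pb (Q : QuadraticForm F W) (S : Submodule F W) : W →ₗ[F] Dual F S :=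
  (LinearMap.lcomp F F S.subtype) ∘ₗ polarBilin Q

variable {Q : QuadraticForm F W}

@[simp] theorem pb_apply (S : Submodule F W) (α : W) (v : S) : pb Q S α v = polar Q α v := rfl

@[simp] theorem coe_EE (u v : W) : (EE Q u v : O Q) = eich Q u v := rfl

theorem EE_add {u v w : W} (hu : Q u = 0) (h1 : polar Q u v = 0) (h2 : polar Q u w = 0) :
    EE Q u (v + w) = EE Q u v * EE Q u w := Subtype.ext (eich_add hu h1 h2)

theorem EE_zero (u : W) : EE Q u 0 = 1 := Subtype.ext (eich_zero u)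

theorem EE_zero_left (u : W) : EE Q 0 u = 1 := Subtype.ext (eich_zero_left u)

theorem conj_EE (g : EG Q) (u v : W) : g * EE Q u v = EE Q (g.1 u) (g.1 v) * g := by
  apply Subtype.ext
  show g.1 * eich Q u v = eich Q (g.1 u) (g.1 v) * g.1
  rw [← conj_eich, inv_mul_cancel_right]

theorem EE_smul_left (a : F) {u v : W} (hu : Q u = 0) (h : polar Q u v = 0) :
    EE Q (a • u) v = EE Q u (a • v) := Subtype.ext (eich_smul_left a u v hu h)

theorem EE_smul_self (a : F) {u : W} (hu : Q u = 0) : EE Q u (a • u) = 1 :=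
  Subtype.ext (eich_smul_self a hu)

theorem EE_swap {u v : W} (hu : Q u = 0) (hv : Q v = 0) (h : polar Q u v = 0) :
    EE Q v u = EE Q u (-v) := Subtype.ext (by
  show eich Q v u = eich Q u (-v)
  rw [eich_swap hu hv h, eich_neg])

theorem mem_ort {u v : W} : v ∈ perp Q (span F {u}) ↔ polar Q u v = 0 := mem_perp_span_singleton

theorem pb_eq_iff {S : Submodule F W} {α α' : W} : pb Q S α = pb Q S α' ↔ α - α' ∈ perp Q S := by
  rw [mem_perp']
  constructor
  · intro h v hv
    have := LinearMap.congr_fun h ⟨v, hv⟩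
    simp only [pb_apply] at this
    rw [polar_sub_left, this, sub_self]
  · intro h
    ext v
    have := h v v.2
    rw [polar_sub_left, sub_eq_zero] at this
    simpa using this

variable [Finite W]

noncomputable instance fintypeSubW (S : Submodule F W) : Fintype S := Fintype.ofFinite S

variable {V : Type*} [AddCommGroup V] [Module ℂ V] (ψ : AddChar F ℂ) (R : EG Q →* End ℂ V)

/-- The idempotent of a character of the group of the `eich u v`, `v ∈ S`. -/
noncomputable def oi (S : Submodule F W) (u α : W) : End ℂ V :=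
  ide ψ (fun v : S => R (EE Q u v)) (pb Q S α)

/-- The idempotent of a character of the full Eichler group at `u`. -/
noncomputable def oe (u α : W) : End ℂ V := oi ψ R (perp Q (span F {u})) u α

variable {ψ R}

theorem isRep_EE {S : Submodule F W} {u : W} (hu : Q u = 0) (hS : S ≤ perp Q (span F {u})) :
    IsRep (fun v : S => R (EE Q u v)) :=
  ⟨by simp [EE_zero], fun a b => by
    simp only [Submodule.coe_add]
    rw [EE_add hu (mem_ort.1 (hS a.2)) (mem_ort.1 (hS b.2)), map_mul]⟩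

section
variable {S : Submodule F W} {u : W} (hu : Q u = 0) (hS : S ≤ perp Q (span F {u}))
include hu hS

theorem oi_idem (hψ : ψ ≠ 1) (α : W) : oi ψ R S u α * oi ψ R S u α = oi ψ R S u α :=
  ide_idem hψ (isRep_EE hu hS) _

theorem oi_mul_EE (α : W) {v : W} (hv : v ∈ S) :
    oi ψ R S u α * R (EE Q u v) = ψ (polar Q α v) • oi ψ R S u α :=
  ide_mul (isRep_EE hu hS) (pb Q S α) ⟨v, hv⟩

theorem EE_mul_oi (α : W) {v : W} (hv : v ∈ S) :
    R (EE Q u v) * oi ψ R S u α = ψ (polar Q α v) • oi ψ R S u α :=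
  mul_ide (isRep_EE hu hS) (pb Q S α) ⟨v, hv⟩

end

theorem comm_oi {S : Submodule F W} {u : W} {T : End ℂ V}
    (h : ∀ v ∈ S, T * R (EE Q u v) = R (EE Q u v) * T) (α : W) :
    T * oi ψ R S u α = oi ψ R S u α * T := by
  unfold oi
  exact comm_ide (τ := fun v : S => R (EE Q u v)) (fun v : S => h v v.2) _

theorem oi_mul_eq_self {S : Submodule F W} {u α : W} {T : End ℂ V}
    (h : ∀ v ∈ S, R (EE Q u v) * T = ψ (polar Q α v) • T) : oi ψ R S u α * T = T := by
  unfold oi
  exact ide_mul_eq_self fun v => h v v.2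

theorem mul_oi_eq_self {S : Submodule F W} {u α : W} {T : End ℂ V}
    (h : ∀ v ∈ S, T * R (EE Q u v) = ψ (polar Q α v) • T) : T * oi ψ R S u α = T := by
  unfold oi
  exact mul_ide_eq_self fun v => h v v.2

theorem mul_oi_eq_zero (hψ : ψ ≠ 1) {S : Submodule F W} {u α γ : W} {T : End ℂ V}
    (h : ∀ v ∈ S, T * R (EE Q u v) = ψ (polar Q γ v) • T) (hα : α - γ ∉ perp Q S) :
    T * oi ψ R S u α = 0 := by
  unfold oi
  exact mul_ide_eq_zero hψ (γ := pb Q S γ) (fun v => h v v.2) fun h' => hα (pb_eq_iff.1 h')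

theorem oi_congr {S : Submodule F W} {u α α' : W} (h : α - α' ∈ perp Q S) :
    oi ψ R S u α = oi ψ R S u α' := by
  unfold oi
  rw [pb_eq_iff.2 h]

theorem conj_oi (g : EG Q) {S S' : Submodule F W} (h : ∀ v, v ∈ S ↔ g.1 v ∈ S') (u α : W) :
    R g * oi ψ R S u α = oi ψ R S' (g.1 u) (g.1 α) * R g := by
  refine conj_ide (Equiv.subtypeEquiv g.1.1.toEquiv h) (fun v => ?_) (fun v => ?_)
  · simp only [← map_mul]
    rw [conj_EE]
    rfl
  · exact g.1.map_polar α v

theorem oi_smul {S : Submodule F W} {u : W} (hu : Q u = 0) (hS : S ≤ perp Q (span F {u})) {c : F}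
    (hc : c ≠ 0) (α : W) : oi ψ R S (c • u) (c • α) = oi ψ R S u α := by
  have := conj_ide (ψ := ψ) (τ := fun v : S => R (EE Q (c • u) v))
    (τ' := fun v : S => R (EE Q u v)) (T := 1) (β := pb Q S (c • α)) (β' := pb Q S α)
    (LinearEquiv.smulOfNeZero F S c hc).toEquiv (fun v => ?_) (fun v => ?_)
  · simpa [oi] using this
  · simp only [one_mul, mul_one]
    rw [EE_smul_left c hu (mem_ort.1 (hS v.2))]
    rfl
  · simp

theorem oe_idem (hψ : ψ ≠ 1) {u : W} (hu : Q u = 0) (α : W) :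
    oe ψ R u α * oe ψ R u α = oe ψ R u α := oi_idem hu le_rfl hψ α

theorem oe_mul_EE {u : W} (hu : Q u = 0) (α : W) {v : W} (hv : polar Q u v = 0) :
    oe ψ R u α * R (EE Q u v) = ψ (polar Q α v) • oe ψ R u α :=
  oi_mul_EE hu le_rfl α (mem_ort.2 hv)

theorem EE_mul_oe {u : W} (hu : Q u = 0) (α : W) {v : W} (hv : polar Q u v = 0) :
    R (EE Q u v) * oe ψ R u α = ψ (polar Q α v) • oe ψ R u α :=
  EE_mul_oi hu le_rfl α (mem_ort.2 hv)

theorem oe_congr {u α α' : W} (h : α - α' ∈ span F {u}) : oe ψ R u α = oe ψ R u α' :=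
  oi_congr (le_perp_perp _ h)

theorem oe_orth (hQ : Q.polarBilin.Nondegenerate) (hψ : ψ ≠ 1) {u α α' : W} (hu : Q u = 0)
    (h : α - α' ∉ span F {u}) : oe ψ R u α * oe ψ R u α' = 0 :=
  ide_orth hψ (isRep_EE hu le_rfl) fun h' => h (by rwa [pb_eq_iff, perp_perp hQ] at h')

theorem conj_oe (g : EG Q) (u α : W) :
    R g * oe ψ R u α = oe ψ R (g.1 u) (g.1 α) * R g :=
  conj_oi g (fun v => by rw [mem_ort, mem_ort, O.map_polar]) u α

theorem oe_smul {u : W} (hu : Q u = 0) {c : F} (hc : c ≠ 0) (α : W) :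
    oe ψ R (c • u) (c • α) = oe ψ R u α := by
  unfold oe
  rw [span_singleton_smul_eq (IsUnit.mk0 c hc), oi_smul hu le_rfl hc]

theorem comm_oe {g : EG Q} {u α : W} (h1 : g.1 u = u) (h2 : g.1 α - α ∈ span F {u}) :
    R g * oe ψ R u α = oe ψ R u α * R g := by
  rw [conj_oe, h1, oe_congr h2]

theorem EE_comm_oe {u α a b : W} (h1 : polar Q a u = 0) (h2 : polar Q b u = 0)
    (h3 : polar Q a α = 0) (h4 : polar Q b α = 0) :
    R (EE Q a b) * oe ψ R u α = oe ψ R u α * R (EE Q a b) :=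
  comm_oe (eich_apply_of_orth_orth h1 h2) (by
    rw [coe_EE, eich_apply_of_orth_orth h3 h4, sub_self]
    exact zero_mem _)

theorem oe_eq_zero (hψ : ψ ≠ 1) {u α : W} (hu : Q u = 0) (h : polar Q u α ≠ 0) :
    oe ψ R u α = 0 := by
  obtain ⟨s, hs⟩ := exists_psi_ne_one hψ h
  have := oe_mul_EE (ψ := ψ) (R := R) hu α (v := s • u) (by simp [hu])
  rw [EE_smul_self s hu, map_one, mul_one, polar_smul_right, polar_comm _ α, smul_eq_mul] at this
  have h2 : (1 - ψ (s * polar Q u α)) • oe ψ R u α = 0 := by rw [sub_smul, one_smul, ← this, sub_self]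
  exact (smul_eq_zero.1 h2).resolve_left (sub_ne_zero.2 hs.symm)

theorem oe_comm_oi {S : Submodule F W} {u : W} (hu : Q u = 0) (hS : S ≤ perp Q (span F {u}))
    (α γ : W) : oe ψ R u α * oi ψ R S u γ = oi ψ R S u γ * oe ψ R u α :=
  comm_ide (fun v => by
    rw [oe_mul_EE hu α (mem_ort.1 (hS v.2)), EE_mul_oe hu α (mem_ort.1 (hS v.2))]) _

theorem oe_mul_oi_of_mem {S : Submodule F W} {u : W} (hu : Q u = 0) (hS : S ≤ perp Q (span F {u}))
    {α γ : W} (h : α - γ ∈ perp Q S) : oe ψ R u α * oi ψ R S u γ = oe ψ R u α :=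
  mul_ide_eq_self fun v => by
    rw [oe_mul_EE hu α (mem_ort.1 (hS v.2)), ← pb_eq_iff.2 h]
    rfl

theorem oe_mul_oi_of_notMem (hψ : ψ ≠ 1) {S : Submodule F W} {u : W} (hu : Q u = 0)
    (hS : S ≤ perp Q (span F {u})) {α γ : W} (h : α - γ ∉ perp Q S) :
    oe ψ R u α * oi ψ R S u γ = 0 :=
  mul_ide_eq_zero hψ (γ := pb Q S α) (fun v => oe_mul_EE hu α (mem_ort.1 (hS v.2)))
    fun h' => h (pb_eq_iff.1 h'.symm)

variable [Finite F] [Fintype W]

theorem sum_oe (hQ : Q.polarBilin.Nondegenerate) (hψ : ψ ≠ 1) {u : W} (hu0 : u ≠ 0)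
    (hu : Q u = 0) : ∑ α, oe ψ R u α = (Nat.card F : ℂ) • (1 : End ℂ V) := by
  unfold oe oi
  rw [sum_ide hψ (isRep_EE hu le_rfl) (pb Q _)
    (fun v h => Subtype.ext (eq_zero_of_polar hQ fun w => by rw [polar_comm]; exact h w)),
    ← Nat.card_eq_fintype_card, ← Nat.card_eq_fintype_card,
    Module.natCard_eq_pow_finrank (K := F) (V := W),
    Module.natCard_eq_pow_finrank (K := F) (V := perp Q (span F {u})),
    ← finrank_perp hQ (span F {u}), finrank_span_singleton hu0]
  congr 1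
  have := qne F
  push_cast
  field_simp
  rw [pow_succ]

open Classical in
theorem oi_eq_sum (hQ : Q.polarBilin.Nondegenerate) (hψ : ψ ≠ 1) {S : Submodule F W} {u : W}
    (hu0 : u ≠ 0) (hu : Q u = 0) (hS : S ≤ perp Q (span F {u})) (γ : W) :
    (Nat.card F : ℂ) • oi ψ R S u γ = ∑ α ∈ univ.filter (fun α => α - γ ∈ perp Q S), oe ψ R u α := by
  have : (Nat.card F : ℂ) • oi ψ R S u γ = (∑ α, oe ψ R u α) * oi ψ R S u γ := by
    rw [sum_oe hQ hψ hu0 hu, smul_mul_assoc, one_mul]
  rw [this, Finset.sum_mul, Finset.sum_filter]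
  refine Finset.sum_congr rfl fun α _ => ?_
  split_ifs with h
  · exact oe_mul_oi_of_mem hu hS h
  · exact oe_mul_oi_of_notMem hψ hu hS h

end H2.MD
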