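/- Descent of the multiplicities from an orthogonal group to the Levi factor of a point
stabiliser. -/
import Cfsg.Agent.H2.MDO1

set_option autoImplicit false
set_option linter.unusedSectionVars false

namespace H2.MD

open Module Finset Submodule H56 QuadraticMap

variable {F W : Type*} [Field F] [AddCommGroup W] [Module F W] [FiniteDimensional F W]
variable {Q : QuadraticForm F W}

/-- The embedding of the Eichler group of a non-degenerate subspace. -/
noncomputable def iota (hQ : Q.polarBilin.Nondegenerate) {U : Submodule F W}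
    (hU : H60.Nondeg Q U) : EG (Q.restrict U) →* EG Q :=
  ((H60.extO hQ hU).comp (EG (Q.restrict U)).subtype).codRestrict (EG Q) fun g => by
    have : EG (Q.restrict U) ≤ (EG Q).comap (H60.extO hQ hU) := EG_le fun u v _ _ _ => by
      rw [Subgroup.mem_comap, H60.extO_eich]
      exact eich_mem_EG _ _
    exact this g.2

theorem iota_EE (hQ : Q.polarBilin.Nondegenerate) {U : Submodule F W} (hU : H60.Nondeg Q U)
    (u v : U) : iota hQ hU (EE _ u v) = EE Q u v := Subtype.ext (H60.extO_eich u v)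

theorem iota_mem (hQ : Q.polarBilin.Nondegenerate) {U : Submodule F W} (hU : H60.Nondeg Q U)
    (g : EG (Q.restrict U)) (x : U) : (iota hQ hU g).1 x = g.1 x := H60.extO_mem g.1 x

theorem iota_perp (hQ : Q.polarBilin.Nondegenerate) {U : Submodule F W} (hU : H60.Nondeg Q U)
    (g : EG (Q.restrict U)) {x : W} (hx : x ∈ perp Q U) : (iota hQ hU g).1 x = x :=
  H60.extO_perp g.1 hx

theorem left_mem_perp_hperp (e f : W) : e ∈ perp Q (hperp Q e f) :=
  mem_perp'.2 fun _ hw => (mem_hperp.1 hw).1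

theorem right_mem_perp_hperp (e f : W) : f ∈ perp Q (hperp Q e f) :=
  mem_perp'.2 fun _ hw => (mem_hperp.1 hw).2

theorem exists_swap {e f u g : W} (h : IsHyp Q e f) (h' : IsHyp Q u g) (eu : polar Q e u = 0)
    (fu : polar Q f u = 0) (eg : polar Q e g = 0) :
    ∃ n : EG Q, n.1 e = -u ∧ n.1 u = e ∧ ∀ x, polar Q e x = 0 → polar Q f x = 0 →
      polar Q u x = 0 → polar Q g x = 0 → n.1 x = x := by
  have ue : polar Q u e = 0 := by rw [polar_comm, eu]
  have uf : polar Q u (-f) = 0 := by rw [polar_neg_right, polar_comm, fu, neg_zero]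
  have ge : polar Q g e = 0 := by rw [polar_comm, eg]
  have x1 : eich Q e g e = e := eich_apply_self h.qe eg
  have x2 : eich Q e g u = u + e := by
    rw [eich_apply_of_orth h.qe eg eu, h'.fe, one_smul]
  have y1 : eich Q u (-f) e = e - u := by
    rw [eich_apply_of_orth h'.qe uf ue, polar_neg_left, h.fe, neg_smul, one_smul, sub_eq_add_neg]
  have y2 : eich Q u (-f) u = u := eich_apply_self h'.qe uf
  refine ⟨EE Q e g * EE Q u (-f) * EE Q e g, ?_, ?_, fun x a b c d => ?_⟩
  · show eich Q e g (eich Q u (-f) (eich Q e g e)) = -u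
    rw [x1, y1, map_sub, x1, x2]
    abel
  · show eich Q e g (eich Q u (-f) (eich Q e g u)) = e
    rw [x2, map_add, y1, y2, add_sub_cancel, x1]
  · show eich Q e g (eich Q u (-f) (eich Q e g x)) = x
    rw [eich_apply_of_orth_orth a d, eich_apply_of_orth_orth c (by rw [polar_neg_left, b, neg_zero]),
      eich_apply_of_orth_orth a d]

variable [Finite W] [Finite F]
variable {V : Type*} [AddCommGroup V] [Module ℂ V] [FiniteDimensional ℂ V] (ψ : AddChar F ℂ)
  (R : EG Q →* End ℂ V)

/-- The multiplicity of the character `α` of an Eichler group is `m (Q α)`, and the long root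
elements fixing `u` and `α` act trivially on its eigenspace. -/
structure Good (m : F → ℕ) : Prop where
  tr : ∀ u α, u ≠ 0 → Q u = 0 → polar Q u α = 0 → α ∉ span F {u} → tr (oe ψ R u α) = m (Q α)
  th : ∀ u α a b, u ≠ 0 → Q u = 0 → polar Q u α = 0 → α ∉ span F {u} → Q a = 0 →
    polar Q a b = 0 → polar Q a u = 0 → polar Q b u = 0 → polar Q a α = 0 → polar Q b α = 0 →
    oe ψ R u α * R (EE Q a b) = oe ψ R u α

/-- The representation of the Levi factor on the fixed points of the Eichler group at `e`. -/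
noncomputable def down (hQ : Q.polarBilin.Nondegenerate) {e f : W} (h : IsHyp Q e f) :
    EG (Q.restrict (hperp Q e f)) →* End ℂ (LinearMap.range (oe ψ R e 0)) :=
  resHom (R.comp (iota hQ (h.nondeg_hperp hQ))) _ fun g => by
    rintro _ ⟨x, rfl⟩
    refine ⟨R (iota hQ (h.nondeg_hperp hQ) g) x, ?_⟩
    have := comm_oe (ψ := ψ) (R := R) (α := 0) (iota_perp hQ (h.nondeg_hperp hQ) g
      (left_mem_perp_hperp e f)) (by simp)
    exact (LinearMap.congr_fun this x).symm

variable {ψ R}

theorem res_down (hQ : Q.polarBilin.Nondegenerate) {e f : W} (h : IsHyp Q e f)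
    (g : EG (Q.restrict (hperp Q e f))) :
    Res _ (R (iota hQ (h.nondeg_hperp hQ) g)) (down ψ R hQ h g) := fun _ => rfl

theorem res_down_EE (hQ : Q.polarBilin.Nondegenerate) {e f : W} (h : IsHyp Q e f)
    (u v : hperp Q e f) : Res _ (R (EE Q u v)) (down ψ R hQ h (EE _ u v)) := by
  rw [← iota_EE hQ (h.nondeg_hperp hQ)]
  exact res_down hQ h _

theorem EE_mul_pi {e v : W} (he : Q e = 0) (hv : polar Q e v = 0) :
    R (EE Q e v) * oe ψ R e 0 = oe ψ R e 0 := by
  rw [EE_mul_oe he 0 hv]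
  simp

theorem pi_mul_EE {e v : W} (he : Q e = 0) (hv : polar Q e v = 0) :
    oe ψ R e 0 * R (EE Q e v) = oe ψ R e 0 := by
  rw [oe_mul_EE he 0 hv]
  simp

theorem perp_pair_le_left (e u : W) : perp Q (span F {e, u}) ≤ perp Q (span F {e}) :=
  perp_anti (span_mono (by simp))

theorem perp_pair_le_right (e u : W) : perp Q (span F {e, u}) ≤ perp Q (span F {u}) :=
  perp_anti (span_mono (by simp))

theorem ide_pi_eq {e u β : W} (he : Q e = 0) (hu : Q u = 0) (eu : polar Q e u = 0)
    (eβ : polar Q e β = 0) {M : Type*} [AddCommGroup M] [Module F M] [Fintype M] (j : M →ₗ[F] W)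
    (h1 : ∀ v, polar Q e (j v) = 0) (h2 : ∀ v, polar Q u (j v) = 0)
    (h3 : ∀ v, polar Q e v = 0 → polar Q u v = 0 → ∃ (w : M) (s : F), v = j w + s • e)
    (β' : Dual F M) (h4 : ∀ v, β' v = polar Q β (j v)) :
    ide ψ (fun v => R (EE Q u (j v))) β' * oe ψ R e 0 =
      oi ψ R (perp Q (span F {e, u})) u β * oe ψ R e 0 := by
  have ue : polar Q u e = 0 := by rw [polar_comm, eu]
  have hrep : IsRep (fun v => R (EE Q u (j v))) :=
    ⟨by simp [EE_zero], fun a b => by rw [map_add, EE_add hu (h2 a) (h2 b), map_mul]⟩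
  have c4 := mul_ide (ψ := ψ) hrep β'
  have a2 : ∀ v, polar Q u v = 0 → R (EE Q u v) * ide ψ (fun v => R (EE Q u (j v))) β' =
      ide ψ (fun v => R (EE Q u (j v))) β' * R (EE Q u v) := fun v hv =>
    comm_ide (fun w => by rw [← map_mul, ← map_mul, ← EE_add hu hv (h2 w), ← EE_add hu (h2 w) hv,
      add_comm]) _
  have a1 : ide ψ (fun v => R (EE Q u (j v))) β' * oi ψ R (perp Q (span F {e, u})) u β =
      oi ψ R (perp Q (span F {e, u})) u β := ide_mul_eq_self fun v => by
    rw [EE_mul_oi hu (perp_pair_le_right _ _) _ (mem_perp_span_pair.2 ⟨h1 v, h2 v⟩), h4]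
  generalize ide ψ (fun v => R (EE Q u (j v))) β' = J at a1 a2 c4 ⊢
  have a3 : J * oi ψ R (perp Q (span F {e, u})) u β = oi ψ R (perp Q (span F {e, u})) u β * J :=
    comm_oi (fun v hv => (a2 v (mem_perp_span_pair.1 hv).2).symm) _
  have a4 : oi ψ R (perp Q (span F {e, u})) u β * (J * oe ψ R e 0) = J * oe ψ R e 0 :=
    oi_mul_eq_self fun v hv => by
      obtain ⟨b1, b2⟩ := mem_perp_span_pair.1 hv
      obtain ⟨w, s, hw⟩ := h3 v b1 b2
      have c5 : EE Q u (s • e) = EE Q e (-(s • u)) := by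
        rw [← EE_swap he (by rw [Q_smul, hu, mul_zero]) (by simp [eu]), EE_smul_left s hu ue]
      rw [hw, EE_add hu (h2 w) (by simp [ue]), map_mul, mul_assoc, ← mul_assoc _ J,
        a2 _ (by simp [ue]), c5, mul_assoc, EE_mul_pi he (by simp [eu]), ← mul_assoc, c4,
        smul_mul_assoc, h4, polar_add_right, polar_smul_right, polar_comm _ β e, eβ, smul_zero,
        add_zero]
  rw [← a4, ← mul_assoc, ← a3, a1]

theorem res_oe_down (hQ : Q.polarBilin.Nondegenerate) {e f : W} (h : IsHyp Q e f)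
    {u β : hperp Q e f} (hu : Q u = 0) :
    Res _ (oi ψ R (perp Q (span F {e, u.1})) u β) (oe ψ (down ψ R hQ h) u β) := by
  have eu : polar Q e u = 0 := (mem_hperp.1 u.2).1
  have ue : polar Q u e = 0 := by rw [polar_comm, eu]
  let j : perp (Q.restrict (hperp Q e f)) (span F {u}) →ₗ[F] W :=
    (hperp Q e f).subtype ∘ₗ (perp (Q.restrict (hperp Q e f)) (span F {u})).subtype
  have r1 : Res _ (ide ψ (fun v => R (EE Q u (j v))) (pb (Q.restrict (hperp Q e f)) _ β))
      (oe ψ (down ψ R hQ h) u β) := by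
    unfold oe oi
    refine Res.ide (fun v => ?_) _
    exact res_down_EE hQ h u v.1
  refine r1.congr (eq_on_range (ide_pi_eq h.qe hu eu (mem_hperp.1 β.2).1 j
    (fun v => (mem_hperp.1 v.1.2).1) (fun v => ?_) (fun v b1 b2 => ?_) _ (fun v => ?_)))
  · have := mem_ort.1 v.2
    rwa [H60.polar_restrict'] at this
  · have c1 : v - polar Q f v • e ∈ hperp Q e f :=
      mem_hperp.2 ⟨by simp [b1, h.qe], by simp [h.fe]⟩
    refine ⟨⟨⟨_, c1⟩, mem_ort.2 ?_⟩, polar Q f v, (sub_add_cancel _ _).symm⟩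
    rw [H60.polar_restrict']
    simp [b2, ue]
  · rw [pb_apply, H60.polar_restrict']
    rfl

variable [Fintype W] {m : F → ℕ}

section Core

variable (hQ : Q.polarBilin.Nondegenerate) (hψ : ψ ≠ 1) (H : Good ψ R m) {e u β : W}
  (he0 : e ≠ 0) (he : Q e = 0) (hu : Q u = 0) (eu : polar Q e u = 0)
include hQ hψ H he0 he hu eu

theorem Good.claim1 (hβ : β ∉ span F {e, u}) :
    oi ψ R (perp Q (span F {e, u})) e 0 * oi ψ R (perp Q (span F {e, u})) u β =
      oe ψ R e 0 * oi ψ R (perp Q (span F {e, u})) u β := by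
  classical
  apply smul_right_injective _ (qne F)
  simp only
  rw [← smul_mul_assoc, oi_eq_sum hQ hψ he0 he (perp_pair_le_left _ _), perp_perp hQ,
    ← Finset.sum_filter_add_sum_filter_not _ (· ∈ span F {e}), add_mul, Finset.sum_mul,
    Finset.sum_mul, Finset.sum_eq_zero (s := Finset.filter (· ∉ span F {e}) _), add_zero,
    Finset.sum_congr rfl (g := fun _ => oe ψ R e 0 * oi ψ R (perp Q (span F {e, u})) u β),
    Finset.sum_const, ← Nat.cast_smul_eq_nsmul ℂ, Finset.filter_filter]
  · congr 1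
    have := card_filter_mem (F := F) (span F {e})
    rw [finrank_span_singleton he0, pow_one] at this
    rw [← this]
    congr 2
    ext α
    simp only [sub_zero, mem_filter, mem_univ, true_and, and_iff_right_iff_imp]
    exact fun h => span_mono (by simp) h
  · intro α hα
    rw [oe_congr (α' := 0) (by simpa using (mem_filter.1 hα).2)]
  · intro α hα
    simp only [mem_filter, mem_univ, true_and, sub_zero] at hα
    obtain ⟨a, b, rfl⟩ := mem_span_pair.1 hα.1
    refine mul_oi_eq_zero hψ (γ := 0) (fun v hv => ?_) (by rwa [perp_perp hQ, sub_zero])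
    obtain ⟨b1, b2⟩ := mem_perp_span_pair.1 hv
    rw [polar_zero_left, AddChar.map_zero_eq_one, one_smul]
    exact H.th e _ u v he0 he (by simp [he, eu]) hα.2 hu b2 (by rw [polar_comm, eu])
      (by rw [polar_comm, b1]) (by simp [polar_comm Q u e, eu, hu])
      (by simp [polar_comm Q v, b1, b2])

theorem Good.claim4 (hue : u ∉ span F {e}) {α : W} (h1 : polar Q e α = 0) (h2 : polar Q u α = 0)
    (hα : α ∉ span F {e, u}) :
    (Nat.card F : ℂ) * H2.MD.tr (oi ψ R (perp Q (span F {e, u})) u 0 * oe ψ R e α) = m (Q α) := by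
  have hα' : α ∉ span F {e} := fun h => hα (span_mono (by simp) h)
  rw [tr_comm, oi, map_zero]
  refine tr_mul_ide_zero hψ (γ := pb Q _ α) (fun h => hα ?_) (fun v hv => ?_) (fun v hv => ?_)
  · rw [← map_zero (pb Q (perp Q (span F {e, u}))), pb_eq_iff, perp_perp hQ, sub_zero] at h
    exact h
  · obtain ⟨b1, b2⟩ := mem_perp_span_pair.1 v.2
    rw [H.th e α u v he0 he h1 hα' hu b2 (by rw [polar_comm, eu]) (by rw [polar_comm, b1]) h2
      (by rw [polar_comm]; exact hv), H.tr e α he0 he h1 hα']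
  · obtain ⟨b1, b2⟩ := mem_perp_span_pair.1 v.2
    have c1 := conj_oe (ψ := ψ) (R := R) (EE Q u v) e α
    rw [coe_EE, eich_apply_of_orth_orth (by rw [polar_comm, eu]) (by rw [polar_comm, b1]),
      eich_apply_of_orth hu b2 h2] at c1
    have c2 : oe ψ R e α * oe ψ R e (α + polar Q v.1 α • u) = 0 := by
      refine oe_orth hQ hψ he fun h => hue ?_
      rw [sub_add_cancel_left, neg_mem_iff] at h
      exact (smul_mem_iff _ (by rw [polar_comm]; exact hv)).1 h
    rw [← oe_idem hψ he α, mul_assoc, tr_comm, mul_assoc, c1, ← mul_assoc, c2]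
    simp [H2.MD.tr]

theorem Good.claim3 (hue : u ∉ span F {e}) (h1 : polar Q e β = 0) (h2 : polar Q u β = 0)
    (hβ : β ∉ span F {e, u}) :
    H2.MD.tr (oi ψ R (perp Q (span F {e, u})) u 0 * oi ψ R (perp Q (span F {e, u})) e β) =
      m (Q β) := by
  classical
  apply mul_left_cancel₀ (qne F)
  apply mul_left_cancel₀ (qne F)
  rw [← tr_smul _ (_ * _), ← mul_smul_comm, oi_eq_sum hQ hψ he0 he (perp_pair_le_left _ _),
    perp_perp hQ, Finset.mul_sum, ← tr_smul, Finset.smul_sum, tr_sum_const _ _ (m (Q β))]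
  · have e1 : (univ.filter fun α => α - β ∈ span F {e, u}).card =
        (univ.filter (· ∈ span F {e, u})).card :=
      Finset.card_equiv (Equiv.subRight β) (by simp)
    rw [e1, card_filter_mem, finrank_span_pair he0 hue]
    ring
  · intro α hα
    obtain ⟨a, b, hab⟩ := mem_span_pair.1 (mem_filter.1 hα).2
    obtain rfl : α = a • e + b • u + β := by rw [hab, sub_add_cancel]
    rw [tr_smul, H.claim4 hQ hψ he0 he hu eu hue (by simp [he, eu, h1])
      (by simp [polar_comm Q u e, eu, hu, h2]) fun h => hβ ?_]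
    · simp [Q_add, Q_smul, he, hu, eu, h1, h2]
    · exact (Submodule.add_mem_iff_right _ (mem_span_pair.2 ⟨a, b, rfl⟩)).1 h

theorem Good.claim6 (h1 : polar Q e β = 0) (hβ : β ∉ span F {e, u}) {a b : W} (ha : Q a = 0)
    (hab : polar Q a b = 0) (ae : polar Q a e = 0) (be : polar Q b e = 0) (au : polar Q a u = 0)
    (bu : polar Q b u = 0) (aβ : polar Q a β = 0) (bβ : polar Q b β = 0) :
    oi ψ R (perp Q (span F {e, u})) e β * R (EE Q a b) = oi ψ R (perp Q (span F {e, u})) e β := by
  classical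
  apply smul_right_injective _ (qne F)
  simp only
  rw [← smul_mul_assoc, oi_eq_sum hQ hψ he0 he (perp_pair_le_left _ _), perp_perp hQ,
    Finset.sum_mul]
  refine Finset.sum_congr rfl fun α hα => ?_
  obtain ⟨s, t, hst⟩ := mem_span_pair.1 (mem_filter.1 hα).2
  obtain rfl : α = s • e + t • u + β := by rw [hst, sub_add_cancel]
  refine H.th e _ a b he0 he (by simp [he, eu, h1]) (fun h => hβ ?_) ha hab ae be
    (by simp [ae, au, aβ]) (by simp [be, bu, bβ])
  exact (Submodule.add_mem_iff_right _ (mem_span_pair.2 ⟨s, t, rfl⟩)).1 (span_mono (by simp) h)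

end Core

theorem Good.down (hQ : Q.polarBilin.Nondegenerate) (hψ : ψ ≠ 1) (H : Good ψ R m) {e f : W}
    (h : IsHyp Q e f) : Good ψ (down ψ R hQ h) m := by
  have key : ∀ u β : hperp Q e f, u ≠ 0 → Q u = 0 → polar Q u.1 β.1 = 0 → β ∉ span F {u} →
      ∃ (β' : hperp Q e f) (n : EG Q), β - β' ∈ span F {u} ∧ Q β' = Q β ∧ n.1 e = -u ∧ n.1 u = e ∧
        n.1 β' = β' ∧ u.1 ∉ span F {e} ∧ β'.1 ∉ span F {e, u.1} ∧ polar Q u.1 β'.1 = 0 := by
    intro u β hu0 hu huβ hβ
    obtain ⟨g, hg⟩ := exists_isHyp (h.nondegenerate_hperp hQ) hu0 hu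
    have hg' : IsHyp Q u.1 g.1 := ⟨hg.qe, hg.qf, by rw [← H60.polar_restrict']; exact hg.ef⟩
    obtain ⟨n, n1, n2, n3⟩ := exists_swap h hg' (mem_hperp.1 u.2).1 (mem_hperp.1 u.2).2
      (mem_hperp.1 g.2).1
    have c1 : polar Q u.1 (β - polar Q g.1 β.1 • u).1 = 0 := by simp [huβ, hu]
    refine ⟨β - polar Q g.1 β.1 • u, n, ?_, ?_, n1, n2, n3 _ (mem_hperp.1 (Subtype.prop _)).1
      (mem_hperp.1 (Subtype.prop _)).2 c1 (by simp [hg'.fe]), fun h1 => ?_, fun h1 => hβ ?_, c1⟩
    · rw [sub_sub_cancel]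
      exact smul_mem _ _ (mem_span_singleton_self u)
    · simp [Q_sub, Q_smul, hu, polar_comm Q β.1 u.1, huβ]
    · obtain ⟨c, hc⟩ := mem_span_singleton.1 h1
      have := (mem_hperp.1 u.2).2
      rw [← hc, polar_smul_right, h.fe, smul_eq_mul, mul_one] at this
      apply hu0
      rw [this, zero_smul] at hc
      exact Subtype.ext hc.symm
    · obtain ⟨a, b, hab⟩ := mem_span_pair.1 h1
      have := (mem_hperp.1 (β - polar Q g.1 β.1 • u).2).2
      rw [← hab] at this
      simp only [polar_add_right, polar_smul_right, h.fe, (mem_hperp.1 u.2).2, smul_eq_mul,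
        mul_one, mul_zero, add_zero] at this
      rw [this, zero_smul, zero_add] at hab
      refine mem_span_singleton.2 ⟨b + polar Q g.1 β.1, Subtype.ext ?_⟩
      simp only [Submodule.coe_sub, SetLike.val_smul] at hab ⊢
      rw [add_smul, hab, sub_add_cancel]
  have conj : ∀ (u β : W) (n : EG Q), Q u = 0 → n.1 e = -u → n.1 u = e → n.1 β = β →
      R n * (oi ψ R (perp Q (span F {e, u})) e 0 * oi ψ R (perp Q (span F {e, u})) u β) =
      oi ψ R (perp Q (span F {e, u})) u 0 * oi ψ R (perp Q (span F {e, u})) e β * R n := by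
    intro u β n hu n1 n2 n3
    have hL : ∀ v, v ∈ perp Q (span F {e, u}) ↔ n.1 v ∈ perp Q (span F {e, u}) := fun v => by
      rw [mem_perp_span_pair, mem_perp_span_pair, ← n.1.map_polar e v, ← n.1.map_polar u v, n1, n2,
        polar_neg_left, neg_eq_zero, and_comm]
    have e1 := oi_smul (ψ := ψ) (R := R) hu (perp_pair_le_right e u) (c := -1) (by simp) 0
    rw [smul_zero, neg_one_smul] at e1
    rw [← mul_assoc, conj_oi n hL, mul_assoc, conj_oi n hL, n1, n2, n3, map_zero, e1, mul_assoc]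
  have comm : ∀ u β : W, polar Q e u = 0 → oi ψ R (perp Q (span F {e, u})) u β * oe ψ R e 0 =
      oe ψ R e 0 * oi ψ R (perp Q (span F {e, u})) u β := fun u β eu =>
    (comm_oi (fun v hv => (EE_comm_oe (by rw [polar_comm, eu])
      (by rw [polar_comm]; exact (mem_perp_span_pair.1 hv).1) (by simp) (by simp)).symm) _).symm
  refine ⟨fun u β hu0 hu huβ hβ => ?_, fun u β a b hu0 hu huβ hβ ha hab au bu aβ bβ => ?_⟩
  · rw [H60.polar_restrict'] at huβ
    obtain ⟨β', n, c1, c2, n1, n2, n3, c3, c4, c5⟩ := key u β hu0 hu huβ hβ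
    have eu := (mem_hperp.1 u.2).1
    rw [oe_congr c1, (res_oe_down hQ h hu).tr_eq (oe_idem hψ h.qe 0), comm _ _ eu,
      ← H.claim1 hQ hψ h.ne_zero h.qe hu eu c4, tr_conj R (conj _ _ n hu n1 n2 n3),
      H.claim3 hQ hψ h.ne_zero h.qe hu eu c3 (mem_hperp.1 β'.2).1 c5 c4, c2]
    rfl
  · rw [H60.polar_restrict'] at huβ hab au bu aβ bβ
    obtain ⟨β', n, c1, c2, n1, n2, n3, c3, c4, c5⟩ := key u β hu0 hu huβ hβ
    have eu := (mem_hperp.1 u.2).1
    obtain ⟨s, hs⟩ := mem_span_singleton.1 c1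
    have hs' : β'.1 = β.1 - s • u.1 := by
      have := congrArg Subtype.val hs
      simp only [SetLike.val_smul, Submodule.coe_sub] at this
      rw [this, sub_sub_cancel]
    have ae : polar Q a.1 e = 0 := by rw [polar_comm]; exact (mem_hperp.1 a.2).1
    have be : polar Q b.1 e = 0 := by rw [polar_comm]; exact (mem_hperp.1 b.2).1
    have neg : ∀ x, polar Q x e = 0 → polar Q (n.1 x) u.1 = 0 := fun x hx => by
      rw [← n.1.map_polar, n1, polar_neg_right, neg_eq_zero] at hx
      exact hx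
    have pos : ∀ x, polar Q x u.1 = 0 → polar Q (n.1 x) e = 0 := fun x hx => by
      rwa [← n.1.map_polar, n2] at hx
    have d1 := H.claim6 hQ hψ h.ne_zero h.qe hu eu (mem_hperp.1 β'.2).1 c4 (a := n.1 a)
      (b := n.1 b) (by rw [O.map_Q]; exact ha) (by rw [O.map_polar, hab])
      (pos _ au) (pos _ bu) (neg _ ae) (neg _ be)
      (by rw [← n3, O.map_polar, hs']; simp [aβ, au]) (by rw [← n3, O.map_polar, hs']; simp [bβ, bu])
    have d2 := conj _ _ n hu n1 n2 n3
    rw [H.claim1 hQ hψ h.ne_zero h.qe hu eu c4, ← comm _ _ eu] at d2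
    rw [oe_congr c1]
    have r := res_oe_down (ψ := ψ) (R := R) hQ h (β := β') hu
    refine (r.mul (res_down_EE hQ h a b)).eq r (eq_on_range ?_)
    have d3 : R (EE Q a b) * oe ψ R e 0 = oe ψ R e 0 * R (EE Q a b) :=
      EE_comm_oe ae be (by simp) (by simp)
    rw [mul_assoc, d3, ← mul_assoc]
    have d4 : ∀ S T : End ℂ V, R n * S = R n * T → S = T := fun S T hST => by
      have := congrArg (R n⁻¹ * ·) hST
      simpa [← mul_assoc, ← map_mul] using this
    apply d4
    rw [← mul_assoc, d2, mul_assoc, ← map_mul, conj_EE, map_mul, ← mul_assoc,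
      mul_assoc _ _ (R (EE Q _ _)), d1]

end H2.MD
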