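/- The codimension of the fixed space of the radical of the stabiliser of a totally singular
subspace, in the multiplicity one case. -/
import Cfsg.Agent.H2.MDO2
import Cfsg.Agent.H58.QCount

set_option autoImplicit false
set_option linter.unusedSectionVars false

namespace H2.MD

open Module Finset Submodule H56 QuadraticMap

universe u v

section

variable {F W : Type*} [Field F] [AddCommGroup W] [Module F W] [FiniteDimensional F W]
variable {Q : QuadraticForm F W}

/-- The number of solutions of `Q x = c`. -/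
noncomputable def zc (Q : QuadraticForm F W) (c : F) : ℕ := Nat.card {x // Q x = c}

theorem zc_hyp [Finite F] [Finite W] {e f : W} (h : IsHyp Q e f) (c : F) :
    zc Q c = Nat.card F * zc (Q.restrict (hperp Q e f)) c +
      (Nat.card F - 1) * Nat.card (hperp Q e f) := by
  have := Fintype.ofFinite F
  have hf : H58.IsHypFrame Q ![e] ![f] :=
    ⟨fun i => by fin_cases i; exact h.qe, fun i => by fin_cases i; exact h.qf,
      fun i j => by fin_cases i; fin_cases j; exact h.ef,
      fun i j => by fin_cases i; fin_cases j; exact h.ee,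
      fun i j => by fin_cases i; fin_cases j; exact h.ff⟩
  have e1 : H58.framePerp Q ![e] ![f] = hperp Q e f := by
    ext x
    simp [H58.mem_framePerp, mem_hperp]
  have := hf.card_eq c
  rw [e1] at this
  simpa [zc, Nat.card_eq_fintype_card] using this

theorem card_hyp [Finite F] {e f : W} (h : IsHyp Q e f) :
    Nat.card W = Nat.card F ^ 2 * Nat.card (hperp Q e f) := by
  rw [Module.natCard_eq_pow_finrank (K := F) (V := W),
    Module.natCard_eq_pow_finrank (K := F) (V := hperp Q e f), ← h.finrank_hperp]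
  ring

open Classical in
theorem card_filter_Q [Fintype W] (c : F) : (univ.filter fun x => Q x = c).card = zc Q c := by
  rw [zc, Nat.card_eq_fintype_card, Fintype.card_subtype]

variable {V : Type*} [AddCommGroup V] [Module ℂ V]

/-- The fixed space of the unipotent radical of the stabiliser of `M`. -/
def FixM (R : EG Q →* End ℂ V) (M : Submodule F W) : Submodule ℂ V where
  carrier := {x | ∀ a ∈ M, ∀ v ∈ perp Q M, R (EE Q a v) x = x}
  add_mem' hx hy a ha v hv := by rw [map_add, hx a ha v hv, hy a ha v hv]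
  zero_mem' a _ v _ := map_zero _
  smul_mem' c x hx a ha v hv := by rw [map_smul, hx a ha v hv]

variable {R : EG Q →* End ℂ V} {M : Submodule F W} {ψ : AddChar F ℂ}

theorem mem_FixM {x : V} : x ∈ FixM R M ↔ ∀ a ∈ M, ∀ v ∈ perp Q M, R (EE Q a v) x = x := Iff.rfl

theorem FixM_inv (g : EG Q) (hg : ∀ a ∈ M, g.1 a ∈ M) : ∀ x ∈ FixM R M, R g x ∈ FixM R M := by
  intro x hx a ha v hv
  have h1 := H60.mem_sstab_of_le hg
  have h2 := H60.sstab_perp_of h1
  have e := conj_EE g (g.1⁻¹ a) (g.1⁻¹ v)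
  rw [O.apply_inv_apply, O.apply_inv_apply] at e
  rw [← Module.End.mul_apply, ← map_mul, ← e, map_mul, Module.End.mul_apply,
    hx _ (H60.inv_apply_mem_of_sstab h1 ha) _ (H60.inv_apply_mem_of_sstab h2 hv)]

theorem ide_mem {N : Type*} [AddCommGroup N] [Module F N] [Fintype N] {τ : N → End ℂ V}
    {p : Submodule ℂ V} (h : ∀ a, ∀ x ∈ p, τ a x ∈ p) (β : Dual F N) :
    ∀ x ∈ p, ide ψ τ β x ∈ p := by
  intro x hx
  unfold ide
  simp only [LinearMap.smul_apply, LinearMap.coe_sum, Finset.sum_apply]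
  exact smul_mem _ _ (sum_mem fun a _ => smul_mem _ _ (h a x hx))

theorem polar_of_sing (hM : ∀ a ∈ M, Q a = 0) {a b : W} (ha : a ∈ M) (hb : b ∈ M) :
    polar Q a b = 0 := by
  have := Q_add Q a b
  rw [hM _ (add_mem ha hb), hM a ha, hM b hb] at this
  simpa using this.symm

variable [Finite W] [Finite F]

theorem oe_mem_FixM (hM : ∀ a ∈ M, Q a = 0) {e : W} (he : e ∈ M) (α : W) :
    ∀ x ∈ FixM R M, oe ψ R e α x ∈ FixM R M := by
  unfold oe oi
  refine ide_mem (fun v => FixM_inv _ fun a ha => ?_) _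
  rw [coe_EE, eich_apply_of_orth (hM e he) (mem_ort.1 v.2) (polar_of_sing hM he ha)]
  exact add_mem ha (smul_mem _ _ he)

theorem oe_apply_eq_zero (hQ : Q.polarBilin.Nondegenerate) (hψ : ψ ≠ 1) (hM : ∀ a ∈ M, Q a = 0)
    {e : W} (he : e ∈ M) {α : W} (hα : α ∉ M) {x : V} (hx : x ∈ FixM R M) : oe ψ R e α x = 0 := by
  obtain ⟨v, hv, h⟩ : ∃ v ∈ perp Q M, polar Q α v ≠ 0 := by
    by_contra h
    push Not at h
    exact hα (perp_perp hQ M ▸ mem_perp'.2 h)
  obtain ⟨s, hs⟩ := exists_psi_ne_one hψ h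
  have h1 := LinearMap.congr_fun (oe_mul_EE (ψ := ψ) (R := R) (hM e he) α
    (mem_perp.1 (smul_mem _ s hv) e he)) x
  rw [Module.End.mul_apply, hx e he _ (smul_mem _ s hv), polar_smul_right, smul_eq_mul,
    LinearMap.smul_apply] at h1
  have h2 : (1 - ψ (s * polar Q α v)) • oe ψ R e α x = 0 := by
    rw [sub_smul, one_smul, ← h1, sub_self]
  exact (smul_eq_zero.1 h2).resolve_left (sub_ne_zero.2 hs.symm)

variable [FiniteDimensional ℂ V]

theorem Good.oe_apply_mem {m : F → ℕ} (H : Good ψ R m) (hM : ∀ a ∈ M, Q a = 0) {e α : W}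
    (he0 : e ≠ 0) (he : e ∈ M) (hα : α ∈ M) (hα' : α ∉ span F {e}) (x : V) :
    oe ψ R e α x ∈ FixM R M := by
  intro a ha v hv
  have b1 := polar_of_sing hM ha he
  have b2 := polar_of_sing hM ha hα
  have b3 := mem_perp'.1 hv e he
  have b4 := mem_perp'.1 hv α hα
  rw [← Module.End.mul_apply, EE_comm_oe b1 b3 b2 b4,
    H.th e α a v he0 (hM e he) (polar_of_sing hM he hα) hα' (hM a ha) (mem_perp.1 hv a ha)
      b1 b3 b2 b4]

theorem notMem_span_of_hperp {e f : W} (h : IsHyp Q e f) {w : hperp Q e f} (hw : w ≠ 0) :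
    w.1 ∉ span F {e} := by
  intro h1
  obtain ⟨c, hc⟩ := mem_span_singleton.1 h1
  have := (mem_hperp.1 w.2).2
  rw [← hc, polar_smul_right, h.fe, smul_eq_mul, mul_one] at this
  rw [this, zero_smul] at hc
  exact hw (Subtype.ext hc.symm)

theorem map_FixM_down (hQ : Q.polarBilin.Nondegenerate) (hψ : ψ ≠ 1) (hM : ∀ a ∈ M, Q a = 0)
    {e f : W} (h : IsHyp Q e f) (he : e ∈ M) :
    (FixM (down ψ R hQ h) (M.comap (hperp Q e f).subtype)).map
      (LinearMap.range (oe ψ R e 0)).subtype = FixM R M ⊓ LinearMap.range (oe ψ R e 0) := by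
  have hdec : ∀ a, polar Q e a = 0 → a - polar Q f a • e ∈ hperp Q e f := fun a ha =>
    mem_hperp.2 ⟨by simp [ha, h.qe], by simp [h.fe]⟩
  have hfix : ∀ x ∈ LinearMap.range (oe ψ R e 0), ∀ v, polar Q e v = 0 → R (EE Q e v) x = x :=
    fun x hx v hv => eq_on_range (T := 1) (by rw [EE_mul_pi h.qe hv, one_mul]) x hx
  ext x
  constructor
  · rintro ⟨x, hx, rfl⟩
    refine ⟨fun a ha v hv => ?_, x.2⟩
    have ea := polar_of_sing hM he ha
    have ev := mem_perp.1 hv e he
    have a1 := hdec a ea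
    have a2 : a - polar Q f a • e ∈ M := sub_mem ha (smul_mem _ _ he)
    generalize hs : polar Q f a = s at a1 a2
    generalize ha' : a - s • e = a' at a1 a2
    obtain rfl : a = a' + s • e := by rw [← ha', sub_add_cancel]
    by_cases h0 : a' = 0
    · rw [h0, zero_add, EE_smul_left s h.qe ev]
      exact hfix _ x.2 _ (by simp [ev])
    obtain ⟨c, c1, -, c3⟩ := h.exists_perp_polar_eq hQ h0 (mem_hperp.1 a1).1 (mem_hperp.1 a1).2 s
    have g1 : (EE Q e c).1 a' = a' + s • e := by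
      rw [coe_EE, eich_apply_of_orth h.qe c1 (mem_hperp.1 a1).1, c3]
    have g2 : (EE Q e c).1 (v - polar Q c v • e) = v := by
      rw [coe_EE, map_sub, map_smul, eich_apply_self h.qe c1, eich_apply_of_orth h.qe c1 ev,
        add_sub_cancel_right]
    have e1 := conj_EE (EE Q e c) a' (v - polar Q c v • e)
    rw [g1, g2] at e1
    have a'e : polar Q a' e = 0 := polar_of_sing hM a2 he
    have a'v : polar Q a' v = 0 := mem_perp.1 hv a' a2
    have e2 : EE Q a' (v - polar Q c v • e) = EE Q a' (v - polar Q f v • e) *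
        EE Q e (-((polar Q f v - polar Q c v) • a')) := by
      rw [← EE_swap h.qe (by rw [Q_smul, hM a' a2, mul_zero]) (by simp [(mem_hperp.1 a1).1]),
        EE_smul_left _ (hM a' a2) a'e, ← EE_add (hM a' a2) (by simp [a'e, a'v]) (by simp [a'e])]
      congr 1
      module
    have e3 := hx ⟨a', a1⟩ a2 ⟨_, hdec v ev⟩ (mem_perp.2 fun w hw => by
      rw [H60.polar_restrict']
      simp [mem_perp.1 hv w hw, polar_comm Q w.1 e, (mem_hperp.1 w.2).1])
    have e4 := congrArg Subtype.val e3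
    rw [res_down_EE hQ h] at e4
    show R _ x.1 = x.1
    conv_lhs => rw [← hfix x x.2 c c1]
    rw [← Module.End.mul_apply, ← map_mul, ← e1, e2, map_mul, map_mul, Module.End.mul_apply,
      Module.End.mul_apply, hfix _ x.2 _ (by simp [(mem_hperp.1 a1).1]), e4, hfix _ x.2 c c1]
  · rintro ⟨h1, h2⟩
    refine ⟨⟨x, h2⟩, fun a ha v hv => Subtype.ext ?_, rfl⟩
    rw [res_down_EE hQ h]
    refine h1 a ha v (mem_perp.2 fun b hb => ?_)
    have b1 := hdec b (polar_of_sing hM he hb)
    have b2 := mem_perp.1 hv ⟨_, b1⟩ (sub_mem hb (smul_mem _ _ he))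
    rw [H60.polar_restrict'] at b2
    simpa [(mem_hperp.1 v.2).1] using b2

theorem finrank_comap_hperp (hM : ∀ a ∈ M, Q a = 0) {e f : W} (h : IsHyp Q e f) (he : e ∈ M) :
    finrank F (M.comap (hperp Q e f).subtype) + 1 = finrank F M := by
  have h1 := LinearMap.finrank_range_add_finrank_ker (pb Q M f)
  have h2 : LinearMap.range (pb Q M f) = ⊤ := by
    rw [eq_top_iff]
    intro c _
    exact ⟨c • ⟨e, he⟩, by simp [h.fe]⟩
  rw [h2, finrank_top, finrank_self] at h1
  have h3 : (M.comap (hperp Q e f).subtype).map (hperp Q e f).subtype =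
      (LinearMap.ker (pb Q M f)).map M.subtype := by
    ext x
    constructor
    · rintro ⟨x, hx, rfl⟩
      exact ⟨⟨x, hx⟩, (mem_hperp.1 x.2).2, rfl⟩
    · rintro ⟨x, hx, rfl⟩
      exact ⟨⟨x, mem_hperp.2 ⟨polar_of_sing hM he x.2, hx⟩⟩, x.2, rfl⟩
  rw [← finrank_map_subtype_eq, h3, finrank_map_subtype_eq]
  omega

variable [Fintype W]

theorem sum_oe_hperp (hQ : Q.polarBilin.Nondegenerate) (hψ : ψ ≠ 1) {e f : W} (h : IsHyp Q e f) :
    ∑ w : hperp Q e f, oe ψ R e w = 1 := by
  classical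
  have := Fintype.ofFinite F
  apply smul_right_injective _ (qne F)
  simp only
  rw [← sum_oe hQ hψ h.ne_zero h.qe, ← Fintype.sum_equiv h.equiv.toEquiv
    (fun p => oe ψ R e (h.equiv p)) _ (fun _ => rfl), Fintype.sum_prod_type, Finset.smul_sum]
  refine Finset.sum_congr rfl fun w _ => ?_
  rw [Fintype.sum_prod_type, Finset.sum_congr rfl (g := fun _ => oe ψ R e w), Finset.sum_const,
    Finset.card_univ, ← Nat.cast_smul_eq_nsmul ℂ, Nat.card_eq_fintype_card]
  intro a _
  rw [Finset.sum_eq_single 0]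
  · refine oe_congr ?_
    rw [h.equiv_apply]
    simp [smul_mem]
  · intro b _ hb
    refine oe_eq_zero hψ h.qe ?_
    rw [h.equiv_apply]
    simpa [(mem_hperp.1 w.2).1, h.qe, h.ef] using hb
  · simp

open Classical in
theorem finrank_eq_sum (hQ : Q.polarBilin.Nondegenerate) (hψ : ψ ≠ 1) {e f : W}
    (h : IsHyp Q e f) : (finrank ℂ V : ℂ) = finrank ℂ (LinearMap.range (oe ψ R e 0)) +
      ∑ w ∈ univ.filter (fun w : hperp Q e f => w ≠ 0), tr (oe ψ R e w) := by
  have h1 := congrArg tr (sum_oe_hperp (R := R) hQ hψ h)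
  unfold tr at h1 ⊢
  rw [LinearMap.trace_one, map_sum, ← Finset.add_sum_erase _ _ (mem_univ 0)] at h1
  rw [← h1, ← tr_idem (oe_idem hψ h.qe 0), Finset.filter_ne']
  rfl

theorem Good.finrank_step (hQ : Q.polarBilin.Nondegenerate) (hψ : ψ ≠ 1) {m : F → ℕ}
    (H : Good ψ R m) (h0 : m 0 = 1) (h1 : ∀ c, c ≠ 0 → m c = 0) {e f : W} (h : IsHyp Q e f) :
    (finrank ℂ V : ℂ) = finrank ℂ (LinearMap.range (oe ψ R e 0)) +
      (zc (Q.restrict (hperp Q e f)) 0 - 1) := by
  classical
  rw [finrank_eq_sum (R := R) hQ hψ h, Finset.sum_congr rfl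
    (g := fun w => if Q.restrict (hperp Q e f) w = 0 then (1 : ℂ) else 0), Finset.sum_boole,
    ← card_filter_Q, Finset.filter_comm, Finset.filter_ne', Finset.card_erase_of_mem (by simp),
    Nat.cast_sub (Finset.card_pos.2 ⟨0, by simp⟩), Nat.cast_one]
  intro w hw
  rw [H.tr e w h.ne_zero h.qe (mem_hperp.1 w.2).1 (notMem_span_of_hperp h (mem_filter.1 hw).2)]
  split_ifs with h2
  · rw [show Q w = 0 from h2, h0, Nat.cast_one]
  · rw [h1 (Q w) h2, Nat.cast_zero]

theorem Good.finrank_FixM_step (hQ : Q.polarBilin.Nondegenerate) (hψ : ψ ≠ 1) {m : F → ℕ}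
    (H : Good ψ R m) (h0 : m 0 = 1) (hM : ∀ a ∈ M, Q a = 0) {e f : W} (h : IsHyp Q e f)
    (he : e ∈ M) : (finrank ℂ (FixM R M) : ℂ) =
      finrank ℂ (FixM (MD.down ψ R hQ h) (M.comap (hperp Q e f).subtype)) +
        ((Nat.card F : ℂ) ^ finrank F (M.comap (hperp Q e f).subtype) - 1) := by
  classical
  let T : W → End ℂ (FixM R M) := fun α => (oe ψ R e α).restrict (oe_mem_FixM hM he α)
  have hT : ∀ α, Res _ (oe ψ R e α) (T α) := fun α _ => rfl
  have a1 : ∑ w : hperp Q e f, T w = 1 :=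
    (Res.sum univ fun (w : hperp Q e f) _ => hT w).eq Res.one fun x _ => by
      rw [sum_oe_hperp hQ hψ h]
  have a2 : H2.MD.tr (T 0) =
      finrank ℂ (FixM (MD.down ψ R hQ h) (M.comap (hperp Q e f).subtype)) := by
    have e0 : (LinearMap.range (T 0)).map (FixM R M).subtype =
        FixM R M ⊓ LinearMap.range (oe ψ R e 0) := by
      ext x
      constructor
      · rintro ⟨_, ⟨y, rfl⟩, rfl⟩
        exact ⟨(T 0 y).2, y, rfl⟩
      · rintro ⟨h1, h2⟩
        exact ⟨⟨x, h1⟩, ⟨⟨x, h1⟩, Subtype.ext ((mem_range_idem (oe_idem hψ h.qe 0)).1 h2)⟩, rfl⟩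
    rw [tr_idem (((hT 0).mul (hT 0)).eq (hT 0) fun x _ => by rw [oe_idem hψ h.qe]),
      ← finrank_map_subtype_eq, ← finrank_map_subtype_eq (LinearMap.range (oe ψ R e 0)),
      map_FixM_down hQ hψ hM h he, e0]
  have a3 := congrArg H2.MD.tr a1
  unfold H2.MD.tr at a2 a3
  rw [LinearMap.trace_one, map_sum, ← Finset.add_sum_erase _ _ (mem_univ 0)] at a3
  rw [← a3, ← a2, Finset.sum_congr rfl
    (g := fun w => if w ∈ M.comap (hperp Q e f).subtype then (1 : ℂ) else 0), Finset.sum_boole,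
    Finset.filter_erase, Finset.card_erase_of_mem (by simp),
    Nat.cast_sub (Finset.card_pos.2 ⟨0, by simp⟩), Nat.cast_one, card_filter_mem]
  · rfl
  intro w hw
  have hw' := notMem_span_of_hperp h (mem_erase.1 hw).1
  split_ifs with h2
  · have := (hT w).tr_of_le (H.oe_apply_mem hM h.ne_zero he h2 hw')
    rw [H.tr e w h.ne_zero h.qe (mem_hperp.1 w.2).1 hw', show Q w.1 = 0 from hM _ h2, h0,
      Nat.cast_one] at this
    exact this
  · rw [(hT w).eq Res.zero fun x hx => oe_apply_eq_zero hQ hψ hM he h2 hx, map_zero]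

end

theorem Good.codim {F : Type*} [Field F] [Finite F] {ψ : AddChar F ℂ} (hψ : ψ ≠ 1) {m : F → ℕ}
    (h0 : m 0 = 1) (h1 : ∀ c, c ≠ 0 → m c = 0) (j : ℕ) :
    ∀ {W : Type u} [AddCommGroup W] [Module F W] [FiniteDimensional F W] [Finite W]
      {Q : QuadraticForm F W} (_ : Q.polarBilin.Nondegenerate) {V : Type v} [AddCommGroup V]
      [Module ℂ V] [FiniteDimensional ℂ V] {R : EG Q →* End ℂ V} (_ : Good ψ R m)
      {M : Submodule F W} (_ : ∀ a ∈ M, Q a = 0) (_ : finrank F M = j) (q : ℂ)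
      (_ : q = Nat.card F),
      (finrank ℂ V : ℂ) - finrank ℂ (FixM R M) =
        Nat.card W / q * (1 - (q ^ (2 * j))⁻¹) / (q ^ 2 - 1) +
        (zc Q 0 - Nat.card W / q) * (1 - (q ^ j)⁻¹) / (q - 1) - (q ^ j - 1) / (q - 1) := by
  induction j with
  | zero =>
    intro W _ _ _ _ Q hQ V _ _ _ R H M hM hj q hq
    have : FixM R M = ⊤ := by
      rw [eq_top_iff]
      intro x _ a ha v _
      rw [finrank_eq_zero.1 hj, mem_bot] at ha
      rw [ha, EE_zero_left, map_one]
      rfl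
    rw [this, finrank_top]
    simp
  | succ j ih =>
    intro W _ _ _ _ Q hQ V _ _ _ R H M hM hj q hq
    have := Fintype.ofFinite W
    obtain ⟨e, he, he0⟩ := exists_notMem (p := ⊥) (q := M) (by rw [finrank_bot]; omega)
    obtain ⟨f, h⟩ := exists_isHyp hQ (by simpa using he0) (hM e he)
    have a0 := finrank_comap_hperp hM h he
    have a1 := H.finrank_step hQ hψ h0 h1 h
    have a2 := H.finrank_FixM_step hQ hψ h0 hM h he
    have a3 := ih (h.nondegenerate_hperp hQ) (H.down hQ hψ h)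
      (M := M.comap (hperp Q e f).subtype) (fun a ha => hM _ ha) (by omega) q hq
    have a4 := congrArg (Nat.cast : ℕ → ℂ) (zc_hyp h 0)
    have a5 := congrArg (Nat.cast : ℕ → ℂ) (card_hyp h)
    have hq1 : 1 ≤ Nat.card F := Nat.card_pos
    push_cast [hq1] at a4 a5
    rw [show finrank F (M.comap (hperp Q e f).subtype) = j by omega] at a2
    have q0 := qne F
    have q1 := q_sub_one_ne F
    have q2 : (Nat.card F : ℂ) ^ 2 - 1 ≠ 0 := by
      rw [show ((Nat.card F : ℂ) ^ 2 - 1) = (Nat.card F - 1) * (Nat.card F + 1) by ring]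
      exact mul_ne_zero q1 (q_add_one_ne F)
    rw [← hq] at a2 a4 a5 q0 q1 q2
    rw [a1, a2, a4, a5]
    rw [sub_eq_iff_eq_add] at a3
    rw [a3]
    field_simp
    ring

end H2.MD
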