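/- The Levi factor `SL(U)` of the stabiliser of a totally singular subspace. -/
import Cfsg.Agent.H2.MDO3
import Cfsg.Agent.H2.MDSL4
import Cfsg.Agent.H57.SLGen

set_option autoImplicit false
set_option linter.unusedSectionVars false

namespace H2.MD

open Module Finset Submodule H56 QuadraticMap

variable {F W : Type*} [Field F] [AddCommGroup W] [Module F W] [FiniteDimensional F W]
variable {Q : QuadraticForm F W} [Finite F]

theorem sl_ind {r : ℕ} (P : SpecialLinearGroup F (Fin r → F) → Prop) (h1 : P 1)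
    (ht : ∀ φ u, φ u = 0 → P (tv φ u)) (hm : ∀ a b, P a → P b → P (a * b))
    (g : SpecialLinearGroup F (Fin r → F)) : P g := by
  classical
  let e := Matrix.SpecialLinearGroup.toLin'_equiv (n := Fin r) (R := F)
  rw [← e.apply_symm_apply g]
  refine H57.sl_transvection_induction (fun g => P (e g)) (by simpa using h1) (fun i j hij c => ?_)
    (fun A B hA hB => by simpa using hm _ _ hA hB) _
  have h0 : (c • LinearMap.proj j : Dual F (Fin r → F)) (Pi.single i 1) = 0 := by
    simp [hij.symm]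
  have h1 : tv (c • LinearMap.proj j : Dual F (Fin r → F)) (Pi.single i 1) =
      e (Matrix.SpecialLinearGroup.transvection hij c) := by
    refine sl_ext fun x => ?_
    rw [tv_apply h0]
    show _ = Matrix.mulVec (1 + Matrix.single i j c) x
    rw [Matrix.add_mulVec, Matrix.one_mulVec, Matrix.single_mulVec]
    congr 1
    ext l
    by_cases hl : l = i
    · simp [hl]
    · simp [hl]
  exact h1 ▸ ht _ _ h0

variable {U : Type*} [AddCommGroup U] [Module F U] [FiniteDimensional F U]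

/-- Two totally singular subspaces in duality. -/
structure DP (Q : QuadraticForm F W) (j : U →ₗ[F] W) (k : Dual F U →ₗ[F] W) : Prop where
  qj : ∀ u, Q (j u) = 0
  qk : ∀ φ, Q (k φ) = 0
  jk : ∀ u φ, polar Q (j u) (k φ) = φ u

variable {j : U →ₗ[F] W} {k : Dual F U →ₗ[F] W}

/-- The coordinate in `U`. -/
noncomputable def pU (Q : QuadraticForm F W) (k : Dual F U →ₗ[F] W) : W →ₗ[F] U :=
  (evalEquiv F U).symm.toLinearMap ∘ₗ ((polarBilin Q).comp k).flip

/-- The coordinate in the dual of `U`. -/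
def pD (Q : QuadraticForm F W) (j : U →ₗ[F] W) : W →ₗ[F] Dual F U := ((polarBilin Q).comp j).flip

theorem pU_apply (φ : Dual F U) (x : W) : φ (pU Q k x) = polar Q (k φ) x := by simp [pU]

theorem pD_apply (u : U) (x : W) : pD Q j x u = polar Q (j u) x := rfl

theorem dual_ext {u v : U} (h : ∀ φ : Dual F U, φ u = φ v) : u = v :=
  (evalEquiv F U).injective (LinearMap.ext h)

theorem dmap_mul (g h : SpecialLinearGroup F U) (φ : Dual F U) :
    dmap (g * h) φ = dmap g (dmap h φ) := by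
  ext x
  obtain ⟨x, rfl⟩ := (g * h).1.surjective x
  rw [dmap_apply, sl_mul, dmap_apply, dmap_apply]

theorem dmap_one (φ : Dual F U) : dmap 1 φ = φ := by
  ext x
  exact dmap_apply 1 φ x

/-- The action of `SL(U)` on `W`. -/
noncomputable def levLin (Q : QuadraticForm F W) (j : U →ₗ[F] W) (k : Dual F U →ₗ[F] W)
    (g : SpecialLinearGroup F U) : W →ₗ[F] W :=
  LinearMap.id + j ∘ₗ (g.1.toLinearMap - LinearMap.id) ∘ₗ pU Q k +
    k ∘ₗ ((dmap g).toLinearMap - LinearMap.id) ∘ₗ pD Q j

theorem levLin_apply (g : SpecialLinearGroup F U) (x : W) : levLin Q j k g x =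
    x + j (g.1 (pU Q k x) - pU Q k x) + k (dmap g (pD Q j x) - pD Q j x) := rfl

namespace DP
variable (h : DP Q j k)
include h

theorem jj (u v : U) : polar Q (j u) (j v) = 0 := by
  have := Q_add Q (j u) (j v)
  rw [← map_add, h.qj, h.qj, h.qj] at this
  simpa using this.symm

theorem kk (φ φ' : Dual F U) : polar Q (k φ) (k φ') = 0 := by
  have := Q_add Q (k φ) (k φ')
  rw [← map_add, h.qk, h.qk, h.qk] at this
  simpa using this.symm

theorem kj (φ : Dual F U) (u : U) : polar Q (k φ) (j u) = φ u := by rw [polar_comm, h.jk]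

theorem pU_j (u : U) : pU Q k (j u) = u := dual_ext fun φ => by rw [pU_apply, h.kj]
theorem pU_k (φ : Dual F U) : pU Q k (k φ) = 0 := dual_ext fun φ' => by
  rw [pU_apply, h.kk, map_zero]
theorem pD_j (u : U) : pD Q j (j u) = 0 := LinearMap.ext fun v => h.jj v u
theorem pD_k (φ : Dual F U) : pD Q j (k φ) = φ := LinearMap.ext fun v => h.jk v φ

theorem inj : Function.Injective j := fun u v e => by rw [← h.pU_j u, e, h.pU_j]

theorem sing : ∀ a ∈ LinearMap.range j, Q a = 0 := by rintro _ ⟨u, rfl⟩; exact h.qj u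

theorem ne {u : U} (hu : u ≠ 0) : j u ≠ 0 := fun e => hu (h.inj (by rw [e, map_zero]))

theorem notMem {u w : U} (hw : w ∉ span F {u}) : j w ∉ span F {j u} := fun e => by
  obtain ⟨c, hc⟩ := mem_span_singleton.1 e
  exact hw (mem_span_singleton.2 ⟨c, h.inj (by rw [map_smul, hc])⟩)

theorem levLin_mul (g g' : SpecialLinearGroup F U) (x : W) :
    levLin Q j k g (levLin Q j k g' x) = levLin Q j k (g * g') x := by
  have a1 : pU Q k (levLin Q j k g' x) = g'.1 (pU Q k x) := by
    simp [levLin_apply, h.pU_j, h.pU_k]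
  have a2 : pD Q j (levLin Q j k g' x) = dmap g' (pD Q j x) := by
    simp [levLin_apply, h.pD_j, h.pD_k]
  rw [levLin_apply g, a1, a2, levLin_apply, levLin_apply, sl_mul, dmap_mul]
  simp only [map_sub]
  abel

theorem levLin_one (x : W) : levLin Q j k 1 x = x := by
  simp [levLin_apply, dmap_one]

theorem Q_levLin (g : SpecialLinearGroup F U) (x : W) : Q (levLin Q j k g x) = Q x := by
  rw [levLin_apply, Q_add, Q_add, h.qj, h.qk, polar_add_left, h.jk, polar_comm Q x,
    polar_comm Q x, ← pD_apply, ← pU_apply]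
  simp only [map_sub, LinearMap.sub_apply, dmap_apply]
  ring

/-- The Levi factor in the orthogonal group. -/
noncomputable def levO : SpecialLinearGroup F U →* O Q where
  toFun g := O.ofInv (levLin Q j k g) (levLin Q j k g⁻¹) (h.Q_levLin g)
    (fun x => by rw [h.levLin_mul, mul_inv_cancel, h.levLin_one])
    (fun x => by rw [h.levLin_mul, inv_mul_cancel, h.levLin_one])
  map_one' := O.ext h.levLin_one
  map_mul' g g' := O.ext fun x => (h.levLin_mul g g' x).symm

theorem levO_apply (g : SpecialLinearGroup F U) (x : W) : h.levO g x = levLin Q j k g x := rfl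

theorem levO_tv {φ : Dual F U} {u : U} (h0 : φ u = 0) : h.levO (tv φ u) = eich Q (j u) (k φ) := by
  refine O.ext fun x => ?_
  have : dmap (tv φ u) (pD Q j x) = pD Q j x - pD Q j x u • φ := by
    ext y
    obtain ⟨y, rfl⟩ := (tv φ u).1.surjective y
    rw [dmap_apply, tv_apply h0]
    simp [h0, mul_comm]
  rw [levO_apply, levLin_apply, eich_apply (h.qj u) (by rw [h.jk, h0]), tv_apply h0, this, h.qk,
    ← pU_apply, ← pD_apply]
  simp [sub_eq_add_neg]

end DP

/-- A Levi factor inside the Eichler group. -/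
structure Lev (Q : QuadraticForm F W) (j : U →ₗ[F] W) (k : Dual F U →ₗ[F] W)
    (l : SpecialLinearGroup F U →* EG Q) : Prop extends DP Q j k where
  app : ∀ g x, (l g).1 x = levLin Q j k g x
  etv : ∀ φ u, φ u = 0 → l (tv φ u) = EE Q (j u) (k φ)

theorem DP.exists_lev {r : ℕ} {j : (Fin r → F) →ₗ[F] W} {k : Dual F (Fin r → F) →ₗ[F] W}
    (h : DP Q j k) : ∃ l, Lev Q j k l :=
  ⟨h.levO.codRestrict (EG Q) (sl_ind _ (by rw [map_one]; exact one_mem _)
      (fun φ u h0 => by rw [h.levO_tv h0]; exact eich_mem_EG _ _)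
      fun a b ha hb => by rw [map_mul]; exact mul_mem ha hb),
    h, fun _ _ => rfl, fun _ _ h0 => Subtype.ext (h.levO_tv h0)⟩

theorem exists_DP {r : ℕ} {e f : Fin r → W} (h : H58.IsHypFrame Q e f) :
    ∃ (j : (Fin r → F) →ₗ[F] W) (k : Dual F (Fin r → F) →ₗ[F] W), DP Q j k ∧
      (∀ i, j (Pi.single i 1) = e i) ∧ ∀ i, k (LinearMap.proj i) = f i := by
  refine ⟨Fintype.linearCombination F e, Fintype.linearCombination F f ∘ₗ
    LinearMap.pi fun i => Dual.eval F _ (Pi.single i 1), ⟨fun u => ?_, fun φ => ?_, fun u φ => ?_⟩,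
    fun i => by simp, fun i => ?_⟩
  · exact H58.Q_sum_smul_eq_zero Q univ e h.qe h.ee u
  · exact H58.Q_sum_smul_eq_zero Q univ f h.qf h.ff fun i => φ (Pi.single i 1)
  · rw [LinearMap.pi_apply_eq_sum_univ φ u, ← polarBilin_apply_apply]
    simp only [Fintype.linearCombination_apply, LinearMap.comp_apply, map_sum, map_smul,
      LinearMap.sum_apply, LinearMap.smul_apply, polarBilin_apply_apply, h.ef]
    refine Finset.sum_congr rfl fun i _ => ?_
    simp [mul_comm]
    exact Or.inl (congrArg φ (by ext; simp [Pi.single_apply, eq_comm]))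
  · simp [Fintype.linearCombination_apply, Pi.single_apply, ite_smul]

variable {l : SpecialLinearGroup F U →* EG Q}

theorem Lev.app_j (h : Lev Q j k l) (g : SpecialLinearGroup F U) (u : U) :
    (l g).1 (j u) = j (g.1 u) := by
  simp [h.app, levLin_apply, h.pU_j, h.pD_j]

theorem Lev.app_k (h : Lev Q j k l) (g : SpecialLinearGroup F U) (φ : Dual F U) :
    (l g).1 (k φ) = k (dmap g φ) := by
  simp [h.app, levLin_apply, h.pU_k, h.pD_k]

theorem Lev.app_perp (h : Lev Q j k l) (g : SpecialLinearGroup F U) {x : W}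
    (h1 : ∀ u, polar Q (j u) x = 0) (h2 : ∀ φ, polar Q (k φ) x = 0) : (l g).1 x = x := by
  have a1 : pU Q k x = 0 := dual_ext fun φ => by rw [pU_apply, h2, map_zero]
  have a2 : pD Q j x = 0 := LinearMap.ext h1
  simp [h.app, levLin_apply, a1, a2]

variable {V : Type*} [AddCommGroup V] [Module ℂ V] {ψ : AddChar F ℂ}

/-- The representation of the Levi factor on the fixed points of the radical. -/
noncomputable def Lev.rep (h : Lev Q j k l) (R : EG Q →* End ℂ V) :
    SpecialLinearGroup F U →* End ℂ (FixM R (LinearMap.range j)) :=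
  resHom (R.comp l) _ fun g => FixM_inv _ (by rintro _ ⟨u, rfl⟩; exact ⟨_, (h.app_j g u).symm⟩)

variable {R : EG Q →* End ℂ V}

theorem Lev.res (h : Lev Q j k l) (g : SpecialLinearGroup F U) : Res _ (R (l g)) (h.rep R g) :=
  fun _ => rfl

theorem Lev.res_tv (h : Lev Q j k l) {φ : Dual F U} {u : U} (h0 : φ u = 0) :
    Res _ (R (EE Q (j u) (k φ))) (h.rep R (tv φ u)) := h.etv φ u h0 ▸ h.res _

variable [Finite W]

theorem Lev.res_ee (h : Lev Q j k l) (u w : U) :
    Res _ (oe ψ R (j u) (j w)) (ee ψ (h.rep R) u w) := by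
  have r1 : Res _ (oe ψ R (j u) (j w)) (ide ψ (fun v : perp Q (span F {j u}) =>
      h.rep R (tv (pD Q j v) u)) (pb Q _ (j w))) := by
    refine Res.ide (fun v => (h.res_tv (mem_ort.1 v.2)).congr fun x hx => ?_) _
    have a1 : polar Q (j u) (k (pD Q j v)) = 0 := by rw [h.jk]; exact mem_ort.1 v.2
    have a2 : v.1 - k (pD Q j v) ∈ perp Q (LinearMap.range j) := mem_perp.2 (by
      rintro _ ⟨u', rfl⟩
      rw [polar_sub_right, h.jk, pD_apply, sub_self])
    conv_rhs => rw [← add_sub_cancel (k (pD Q j v)) v.1,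
      EE_add (h.qj u) a1 (mem_perp.1 a2 _ ⟨u, rfl⟩), map_mul, Module.End.mul_apply,
      hx _ ⟨u, rfl⟩ _ a2]
  have a1 : ee ψ (h.rep R) u w * ide ψ (fun v : perp Q (span F {j u}) =>
      h.rep R (tv (pD Q j v) u)) (pb Q _ (j w)) = ee ψ (h.rep R) u w :=
    mul_ide_eq_self fun v => ee_mul_tv (mem_ort.1 v.2)
  generalize ide ψ (fun v : perp Q (span F {j u}) => h.rep R (tv (pD Q j v) u)) (pb Q _ (j w)) = T
    at r1 a1
  have a2 : ee ψ (h.rep R) u w * T = T := ide_mul_eq_self fun φ =>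
    ((h.res_tv φ.2).mul r1).eq (r1.smul _) fun x _ => by
      rw [EE_mul_oe (h.qj u) _ (by rw [h.jk]; exact φ.2), ev_apply]
      exact congrArg (fun c => (ψ c • oe ψ R (j u) (j w)) x) (h.jk w φ.1)
  rwa [← a1, a2]

variable [FiniteDimensional ℂ V] [Fintype U]

theorem Lev.mult1 (h : Lev Q j k l) (hψ : ψ ≠ 1) (hU : 3 ≤ finrank F U) {m : F → ℕ}
    (H : Good ψ R m) (h0 : m 0 = 1) : Mult1 ψ (h.rep R) := by
  have th : ∀ u w v, u ≠ 0 → w ∉ span F {u} → ∀ φ : Dual F U, φ u = 0 → φ w = 0 → φ v = 0 →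
      ee ψ (h.rep R) u w * h.rep R (tv φ v) = ee ψ (h.rep R) u w :=
    fun u w v hu hw φ h1 h2 h3 => ((h.res_ee u w).mul (h.res_tv h3)).eq (h.res_ee u w) fun x _ => by
      rw [H.th _ _ _ _ (h.ne hu) (h.qj u) (h.jj _ _) (h.notMem hw) (h.qj v) (by rw [h.jk, h3])
        (h.jj _ _) (by rw [h.kj, h1]) (h.jj _ _) (by rw [h.kj, h2])]
  refine ⟨hψ, hU, fun u w hu hw => ?_, fun u w hu hw φ h1 h2 => th u w w hu hw φ h1 h2 h2,
    fun u w v hu hw _ φ => th u w v hu hw φ⟩
  rw [(h.res_ee u w).tr_of_le (H.oe_apply_mem h.sing (h.ne hu) ⟨u, rfl⟩ ⟨w, rfl⟩ (h.notMem hw)),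
    H.tr _ _ (h.ne hu) (h.qj u) (h.jj _ _) (h.notMem hw), h.qj, h0, Nat.cast_one]

end H2.MD
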