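/- The multiplicities of the characters of an Eichler group, and the multiplicity one case. -/
import Cfsg.Agent.H2.MDO4
import Cfsg.Agent.H60.Parab
import Cfsg.Agent.H58.WittIndex

set_option autoImplicit false
set_option linter.unusedSectionVars false

namespace H2.MD

open Module Finset Submodule H56 QuadraticMap

variable {F W : Type*} [Field F] [AddCommGroup W] [Module F W] [FiniteDimensional F W]
variable {Q : QuadraticForm F W} [Finite F] [Finite W]
variable {V : Type*} [AddCommGroup V] [Module ℂ V] [FiniteDimensional ℂ V] {ψ : AddChar F ℂ}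
  {R : EG Q →* End ℂ V}

theorem exists_EG_apply (hQ : Q.polarBilin.Nondegenerate) {U : Submodule F W}
    (hU : H60.Nondeg Q U) (h5 : 5 ≤ finrank F U) {a b : W} (ha : a ∈ U) (hb : b ∈ U) (ha0 : a ≠ 0)
    (hb0 : b ≠ 0) (hab : Q a = Q b) : ∃ g : EG Q, g.1 a = b ∧ ∀ x ∈ perp Q U, g.1 x = x := by
  obtain ⟨g, hg, h⟩ := H60.exists_EOin_apply_eq hQ hU h5 ha hb ha0 hb0 hab
  exact ⟨⟨g, H60.EOin_mono (Set.subset_univ _) hg⟩, h, H60.EOin_le_fixer U hg⟩

theorem proj_hperp {e f α : W} (h : IsHyp Q e f) (h1 : polar Q e α = 0) (h2 : α ∉ span F {e}) :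
    ∃ β ∈ hperp Q e f, β ≠ 0 ∧ Q β = Q α ∧ α - β ∈ span F {e} := by
  refine ⟨α - polar Q f α • e, mem_hperp.2 ⟨by simp [h1, h.qe], by simp [h.fe]⟩, fun e0 => h2 ?_,
    by simp [Q_sub, Q_smul, h.qe, polar_comm Q α e, h1], by simp [smul_mem]⟩
  rw [sub_eq_zero.1 e0]
  exact smul_mem _ _ (mem_span_singleton_self e)

theorem tr_oe_eq (hQ : Q.polarBilin.Nondegenerate) (h7 : 7 ≤ finrank F W) {u α u' α' : W}
    (h0 : u ≠ 0) (hu : Q u = 0) (h1 : polar Q u α = 0) (h2 : α ∉ span F {u}) (h0' : u' ≠ 0)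
    (hu' : Q u' = 0) (h1' : polar Q u' α' = 0) (h2' : α' ∉ span F {u'}) (h : Q α = Q α') :
    tr (oe ψ R u α) = tr (oe ψ R u' α') := by
  obtain ⟨g, hg, -⟩ := exists_EG_apply hQ (H60.nondeg_top hQ) (by rw [finrank_top]; omega)
    mem_top mem_top h0 h0' (hu.trans hu'.symm)
  rw [tr_conj R (conj_oe g u α), hg]
  obtain ⟨f, hf⟩ := exists_isHyp hQ h0' hu'
  obtain ⟨β, b1, b2, b3, b4⟩ := proj_hperp hf (α := g.1 α) (by rw [← hg, O.map_polar, h1])
    fun e => h2 (by
      obtain ⟨c, hc⟩ := mem_span_singleton.1 e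
      exact mem_span_singleton.2 ⟨c, g.1.injective (by rw [map_smul, hg, hc])⟩)
  obtain ⟨β', c1, c2, c3, c4⟩ := proj_hperp hf h1' h2'
  obtain ⟨k, k1, k2⟩ := exists_EG_apply hQ (hf.nondeg_hperp hQ)
    (by have := hf.finrank_hperp; omega) b1 c1 b2 c2 (by rw [b3, c3, O.map_Q, h])
  rw [oe_congr b4, oe_congr c4, tr_conj R (conj_oe k u' β), k1, k2 _ (left_mem_perp_hperp _ _)]

theorem exists_mult (hQ : Q.polarBilin.Nondegenerate) (hψ : ψ ≠ 1) (h7 : 7 ≤ finrank F W) :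
    ∃ m : F → ℕ, ∀ u α, u ≠ 0 → Q u = 0 → polar Q u α = 0 → α ∉ span F {u} →
      tr (oe ψ R u α) = m (Q α) := by
  classical
  refine ⟨fun c => if h : ∃ p : W × W, (p.1 ≠ 0 ∧ Q p.1 = 0 ∧ polar Q p.1 p.2 = 0 ∧
    p.2 ∉ span F {p.1}) ∧ Q p.2 = c then finrank ℂ (LinearMap.range (oe ψ R h.choose.1 h.choose.2))
    else 0, fun u α h0 hu h1 h2 => ?_⟩
  have h : ∃ p : W × W, (p.1 ≠ 0 ∧ Q p.1 = 0 ∧ polar Q p.1 p.2 = 0 ∧ p.2 ∉ span F {p.1}) ∧
    Q p.2 = Q α := ⟨(u, α), ⟨h0, hu, h1, h2⟩, rfl⟩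
  obtain ⟨⟨a1, a2, a3, a4⟩, a5⟩ := h.choose_spec
  simp only [dif_pos h]
  rw [← tr_idem (oe_idem hψ a2 _)]
  exact tr_oe_eq hQ h7 h0 hu h1 h2 a1 a2 a3 a4 a5.symm

theorem eq_zero_of_tr {e : End ℂ V} (he : e * e = e) (h : tr e = 0) : e = 0 := by
  rw [tr_idem he, Nat.cast_eq_zero, finrank_eq_zero] at h
  exact LinearMap.range_eq_bot.1 h

section Theta

variable (hψ : ψ ≠ 1) {u α a : W} (hu : Q u = 0) (h1 : tr (oe ψ R u α) = 1) (ha : Q a = 0)
  (au : polar Q a u = 0) (aα : polar Q a α = 0)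
include hψ hu h1 ha au aα

theorem theta_of {b b' : W} {g : EG Q} {c : F} (gu : g.1 u = u) (gα : g.1 α = α)
    (ga : g.1 a = c • a) (gb : c • g.1 b' = b + b') (ab : polar Q a b = 0) (bu : polar Q b u = 0)
    (bα : polar Q b α = 0) (ab' : polar Q a b' = 0) (bu' : polar Q b' u = 0)
    (bα' : polar Q b' α = 0) (hc : c ≠ 0) : oe ψ R u α * R (EE Q a b) = oe ψ R u α := by
  refine rank_one_comm R (oe_idem hψ hu α) h1 (g := g) (s := EE Q a b')
    (comm_oe gu (by rw [gα, sub_self]; exact zero_mem _)) (EE_comm_oe au bu' aα bα')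
    (EE_comm_oe au bu aα bα) ?_
  rw [conj_EE, ga, EE_smul_left c ha, gb, EE_add ha ab ab']
  have := O.map_polar g.1 a b'
  rw [ga, ab', polar_smul_left, smul_eq_mul] at this
  exact (mul_eq_zero.1 this).resolve_left hc

theorem theta_sing (hQ : Q.polarBilin.Nondegenerate) {b : W} (hb : Q b = 0) (ab : polar Q a b = 0)
    (bu : polar Q b u = 0) (bα : polar Q b α = 0)
    (hd : 2 * finrank F (span F {u, α, a, b}) < finrank F W) :
    oe ψ R u α * R (EE Q a b) = oe ψ R u α := by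
  obtain ⟨x, hx, y, hy, hxy⟩ : ∃ x ∈ perp Q (span F {u, α, a, b}),
      ∃ y ∈ perp Q (span F {u, α, a, b}), polar Q x y ≠ 0 := by
    by_contra h
    push Not at h
    have a1 := (H60.nondeg_top hQ).two_mul_finrank_le hQ le_top h
    have a2 := H58.finrank_perp_add hQ (span F {u, α, a, b})
    rw [finrank_top] at a1
    omega
  obtain ⟨z, hz, hxz⟩ := H60.exists_polar_eq_one_of_ne hy hxy
  simp only [mem_perp_span, Set.mem_insert_iff, Set.mem_singleton_iff, forall_eq_or_imp,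
    forall_eq] at hx hz
  refine theta_of hψ hu h1 ha au aα (g := EE Q b x) (b' := z) (c := 1)
    (eich_apply_of_orth_orth bu (H60.pc hx.1)) (eich_apply_of_orth_orth bα (H60.pc hx.2.1))
    (by rw [one_smul]; exact eich_apply_of_orth_orth (H60.pc ab) (H60.pc hx.2.2.1)) ?_ ab bu bα
    hz.2.2.1 (H60.pc hz.1) (H60.pc hz.2.1) one_ne_zero
  rw [coe_EE, eich_apply_of_orth hb hx.2.2.2 hz.2.2.2, hxz, one_smul, one_smul, add_comm]

theorem theta_big (hQ : Q.polarBilin.Nondegenerate) {b : W} (ab : polar Q a b = 0)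
    (bu : polar Q b u = 0) (bα : polar Q b α = 0)
    (hd : 2 * finrank F (span F {u, α, a}) + 3 ≤ finrank F W) :
    oe ψ R u α * R (EE Q a b) = oe ψ R u α := by
  have hm : ∀ x, x ∈ perp Q (span F {u, α, a}) ↔
      polar Q u x = 0 ∧ polar Q α x = 0 ∧ polar Q a x = 0 := fun x => by simp [mem_perp_span]
  let T : Submodule F W :=
    { carrier := {x | x ∈ perp Q (span F {u, α, a}) ∧
        ∀ c : F, oe ψ R u α * R (EE Q a (c • x)) = oe ψ R u α}
      add_mem' := fun {x y} hx hy => ⟨add_mem hx.1 hy.1, fun c => by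
        rw [smul_add, EE_add ha (by simp [((hm x).1 hx.1).2.2]) (by simp [((hm y).1 hy.1).2.2]),
          map_mul, ← mul_assoc, hx.2, hy.2]⟩
      zero_mem' := ⟨zero_mem _, fun c => by rw [smul_zero, EE_zero, map_one, mul_one]⟩
      smul_mem' := fun c x hx => ⟨smul_mem _ _ hx.1, fun d => by rw [smul_smul, hx.2]⟩ }
  have a2 := H58.finrank_perp_add hQ (span F {u, α, a})
  have := ((H60.nondeg_top hQ).hasHyp_of_le hQ le_top (W := perp Q (span F {u, α, a}))
    (by rw [finrank_top]; omega)).le_of_sing (T := T) (fun x hx hx0 => ⟨hx, fun c => ?_⟩)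
    ((hm b).2 ⟨H60.pc bu, H60.pc bα, ab⟩)
  · simpa using this.2 1
  obtain ⟨x1, x2, x3⟩ := (hm x).1 hx
  refine theta_sing hψ hu h1 ha au aα hQ (by rw [Q_smul, hx0, mul_zero]) (by simp [x3])
    (by simp [H60.pc x1]) (by simp [H60.pc x2]) ?_
  have a3 := H60.finrank_sup_le (span F {u, α, a}) (span F {c • x})
  have a4 := H60.finrank_span_singleton_le (F := F) (c • x)
  rw [← span_union, show ({u, α, a} ∪ {c • x} : Set W) = {u, α, a, c • x} by
    ext; simp; tauto] at a3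
  omega

theorem theta_tor' (hQ : Q.polarBilin.Nondegenerate) (h3 : 3 ≤ finrank F W) {b : W}
    (ab : polar Q a b = 0) (bu : polar Q b u = 0) (bα : polar Q b α = 0)
    (hn : a ∉ span F {u, α}) {c : F} (hc : c ≠ 0) (hc' : c ^ 2 ≠ 1) :
    oe ψ R u α * R (EE Q a b) = oe ψ R u α := by
  obtain ⟨y, hy, hay⟩ : ∃ y ∈ perp Q (span F {u, α}), polar Q a y ≠ 0 := by
    by_contra h
    push Not at h
    exact hn (perp_perp hQ (span F {u, α}) ▸ mem_perp'.2 h)
  obtain ⟨z, hz, qz, az⟩ := H60.exists_partner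
    (mem_perp_span_pair.2 ⟨H60.pc au, H60.pc aα⟩) ha hy hay
  obtain ⟨uz, αz⟩ := mem_perp_span_pair.1 hz
  have h : IsHyp Q a z := ⟨ha, qz, az⟩
  have e1 : EE Q a b = EE Q a (b - polar Q z b • a) := Subtype.ext (by
    rw [coe_EE, coe_EE, sub_eq_add_neg, ← neg_smul, eich_add_smul_self _ ha ab])
  have d0 : c * c - 1 ≠ 0 := by rw [← pow_two]; exact sub_ne_zero.2 hc'
  rw [e1]
  refine theta_of hψ hu h1 ha au aα (g := ⟨_, h.tor_sq_mem_EG hQ h3 hc⟩) (c := c * c)
    (b' := (c * c - 1)⁻¹ • (b - polar Q z b • a))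
    (tor_apply_of_orth au (H60.pc uz)) (tor_apply_of_orth aα (H60.pc αz))
    (tor_apply_e h (mul_ne_zero hc hc)) ?_ (by simp [ab, ha]) (by simp [au, bu]) (by simp [aα, bα])
    (by simp [ab, ha]) (by simp [au, bu]) (by simp [aα, bα]) (mul_ne_zero hc hc)
  show _ • tor Q a z (c * c) _ = _
  rw [tor_apply_of_orth (by simp [ab, ha]) (by simp [h.fe])]
  match_scalars <;> field_simp <;> ring

theorem theta_small (hQ : Q.polarBilin.Nondegenerate) (h7 : 7 ≤ finrank F W) {b : W}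
    (ab : polar Q a b = 0) (bu : polar Q b u = 0) (bα : polar Q b α = 0)
    (hS : ∀ x ∈ perp Q (span F {u, α, a}), Q x = 0 → x ∈ span F {u, α, a})
    (hS'' : ∀ x ∈ span F {u, α, a}, Q x = 0)
    (h8 : 8 ≤ finrank F W) (hq : ∀ c : F, c ≠ 0 → c ^ 2 = 1) :
    oe ψ R u α * R (EE Q a b) = oe ψ R u α := by
  have hm : ∀ x, x ∈ perp Q (span F {u, α, a}) ↔
      polar Q u x = 0 ∧ polar Q α x = 0 ∧ polar Q a x = 0 := fun x => by simp [mem_perp_span]
  have hb := (hm b).2 ⟨H60.pc bu, H60.pc bα, ab⟩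
  have d3 := H60.finrank_span_triple_le (F := F) u α a
  by_cases qb : Q b = 0
  · refine theta_sing hψ hu h1 ha au aα hQ qb ab bu bα ?_
    have : span F {u, α, a, b} ≤ span F {u, α, a} := span_le.2 (by
      rintro x (rfl | rfl | rfl | rfl)
      exacts [subset_span (by simp), subset_span (by simp), subset_span (by simp), hS _ hb qb])
    have := finrank_mono this
    omega
  have key : ∀ y ∈ perp Q (span F {u, α, a}), Q y = Q b → ∀ b' ∈ perp Q (span F {u, α, a}),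
      refl Q b (refl Q y b') = b + b' → oe ψ R u α * R (EE Q a b) = oe ψ R u α := by
    intro y hy qy b' hb' e
    obtain ⟨y1, y2, y3⟩ := (hm y).1 hy
    obtain ⟨z1, z2, z3⟩ := (hm b').1 hb'
    have hg : refl Q b * refl Q y ∈ EG Q := H60.commutator_le_EOin hQ (by omega)
      (H60.refl_mul_refl_mem_commutator hQ (by omega) one_ne_zero (by rw [qy]; ring))
    have fx : ∀ x, polar Q b x = 0 → polar Q x y = 0 → (refl Q b * refl Q y) x = x :=
      fun x a1 a2 => by rw [O.mul_apply, refl_apply_of_orth (H60.pc a2), refl_apply_of_orth a1]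
    exact theta_of hψ hu h1 ha au aα (g := ⟨_, hg⟩) (c := 1) (b' := b') (fx u bu y1) (fx α bα y2)
      (by rw [one_smul]; exact fx a (H60.pc ab) y3) (by rw [one_smul]; exact e) ab bu bα z3
      (H60.pc z1) (H60.pc z2) one_ne_zero
  by_cases h2 : (2 : F) = 0
  · have o1 : ∀ c : F, c ≠ 0 → c = 1 := fun c hc => by
      have : (c - 1) ^ 2 = 0 := by linear_combination hq c hc + (1 - c) * h2
      exact sub_eq_zero.1 (pow_eq_zero_iff (by norm_num) |>.1 this)
    obtain ⟨y, hy, hby⟩ : ∃ y ∈ perp Q (span F {u, α, a}), polar Q b y ≠ 0 := by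
      by_contra h
      push Not at h
      exact qb (hS'' b (perp_perp hQ (span F {u, α, a}) ▸ mem_perp'.2 h))
    have qy : Q y ≠ 0 := fun e => hby (mem_perp'.1 hb y (hS y hy e))
    refine key y hy (by rw [o1 _ qy, o1 _ qb]) y hy ?_
    rw [refl_apply_of_orth (v := y) (by rw [polar_self', h2, zero_mul]), refl_apply, o1 _ hby,
      o1 _ qb]
    match_scalars
    · rfl
    · linear_combination -h2
  · have a2 := H58.finrank_perp_add hQ (span F {u, α, a})
    have a3 := H60.finrank_le_inf_ort (Q := Q) (perp Q (span F {u, α, a})) b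
    obtain ⟨y, ⟨hy, hby⟩, hyS⟩ := exists_notMem (p := span F {u, α, a})
      (q := perp Q (span F {u, α, a}) ⊓ H60.ort Q b) (by omega)
    have hby : polar Q b y = 0 := hby
    have qy : Q y ≠ 0 := fun e => hyS (hS y hy e)
    have q2 : Q y + Q b ≠ 0 := fun e => by
      have := mem_perp'.1 hb _ (hS (y + b) (add_mem hy hb) (by rw [Q_add, e, H60.pc hby, add_zero]))
      rw [polar_add_right, hby, zero_add, polar_self'] at this
      exact mul_ne_zero h2 qb this
    have q3 : (Q y - Q b) * (Q y + Q b) = 0 := by linear_combination hq _ qy - hq _ qb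
    refine key y hy (sub_eq_zero.1 ((mul_eq_zero.1 q3).resolve_right q2)) b hb ?_
    rw [refl_apply_of_orth (H60.pc hby), refl_apply_self qb]
    have h3 : (3 : F) = 0 := by linear_combination hq 2 h2
    rw [show -b = b + b - (3 : F) • b by module, h3, zero_smul, sub_zero]

end Theta

theorem theta (hQ : Q.polarBilin.Nondegenerate) (hψ : ψ ≠ 1) (h7 : 7 ≤ finrank F W) {u α a b : W}
    (hu : Q u = 0) (uα : polar Q u α = 0) (h1 : tr (oe ψ R u α) = 1) (ha : Q a = 0)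
    (ab : polar Q a b = 0) (au : polar Q a u = 0) (bu : polar Q b u = 0) (aα : polar Q a α = 0)
    (bα : polar Q b α = 0) (hc : 9 ≤ finrank F W ∨ (∃ c : F, c ≠ 0 ∧ c ^ 2 ≠ 1) ∨
      (finrank F W = 8 ∧ Q α = 0 ∧ ¬ H58.IsPlus Q)) :
    oe ψ R u α * R (EE Q a b) = oe ψ R u α := by
  have d3 := H60.finrank_span_triple_le (F := F) u α a
  by_cases hd : 2 * finrank F (span F {u, α, a}) + 3 ≤ finrank F W
  · exact theta_big hψ hu h1 ha au aα hQ ab bu bα hd
  by_cases hq : ∃ c : F, c ≠ 0 ∧ c ^ 2 ≠ 1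
  · obtain ⟨c, c1, c2⟩ := hq
    refine theta_tor' hψ hu h1 ha au aα hQ (by omega) ab bu bα (fun hn => ?_) c1 c2
    have : span F {u, α, a} ≤ span F {u, α} := span_le.2 (by
      rintro x (rfl | rfl | rfl)
      exacts [subset_span (by simp), subset_span (by simp), hn])
    have := finrank_mono this
    have := H60.finrank_span_pair_le (F := F) u α
    omega
  obtain ⟨h8, qα, hP⟩ := (hc.resolve_left (by omega)).resolve_left hq
  push Not at hq
  have s1 : ∀ x ∈ span F {u, α, a}, Q x = 0 := fun x hx => by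
    obtain ⟨c1, c2, c3, rfl⟩ := mem_span_triple.1 hx
    simp [Q_add, Q_smul, hu, qα, ha, uα, H60.pc au, H60.pc aα]
  refine theta_small hψ hu h1 ha au aα hQ h7 ab bu bα (fun x hx qx => ?_)
    s1 (by omega) hq
  by_contra hn
  refine hP ⟨_, ?_, H60.ts_sup_span s1 hx qx⟩
  rw [finrank_sup_span_singleton hn]
  omega

theorem good_of (hQ : Q.polarBilin.Nondegenerate) (hψ : ψ ≠ 1) (h7 : 7 ≤ finrank F W) {m : F → ℕ}
    (hm : ∀ u α, u ≠ 0 → Q u = 0 → polar Q u α = 0 → α ∉ span F {u} → tr (oe ψ R u α) = m (Q α))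
    (h1 : ∀ c, m c ≤ 1) (hc : 9 ≤ finrank F W ∨ (∃ c : F, c ≠ 0 ∧ c ^ 2 ≠ 1) ∨
      (finrank F W = 8 ∧ (∀ c, c ≠ 0 → m c = 0) ∧ ¬ H58.IsPlus Q)) : Good ψ R m := by
  refine ⟨hm, fun u α a b h0 hu uα hα ha ab au bu aα bα => ?_⟩
  have h2 := hm u α h0 hu uα hα
  rcases Nat.le_one_iff_eq_zero_or_eq_one.1 (h1 (Q α)) with h | h <;> rw [h] at h2
  · rw [eq_zero_of_tr (oe_idem hψ hu α) (by simpa using h2), zero_mul]
  · refine theta hQ hψ h7 hu uα (by simpa using h2) ha ab au bu aα bα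
      (hc.imp_right (Or.imp_right fun h3 => ⟨h3.1, ?_, h3.2.2⟩))
    by_contra h4
    rw [h3.2.1 _ h4] at h
    exact zero_ne_one h

end H2.MD
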