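/- The case division by the multiplicities, and the bound for the groups of minus type. -/
import Cfsg.Agent.H2.MDO5

set_option autoImplicit false
set_option linter.unusedSectionVars false

namespace H2.MD

open Module Finset Submodule H56 QuadraticMap

universe u v

section

variable {F W : Type*} [Field F] [AddCommGroup W] [Module F W] [FiniteDimensional F W]
variable {Q : QuadraticForm F W} [Finite F] [Finite W]

theorem sum_zc [Fintype F] : ∑ c, zc Q c = Nat.card W := by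
  classical
  have := Fintype.ofFinite W
  rw [Nat.card_eq_fintype_card, ← card_univ, card_eq_sum_card_fiberwise (f := Q) (t := univ)
    (fun _ _ => mem_univ _)]
  refine Finset.sum_congr rfl fun c _ => ?_
  rw [← card_filter_Q]

theorem zc_even (hQ : Q.polarBilin.Nondegenerate) (hev : Even (finrank F W)) {c : F}
    (hc : c ≠ 0) : (Nat.card F - 1) * zc Q c + zc Q 0 = Nat.card W := by
  classical
  have := Fintype.ofFinite F
  have h1 : ∀ d : F, d ≠ 0 → zc Q d = zc Q 1 := fun d hd => by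
    obtain ⟨g, hg⟩ := H58.exists_similarity hQ hev hd
    exact (Nat.card_congr (Equiv.subtypeEquiv g.toEquiv fun v => by simp [hg, hd])).symm
  rw [← sum_zc (Q := Q), ← Finset.sum_erase_add _ _ (mem_univ 0),
    Finset.sum_congr rfl fun d hd => h1 d (ne_of_mem_erase hd), h1 c hc]
  simp [Nat.card_eq_fintype_card]

theorem zc_of_isPlus (hQ : Q.polarBilin.Nondegenerate) (h : H58.IsPlus Q) {n : ℕ}
    (hn : finrank F W = 2 * (n + 1)) :
    zc Q 0 + Nat.card F ^ n = Nat.card F ^ (2 * n + 1) + Nat.card F ^ (n + 1) := by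
  have := Fintype.ofFinite F
  obtain ⟨g, hg⟩ := h.exists_equiv hQ hn
  rw [zc, H58.card_eq_congr g hg, H58.card_zero_qPlus, Nat.card_eq_fintype_card]
  obtain ⟨x, hx⟩ : ∃ x, Fintype.card F ^ (n + 1) = x + 1 :=
    Nat.exists_eq_succ_of_ne_zero (by positivity)
  rw [show 2 * n + 1 = (n + 1) + n by ring, pow_add _ (n + 1) n, hx]
  simp only [Nat.add_sub_cancel]
  ring

variable {V : Type*} [AddCommGroup V] [Module ℂ V] [FiniteDimensional ℂ V] {ψ : AddChar F ℂ}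
  {R : EG Q →* End ℂ V} {m : F → ℕ}

/-- `m` is the multiplicity function. -/
def IsMult (ψ : AddChar F ℂ) (R : EG Q →* End ℂ V) (m : F → ℕ) : Prop :=
  ∀ u α, u ≠ 0 → Q u = 0 → polar Q u α = 0 → α ∉ span F {u} → tr (oe ψ R u α) = m (Q α)

open Classical in
theorem IsMult.dim_eq (hm : IsMult ψ R m) (hQ : Q.polarBilin.Nondegenerate) (hψ : ψ ≠ 1) {e f : W}
    (h : IsHyp Q e f) : finrank ℂ V = finrank ℂ (LinearMap.range (oe ψ R e 0)) +
      ∑ w ∈ univ.filter (fun w : hperp Q e f => w ≠ 0), m (Q w) := by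
  have := Fintype.ofFinite W
  have h1 := finrank_eq_sum (R := R) hQ hψ h
  rw [Finset.sum_congr rfl (g := fun w : hperp Q e f => (m (Q w) : ℂ)) fun w hw => hm e w h.ne_zero h.qe
    (mem_hperp.1 w.2).1 (notMem_span_of_hperp h (mem_filter.1 hw).2)] at h1
  exact_mod_cast h1

theorem IsMult.triv (hm : IsMult ψ R m) (hQ : Q.polarBilin.Nondegenerate) (hψ : ψ ≠ 1)
    (h0 : ∀ c, m c = 0) (g : EG Q) : R g = 1 := by
  have : EG Q ≤ R.ker.map (EG Q).subtype := EG_le fun u v hu0 hu huv => by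
    obtain ⟨f, h⟩ := exists_isHyp hQ hu0 hu
    have h1 := hm.dim_eq hQ hψ h
    simp only [h0, sum_const_zero, add_zero] at h1
    have h2 : oe ψ R u 0 = 1 := LinearMap.ext fun x => (mem_range_idem (oe_idem hψ hu 0)).1
      (by rw [eq_top_of_finrank_eq h1.symm]; trivial)
    refine ⟨EE Q u v, ?_, rfl⟩
    have := EE_mul_pi (ψ := ψ) (R := R) hu huv
    rwa [h2, mul_one] at this
  obtain ⟨x, hx, e⟩ := this g.2
  rwa [← show x = g from Subtype.ext e]

theorem exists_adm (hQ : Q.polarBilin.Nondegenerate) (h5 : 5 ≤ finrank F W) (c : F) :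
    ∃ u α, u ≠ 0 ∧ Q u = 0 ∧ polar Q u α = 0 ∧ α ∉ span F {u} ∧ Q α = c := by
  obtain ⟨e, he0, he⟩ := H58.exists_singular_of_three_le Q (by omega)
  obtain ⟨f, h⟩ := exists_isHyp hQ he0 he
  obtain ⟨x, hx, x0, xc⟩ := ((h.nondeg_hperp hQ).hasHyp
    (by have := h.finrank_hperp; omega)).exists_Q_eq c
  exact ⟨e, x, he0, he, (mem_hperp.1 hx).1,
    notMem_span_of_hperp h (w := ⟨x, hx⟩) (fun e => x0 (congrArg Subtype.val e)), xc⟩

theorem IsMult.sq (hm : IsMult ψ R m) (hQ : Q.polarBilin.Nondegenerate) (h5 : 5 ≤ finrank F W)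
    (c : F) {a : F} (ha : a ≠ 0) : m (a ^ 2 * c) = m c := by
  obtain ⟨u, α, h0, h1, h2, h3, rfl⟩ := exists_adm hQ h5 c
  have := hm (a • u) (a • α) (smul_ne_zero ha h0) (by rw [Q_smul, h1, mul_zero]) (by simp [h2])
    (by rwa [span_singleton_smul_eq (IsUnit.mk0 a ha), smul_mem_iff _ ha])
  rw [oe_smul h1 ha, hm u α h0 h1 h2 h3, Q_smul, ← pow_two] at this
  exact_mod_cast this.symm

theorem IsMult.nontriv (hm : IsMult ψ R m) (hQ : Q.polarBilin.Nondegenerate) (hψ : ψ ≠ 1)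
    (h5 : 5 ≤ finrank F W) {c : F} (hc : m c ≠ 0) : ∃ g, R g ≠ 1 := by
  by_contra h
  push Not at h
  obtain ⟨u, α, h0, h1, h2, h3, rfl⟩ := exists_adm hQ h5 c
  obtain ⟨v, hv, hαv⟩ : ∃ v ∈ perp Q (span F {u}), polar Q α v ≠ 0 := by
    by_contra h
    push Not at h
    exact h3 (perp_perp hQ (span F {u}) ▸ mem_perp'.2 h)
  obtain ⟨s, hs⟩ := exists_psi_ne_one hψ hαv
  have a1 := oe_mul_EE (ψ := ψ) (R := R) h1 α (mem_ort.1 (smul_mem _ s hv))
  rw [h, mul_one, polar_smul_right, smul_eq_mul] at a1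
  have a2 : (1 - ψ (s * polar Q α v)) • oe ψ R u α = 0 := by
    rw [sub_smul, one_smul, ← a1, sub_self]
  have := hm u α h0 h1 h2 h3
  rw [(smul_eq_zero.1 a2).resolve_left (sub_ne_zero.2 hs.symm)] at this
  exact hc (by simpa [tr] using this.symm)

open Classical in
theorem sum_level [Fintype W] (m : F → ℕ) (S : Finset F) :
    ∑ c ∈ S, m c * (zc Q c - if c = 0 then 1 else 0) =
      ∑ w ∈ univ.filter (fun w : W => w ≠ 0 ∧ Q w ∈ S), m (Q w) := by
  rw [← Finset.sum_fiberwise_of_maps_to (s := univ.filter (fun w : W => w ≠ 0 ∧ Q w ∈ S)) (t := S)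
    (g := Q) (fun w hw => (mem_filter.1 hw).2.2)]
  refine Finset.sum_congr rfl fun c hc => ?_
  rw [Finset.sum_congr rfl (g := fun _ => m c) fun w hw => by rw [(mem_filter.1 hw).2],
    sum_const, smul_eq_mul, mul_comm, ← card_filter_Q]
  congr 1
  split_ifs with h
  · rw [← card_erase_of_mem (a := 0) (by simp [h])]
    congr 1
    ext w
    simp only [mem_filter, mem_erase, mem_univ, true_and]
    exact ⟨fun h1 => ⟨⟨h1.1, h1.2 ▸ hc⟩, h1.2⟩, fun h1 => ⟨h1.1.1, h1.2⟩⟩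
  · rw [Nat.sub_zero]
    congr 1
    ext w
    simp only [mem_filter, mem_univ, true_and]
    exact ⟨fun h1 => ⟨⟨fun e => h (by rw [← h1, e, map_zero]), h1 ▸ hc⟩, h1⟩, fun h1 => h1.2⟩

open Classical in
theorem sum_level_le [Fintype W] (m : F → ℕ) (S : Finset F) {s : Finset W}
    (hs : ∀ w, w ≠ 0 → w ∈ s) :
    ∑ c ∈ S, m c * (zc Q c - if c = 0 then 1 else 0) ≤ ∑ w ∈ s, m (Q w) := by
  rw [sum_level]
  exact sum_le_sum_of_subset fun w hw => hs w (mem_filter.1 hw).2.1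

theorem zc_pos : 0 < zc Q 0 := by
  have : Nonempty {x // Q x = 0} := ⟨⟨0, map_zero _⟩⟩
  exact Nat.card_pos

theorem tri (hQ : Q.polarBilin.Nondegenerate) (hψ : ψ ≠ 1) (h7 : 7 ≤ finrank F W)
    (hR : ∃ g, R g ≠ 1) {e f : W} (h : IsHyp Q e f) {μ : ℕ}
    (h0 : μ + 1 ≤ zc (Q.restrict (hperp Q e f)) 0)
    (h1 : ∀ c, c ≠ 0 → μ ≤ zc (Q.restrict (hperp Q e f)) c) :
    2 * μ ≤ finrank ℂ V ∨ ∃ m c, IsMult ψ R m ∧ m c = 1 ∧ (∀ d, d ≠ c → m d = 0) ∧
      (c = 0 ∨ (∀ a : F, a ≠ 0 → a ^ 2 = 1) ∧ c ≠ 0 ∧ finrank ℂ (LinearMap.range (oe ψ R e 0)) +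
        zc (Q.restrict (hperp Q e f)) c ≤ finrank ℂ V) := by
  classical
  obtain ⟨m, hm⟩ := exists_mult (R := R) hQ hψ h7
  replace hm : IsMult ψ R m := hm
  have a1 : ∀ S : Finset F, finrank ℂ (LinearMap.range (oe ψ R e 0)) + ∑ c ∈ S, m c *
      (zc (Q.restrict (hperp Q e f)) c - if c = 0 then 1 else 0) ≤ finrank ℂ V := fun S => by
    rw [hm.dim_eq hQ hψ h]
    exact Nat.add_le_add_left (sum_level_le (Q := Q.restrict (hperp Q e f)) m S
      fun w hw => mem_filter.2 ⟨mem_univ _, hw⟩) _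
  have a2 : ∀ c, μ ≤ zc (Q.restrict (hperp Q e f)) c - if c = 0 then 1 else 0 := fun c => by
    split_ifs with hc
    · rw [hc]; omega
    · exact h1 c hc
  obtain ⟨c, hc⟩ : ∃ c, m c ≠ 0 := by
    by_contra h2
    push Not at h2
    obtain ⟨g, hg⟩ := hR
    exact hg (hm.triv hQ hψ h2 g)
  by_cases h2 : ∃ d, d ≠ c ∧ m d ≠ 0
  · obtain ⟨d, d1, d2⟩ := h2
    have b1 := a1 {d, c}
    rw [sum_pair d1] at b1
    have b2 := Nat.mul_le_mul (Nat.pos_of_ne_zero hc) (a2 c)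
    have b3 := Nat.mul_le_mul (Nat.pos_of_ne_zero d2) (a2 d)
    left; omega
  push Not at h2
  have b1 := a1 {c}
  rw [sum_singleton] at b1
  by_cases h3 : m c = 1
  · refine Or.inr ⟨m, c, hm, h3, h2, or_iff_not_imp_left.2 fun c0 => ⟨fun a ha => ?_, c0, ?_⟩⟩
    · by_contra h4
      exact hc (by rw [← hm.sq hQ (by omega) c ha, h2 _ (by simpa [c0] using h4)])
    · simpa [h3, c0] using b1
  · have b2 := Nat.mul_le_mul (show 2 ≤ m c by omega) (a2 c)
    left; omega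

theorem single_ne (r : ℕ) : (Pi.single 0 1 : Fin (r + 3) → F) ≠ 0 := by simp

theorem single_notMem (r : ℕ) :
    (Pi.single 1 1 : Fin (r + 3) → F) ∉ span F {(Pi.single 0 1 : Fin (r + 3) → F)} := fun h => by
  obtain ⟨c, hc⟩ := mem_span_singleton.1 h
  simpa using congrFun hc 1

end

theorem Good.frame {F : Type*} [Field F] [Finite F] {ψ : AddChar F ℂ} (hψ : ψ ≠ 1) {m : F → ℕ}
    (h0 : m 0 = 1) (h1 : ∀ c, c ≠ 0 → m c = 0) {W : Type u} [AddCommGroup W] [Module F W]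
    [FiniteDimensional F W] [Finite W] {Q : QuadraticForm F W} (hQ : Q.polarBilin.Nondegenerate)
    {V : Type v} [AddCommGroup V] [Module ℂ V] [FiniteDimensional ℂ V] {R : EG Q →* End ℂ V}
    (H : Good ψ R m) {r : ℕ} {j : (Fin (r + 3) → F) →ₗ[F] W} {k l} (hl : Lev Q j k l) (q : ℂ)
    (hq : q = Nat.card F) : ∃ D : ℕ, D ≤ finrank ℂ (FixM R (LinearMap.range j)) ∧
      Nat.card F ^ (r + 3) + D ≤ Nat.card F * D + Nat.card F ∧
      (finrank ℂ V : ℂ) - finrank ℂ (FixM R (LinearMap.range j)) =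
        Nat.card W / q * (1 - (q ^ (2 * (r + 3)))⁻¹) / (q ^ 2 - 1) +
        (zc Q 0 - Nat.card W / q) * (1 - (q ^ (r + 3))⁻¹) / (q - 1) - (q ^ (r + 3) - 1) / (q - 1) := by
  have := Fintype.ofFinite F
  obtain ⟨D, d1, d2, -⟩ := (hl.mult1 hψ (by simp) H h0).bound' (single_ne r) (single_notMem r) rfl
  exact ⟨D, d1, by simpa using d2, Good.codim hψ h0 h1 _ hQ H hl.sing
    (by rw [LinearMap.finrank_range_of_inj hl.inj]; simp) q hq⟩

theorem arith_m1 {q y z D : ℤ} (hq : 2 ≤ q) (hy : q ^ 2 ≤ y) (hz : z + q * y = q * y ^ 2 + y)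
    (h : 2 * (z - 1) ≤ D) : (q ^ 2 * y + 1) * (q * y - q) ≤ D * (q ^ 2 - 1) := by
  obtain ⟨a, rfl⟩ : ∃ a, q = a + 2 := ⟨q - 2, by ring⟩
  obtain ⟨b, rfl⟩ : ∃ b, y = b + (a + 2) ^ 2 := ⟨y - (a + 2) ^ 2, by ring⟩
  have ha : 0 ≤ a := by linarith
  have hb : 0 ≤ b := by linarith
  refine le_trans ?_ (mul_le_mul_of_nonneg_right h (by nlinarith))
  rw [show z = (a + 2) * (b + (a + 2) ^ 2) ^ 2 + (b + (a + 2) ^ 2) - (a + 2) * (b + (a + 2) ^ 2) by
    linarith, ← sub_nonneg]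
  ring_nf
  positivity

theorem arith_m2 {q y D X D' : ℤ} (hq : 2 ≤ q) (d1 : D' ≤ X) (d2 : q * y + D' ≤ q * D' + q)
    (d5 : (D - X) * (q ^ 2 - 1) = q ^ 3 * y ^ 2 - q - (q ^ 2 + q) * (q * y - 1)) :
    (q ^ 2 * y + 1) * (q * y - q) ≤ D * (q ^ 2 - 1) := by
  have a1 : (0 : ℤ) ≤ q ^ 2 - 1 := by nlinarith
  have a2 := mul_le_mul_of_nonneg_right d1 a1
  have a3 := mul_le_mul_of_nonneg_right d2 (show (0 : ℤ) ≤ q + 1 by linarith)
  linarith

theorem arith_m3 {q y D : ℤ} (hq : 2 ≤ q) (hy : y = q ^ (0 + 2)) (h : q * y ^ 2 + y ≤ D) :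
    (q ^ 2 * y + 1) * (q * y - q) ≤ D * (q ^ 2 - 1) := by
  have a1 : (0 : ℤ) ≤ q ^ 2 - 1 := by nlinarith
  refine le_trans ?_ (mul_le_mul_of_nonneg_right h a1)
  have := mul_nonneg a1 (show (0 : ℤ) ≤ q * (q - 1) by nlinarith)
  rw [hy, zero_add]
  linarith

theorem arith_m4 {q y D P : ℤ} (hq : 2 ≤ q) (hy : q ^ 2 ≤ y) (h : P + (q * y ^ 2 + y) ≤ D)
    (h' : (y * q + 1) * (y - q) ≤ P * (q ^ 2 - 1)) :
    (q ^ 2 * y + 1) * (q * y - q) ≤ D * (q ^ 2 - 1) := by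
  have a1 : (0 : ℤ) ≤ q ^ 2 - 1 := by nlinarith
  have a2 := mul_le_mul_of_nonneg_right h a1
  have a3 := mul_nonneg a1 (show (0 : ℤ) ≤ q * y by nlinarith)
  linarith

theorem minus_bound {F : Type*} [Field F] [Finite F] {ψ : AddChar F ℂ} (hψ : ψ ≠ 1) (r : ℕ) :
    ∀ {W : Type u} [AddCommGroup W] [Module F W] [FiniteDimensional F W] [Finite W]
      {Q : QuadraticForm F W} (_ : Q.polarBilin.Nondegenerate) (_ : finrank F W = 2 * (r + 4))
      (_ : zc Q 0 + Nat.card F ^ (r + 4) = Nat.card F ^ (2 * r + 7) + Nat.card F ^ (r + 3))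
      {V : Type v} [AddCommGroup V] [Module ℂ V] [FiniteDimensional ℂ V] {R : EG Q →* End ℂ V}
      (_ : ∃ g, R g ≠ 1), ((Nat.card F : ℤ) ^ (r + 4) + 1) * (Nat.card F ^ (r + 3) - Nat.card F) ≤
        finrank ℂ V * (Nat.card F ^ 2 - 1) := by
  induction r using Nat.strong_induction_on with
  | _ r ih =>
  intro W _ _ _ _ Q hQ hN hz V _ _ _ R hR
  obtain ⟨e, he0, he⟩ := H58.exists_singular_of_three_le Q (by omega)
  obtain ⟨f, h⟩ := exists_isHyp hQ he0 he
  have hN' := h.finrank_hperp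
  have hq : 2 ≤ Nat.card F := Finite.one_lt_card
  have c1 : Nat.card (hperp Q e f) = Nat.card F ^ (2 * r + 6) := by
    rw [Module.natCard_eq_pow_finrank (K := F)]; congr 1; omega
  have c2 := zc_hyp h 0
  have c3 := fun c (hc : c ≠ 0) => zc_even (h.nondegenerate_hperp hQ) ⟨r + 3, by omega⟩ hc
  have c0 : Nat.card W = Nat.card F ^ (2 * r + 8) := by
    rw [Module.natCard_eq_pow_finrank (K := F), hN]; congr 1
  have hP : ¬ H58.IsPlus Q := fun hP => by
    have := zc_of_isPlus hQ hP (n := r + 3) (by omega)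
    have := Nat.pow_lt_pow_right hq (show r + 3 < r + 4 by omega)
    rw [show 2 * (r + 3) + 1 = 2 * r + 7 by ring, show r + 3 + 1 = r + 4 by ring] at *
    omega
  rw [c1] at c2 c3
  obtain ⟨p, hp⟩ : ∃ p, Nat.card F = p + 1 := ⟨Nat.card F - 1, by omega⟩
  obtain ⟨y, hy⟩ : ∃ y, y = Nat.card F ^ (r + 2) := ⟨_, rfl⟩
  have y1 : Nat.card F ^ 2 ≤ y := hy ▸ Nat.pow_le_pow_right (by omega) (by omega)
  have e3 : Nat.card F ^ (r + 3) = Nat.card F * y := by rw [hy]; ring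
  have e4 : Nat.card F ^ (r + 4) = Nat.card F ^ 2 * y := by rw [hy]; ring
  have e6 : Nat.card F ^ (2 * r + 6) = Nat.card F ^ 2 * y ^ 2 := by rw [hy]; ring
  have e7 : Nat.card F ^ (2 * r + 7) = Nat.card F ^ 3 * y ^ 2 := by rw [hy]; ring
  have z0 : zc (Q.restrict (hperp Q e f)) 0 + Nat.card F * y = Nat.card F * y ^ 2 + y := by
    refine Nat.eq_of_mul_eq_mul_left (show 0 < Nat.card F by omega) ?_
    rw [c2, e3, e4, e6, e7, hp] at hz
    rw [hp]
    simp only [Nat.add_sub_cancel] at hz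
    nlinarith
  have z1 : ∀ c, c ≠ 0 → zc (Q.restrict (hperp Q e f)) c = Nat.card F * y ^ 2 + y := fun c hc => by
    have := c3 c hc
    refine Nat.eq_of_mul_eq_mul_left (show 0 < p by omega) ?_
    rw [e6, hp] at this
    rw [hp] at z0 ⊢
    simp only [Nat.add_sub_cancel] at this
    nlinarith
  have z2 : 0 < zc (Q.restrict (hperp Q e f)) 0 := zc_pos
  have goal : ∀ D : ℕ, ((Nat.card F : ℤ) ^ (r + 4) + 1) * (Nat.card F ^ (r + 3) - Nat.card F) ≤
      D * (Nat.card F ^ 2 - 1) ↔ ((Nat.card F : ℤ) ^ 2 * y + 1) * (Nat.card F * y - Nat.card F) ≤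
      D * (Nat.card F ^ 2 - 1) := fun D => by rw [hy]; push_cast; ring_nf
  rw [goal]
  rcases tri hQ hψ (by omega) hR h (μ := zc (Q.restrict (hperp Q e f)) 0 - 1) (by omega)
    (fun c hc => by rw [z1 c hc]; omega) with h1 | ⟨m, c, hm, h1, h2, rfl | ⟨-, h3, h4⟩⟩
  · zify [show 1 ≤ _ from z2] at h1 z0 y1 hq
    exact arith_m1 hq y1 z0 h1
  · have H : Good ψ R m := good_of hQ hψ (by omega) hm
      (fun c => by by_cases hc : c = 0; exacts [hc ▸ h1.le, (h2 c hc).trans_le zero_le_one])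
      (by by_cases hr : r = 0; exacts [Or.inr (Or.inr ⟨by omega, h2, hP⟩), Or.inl (by omega)])
    obtain ⟨e', f', hf⟩ := H58.exists_frame_of_lt hQ (r + 3) (by omega)
    obtain ⟨j, k, hj, -⟩ := exists_DP hf
    obtain ⟨l, hl⟩ := hj.exists_lev
    obtain ⟨D, d1, d2, d3⟩ := H.frame hψ h1 h2 hQ hl _ rfl
    have q0 := qne F
    have q1 := q_sub_one_ne F
    have q2 := q_add_one_ne F
    have y0 : (y : ℂ) ≠ 0 := by rw [hy]; exact_mod_cast pow_ne_zero _ (by omega)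
    have d4 : ((finrank ℂ V : ℂ) - finrank ℂ (FixM R (LinearMap.range j))) * (Nat.card F ^ 2 - 1) =
        Nat.card F ^ 3 * y ^ 2 - Nat.card F - (Nat.card F ^ 2 + Nat.card F) * (Nat.card F * y - 1) := by
      have a1 : (zc Q 0 : ℂ) = Nat.card F ^ 3 * y ^ 2 + Nat.card F * y - Nat.card F ^ 2 * y := by
        rw [e3, e4, e7] at hz
        rw [eq_sub_iff_add_eq]; exact_mod_cast hz
      rw [d3, a1, c0, show ((Nat.card F : ℂ) ^ 2 - 1) = (Nat.card F - 1) * (Nat.card F + 1) by ring,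
        hy]
      push_cast
      field_simp
      ring
    rw [e3] at d2
    zify at d1 d2 hq
    exact arith_m2 hq d1 d2 (by exact_mod_cast d4)
  · rw [z1 c h3] at h4
    rcases r with _ | r
    · replace h4 := (Nat.le_add_left _ _).trans h4
      zify at h4 hq hy
      exact arith_m3 hq hy h4
    have := Fintype.ofFinite W
    have H : Good ψ R m := good_of hQ hψ (by omega) hm
      (fun d => by by_cases hc : d = c; exacts [hc ▸ h1.le, (h2 d hc).trans_le zero_le_one])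
      (Or.inl (by omega))
    have a0 := ih r (by omega) (h.nondegenerate_hperp hQ) (by omega)
      (by rw [hy] at z0; convert z0 using 2 <;> ring)
      (IsMult.nontriv (H.down hQ hψ h).tr (h.nondegenerate_hperp hQ) hψ (by omega) (c := c) (by omega))
    have e5 : (Nat.card F : ℤ) ^ (r + 3) = y := by rw [hy]; push_cast; ring
    rw [pow_succ _ (r + 3), e5] at a0
    zify at h4 hq y1
    exact arith_m4 hq y1 h4 a0

end H2.MD
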