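/- Transfer from `Cfsg.Omega` to the group generated by the Eichler transformations. -/
import Cfsg.Agent.H2.MDO6
import Cfsg.Agent.H56.OmegaFin
import Cfsg.Agent.H56.OmegaGen
import Cfsg.Agent.H28.RepBasic
import Cfsg.Agent.H59.RepHeis

set_option autoImplicit false
set_option linter.unusedSectionVars false

namespace H2.MD

open Module H56 QuadraticMap

theorem transfer {F : Type*} [Field F] [Finite F] {ι : Type} [Fintype ι] [DecidableEq ι]
    (Q : QuadraticForm F (ι → F)) {q : (ι → F) → F} (h : ⇑Q = q)
    (hQ : Q.polarBilin.Nondegenerate) (h5 : 5 ≤ finrank F (ι → F)) {V : Type*} [AddCommGroup V]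
    [Module ℂ V] (ρ : Representation ℂ (Cfsg.Omega F q) V) (hρ : ρ.IsIrreducible) :
    ∃ R : Representation ℂ (EG Q) V, R.IsIrreducible := by
  let e := (MulEquiv.subgroupCongr (commutator_eq_EG_fin hQ (not_isExc_of_finrank (by omega))
    (by omega))).symm.trans (omegaEquiv Q h).symm
  exact ⟨_, H28.isIrreducible_comp_of_surjective ρ e.toMonoidHom e.surjective⟩

theorem psi_ne_one (F : Type*) [Field F] [Finite F] :
    AddChar.FiniteField.primitiveChar_to_Complex F ≠ 1 := by
  simpa using AddChar.FiniteField.primitiveChar_to_Complex_isPrimitive F one_ne_zero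

end H2.MD
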