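/- In odd dimension the rank one idempotents of the two square classes are orthogonal. -/
import Cfsg.Agent.H2.MDO7

set_option autoImplicit false
set_option linter.unusedSectionVars false

namespace H2.MD

open Module Finset Submodule H56 QuadraticMap

universe u v

section

variable {F W : Type*} [Field F] [AddCommGroup W] [Module F W] [FiniteDimensional F W]
variable {Q : QuadraticForm F W}

theorem EG_ext {g h : EG Q} (e : ∀ x, g.1 x = h.1 x) : g = h :=
  Subtype.ext (DFunLike.ext _ _ e)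

theorem EE_wedge {a b : W} (ha : Q a = 0) (hb : Q b = 0) (hab : polar Q a b = 0) (α β γ δ : F) :
    EE Q (α • a + β • b) (γ • a + δ • b) = EE Q a ((α * δ - β * γ) • b) := by
  have hba : polar Q b a = 0 := by rw [polar_comm, hab]
  refine EG_ext fun x => ?_
  rw [coe_EE, coe_EE, eich_apply (by simp [Q_add, Q_smul, ha, hb, hab])
    (by simp [ha, hb, hab, hba]), eich_apply ha (by simp [hab])]
  simp only [Q_add, Q_smul, ha, hb, polar_add_left, polar_smul_left, polar_smul_right, hab,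
    smul_eq_mul, mul_zero, add_zero, zero_mul, zero_smul, sub_zero]
  module

/-- Two orthogonal hyperbolic pairs. -/
structure HQ (Q : QuadraticForm F W) (u w u' w' : W) : Prop where
  qu : Q u = 0
  qw : Q w = 0
  qu' : Q u' = 0
  qw' : Q w' = 0
  uw : polar Q u w = 0
  uu' : polar Q u u' = 1
  uw' : polar Q u w' = 0
  wu' : polar Q w u' = 0
  ww' : polar Q w w' = 1
  uw'' : polar Q u' w' = 0

namespace HQ

variable {u w u' w' : W} (h : HQ Q u w u' w')
include h

theorem wu : polar Q w u = 0 := by rw [polar_comm, h.uw]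
theorem u'u : polar Q u' u = 1 := by rw [polar_comm, h.uu']
theorem w'u : polar Q w' u = 0 := by rw [polar_comm, h.uw']
theorem u'w : polar Q u' w = 0 := by rw [polar_comm, h.wu']
theorem w'w : polar Q w' w = 1 := by rw [polar_comm, h.ww']
theorem w'u' : polar Q w' u' = 0 := by rw [polar_comm, h.uw'']

theorem ne : u ≠ 0 := fun e => by simpa [e] using h.uu'

theorem notMem : w ∉ span F {u} := fun e => by
  obtain ⟨c, hc⟩ := mem_span_singleton.1 e
  have := h.ww'
  rw [← hc] at this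
  simp [h.uw'] at this

theorem change {a b c d : F} (hd : a * d - b * c ≠ 0) :
    HQ Q (a • u + b • w) (c • u + d • w) ((a * d - b * c)⁻¹ • (d • u' - c • w'))
      ((a * d - b * c)⁻¹ • (a • w' - b • u')) := by
  constructor <;> simp [Q_add, Q_sub, Q_smul, h.qu, h.qw, h.qu', h.qw', h.uw, h.uu', h.uw', h.wu',
    h.ww', h.uw'', h.wu, h.w'u'] <;> first | (right; ring1) | field_simp

theorem frame : H58.IsHypFrame Q ![u, w] ![u', w'] := by
  constructor
  all_goals simp [Fin.forall_fin_two, h.qu, h.qw, h.qu', h.qw', h.uw, h.uu', h.uw', h.wu',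
    h.ww', h.uw'', h.wu, h.w'u']

end HQ

theorem mem_framePerp_two {u w u' w' x : W} : x ∈ H58.framePerp Q ![u, w] ![u', w'] ↔
    polar Q u x = 0 ∧ polar Q w x = 0 ∧ polar Q u' x = 0 ∧ polar Q w' x = 0 := by
  simp only [H58.mem_framePerp, Fin.forall_fin_two, Matrix.cons_val_zero, Matrix.cons_val_one]
  tauto

variable {V : Type*} [AddCommGroup V] [Module ℂ V] {ψ : AddChar F ℂ} {R : EG Q →* End ℂ V}

/-- The elements acting trivially on the range of `T`. -/
def Stab (R : EG Q →* End ℂ V) (T : End ℂ V) : Subgroup (EG Q) where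
  carrier := {g | R g * T = T}
  one_mem' := by simp
  mul_mem' {a b} ha hb := by
    simp only [Set.mem_ofPred_eq] at *
    rw [map_mul, mul_assoc, hb, ha]
  inv_mem' {a} ha := by
    simp only [Set.mem_ofPred_eq] at *
    rw [← ha, ← mul_assoc, ← map_mul, inv_mul_cancel, map_one, one_mul, ha]

theorem Stab.conj {T : End ℂ V} {g : EG Q} (hg : g ∈ Stab R T) {a b : W}
    (h : EE Q a b ∈ Stab R T) : EE Q (g.1 a) (g.1 b) ∈ Stab R T := by
  have := (Stab R T).mul_mem hg h
  rwa [conj_EE, Subgroup.mul_mem_cancel_right _ hg] at this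

variable [Finite F] [Finite W]

theorem oi_mul_eq_oe {S : Submodule F W} {u w w' : W} (hu : Q u = 0)
    (hS : S ≤ perp Q (span F {u})) (hw : w' ∈ S) (h1 : polar Q w w' = 1) {T : End ℂ V}
    (hT : ∀ v, polar Q u v = 0 → polar Q w v = 0 → R (EE Q u v) * T = T) :
    oi ψ R S u w * T = oe ψ R u w * T := by
  have uw' := mem_ort.1 (hS hw)
  have a1 : oe ψ R u w * (oi ψ R S u w * T) = oi ψ R S u w * T := oi_mul_eq_self fun v hv => by
    have hv' := mem_ort.1 hv
    have b1 : polar Q u (v - polar Q w v • w') = 0 := by simp [hv', uw']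
    have b2 : R (EE Q u (v - polar Q w v • w')) * oi ψ R S u w =
        oi ψ R S u w * R (EE Q u (v - polar Q w v • w')) := comm_oi (fun x hx => by
      rw [← map_mul, ← map_mul, ← EE_add hu b1 (mem_ort.1 (hS hx)),
        ← EE_add hu (mem_ort.1 (hS hx)) b1, add_comm]) _
    rw [show EE Q u v = EE Q u (polar Q w v • w') * EE Q u (v - polar Q w v • w') by
      rw [← EE_add hu (by simp [uw']) b1, add_sub_cancel], map_mul, mul_assoc, ← mul_assoc _ _ T,
      b2, mul_assoc, hT _ b1 (by simp [h1]), ← mul_assoc, EE_mul_oi hu hS _ (smul_mem _ _ hw),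
      smul_mul_assoc]
    simp [h1]
  rw [← a1, ← mul_assoc, oe_mul_oi_of_mem hu hS (by simp)]

theorem eq_zero_of_oe (hQ : Q.polarBilin.Nondegenerate) (hψ : ψ ≠ 1) {u : W} (hu0 : u ≠ 0)
    (hu : Q u = 0) {T : End ℂ V} (h : ∀ α, oe ψ R u α * T = 0) : T = 0 := by
  have := Fintype.ofFinite W
  apply smul_right_injective _ (qne F)
  simp only
  rw [smul_zero, ← one_mul T, ← smul_mul_assoc, ← sum_oe (ψ := ψ) (R := R) hQ hψ hu0 hu,
    Finset.sum_mul, Finset.sum_eq_zero fun α _ => h α]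

theorem oe_mul_eq_zero (hψ : ψ ≠ 1) {u α v : W} (hu : Q u = 0) (hv : polar Q u v = 0) {b : F}
    {T : End ℂ V} (hT : ∀ s : F, R (EE Q u (s • v)) * T = ψ (s * b) • T) (hb : polar Q α v ≠ b) :
    oe ψ R u α * T = 0 := by
  obtain ⟨s, hs⟩ := exists_psi_ne_one hψ (sub_ne_zero.2 hb)
  have a1 : oe ψ R u α * _ = oe ψ R u α * _ := congrArg (oe ψ R u α * ·) (hT s)
  rw [← mul_assoc, oe_mul_EE hu α (by simp [hv]), smul_mul_assoc, mul_smul_comm, polar_smul_right,
    smul_eq_mul, ← sub_eq_zero, ← sub_smul] at a1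
  refine (smul_eq_zero.1 a1).resolve_left fun e => hs ?_
  rw [mul_sub, AddChar.map_sub_eq_div, sub_eq_zero.1 e, div_self]
  exact fun e0 => by simpa [e0] using AddChar.val_isUnit ψ (s * b)

variable [FiniteDimensional ℂ V] {m : F → ℕ}

theorem Good.EE_mul (H : Good ψ R m) {u α a b : W} (hu0 : u ≠ 0) (hu : Q u = 0)
    (h1 : polar Q u α = 0) (h2 : α ∉ span F {u}) (ha : Q a = 0) (ab : polar Q a b = 0)
    (au : polar Q a u = 0) (bu : polar Q b u = 0) (aα : polar Q a α = 0) (bα : polar Q b α = 0) :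
    R (EE Q a b) * oe ψ R u α = oe ψ R u α := by
  rw [EE_comm_oe au bu aα bα, H.th u α a b hu0 hu h1 h2 ha ab au bu aα bα]

theorem Good.van (hQ : Q.polarBilin.Nondegenerate) (hψ : ψ ≠ 1) (H : Good ψ R m)
    (h1 : ∀ c, c ≠ 0 → m c = 0) {u w u' w' : W} (h : HQ Q u w u' w') {d b : F}
    (hd : ∀ z ∈ H58.framePerp Q ![u, w] ![u', w'], IsSquare (Q z * d)) (hb : ¬ IsSquare (-b * d))
    {T : End ℂ V} (t1 : ∀ s : F, R (EE Q u (s • w')) * T = ψ (s * 1) • T)
    (t2 : ∀ s : F, R (EE Q u (s • w)) * T = ψ (s * b) • T) : T = 0 := by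
  refine eq_zero_of_oe (R := R) hQ hψ h.ne h.qu fun α => ?_
  by_cases a1 : polar Q u α = 0
  swap
  · rw [oe_eq_zero hψ h.qu a1, zero_mul]
  by_cases a2 : polar Q α w' = 1
  swap
  · exact oe_mul_eq_zero hψ h.qu h.uw' t1 a2
  by_cases a3 : polar Q α w = b
  swap
  · exact oe_mul_eq_zero hψ h.qu h.uw t2 a3
  have a4 : Q α ≠ 0 := fun e => hb (by
    have := hd (α - (polar Q u' α • u + w + b • w')) (mem_framePerp_two.2 (by
      simp [a1, a2, a3, polar_comm Q w α, polar_comm Q w' α, h.qu, h.qw, h.qw', h.uw, h.uw', h.wu,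
        h.ww', h.u'u, h.u'w, h.uw'', h.w'u, h.w'w]))
    convert this using 2
    simp [Q_sub, Q_add, Q_smul, e, a2, a3, polar_comm Q α u, a1, h.qu, h.qw, h.qw', h.uw, h.uw',
      h.ww'])
  rw [eq_zero_of_tr (oe_idem hψ h.qu α) (by
    rw [H.tr u α h.ne h.qu a1 (fun e => a4 ?_), h1 _ a4, Nat.cast_zero]
    obtain ⟨c, rfl⟩ := mem_span_singleton.1 e
    rw [Q_smul, h.qu, mul_zero]), zero_mul]

theorem oi_span_mul {u w γ : W} (hu : Q u = 0) (uw : polar Q u w = 0) (s : F) :
    R (EE Q u (s • w)) * oi ψ R (span F {w}) u γ = ψ (s * polar Q γ w) • oi ψ R (span F {w}) u γ := by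
  rw [EE_mul_oi hu ((span_singleton_le_iff_mem _ _).2 (mem_ort.2 uw)) _
    (smul_mem _ _ (mem_span_singleton_self w)), polar_smul_right, smul_eq_mul]

theorem comm_oi_span {u w γ : W} {T : End ℂ V}
    (h : ∀ s : F, T * R (EE Q u (s • w)) = R (EE Q u (s • w)) * T) :
    T * oi ψ R (span F {w}) u γ = oi ψ R (span F {w}) u γ * T := comm_oi (fun v hv => by
  obtain ⟨s, rfl⟩ := mem_span_singleton.1 hv
  exact h s) _

theorem comm_of_apply {g : EG Q} {a b : W} (h : EE Q (g.1 a) (g.1 b) = EE Q a b) :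
    R g * R (EE Q a b) = R (EE Q a b) * R g := by rw [← map_mul, conj_EE, h, map_mul]

/-- The common eigenspaces of the two root groups vanish for the wrong square class. -/
theorem Good.van' (hQ : Q.polarBilin.Nondegenerate) (hψ : ψ ≠ 1) (H : Good ψ R m)
    (h1 : ∀ c, c ≠ 0 → m c = 0) {u w u' w' : W} (h : HQ Q u w u' w') {d b δ : F}
    (hd : ∀ z ∈ H58.framePerp Q ![u, w] ![u', w'], IsSquare (Q z * d))
    (hb : ¬ IsSquare (-(δ * b) * d)) {u₀ w₀ γ u₁ w₁ : W} (hu₀ : Q u₀ = 0) (uw : polar Q u₀ w₀ = 0)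
    (hγ : polar Q γ w₀ = b) (e1 : ∀ s : F, EE Q u (s • w) = EE Q u₀ ((s * δ) • w₀)) {t : F}
    (e2 : EE Q u₁ w₁ = EE Q u' (t • w')) :
    oi ψ R (span F {w₀}) u₀ γ * (R (EE Q u₁ w₁) * oe ψ R u w) = 0 := by
  by_cases hδ : δ = 0
  · exact absurd (by simp [hδ]) hb
  have c1 : ∀ s : F, R (EE Q u (s • w')) * R (EE Q u' (t • w')) =
      R (EE Q u' (t • w')) * R (EE Q u (s • w')) := fun s => (comm_of_apply (by
    rw [coe_EE, eich_apply h.qu' (by simp [h.uw'']), eich_apply_of_orth_orth (by simp [h.uw''])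
      (by simp [h.qw'])]
    have := EE_wedge h.qu h.qw' h.uw' 1 (-t) 0 s
    simp only [one_mul, mul_zero, sub_zero, one_smul, zero_smul, zero_add] at this
    rw [← this]
    simp [h.w'u, h.u'u, Q_smul, h.qw', sub_eq_add_neg])).symm
  have c2 : ∀ s s' : F, R (EE Q u (s • w')) * R (EE Q u₀ (s' • w₀)) =
      R (EE Q u₀ (s' • w₀)) * R (EE Q u (s • w')) := fun s s' => by
    rw [show s' = s' / δ * δ by field_simp, ← e1, ← map_mul, ← map_mul,
      ← EE_add h.qu (by simp [h.uw']) (by simp [h.uw]),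
      ← EE_add h.qu (by simp [h.uw]) (by simp [h.uw']), add_comm]
  refine H.van hQ hψ h1 h hd hb (fun s => ?_) fun s => ?_
  · rw [← mul_assoc, comm_oi_span (c2 s), mul_assoc, e2, ← mul_assoc _ _ (oe _ _ _ _), c1,
      mul_assoc, EE_mul_oe h.qu _ (by simp [h.uw'])]
    simp [h.ww']
  · rw [← mul_assoc, e1, oi_span_mul hu₀ uw, hγ, smul_mul_assoc, mul_assoc]

theorem Good.sep_base (hQ : Q.polarBilin.Nondegenerate) (hψ : ψ ≠ 1) (H : Good ψ R m)
    (h1 : ∀ c, c ≠ 0 → m c = 0) {u w u' w' : W} (h : HQ Q u w u' w') {y : W}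
    (hy : y ∈ H58.framePerp Q ![u, w] ![u', w']) (hy0 : polar Q y y ≠ 0)
    (hd : ∀ z ∈ H58.framePerp Q ![u, w] ![u', w'], IsSquare (Q z * Q y)) {a b c d : F}
    (hδ : ¬ IsSquare (a * d - b * c)) :
    oe ψ R u w * oe ψ R (a • u + b • w) (c • u + d • w) = 0 := by
  have δ0 : a * d - b * c ≠ 0 := fun e => hδ (e ▸ IsSquare.zero)
  have h' := h.change δ0
  have y0 : Q y ≠ 0 := fun e => hy0 (by simp [e])
  obtain ⟨yu, yw, yu', yw'⟩ := mem_framePerp_two.1 hy
  have f1 : ∀ v, polar Q u v = 0 → polar Q w v = 0 →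
      R (EE Q u v) * oe ψ R (a • u + b • w) (c • u + d • w) =
        oe ψ R (a • u + b • w) (c • u + d • w) := fun v v1 v2 =>
    H.EE_mul h'.ne h'.qu h'.uw h'.notMem h.qu v1 (by simp [h.qu, h.uw])
      (by simp [polar_comm Q v, v1, v2]) (by simp [h.qu, h.uw]) (by simp [polar_comm Q v, v1, v2])
  have f2 := oi_mul_eq_oe (ψ := ψ) h.qu ((span_singleton_le_iff_mem _ _).2 (mem_ort.2 h.uw'))
    (mem_span_singleton_self w') h.ww' f1
  have f3 : ∀ β : F, β ≠ 0 → oi ψ R (span F {w}) u (β • w') *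
      (R (EE Q u' w') * (oe ψ R u w * oe ψ R (a • u + b • w) (c • u + d • w))) = 0 := by
    intro β hβ
    by_cases hs : IsSquare (-(1 * β) * Q y)
    · have c1 : ∀ s : F, R (EE Q u' w') * R (EE Q u (s • w')) =
          R (EE Q u (s • w')) * R (EE Q u' w') := fun s => comm_of_apply (by
        rw [coe_EE, eich_apply h.qu' h.uw'', eich_apply_of_orth_orth (by simp [h.uw''])
          (by simp [h.qw'])]
        have := EE_wedge h.qu h.qw' h.uw' 1 (-1) 0 s
        simp only [one_mul, mul_zero, sub_zero, one_smul, zero_smul, zero_add] at this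
        rw [← this]
        simp [h.w'u, h.u'u, h.qw', sub_eq_add_neg])
      have c2 : oi ψ R (span F {w}) u (β • w') * oi ψ R (span F {w'}) u w =
          oi ψ R (span F {w'}) u w * oi ψ R (span F {w}) u (β • w') :=
        comm_oi_span fun s => (comm_oi_span fun s' => by
          rw [← map_mul, ← map_mul, ← EE_add h.qu (by simp [h.uw']) (by simp [h.uw]),
            ← EE_add h.qu (by simp [h.uw]) (by simp [h.uw']), add_comm]).symm
      have c3 : oi ψ R (span F {w}) u (β • w') *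
          (R (EE Q u' w') * oe ψ R (a • u + b • w) (c • u + d • w)) = 0 := by
        refine H.van' hQ hψ h1 h' (d := Q y) (b := β) (δ := a * d - b * c) (t := a * d - b * c)
          (fun z hz => hd z ?_) (fun hs' => hδ ?_) h.qu h.uw (by simp [h.w'w]) (fun s => ?_) ?_
        · obtain ⟨z1, z2, z3, z4⟩ := mem_framePerp_two.1 hz
          simp only [polar_add_left, polar_smul_left, polar_sub_left, smul_eq_mul, mul_eq_zero,
            inv_eq_zero, δ0, false_or] at z1 z2 z3 z4
          refine mem_framePerp_two.2 ⟨?_, ?_, ?_, ?_⟩ <;> refine mul_left_cancel₀ δ0 ?_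
          · linear_combination d * z1 - b * z2
          · linear_combination a * z2 - c * z1
          · linear_combination a * z3 + c * z4
          · linear_combination d * z4 + b * z3
        · obtain ⟨r, hr⟩ := hs.mul hs'
          exact ⟨r / (β * Q y), by field_simp; linear_combination hr⟩
        · rw [smul_add, smul_smul, smul_smul, EE_wedge h.qu h.qw h.uw]
          congr 2
          ring
        · have := EE_wedge h.qu' h.qw' h.uw'' ((a * d - b * c)⁻¹ * d) (-((a * d - b * c)⁻¹ * c))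
            (-b) a
          rw [show (a * d - b * c)⁻¹ * d * a - -((a * d - b * c)⁻¹ * c) * -b = 1 by field_simp,
            one_smul] at this
          rw [← this]
          congr 1
          · module
          · rw [smul_smul, mul_inv_cancel₀ δ0]
            module
      rw [← f2, ← mul_assoc (R _), comm_oi_span c1, mul_assoc, ← mul_assoc, c2, mul_assoc, c3,
        mul_zero]
    · rw [← mul_assoc (R _), ← mul_assoc, H.van' hQ hψ h1 h (t := 1) hd hs h.qu h.uw
        (by simp [h.w'w]) (fun s => by rw [mul_one]) (by rw [one_smul]), zero_mul]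
  have g0 : ∀ v, polar Q u v = 0 → R (EE Q u v) * (oe ψ R u w * oe ψ R (a • u + b • w) (c • u + d • w)) =
      ψ (polar Q w v) • (oe ψ R u w * oe ψ R (a • u + b • w) (c • u + d • w)) := fun v hv => by
    rw [← mul_assoc, EE_mul_oe h.qu _ hv, smul_mul_assoc]
  generalize oe ψ R u w * oe ψ R (a • u + b • w) (c • u + d • w) = T at f3 g0 ⊢
  have g1 : (EE Q u' w')⁻¹ * EE Q u w * EE Q u' w' ∈ Stab R T := by
    have : R (EE Q u w) * (R (EE Q u' w') * T) = R (EE Q u' w') * T := by
      rw [← sub_eq_zero]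
      refine eq_zero_of_oe (R := R) hQ hψ h.ne h.qu fun α => ?_
      rw [mul_sub, ← mul_assoc, oe_mul_EE h.qu _ h.uw]
      by_cases hα : polar Q α w = 0
      · simp [hα]
      · rw [smul_mul_assoc, ← oe_mul_oi_of_mem h.qu
          ((span_singleton_le_iff_mem _ _).2 (mem_ort.2 h.uw)) (γ := polar Q α w • w')
          (mem_ort.2 (by simp [h.ww', polar_comm Q w α])), mul_assoc, f3 _ hα]
        simp
    show R _ * T = T
    rw [map_mul, map_mul, mul_assoc, mul_assoc, this, ← mul_assoc, ← map_mul, inv_mul_cancel,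
      map_one, one_mul]
  have g2 : ∀ s : F, EE Q u (s • y) ∈ Stab R T := fun s => by
    show R _ * T = T
    rw [g0 _ (by simp [yu])]
    simp [yw]
  have g3 : ∀ s : F, EE Q (-w') (s • y) ∈ Stab R T := fun s => by
    have := Stab.conj g1 (g2 s)
    have b1 : ∀ x z, eich Q u w (eich Q u' w' x) = eich Q u' w' z →
        ((EE Q u' w')⁻¹ * EE Q u w * EE Q u' w').1 x = z := fun x z e => by
      show (eich Q u' w')⁻¹ (eich Q u w (eich Q u' w' x)) = z
      rw [e]
      simp
    rwa [b1 u (-w') (by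
      rw [eich_apply h.qu' h.uw'', eich_apply h.qu h.uw, eich_apply_of_orth_orth (by simp [h.uw''])
        (by simp [h.qw'])]
      simp [h.w'u, h.u'u, h.qw', h.qw, h.qu, h.wu, h.ww', h.uw']
      abel), b1 (s • y) (s • y) (by
      rw [eich_apply_of_orth_orth (u := u') (by simp [yu']) (by simp [yw']),
        eich_apply_of_orth_orth (by simp [yu]) (by simp [yw])])] at this
  obtain ⟨s, hs⟩ := exists_psi_ne_one hψ hy0
  have g4 := Stab.conj (g2 1) (g3 s)
  have q' : Q (-w') = 0 := by simp [h.qw']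
  rw [coe_EE, eich_apply_of_orth_orth (by simp [h.uw']) (by simp [polar_comm Q y w', yw']),
    eich_apply_of_orth h.qu (by simp [yu]) (by simp [yu]), EE_add q' (by simp [yw'])
    (by simp [h.w'u]), Subgroup.mul_mem_cancel_left _ (g3 s),
    EE_swap (by rw [Q_smul, h.qu, mul_zero]) q' (by simp [h.uw']), EE_smul_left _ h.qu
    (by simp [h.uw'])] at g4
  have g5 := (g0 _ (by simp [h.uw'])).symm.trans g4
  rw [one_smul, polar_smul_right Q s, neg_neg, polar_smul_right, h.ww', smul_eq_mul, smul_eq_mul,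
    mul_one, ← sub_eq_zero] at g5
  exact (smul_eq_zero.1 (by rw [sub_smul, one_smul, g5])).resolve_left (sub_ne_zero.2 hs)

theorem pi_comm_oi {e u β : W} (eu : polar Q e u = 0) :
    oe ψ R e 0 * oi ψ R (perp Q (span F {e, u})) u β =
      oi ψ R (perp Q (span F {e, u})) u β * oe ψ R e 0 :=
  comm_oi (fun v hv => (EE_comm_oe (by rw [polar_comm, eu])
    (by rw [polar_comm]; exact (mem_perp_span_pair.1 hv).1) (by simp) (by simp)).symm) _

theorem Good.pi_inj (hQ : Q.polarBilin.Nondegenerate) (hψ : ψ ≠ 1) (H : Good ψ R m)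
    (h0 : m 0 = 1) {u w u' w' e f : W} (h : HQ Q u w u' w') (hef : IsHyp Q e f)
    (he : e ∈ H58.framePerp Q ![u, w] ![u', w']) (hf : f ∈ H58.framePerp Q ![u, w] ![u', w'])
    {X : End ℂ V} (hX : oe ψ R e 0 * (oe ψ R u w * X) = 0) : oe ψ R u w * X = 0 := by
  have := Fintype.ofFinite W
  obtain ⟨e1, e2, e3, e4⟩ := mem_framePerp_two.1 he
  obtain ⟨f1, f2, -, -⟩ := mem_framePerp_two.1 hf
  have eu : polar Q e u = 0 := by rw [polar_comm, e1]
  have n1 : w ∉ span F {e, u} := fun hw => by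
    obtain ⟨a, b, hab⟩ := mem_span_pair.1 hw
    have := h.w'w
    rw [← hab] at this
    simp [e4, h.w'u] at this
  have n2 : e ∉ span F {u} := fun hw => by
    obtain ⟨a, hab⟩ := mem_span_singleton.1 hw
    have := hef.ef
    rw [← hab] at this
    simp [f1] at this
  have a1 := H.claim1 hQ hψ hef.ne_zero hef.qe h.qu eu n1
  have a2 := H.claim4 hQ hψ h.ne h.qu hef.qe e1 n2 h.uw (by rw [polar_comm, e2])
    (by rwa [Set.pair_comm])
  have a3 : oi ψ R (perp Q (span F {e, u})) u w * oe ψ R u w = oe ψ R u w := by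
    rw [← oe_comm_oi h.qu (perp_pair_le_right _ _),
      oe_mul_oi_of_mem h.qu (perp_pair_le_right _ _) (by simp)]
  rw [Set.pair_comm, ← a3, ← mul_assoc, a1, mul_assoc, a3, h.qw, h0, Nat.cast_one] at a2
  have a4 := oe_idem (R := R) hψ h.qu w
  have a5 := rank_one_mul a4 (by rw [H.tr u w h.ne h.qu h.uw h.notMem, h.qw, h0, Nat.cast_one])
    (T := oe ψ R u w * (oe ψ R e 0 * oe ψ R u w)) (by simp only [mul_assoc, a4, ← mul_assoc _ _
      (_ * _)])
  rw [← mul_assoc, a4, tr_comm, mul_assoc, a4] at a5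
  rw [← one_smul ℂ (_ * X), ← a2, mul_smul, ← smul_mul_assoc, ← a5, mul_assoc, mul_assoc, hX]
  simp

end

theorem Good.sep {F : Type*} [Field F] [Finite F] {ψ : AddChar F ℂ} (hψ : ψ ≠ 1) {m : F → ℕ}
    (h0 : m 0 = 1) (h1 : ∀ c, c ≠ 0 → m c = 0) {a b c d : F} (hδ : ¬ IsSquare (a * d - b * c))
    (k : ℕ) : ∀ {W : Type u} [AddCommGroup W] [Module F W] [FiniteDimensional F W] [Finite W]
      {Q : QuadraticForm F W} (_ : Q.polarBilin.Nondegenerate) (_ : finrank F W = 2 * k + 5)
      {V : Type v} [AddCommGroup V] [Module ℂ V] [FiniteDimensional ℂ V] {R : EG Q →* End ℂ V}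
      (_ : Good ψ R m) {u w u' w' : W} (_ : HQ Q u w u' w'),
      oe ψ R u w * oe ψ R (a • u + b • w) (c • u + d • w) = 0 := by
  induction k with
  | zero =>
    intro W _ _ _ _ Q hQ hN V _ _ _ R H u w u' w' h
    have a1 := h.frame.finrank_perp
    have a2 := h.frame.nondeg_perp hQ
    obtain ⟨y, y0, hy⟩ := (finrank_eq_one_iff' (K := F)
      (V := H58.framePerp Q ![u, w] ![u', w'])).1 (by omega)
    refine H.sep_base hQ hψ h1 h y.2 (fun e => y0 (a2.1 y fun z => ?_)) (fun z hz => ?_) hδ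
    · obtain ⟨s, rfl⟩ := hy z
      rw [map_smul, polarBilin_apply_apply, H60.polar_restrict', e, smul_zero]
    · obtain ⟨s, hs⟩ := hy ⟨z, hz⟩
      rw [← show s • y.1 = z from congrArg Subtype.val hs, Q_smul]
      exact ⟨s * Q y, by ring⟩
  | succ k ih =>
    intro W _ _ _ _ Q hQ hN V _ _ _ R H u w u' w' h
    have := Fintype.ofFinite W
    have a1 := h.frame.finrank_perp
    obtain ⟨e, he0, he⟩ := H58.exists_singular_of_three_le
      (Q.restrict (H58.framePerp Q ![u, w] ![u', w'])) (by omega)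
    obtain ⟨f, hf⟩ := exists_isHyp (h.frame.nondeg_perp hQ) he0 he
    have hef : IsHyp Q e.1 f.1 := ⟨hf.qe, hf.qf, by rw [← H60.polar_restrict']; exact hf.ef⟩
    obtain ⟨e1, e2, e3, e4⟩ := mem_framePerp_two.1 e.2
    obtain ⟨f1, f2, f3, f4⟩ := mem_framePerp_two.1 f.2
    have mem : ∀ {x}, polar Q x e.1 = 0 → polar Q x f.1 = 0 → x ∈ hperp Q e.1 f.1 := fun x1 x2 =>
      mem_hperp.2 ⟨by rw [polar_comm, x1], by rw [polar_comm, x2]⟩
    have h2 : HQ (Q.restrict (hperp Q e.1 f.1)) ⟨u, mem e1 f1⟩ ⟨w, mem e2 f2⟩ ⟨u', mem e3 f3⟩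
        ⟨w', mem e4 f4⟩ := by
      constructor <;> simp [H60.polar_restrict', h.qu, h.qw, h.qu', h.qw', h.uw, h.uu', h.uw',
        h.wu', h.ww', h.uw'']
    have δ0 : a * d - b * c ≠ 0 := fun e => hδ (e ▸ IsSquare.zero)
    have h' := h.change δ0
    have b1 := ih (hef.nondegenerate_hperp hQ) (by have := hef.finrank_hperp; omega)
      (H.down hQ hψ hef) h2
    have b2 := (res_oe_down (ψ := ψ) (R := R) hQ hef (β := ⟨w, mem e2 f2⟩) h2.qu).mul
      (res_oe_down (ψ := ψ) (R := R) hQ hef (β := c • ⟨u, mem e1 f1⟩ + d • ⟨w, mem e2 f2⟩)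
        (h2.change δ0).qu)
    rw [b1] at b2
    have b3 : oi ψ R (perp Q (span F {e.1, u})) u w * oi ψ R (perp Q (span F {e.1, a • u + b • w}))
        (a • u + b • w) (c • u + d • w) * oe ψ R e 0 = 0 :=
      LinearMap.ext fun x => (b2 ⟨_, x, rfl⟩).symm
    refine H.pi_inj hQ hψ h0 h hef e.2 f.2 ?_
    have eu : polar Q e.1 u = 0 := by rw [polar_comm, e1]
    have b4 := oi_mul_eq_oe (ψ := ψ) (R := R) h.qu (perp_pair_le_right e.1 u)
      (mem_perp_span_pair.2 ⟨by rw [polar_comm, e4], h.uw'⟩) h.ww'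
      (T := oe ψ R (a • u + b • w) (c • u + d • w)) fun v v1 v2 =>
      H.EE_mul h'.ne h'.qu h'.uw h'.notMem h.qu v1 (by simp [h.qu, h.uw])
        (by simp [polar_comm Q v, v1, v2]) (by simp [h.qu, h.uw]) (by simp [polar_comm Q v, v1, v2])
    have b5 := oe_mul_oi_of_mem (ψ := ψ) (R := R) h'.qu (perp_pair_le_right e.1 _)
      (α := c • u + d • w) (γ := c • u + d • w) (by simp)
    rw [oe_comm_oi h'.qu (perp_pair_le_right _ _)] at b5
    rw [← b4, ← mul_assoc, pi_comm_oi eu, ← b5, mul_assoc, ← mul_assoc (oe ψ R e 0),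
      pi_comm_oi (by simp [eu, polar_comm Q e.1 w, e2]), ← mul_assoc, ← mul_assoc, b3, zero_mul]

end H2.MD
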