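/- The bound for the orthogonal groups in odd dimension. -/
import Cfsg.Agent.H2.MDO8

set_option autoImplicit false
set_option linter.unusedSectionVars false

namespace H2.MD

open Module Finset Submodule H56 QuadraticMap

universe u v

section SL

variable {F : Type*} [Field F] [Fintype F] {r : ℕ}
variable {V : Type*} [AddCommGroup V] [Module ℂ V] [FiniteDimensional ℂ V] {ψ : AddChar F ℂ}
  {R : SpecialLinearGroup F (Fin (r + 3) → F) →* End ℂ V}

theorem eq_of_mem_plane {u : Fin (r + 3) → F}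
    (hu : u ∈ span F {(Pi.single 0 1 : Fin (r + 3) → F), Pi.single 1 1}) :
    u = u 0 • Pi.single 0 1 + u 1 • Pi.single 1 1 := by
  obtain ⟨a, b, rfl⟩ := mem_span_pair.1 hu
  simp

theorem det_ne {u w : Fin (r + 3) → F}
    (hu : u ∈ span F {(Pi.single 0 1 : Fin (r + 3) → F), Pi.single 1 1})
    (hw : w ∈ span F {(Pi.single 0 1 : Fin (r + 3) → F), Pi.single 1 1}) (h0 : u ≠ 0)
    (h1 : w ∉ span F {u}) : u 0 * w 1 - u 1 * w 0 ≠ 0 := fun h => h1 (by
  have e1 := eq_of_mem_plane hu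
  have e2 := eq_of_mem_plane hw
  by_cases a : u 0 = 0
  · have b : u 1 ≠ 0 := fun b => h0 (by rw [e1, a, b]; simp)
    refine mem_span_singleton.2 ⟨w 1 / u 1, ?_⟩
    rw [e1, e2]
    simp only [Pi.add_apply, Pi.smul_apply, Pi.single_eq_same, smul_eq_mul, mul_one, ne_eq,
      zero_ne_one, one_ne_zero, not_false_eq_true, Pi.single_eq_of_ne, mul_zero, add_zero, zero_add]
    match_scalars
    · field_simp
      linear_combination h
    · field_simp
  · refine mem_span_singleton.2 ⟨w 0 / u 0, ?_⟩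
    rw [e1, e2]
    simp only [Pi.add_apply, Pi.smul_apply, Pi.single_eq_same, smul_eq_mul, mul_one, ne_eq,
      zero_ne_one, one_ne_zero, not_false_eq_true, Pi.single_eq_of_ne, mul_zero, add_zero, zero_add]
    match_scalars
    · field_simp
    · field_simp
      linear_combination -h)

theorem cramer2 {u w x : Fin (r + 3) → F}
    (hu : u ∈ span F {(Pi.single 0 1 : Fin (r + 3) → F), Pi.single 1 1})
    (hw : w ∈ span F {(Pi.single 0 1 : Fin (r + 3) → F), Pi.single 1 1})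
    (hx : x ∈ span F {(Pi.single 0 1 : Fin (r + 3) → F), Pi.single 1 1})
    (h : u 0 * w 1 - u 1 * w 0 ≠ 0) :
    x = ((x 0 * w 1 - x 1 * w 0) / (u 0 * w 1 - u 1 * w 0)) • u +
      ((u 0 * x 1 - u 1 * x 0) / (u 0 * w 1 - u 1 * w 0)) • w := by
  obtain ⟨a, b, rfl⟩ := mem_span_pair.1 hu
  obtain ⟨c, d, rfl⟩ := mem_span_pair.1 hw
  obtain ⟨s, t, rfl⟩ := mem_span_pair.1 hx
  simp only [Pi.add_apply, Pi.smul_apply, Pi.single_eq_same, smul_eq_mul, mul_one, ne_eq,
    zero_ne_one, one_ne_zero, not_false_eq_true, Pi.single_eq_of_ne, mul_zero, add_zero,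
    zero_add] at h ⊢
  have := mul_inv_cancel₀ h
  simp only [div_eq_mul_inv]
  match_scalars
  · linear_combination (-s) * this
  · linear_combination (-t) * this

theorem isSquare_of_eq {a b : F} (h : IsSquare a) (e : b = a) : IsSquare b := e ▸ h

theorem Mult1.no_E (H : Mult1 ψ R) (hq : Odd (Nat.card F)) {L : Submodule F (Fin (r + 3) → F)}
    (hL : span F {(Pi.single 0 1 : Fin (r + 3) → F), Pi.single 1 1} = L)
    (hs : ∀ u w, u ≠ 0 → w ∉ span F {u} → ∀ a b c d : F, ¬ IsSquare (a * d - b * c) →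
      ee ψ R u w * ee ψ R (a • u + b • w) (c • u + d • w) = 0) {c : ℂ}
    (h1 : (c • ZZ ψ R L) * (c • ZZ ψ R L) = c • ZZ ψ R L) : tr (c • ZZ ψ R L) ≠ Nat.card F := by
  classical
  intro h2
  have hL2 : finrank F L = 2 := hL ▸ finrank_span_pair (single_ne r) (single_notMem r)
  obtain ⟨lam, hlam⟩ := H.exists_lam hL2
  obtain ⟨ν, hν⟩ := FiniteField.exists_nonsquare (F := F) (fun h => by
    have := FiniteField.even_card_iff_char_two.1 h
    rw [Nat.card_eq_fintype_card, Nat.odd_iff] at hq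
    omega)
  have ν0 : ν ≠ 0 := fun e => hν (e ▸ IsSquare.zero)
  let Z : (F → Prop) → End ℂ V := fun p => ∑ u ∈ univ.filter (fun u => u ∈ L ∧ u ∉ (⊥ : Submodule F _)),
    (Nat.card F : ℂ)⁻¹ • ∑ w ∈ (univ.filter (fun w => w ∈ L ∧ w ∉ span F {u})).filter
      (fun w => p (u 0 * w 1 - u 1 * w 0)), ee ψ R u w
  have z1 : ZZ ψ R L = Z IsSquare + Z (fun x => ¬ IsSquare x) := by
    simp only [Z, ← Finset.sum_add_distrib, ← smul_add, Finset.sum_filter_add_sum_filter_not]
    unfold ZZ ff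
    congr!
  have z2 : ∀ p, Z p * ZZ ψ R L = lam • Z p := fun p => by
    simp only [Z, Finset.sum_mul, Finset.smul_sum, smul_mul_assoc]
    refine Finset.sum_congr rfl fun u hu => Finset.sum_congr rfl fun w hw => ?_
    simp only [mem_filter, mem_univ, true_and, mem_bot] at hu hw
    rw [hlam u w hu.2 hw.1.2 hu.1 hw.1.1, smul_comm]
  have z3 : Z IsSquare * Z (fun x => ¬ IsSquare x) = 0 := by
    simp only [Z, Finset.sum_mul, Finset.mul_sum, Finset.smul_sum, smul_mul_assoc, mul_smul_comm]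
    refine Finset.sum_eq_zero fun u' hu' => Finset.sum_eq_zero fun w' hw' => Finset.sum_eq_zero
      fun u hu => Finset.sum_eq_zero fun w hw => ?_
    simp only [mem_filter, mem_univ, true_and, mem_bot] at hu hw hu' hw'
    subst hL
    have d0 := det_ne hu.1 hw.1.1 hu.2 hw.1.2
    rw [cramer2 hu.1 hw.1.1 hu'.1 d0, cramer2 hu.1 hw.1.1 hw'.1.1 d0, hs u w hu.2 hw.1.2 _ _ _ _
      fun h => hw'.2 ?_]
    · simp
    · have := mul_inv_cancel₀ d0
      simp only [div_eq_mul_inv] at h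
      refine isSquare_of_eq (h.mul hw.2) ?_
      generalize (u 0 * w 1 - u 1 * w 0)⁻¹ = i at this ⊢
      linear_combination (-(u' 0 * w' 1 - u' 1 * w' 0) * (1 + (u 0 * w 1 - u 1 * w 0) * i)) * this
  have z4 : tr (Z IsSquare) = tr (Z fun x => ¬ IsSquare x) := by
    simp only [Z, tr, map_sum]
    refine Finset.sum_congr rfl fun u hu => ?_
    simp only [mem_filter, mem_univ, true_and, mem_bot] at hu
    rw [map_smul, map_smul, map_sum, map_sum]
    congr 1
    refine Finset.sum_nbij' (ν • ·) (ν⁻¹ • ·) (fun w hw => ?_) (fun w hw => ?_)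
      (fun w _ => inv_smul_smul₀ ν0 w) (fun w _ => smul_inv_smul₀ ν0 w) fun w hw => ?_
    all_goals simp only [mem_filter, mem_univ, true_and] at hw ⊢
    · refine ⟨⟨smul_mem _ _ hw.1.1, by rw [smul_mem_iff _ ν0]; exact hw.1.2⟩, fun h => hν ?_⟩
      have d0 := det_ne (hL ▸ hu.1) (hL ▸ hw.1.1) hu.2 hw.1.2
      refine isSquare_of_eq (h.mul hw.2.inv) ?_
      simp only [Pi.smul_apply, smul_eq_mul]
      field_simp
    · refine ⟨⟨smul_mem _ _ hw.1.1, by rw [smul_mem_iff _ (inv_ne_zero ν0)]; exact hw.1.2⟩, ?_⟩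
      refine isSquare_of_eq (isSquare_mul_of_not_isSquare
        (fun h => hν (by simpa using h.inv) : ¬ IsSquare ν⁻¹) hw.2) ?_
      simp only [Pi.smul_apply, smul_eq_mul]
      ring
    · exact (H.one u w hu.2 hw.1.2).trans
        (H.one u _ hu.2 (by rw [smul_mem_iff _ ν0]; exact hw.1.2)).symm
  have z5 : c * lam = 1 := by
    have := congrArg tr h1
    rw [smul_mul_assoc, mul_smul_comm, show ZZ ψ R L * ZZ ψ R L = lam • ZZ ψ R L by
      conv_lhs => rw [z1, add_mul, ← z1, z2 IsSquare, z2 (fun x => ¬ IsSquare x), ← smul_add,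
        ← z1], smul_comm c lam, smul_smul,
      tr_smul, h2] at this
    exact mul_right_cancel₀ (qne F) (this.trans (one_mul _).symm)
  have z6 : (c • Z IsSquare) * (c • Z IsSquare) = c • Z IsSquare := by
    have := z2 IsSquare
    rw [z1, mul_add, z3, add_zero] at this
    rw [smul_mul_assoc, mul_smul_comm, this, smul_smul c lam, z5, one_smul]
  have z7 := tr_idem z6
  rw [z1, smul_add, tr_add, tr_smul c (Z fun x => ¬ IsSquare x), ← z4, ← tr_smul, z7] at h2
  exact Nat.not_even_iff_odd.2 hq ⟨_, by exact_mod_cast h2.symm⟩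

end SL

variable {F : Type*} [Field F] [Finite F] {ψ : AddChar F ℂ} {W : Type u} [AddCommGroup W]
  [Module F W] [FiniteDimensional F W] [Finite W] {Q : QuadraticForm F W} {V : Type v}
  [AddCommGroup V] [Module ℂ V] [FiniteDimensional ℂ V] {R : EG Q →* End ℂ V}

theorem exists_sq_ne_one (h : 3 < Nat.card F) : ∃ c : F, c ≠ 0 ∧ c ^ 2 ≠ 1 := by
  classical
  have := Fintype.ofFinite F
  by_contra h1
  push Not at h1
  have : (univ : Finset F) ⊆ {0, 1, -1} := fun c _ => by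
    by_cases hc : c = 0
    · simp [hc]
    · rcases sq_eq_one_iff.1 (h1 c hc) with h | h <;> simp [h]
  have := (card_le_card this).trans card_le_three
  rw [card_univ, ← Nat.card_eq_fintype_card] at this
  omega

theorem tri' (hQ : Q.polarBilin.Nondegenerate) (hψ : ψ ≠ 1) {n : ℕ} (hN : finrank F W = n + 7)
    (hq : 3 < Nat.card F) (hR : ∃ g, R g ≠ 1) :
    2 * ((Nat.card F - 1) * Nat.card F ^ (n + 3)) ≤ finrank ℂ V ∨
      ∃ m, Good ψ R m ∧ m 0 = 1 ∧ ∀ c, c ≠ 0 → m c = 0 := by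
  obtain ⟨e, he0, he⟩ := H58.exists_singular_of_three_le Q (by omega)
  obtain ⟨f, h⟩ := exists_isHyp hQ he0 he
  have a1 := h.finrank_hperp
  obtain ⟨e', he0', he'⟩ := H58.exists_singular_of_three_le (Q.restrict (hperp Q e f)) (by omega)
  obtain ⟨f', h'⟩ := exists_isHyp (h.nondegenerate_hperp hQ) he0' he'
  have a2 := h'.finrank_hperp
  have a3 := zc_hyp h'
  rw [Module.natCard_eq_pow_finrank (K := F) (V := hperp _ e' f'),
    show finrank F (hperp _ e' f') = n + 3 by omega] at a3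
  obtain ⟨c, c0, c1⟩ := exists_sq_ne_one hq
  rcases tri hQ hψ (by omega) hR h (μ := (Nat.card F - 1) * Nat.card F ^ (n + 3)) (by
    have := Nat.mul_pos (show 0 < Nat.card F by omega)
      (zc_pos (Q := (Q.restrict (hperp Q e f)).restrict (hperp (Q.restrict (hperp Q e f)) e' f')))
    rw [a3]; omega) (fun c _ => by rw [a3]; omega) with h1 | ⟨m, d, hm, h1, h2, rfl | ⟨h3, -⟩⟩
  · exact Or.inl h1
  · exact Or.inr ⟨m, good_of hQ hψ (by omega) hm (fun c => by
      by_cases hc : c = 0; exacts [hc ▸ h1.le, (h2 c hc).trans_le zero_le_one])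
      (Or.inr (Or.inl ⟨c, c0, c1⟩)), h1, h2⟩
  · exact absurd (h3 c c0) c1

theorem arith_o1 {q y D : ℤ} (hq : 3 ≤ q) (hy : 0 ≤ y) (h : 2 * ((q - 1) * y) ≤ D) :
    q ^ 3 * y - 1 ≤ D * (q ^ 2 - 1) := by
  obtain ⟨a, rfl⟩ : ∃ a, q = a + 3 := ⟨q - 3, by ring⟩
  have ha : 0 ≤ a := by linarith
  refine le_trans ?_ (mul_le_mul_of_nonneg_right h (by nlinarith))
  rw [← sub_nonneg]
  ring_nf
  positivity

theorem odd_bound (hQ : Q.polarBilin.Nondegenerate) (hψ : ψ ≠ 1) {r : ℕ}
    (hN : finrank F W = 2 * (r + 3) + 1) (hz : zc Q 0 = Nat.card F ^ (2 * (r + 3)))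
    (hq : 3 < Nat.card F) (ho : Odd (Nat.card F)) (hR : ∃ g, R g ≠ 1) :
    (Nat.card F : ℤ) ^ (2 * (r + 3)) - 1 ≤ finrank ℂ V * (Nat.card F ^ 2 - 1) := by
  rcases tri' hQ hψ (n := 2 * r) (by omega) hq hR with h | ⟨m, H, h0, h1⟩
  · zify [show 1 ≤ Nat.card F by omega] at h hq
    rw [show 2 * (r + 3) = 3 + (2 * r + 3) by ring, pow_add]
    exact arith_o1 hq.le (by positivity) h
  have := Fintype.ofFinite F
  obtain ⟨e, f, hf⟩ := H58.exists_frame_of_lt hQ (r + 3) (by omega)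
  obtain ⟨j, k, hj, -⟩ := exists_DP hf
  obtain ⟨l, hl⟩ := hj.exists_lev
  have M := hl.mult1 hψ (by simp) H h0
  obtain ⟨D, d1, -, d2⟩ := M.bound' (single_ne r) (single_notMem r) rfl
  replace d2 := d2.resolve_right (by
    rintro ⟨E, e1, e2, ⟨c, rfl⟩, -⟩
    refine M.no_E ho rfl (fun u w u0 hw a b c d hδ => ?_) e1 e2
    obtain ⟨φ, p1, p2⟩ := exists_dual hw
    obtain ⟨φ', p3, p4⟩ := exists_dual (p := span F {w}) (v := u) (fun h => hw (by
      obtain ⟨s, rfl⟩ := mem_span_singleton.1 h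
      have s0 : s ≠ 0 := fun e => u0 (by rw [e, zero_smul])
      exact mem_span_singleton.2 ⟨s⁻¹, inv_smul_smul₀ s0 w⟩))
    have hu := p2 u (mem_span_singleton_self u)
    have hw := p4 w (mem_span_singleton_self w)
    have := H.sep hψ h0 h1 hδ (r + 1) hQ (by omega) (u := j u) (w := j w) (u' := k φ') (w' := k φ)
      ⟨hj.qj u, hj.qj w, hj.qk φ', hj.qk φ, hj.jj u w, by rw [hj.jk, p3], by rw [hj.jk, hu],
        by rw [hj.jk, hw], by rw [hj.jk, p1], hj.kk φ' φ⟩
    refine ((hl.res_ee u w).mul (hl.res_ee _ _)).eq Res.zero fun x _ => ?_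
    rw [map_add, map_add, map_smul, map_smul, map_smul, map_smul, this])
  have d3 := Good.codim hψ h0 h1 (r + 3) hQ H hl.sing
    (by rw [LinearMap.finrank_range_of_inj hl.inj]; simp) _ rfl
  have q0 := qne F
  have q1 := q_sub_one_ne F
  have q2 := q_add_one_ne F
  have d4 : ((finrank ℂ V : ℂ) - finrank ℂ (FixM R (LinearMap.range j))) * (Nat.card F ^ 2 - 1) =
      Nat.card F ^ (2 * (r + 3)) - 1 - (Nat.card F + 1) * (Nat.card F ^ (r + 3) - 1) := by
    rw [d3, hz, Module.natCard_eq_pow_finrank (K := F), hN,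
      show ((Nat.card F : ℂ) ^ 2 - 1) = (Nat.card F - 1) * (Nat.card F + 1) by ring]
    push_cast
    field_simp
    ring
  have d5 : ((finrank ℂ V : ℤ) - finrank ℂ (FixM R (LinearMap.range j))) * (Nat.card F ^ 2 - 1) =
      Nat.card F ^ (2 * (r + 3)) - 1 - (Nat.card F + 1) * (Nat.card F ^ (r + 3) - 1) := by
    exact_mod_cast d4
  simp only [finrank_fin_fun] at d2
  zify at d1 d2 hq
  have a1 := mul_le_mul_of_nonneg_right d1 (show (0 : ℤ) ≤ Nat.card F ^ 2 - 1 by nlinarith)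
  have a2 := mul_le_mul_of_nonneg_right d2 (show (0 : ℤ) ≤ Nat.card F + 1 by linarith)
  linarith

end H2.MD
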