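/- The bound for the orthogonal groups of plus type. -/
import Cfsg.Agent.H2.MDO9
import Cfsg.Agent.H29.Central

set_option autoImplicit false
set_option linter.unusedSectionVars false

namespace H2.MD

open Module Finset Submodule H56 QuadraticMap

universe u v

variable {F : Type*} [Field F] [Finite F] {ψ : AddChar F ℂ} {W : Type u} [AddCommGroup W]
  [Module F W] [FiniteDimensional F W] [Finite W] {Q : QuadraticForm F W} {V : Type v}
  [AddCommGroup V] [Module ℂ V] [FiniteDimensional ℂ V] {R : EG Q →* End ℂ V} {m : F → ℕ}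

open Classical in
theorem sum_one_sub_psi [Fintype W] (hψ : ψ ≠ 1) {v g : W} (h : IsHyp Q v g) :
    ∑ w, (if Q w = 0 then 1 - ψ (polar Q w v) else 0) =
      (Nat.card F : ℂ) * Nat.card (hperp Q v g) := by
  have := Fintype.ofFinite F
  rw [← h.equiv.toEquiv.sum_comp, Fintype.sum_prod_type,
    Finset.sum_congr rfl (g := fun _ => (Nat.card F : ℂ)), sum_const, card_univ, nsmul_eq_mul,
    mul_comm, Nat.card_eq_fintype_card (α := hperp Q v g)]
  intro x _
  rw [Fintype.sum_prod_type_right, Finset.sum_congr rfl (g := fun b => 1 - ψ b), sum_sub_distrib,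
    AddChar.sum_eq_zero_of_ne_one hψ]
  · simp [Nat.card_eq_fintype_card]
  intro b _
  have x1 : polar Q x.1 v = 0 := by rw [polar_comm]; exact (mem_hperp.1 x.2).1
  have x2 : polar Q x.1 g = 0 := by rw [polar_comm]; exact (mem_hperp.1 x.2).2
  have a1 : ∀ a : F, polar Q (h.equiv.toEquiv (x, a, b)) v = b := fun a => by
    simp [h.equiv_apply, x1, h.qe, h.fe]
  have a2 : ∀ a : F, Q (h.equiv.toEquiv (x, a, b)) = Q x + a * b := fun a => by
    simp [h.equiv_apply, Q_add, Q_smul, x1, x2, h.qe, h.qf, h.ef, mul_comm]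
  simp only [a1, a2]
  by_cases hb : b = 0
  · simp [hb]
  · rw [Finset.sum_eq_single (-Q x / b) (fun a _ ha => if_neg fun e => ha (by
      field_simp; linear_combination e)) (by simp), if_pos (by field_simp; ring)]

theorem Good.tr_root (hQ : Q.polarBilin.Nondegenerate) (hψ : ψ ≠ 1) (H : Good ψ R m)
    (h0 : m 0 = 1) (h1 : ∀ c, c ≠ 0 → m c = 0) {n : ℕ} (hN : finrank F W = n + 4) {u v : W}
    (hu0 : u ≠ 0) (hu : Q u = 0) (hv : Q v = 0) (huv : polar Q u v = 0) (hn : v ∉ span F {u}) :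
    MD.tr (R (EE Q u v)) = finrank ℂ V - Nat.card F ^ (n + 1) := by
  classical
  have := Fintype.ofFinite W
  obtain ⟨f, h⟩ := exists_isHyp hQ hu0 hu
  obtain ⟨β, b1, b2, b3, b4⟩ := proj_hperp h huv hn
  obtain ⟨s, hs⟩ := mem_span_singleton.1 b4
  obtain ⟨g, hg⟩ := exists_isHyp (h.nondegenerate_hperp hQ) (e := ⟨β, b1⟩)
    (fun e => b2 (congrArg Subtype.val e)) (b3.trans hv)
  have a1 := sum_one_sub_psi hψ hg
  have a2 := h.finrank_hperp
  have a3 := hg.finrank_hperp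
  rw [Module.natCard_eq_pow_finrank (K := F) (V := hperp _ _ g),
    show finrank F (hperp _ _ g) = n by omega] at a1
  have a4 := sum_oe_hperp (R := R) hQ hψ h
  have a5 : (finrank ℂ V : ℂ) - MD.tr (R (EE Q u β)) =
      MD.tr ((1 - R (EE Q u β)) * ∑ w : hperp Q u f, oe ψ R u w) := by
    rw [a4, mul_one, tr_sub]
    simp [MD.tr]
  rw [show v = β + s • u by rw [hs, add_sub_cancel], EE_add hu (mem_hperp.1 b1).1 (by simp [hu]),
    EE_smul_self s hu, mul_one, eq_sub_iff_add_eq, add_comm, ← eq_sub_iff_add_eq, a5, pow_succ',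
    ← Nat.cast_pow, ← a1, Finset.mul_sum, MD.tr, map_sum]
  refine Finset.sum_congr rfl fun w _ => ?_
  rw [sub_mul, one_mul, EE_mul_oe hu _ (mem_hperp.1 b1).1, map_sub, map_smul, H60.polar_restrict']
  by_cases hw : w = 0
  · simp [hw]
  rw [← MD.tr, H.tr u w hu0 hu (mem_hperp.1 w.2).1 (notMem_span_of_hperp h hw)]
  split_ifs with h2
  · rw [show Q w = 0 from h2, h0]
    simp
  · rw [h1 (Q w) h2]
    simp

/-- `g` is a long root element with centre `u`. -/
def IsRt (Q : QuadraticForm F W) (u : W) (g : EG Q) : Prop :=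
  u ≠ 0 ∧ Q u = 0 ∧ ∃ v, Q v = 0 ∧ polar Q u v = 0 ∧ v ∉ span F {u} ∧ g = EE Q u v

open Classical in
theorem card_rt_left [Fintype W] (hQ : Q.polarBilin.Nondegenerate) {g : EG Q}
    (hg : ∃ u, IsRt Q u g) : #{u | IsRt Q u g} = Nat.card F ^ 2 - 1 := by
  obtain ⟨u, u0, hu, v, hv, huv, hn, rfl⟩ := hg
  have a1 := card_filter_mem (F := F) (span F {u, v})
  rw [finrank_span_pair u0 hn] at a1
  rw [← show _ = Nat.card F ^ 2 by exact_mod_cast a1, ← card_erase_of_mem (a := 0) (by simp)]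
  congr 1
  ext x
  simp only [mem_filter, mem_univ, true_and, mem_erase]
  constructor
  · rintro ⟨x0, hx, y, hy, hxy, hn', e⟩
    refine ⟨x0, (mem_of_eich_mem_XG hQ hx hxy (li_pair x0 hn') ?_).1⟩
    rw [← coe_EE, ← e]
    exact eich_mem_XG (subset_span (by simp)) (subset_span (by simp))
  · rintro ⟨x0, hx⟩
    obtain ⟨a, b, rfl⟩ := mem_span_pair.1 hx
    obtain ⟨c, d, hcd⟩ : ∃ c d, a * d - b * c = 1 := by
      by_cases ha : a = 0
      · have hb : b ≠ 0 := fun hb => x0 (by simp [ha, hb])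
        exact ⟨-b⁻¹, 0, by simp [hb]⟩
      · exact ⟨0, a⁻¹, by simp [ha]⟩
    have vu : polar Q v u = 0 := by rw [polar_comm, huv]
    refine ⟨x0, by simp [Q_add, Q_smul, hu, hv, huv], c • u + d • v,
      by simp [Q_add, Q_smul, hu, hv, huv], by simp [hu, hv, huv, vu], fun h => ?_,
      by rw [EE_wedge hu hv huv, hcd, one_smul]⟩
    obtain ⟨s, hs⟩ := mem_span_singleton.1 h
    obtain ⟨e1, e2⟩ := LinearIndependent.pair_iff.1 (li_pair u0 hn) (s * a - c) (s * b - d)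
      (by rw [← sub_eq_zero] at hs; rw [← hs]; module)
    exact zero_ne_one (α := F) (by linear_combination hcd + a * e2 - b * e1)

open Classical in
theorem card_rt_right [Fintype (EG Q)] (hQ : Q.polarBilin.Nondegenerate) {e f : W}
    (h : IsHyp Q e f) : #{g | IsRt Q e g} = zc (Q.restrict (hperp Q e f)) 0 - 1 := by
  rw [← card_filter_Q, ← card_erase_of_mem (a := 0) (by simp)]
  symm
  refine card_nbij (fun w => EE Q e w) (fun w hw => ?_) (fun w _ w' _ e1 => ?_) fun g hg => ?_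
  · simp only [coe_erase, coe_filter, mem_univ, true_and, Set.mem_sdiff, Set.mem_ofPred_eq,
      Set.mem_singleton_iff] at hw ⊢
    exact ⟨h.ne_zero, h.qe, w, hw.1, (mem_hperp.1 w.2).1, notMem_span_of_hperp h hw.2, rfl⟩
  · have e2 : eich Q e w f = eich Q e w' f := congrArg (fun g : EG Q => g.1 f) e1
    rw [eich_apply h.qe (mem_hperp.1 w.2).1, eich_apply h.qe (mem_hperp.1 w'.2).1] at e2
    simp only [h.ef, one_smul, mul_one] at e2
    have e3 : w.1 - w'.1 = (polar Q w f - polar Q w' f - Q w + Q w') • e := by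
      linear_combination (norm := module) -e2
    have e4 := congrArg (polar Q f) e3
    rw [polar_sub_right, (mem_hperp.1 w.2).2, (mem_hperp.1 w'.2).2, polar_smul_right, h.fe,
      smul_eq_mul, mul_one, sub_self] at e4
    rw [← e4, zero_smul, sub_eq_zero] at e3
    exact Subtype.ext e3
  · simp only [coe_filter, mem_univ, true_and, Set.mem_ofPred_eq] at hg
    obtain ⟨-, -, v, hv, huv, hn, rfl⟩ := hg
    obtain ⟨β, b1, b2, b3, b4⟩ := proj_hperp h huv hn
    obtain ⟨s, hs⟩ := mem_span_singleton.1 b4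
    refine ⟨⟨β, b1⟩, by simpa [b2] using b3.trans hv, ?_⟩
    rw [show v = β + s • e by rw [hs, add_sub_cancel], EE_add h.qe (mem_hperp.1 b1).1
      (by simp [h.qe]), EE_smul_self s h.qe, mul_one]

theorem Good.dvd (hQ : Q.polarBilin.Nondegenerate) (hψ : ψ ≠ 1) {R : Representation ℂ (EG Q) V}
    [R.IsIrreducible] (H : Good ψ R m) (h0 : m 0 = 1) (h1 : ∀ c, c ≠ 0 → m c = 0) {n : ℕ}
    (hN : finrank F W = n + 4) (hV : finrank ℂ V ≠ 0) {e f : W} (h : IsHyp Q e f) :
    ∃ C : ℕ, C * (Nat.card F ^ 2 - 1) = (zc Q 0 - 1) * (zc (Q.restrict (hperp Q e f)) 0 - 1) ∧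
      finrank ℂ V ∣ C * Nat.card F ^ (n + 1) := by
  classical
  have := Fintype.ofFinite W
  have := Fintype.ofFinite (EG Q)
  refine ⟨#{g | ∃ u, IsRt Q u g}, ?_, H29.dvd_of_isIntegral_div hV ?_⟩
  · rw [← card_filter_Q, ← card_erase_of_mem (a := 0) (by simp)]
    refine card_mul_eq_card_mul (fun g u => IsRt Q u g) (fun g hg => ?_) fun u hu => ?_
    · rw [← card_rt_left hQ (mem_filter.1 hg).2]
      congr 1
      ext u
      simp only [mem_bipartiteAbove, mem_erase, mem_filter, mem_univ, true_and,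
        and_iff_right_iff_imp]
      exact fun h => ⟨h.1, h.2.1⟩
    · simp only [mem_erase, mem_filter, mem_univ, true_and] at hu
      obtain ⟨f', h'⟩ := exists_isHyp hQ hu.1 hu.2
      have a1 := zc_hyp h 0
      have a2 := h.finrank_hperp
      have a3 := h'.finrank_hperp
      rw [zc_hyp h' 0, Module.natCard_eq_pow_finrank (K := F) (V := hperp Q u f'),
        Module.natCard_eq_pow_finrank (K := F) (V := hperp Q e f),
        show finrank F (hperp Q u f') = finrank F (hperp Q e f) by omega, add_left_inj] at a1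
      rw [← Nat.eq_of_mul_eq_mul_left Nat.card_pos a1, ← card_rt_right hQ h']
      congr 1
      ext g
      simp only [mem_bipartiteBelow, mem_filter, mem_univ, true_and, and_iff_right_iff_imp]
      exact fun h => ⟨u, h⟩
  have key : ∀ g k : EG Q, (∃ u, IsRt Q u g) → ∃ u, IsRt Q u (k * g * k⁻¹) := by
    rintro _ k ⟨u, u0, hu, v, hv, huv, hn, rfl⟩
    refine ⟨k.1 u, fun e => u0 (by simpa using congrArg (k.1⁻¹ : O Q) e), by rw [O.map_Q, hu], k.1 v,
      by rw [O.map_Q, hv], by rw [O.map_polar, huv], fun e => hn ?_,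
      by rw [conj_EE, mul_inv_cancel_right]⟩
    obtain ⟨s, hs⟩ := mem_span_singleton.1 e
    exact mem_span_singleton.2 ⟨s, by simpa using congrArg (k.1⁻¹ : O Q) hs⟩
  have a1 := H29.isIntegral_sum_class_div R (fun g => if ∃ u, IsRt Q u g then 1 else 0)
    (fun g k => if_congr ⟨fun h => by simpa [mul_assoc] using key _ k⁻¹ h, key g k⟩ rfl rfl)
    (fun g => by split_ifs; exacts [isIntegral_one, isIntegral_zero])
  rw [Finset.sum_congr rfl (g := fun g => if ∃ u, IsRt Q u g then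
    (finrank ℂ V - Nat.card F ^ (n + 1) : ℂ) else 0) (fun g _ => by
      split_ifs with hg
      · obtain ⟨u, u0, hu, v, hv, huv, hn, rfl⟩ := hg
        rw [one_mul]
        exact H.tr_root hQ hψ h0 h1 hN u0 hu hv huv hn
      · rw [zero_mul]), ← Finset.sum_filter, sum_const, nsmul_eq_mul] at a1
  have a2 := (isIntegral_natCast (R := ℤ) (B := ℂ) #{g | ∃ u, IsRt Q u g}).sub a1
  have a3 : (finrank ℂ V : ℂ) ≠ 0 := by exact_mod_cast hV
  rw [mul_sub, sub_div, mul_div_cancel_right₀ _ a3, sub_sub_cancel] at a2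
  exact_mod_cast a2

theorem arith_p1 {q x D : ℤ} (hq : 4 ≤ q) (hx : q ^ 2 ≤ x) (h : 2 * ((q - 1) * x ^ 2) ≤ D) :
    (q ^ 2 * x - 1) * (q * x + q) ≤ D * (q ^ 2 - 1) := by
  obtain ⟨a, rfl⟩ : ∃ a, q = a + 4 := ⟨q - 4, by ring⟩
  obtain ⟨b, rfl⟩ : ∃ b, x = b + (a + 4) ^ 2 := ⟨x - (a + 4) ^ 2, by ring⟩
  have ha : 0 ≤ a := by linarith
  have hb : 0 ≤ b := by linarith
  refine le_trans ?_ (mul_le_mul_of_nonneg_right h (by nlinarith))
  rw [← sub_nonneg]
  ring_nf
  positivity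

theorem arith_p2 {q x D X D' G C : ℤ} {k : ℕ} (hq : 2 ≤ q) (hx : q ^ 2 ≤ x)
    (hG : q ^ 2 * x - 1 = (q - 1) * G) (d1 : D' ≤ X) (d2 : q ^ 2 * x + D' ≤ q * D' + q)
    (d3 : (D - X) * (q ^ 2 - 1) = (q ^ 2 * x - 1) * (q * x - 1))
    (hC : C * (q ^ 2 - 1) = (q ^ 2 * x - 1) * (q * x + 1) * ((q * x - 1) * (x + 1)))
    (hd : D ∣ C * q ^ k) : (q ^ 2 * x - 1) * (q * x + q) ≤ D * (q ^ 2 - 1) := by
  have a0 : (0 : ℤ) < q ^ 2 - 1 := by nlinarith
  have a1 : (D - X + G) * (q ^ 2 - 1) = (q ^ 2 * x - 1) * (q * x + q) := by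
    linear_combination d3 - (q + 1) * hG
  have a2 : G ≤ X + 1 := by
    refine le_of_mul_le_mul_left ?_ (show 0 < q - 1 by linarith)
    nlinarith
  rw [← a1]
  refine mul_le_mul_of_nonneg_right ?_ a0.le
  by_contra h
  have a3 : D - X + G = D + 1 := by linarith
  rw [a3] at a1
  have a4 : C * q = (D + 1) * ((q * x) ^ 2 - 1) := by
    refine mul_right_cancel₀ a0.ne' ?_
    linear_combination q * hC - ((q * x) ^ 2 - 1) * a1
  have a5 : IsCoprime D q := ⟨-1, q * (D + 1) - (q ^ 2 * x - 1) * (x + 1), by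
    linear_combination a1⟩
  have a6 : D ∣ (q * x) ^ 2 - 1 := by
    have := (a5.pow_right.dvd_of_dvd_mul_right hd).mul_right q
    rw [a4] at this
    exact (show IsCoprime D (D + 1) from ⟨-1, 1, by ring⟩).dvd_of_dvd_mul_left this
  have a7 : D ∣ (q ^ 2 - 1) * (q * x - 1) := by
    rw [show (q ^ 2 - 1) * (q * x - 1) = D * (q ^ 2 - 1) - q * ((q * x) ^ 2 - 1) by
      linear_combination -a1]
    exact (dvd_mul_right _ _).sub (a6.mul_left _)
  have b0 : q ^ 3 ≤ q * x := by nlinarith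
  have b1 : (0 : ℤ) < q * x - 1 := by nlinarith
  have a8 := mul_le_mul_of_nonneg_right (Int.le_of_dvd (mul_pos a0 b1) a7) a0.le
  have a9 : (q * (q * x + 1) + (q ^ 2 - 1)) * (q * x - 1) ≤ (q ^ 2 - 1) ^ 2 * (q * x - 1) := by
    linarith
  have := le_of_mul_le_mul_right a9 b1
  nlinarith

theorem plus_bound (hQ : Q.polarBilin.Nondegenerate) (hψ : ψ ≠ 1) {r : ℕ}
    (hN : finrank F W = 2 * (r + 4)) {e f : Fin (r + 1 + 3) → W} (hf : H58.IsHypFrame Q e f)
    (hz : zc Q 0 + Nat.card F ^ (r + 3) = Nat.card F ^ (2 * r + 7) + Nat.card F ^ (r + 4))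
    (hq : 3 < Nat.card F) {R : Representation ℂ (EG Q) V} [R.IsIrreducible]
    (hV : 2 ≤ finrank ℂ V) : ((Nat.card F : ℤ) ^ (r + 4) - 1) * (Nat.card F ^ (r + 3) + Nat.card F) ≤
      finrank ℂ V * (Nat.card F ^ 2 - 1) := by
  obtain ⟨x, hx⟩ : ∃ x, x = Nat.card F ^ (r + 2) := ⟨_, rfl⟩
  have x1 : Nat.card F ^ 2 ≤ x := hx ▸ Nat.pow_le_pow_right (by omega) (by omega)
  have e3 : (Nat.card F : ℤ) ^ (r + 3) = Nat.card F * x := by rw [hx]; push_cast; ring
  have e4 : (Nat.card F : ℤ) ^ (r + 4) = Nat.card F ^ 2 * x := by rw [hx]; push_cast; ring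
  rw [e3, e4]
  rcases tri' hQ hψ (n := 2 * r + 1) (by omega) hq (H59.exists_ne_one_of_irreducible R hV) with
    h | ⟨m, H, h0, h1⟩
  · rw [show Nat.card F ^ (2 * r + 1 + 3) = x ^ 2 by rw [hx]; ring] at h
    zify [show 1 ≤ Nat.card F by omega] at h hq x1
    exact arith_p1 hq x1 h
  obtain ⟨j, k, hj, -⟩ := exists_DP hf
  obtain ⟨l, hl⟩ := hj.exists_lev
  obtain ⟨D, d1, d2, d3⟩ := H.frame hψ h0 h1 hQ hl _ rfl
  have h : IsHyp Q (e 0) (f 0) := ⟨hf.qe 0, hf.qf 0, by simp [hf.ef]⟩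
  obtain ⟨C, c1, c2⟩ := H.dvd hQ hψ h0 h1 (n := 2 * r + 4) (by omega) (by omega) h
  have q0 := qne F
  have q1 := q_sub_one_ne F
  have q2 := q_add_one_ne F
  have z0 : (zc Q 0 : ℤ) = Nat.card F ^ 3 * x ^ 2 + Nat.card F ^ 2 * x - Nat.card F * x := by
    zify at hz
    rw [e3, e4] at hz
    rw [eq_sub_iff_add_eq, hz, hx]
    push_cast
    ring
  have d4 : ((finrank ℂ V : ℂ) - finrank ℂ (FixM R (LinearMap.range j))) * (Nat.card F ^ 2 - 1) =
      (Nat.card F ^ 2 * x - 1) * (Nat.card F * x - 1) := by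
    have a1 : (zc Q 0 : ℂ) = Nat.card F ^ 3 * x ^ 2 + Nat.card F ^ 2 * x - Nat.card F * x := by
      exact_mod_cast z0
    rw [d3, a1, Module.natCard_eq_pow_finrank (K := F), hN,
      show ((Nat.card F : ℂ) ^ 2 - 1) = (Nat.card F - 1) * (Nat.card F + 1) by ring, hx]
    push_cast
    field_simp
    ring
  have z1 := zc_hyp h 0
  have z2 := h.finrank_hperp
  rw [Module.natCard_eq_pow_finrank (K := F) (V := hperp _ _ _),
    show finrank F (hperp Q (e 0) (f 0)) = 2 * r + 6 by omega,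
    show Nat.card F ^ (2 * r + 6) = Nat.card F ^ 2 * x ^ 2 by rw [hx]; ring] at z1
  obtain ⟨G, hG⟩ := sub_dvd_pow_sub_pow (Nat.card F : ℤ) 1 (r + 4)
  rw [one_pow, e4] at hG
  zify [show 1 ≤ Nat.card F by omega, Nat.one_le_pow 2 _ (show 0 < Nat.card F by omega),
    show 1 ≤ zc Q 0 from zc_pos,
    show 1 ≤ zc (Q.restrict (hperp Q (e 0) (f 0))) 0 from zc_pos] at d1 d2 hq x1 c1 c2 z1
  refine arith_p2 (by linarith) x1 hG d1 (by rw [← e4]; exact d2) (by exact_mod_cast d4) ?_ c2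
  refine mul_left_cancel₀ (show (Nat.card F : ℤ) ≠ 0 by linarith) ?_
  rw [c1]
  linear_combination (-(zc Q 0 : ℤ) + 1) * z1 + ((zc Q 0 : ℤ) - Nat.card F -
    (Nat.card F - 1) * (Nat.card F ^ 2 * x ^ 2) + (Nat.card F ^ 3 * x ^ 2 + Nat.card F ^ 2 * x -
    Nat.card F * x - 1)) * z0

end H2.MD
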