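/- Tower RC (S3860): slots DSW and EX. -/
import Cfsg.Agent.H52.RCSpec

set_option autoImplicit false

namespace H2.RcDSW
open Subgroup H52.RC
universe u

theorem jobDSW : JobDSW.{u} := by
  intro ka G _ _ L _ Q d h r hQ _ hc hh hr h2 hrc
  obtain ⟨-, -, -, -, k5, -, -, k8, -⟩ := ka G
  have s : SylL (L ⊓ Ct L d) Q := ⟨le_inf hQ.1 hc, hQ.2.1, hQ.2.2.of_dvd_nat
    ⟨_, (relIndex_mul_relIndex Q _ L (le_inf hQ.1 hc) inf_le_left).symm⟩⟩
  have m : h⁻¹ * r * h⁻¹⁻¹ ∈ L ⊓ Ct L d := by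
    refine mem_inf.2 ⟨L.mul_mem (L.mul_mem (L.inv_mem hh) hr) (L.inv_mem (L.inv_mem hh)), mem_Ct.2 ?_⟩
    have := (zcNormal L).conj_mem _ (mem_Ct.1 hrc) h⁻¹
    convert this using 1
    group
  obtain ⟨k, hk, e⟩ := (k8 _ Q s).2.2 (zpowers (h⁻¹ * r * h⁻¹⁻¹)) ((k5 _).2 fun g hg => by
    obtain ⟨n, rfl⟩ := (mem_powers_iff_mem_zpowers.2 hg)
    exact (h2.conj h⁻¹).pow n) (zpowers_le.2 m)
  refine ⟨k * h⁻¹, L.mul_mem hk.1 (L.inv_mem hh), ?_, ?_⟩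
  · convert e _ (mem_zpowers _) using 1
    group
  · convert mem_Ct.1 hk.2 using 1
    group

theorem jobEX : JobEX.{u} := by
  intro ka zs G _ _ L hL
  obtain ⟨k1, -, -, k4, k5, -, k7, -, -⟩ := ka G
  refine ⟨?_, fun Q hQ => ?_⟩
  · by_contra c
    obtain ⟨T, hTL, hT, hall⟩ := (k1 L).1 fun x hx g hg ho hi => by
      by_contra x1
      exact c ⟨x, hx, x1, ho, g, hg, hi⟩
    obtain ⟨Q, -, hQ, -⟩ := k7 L ⊥ IsPGroup.of_bot bot_le
    obtain ⟨-, nz, z2, -⟩ := zs G L Q hL hQ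
    have nT : (T.subgroupOf L).Normal := ⟨fun t ht g =>
      hall _ (g * t * g⁻¹).2 (((k5 T).1 hT _ ht).conj g)⟩
    have := hL.1.2
    rcases (nT.map (QuotientGroup.mk' (center L)) (QuotientGroup.mk'_surjective _)).eq_bot_or_eq_top
      with e | e
    · refine nz fun q hq => ?_
      have : QuotientGroup.mk' (center L) ⟨q, hQ.1 hq⟩ ∈ (⊥ : Subgroup (L ⧸ center L)) :=
        e ▸ mem_map_of_mem _ (hall q (hQ.1 hq) ((k5 Q).1 hQ.2.1 q hq))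
      exact mk_eq_one_iff.1 (mem_bot.1 this)
    · have hp : IsPGroup 2 L := hT.to_le fun x hx => by
        obtain ⟨t, ht, et⟩ := e.ge (mem_top (QuotientGroup.mk' (center L) ⟨x, hx⟩))
        have z := mem_center_iff_Zc.1 (QuotientGroup.eq.1 et)
        have := T.mul_mem ht (hall _ z.1 ((k5 _).1 z2 _ z))
        simpa using this
      haveI := hp.isNilpotent
      haveI := hL.1.1
      refine nz fun q hq => ?_
      by_contra nq
      haveI : Nontrivial L := ⟨⟨⟨q, hQ.1 hq⟩, 1, fun e => nq (by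
        rw [show q = 1 from congrArg Subtype.val e]; exact one_mem _)⟩⟩
      exact (IsSolvable.commutator_lt_top_of_nontrivial L).ne Group.IsPerfect.commutator_eq_top
  · obtain ⟨-, nz, -, z4⟩ := zs G L Q hL hQ
    obtain ⟨q, hq, nq⟩ := SetLike.not_le_iff_exists.1 nz
    obtain ⟨k, d1, d2⟩ := k4 _ q ((k5 Q).1 hQ.2.1 q hq) nq
    have dQ := Q.pow_mem hq (2 ^ k)
    obtain ⟨h, hh, w1, w2⟩ := z4 _ dQ d1 d2
    have wQ := Q.mul_mem (Q.inv_mem dQ) w1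
    obtain ⟨j, v1, v2⟩ := k4 _ _ ((k5 Q).1 hQ.2.1 _ wQ) w2
    refine ⟨_, Q.pow_mem wQ (2 ^ j), hQ.1 (Q.pow_mem wQ _), v1, v2, _, hQ.1 dQ, d2,
      (inv_of_sq ?_).pow _⟩
    rw [conj_pow, ((mem_Zc.1 d2).2 h hh).eq, mul_inv_cancel_right]

end H2.RcDSW
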