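import Cfsg.Agent.H0.SimSpec
import Cfsg.Agent.H59.Std

/-! # S3694, tower SIM: a complete system of orthogonal idempotents is diagonal in a frame -/

set_option autoImplicit false

namespace H2.SimFrame

open Matrix H0.Sim Module

variable {n : ℕ} {F : Type} [Field F] {ι : Type*} [Fintype ι] [DecidableEq ι]

/-- The column space. -/
def W (m : Mt n F) : Submodule F (Fin n → F) := LinearMap.range (toLin' m)

theorem act {f : ι → Mt n F} (h1 : ∀ i, f i * f i = f i) (h2 : ∀ i j, i ≠ j → f i * f j = 0)
    (i j : ι) {w : Fin n → F} (hw : w ∈ W (f j)) : f i *ᵥ w = if j = i then w else 0 := by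
  obtain ⟨v, rfl⟩ := hw
  rw [toLin'_apply, mulVec_mulVec]
  split_ifs with h
  · rw [h, h1]
  · rw [h2 i j (Ne.symm h), zero_mulVec]

/-- The decomposition. -/
noncomputable def eqv {f : ι → Mt n F} (h1 : ∀ i, f i * f i = f i)
    (h2 : ∀ i j, i ≠ j → f i * f j = 0) (h3 : ∑ i, f i = 1) :
    (∀ i, W (f i)) ≃ₗ[F] (Fin n → F) where
  toFun w := ∑ i, (w i : Fin n → F)
  invFun v i := ⟨f i *ᵥ v, v, rfl⟩
  map_add' a b := by simp [Finset.sum_add_distrib]
  map_smul' c a := by simp [Finset.smul_sum]
  left_inv w := by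
    funext i
    apply Subtype.ext
    show f i *ᵥ (∑ j, (w j : Fin n → F)) = w i
    rw [mulVec_sum, Finset.sum_congr rfl fun j _ => act h1 h2 i j (w j).2]
    simp
  right_inv v := by
    show ∑ i, f i *ᵥ v = v
    rw [← sum_mulVec, h3, one_mulVec]

theorem core {f : ι → Mt n F} (h1 : ∀ i, f i * f i = f i) (h2 : ∀ i j, i ≠ j → f i * f j = 0)
    (v : Fin n → Fin n → F) (k : Fin n → ι) (hv : ∀ x, v x ∈ W (f (k x))) (c : GL (Fin n) F)
    (hc : (c : Mt n F) = (of v)ᵀ) (i : ι) :
    f i = (c : Mt n F) * diagonal (fun x => if k x = i then 1 else 0) *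
      ((c⁻¹ : GL (Fin n) F) : Mt n F) := by
  have : f i * (c : Mt n F) = (c : Mt n F) * diagonal (fun x => if k x = i then 1 else 0) := by
    ext y x
    have := congrFun (act h1 h2 i (k x) (hv x)) y
    rw [mul_diagonal, hc, mul_apply]
    refine Eq.trans this ?_
    split_ifs <;> simp
  rw [← this, Matrix.mul_assoc, Units.mul_inv, Matrix.mul_one]

theorem frame [Fintype F] (u : Bool) (q : ℕ) (hF : Fintype.card F = if u then q ^ 2 else q)
    (f : ι → Mt n F) (h1 : ∀ i, f i * f i = f i) (h2 : ∀ i j, i ≠ j → f i * f j = 0)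
    (h3 : ∑ i, f i = 1) (h4 : u = true → ∀ i, ((f i).map (· ^ q))ᵀ = f i) :
    ∃ c ∈ Gam n F u q, ∃ k : Fin n → ι, ∀ i, f i = (c : Mt n F) *
      diagonal (fun x => if k x = i then 1 else 0) * ((c⁻¹ : GL (Fin n) F) : Mt n F) := by
  classical
  let b := (Pi.basis fun i => finBasis F (W (f i))).map (eqv h1 h2 h3)
  have hcard : Fintype.card (Fin n) = Fintype.card (Σ i, Fin (finrank F (W (f i)))) := by
    rw [← finrank_eq_card_basis b, finrank_fintype_fun_eq_card]
  let κ := Fintype.equivOfCardEq hcard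
  cases u with
  | false =>
    have hb : ∀ s, b s = (finBasis F (W (f s.1)) s.2 : Fin n → F) := fun s => by
      rw [Basis.map_apply, Pi.basis_apply]
      show ∑ i, ((Pi.single (M := fun i => W (f i)) s.1 (finBasis F (W (f s.1)) s.2) i : W (f i)) :
        Fin n → F) = _
      rw [Finset.sum_eq_single s.1]
      · simp
      · intro j _ hj
        rw [Pi.single_eq_of_ne hj]
        rfl
      · simp
    have hli : LinearIndependent F (fun x => b (κ x)) := b.linearIndependent.comp κ κ.injective
    have hu : IsUnit (of fun x => b (κ x))ᵀ :=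
      isUnit_transpose _ |>.2 (linearIndependent_rows_iff_isUnit.1 hli)
    refine ⟨hu.unit, Subgroup.mem_top _, fun x => (κ x).1, core h1 h2 (fun x => b (κ x)) _
      (fun x => ?_) _ hu.unit_spec⟩
    rw [hb]
    exact Subtype.prop _
  | true =>
    have hF' : Fintype.card F = q ^ 2 := by simpa using hF
    have hH := H59.isHerm_uForm hF' n
    have hadj : ∀ i x y, H59.uForm hF' n (f i *ᵥ x) y = H59.uForm hF' n x (f i *ᵥ y) := by
      intro i x y
      have e : ∀ a c, H59.frob hF' (f i a c) = f i c a := fun a c =>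
        congrFun (congrFun (h4 rfl i) c) a
      simp only [H59.stdForm_apply, mulVec, dotProduct, map_sum, map_mul, e, Finset.sum_mul,
        Finset.mul_sum]
      rw [Finset.sum_comm]
      refine Finset.sum_congr rfl fun a _ => Finset.sum_congr rfl fun c _ => by ring
    have hdis : ∀ i, Disjoint (W (f i)) (H59.perp (H59.uForm hF' n) (W (f i))) := fun i =>
      Submodule.disjoint_def.2 fun y hy hy' => hH.nondeg' y fun x => by
        have := hy' (f i *ᵥ x) ⟨x, rfl⟩
        rwa [hadj, act h1 h2 i i hy, if_pos rfl] at this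
    choose e he he' using fun i => hH.exists_orthonormal_mem _ (hdis i) rfl
    have horth : ∀ s t : Σ i, Fin (finrank F (W (f i))),
        H59.uForm hF' n (e s.1 s.2) (e t.1 t.2) = if s = t then 1 else 0 := by
      rintro ⟨i, a⟩ ⟨j, c⟩
      by_cases hij : i = j
      · subst hij
        simp [he']
      · have t := act h1 h2 i i (he i a)
        rw [if_pos rfl] at t
        rw [if_neg fun h => hij (congrArg Sigma.fst h)]
        show H59.uForm hF' n (e i a) (e j c) = 0
        rw [← t, hadj, act h1 h2 i j (he j c), if_neg (Ne.symm hij), map_zero]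
    let v : Fin n → Fin n → F := fun x => e (κ x).1 (κ x).2
    have hC : ((of v).map (H59.frob hF')) * (of v)ᵀ = 1 := by
      ext x y
      rw [one_apply, mul_apply]
      refine Eq.trans (horth (κ x) (κ y)) ?_
      simp
    let c : GL (Fin n) F := ⟨(of v)ᵀ, (of v).map (H59.frob hF'), mul_eq_one_comm.1 hC, hC⟩
    refine ⟨c, ?_, fun x => (κ x).1, core h1 h2 v _ (fun x => he _ _) c rfl⟩
    refine (H59.mem_GU_iff hF' n c).2 fun x y => ?_
    have e1 : ∀ z w, H59.uForm hF' n ((of v)ᵀ *ᵥ z) w =
        H59.uForm hF' n z ((of v).map (H59.frob hF') *ᵥ w) := fun z w => by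
      simp only [H59.stdForm_apply, mulVec, dotProduct, map_sum, map_mul, Finset.sum_mul,
        Finset.mul_sum, transpose_apply, map_apply]
      rw [Finset.sum_comm]
      refine Finset.sum_congr rfl fun a _ => Finset.sum_congr rfl fun c _ => by ring
    show H59.uForm hF' n ((of v)ᵀ *ᵥ x) ((of v)ᵀ *ᵥ y) = _
    rw [e1, mulVec_mulVec, hC, one_mulVec]

end H2.SimFrame
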