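/- Spec of the SPIN tower (S4578): neutral fermions, the Pin cover, defect groups of covers of
alternating groups. Blueprint: blueprints/SPIN.md. -/
import Cfsg.Agent.H40.AnHt
import Cfsg.Agent.H49.DCov
import Cfsg.Agent.H98.Sylow
import Cfsg.Agent.S4710

set_option autoImplicit false

namespace H2.Sp
open Cfsg Equiv MvPolynomial

universe u

/-! ### Bosons and neutral fermions; the variable `X k` stands for `2 p_r / r`, `r = 2 k + 1` -/

abbrev Γ := MvPolynomial ℕ ℚ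

noncomputable def qv : (n : ℕ) → Fin (n + 1) → Γ
  | 0 => fun _ => 1
  | n + 1 => Fin.snoc (α := fun _ => Γ) (qv n) (C ((n : ℚ) + 1)⁻¹ * ∑ k ∈ Finset.range (n / 2 + 1),
      C (2 * (k : ℚ) + 1) * X k * qv n ⟨n - 2 * k, by omega⟩)

/-- Schur's `q_n`. Use only `q_zero`, `q_succ`. -/
noncomputable def q (n : ℕ) : Γ := qv n (Fin.last n)

theorem qv_eq (n : ℕ) (i : Fin (n + 1)) : qv n i = q i := by
  induction n with
  | zero => obtain rfl : i = 0 := Fin.fin_one_eq_zero i; rfl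
  | succ n ih =>
    refine Fin.lastCases rfl (fun j => ?_) i
    rw [qv, Fin.snoc_castSucc, ih]; rfl

theorem q_zero : q 0 = 1 := rfl

theorem q_succ (n : ℕ) : q (n + 1) = C ((n : ℚ) + 1)⁻¹ * ∑ k ∈ Finset.range (n / 2 + 1),
    C (2 * (k : ℚ) + 1) * X k * q (n - 2 * k) := by
  rw [q, qv, Fin.snoc_last]; simp only [qv_eq]

noncomputable def qz (a : ℤ) : Γ := if 0 ≤ a then q a.toNat else 0

/-- The shift `X k ↦ X k - (2 / r) w ^ r`. -/
noncomputable def S : Γ →ₐ[ℚ] Polynomial Γ := aeval fun k =>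
  Polynomial.C (X k) - Polynomial.monomial (2 * k + 1) (C (2 / (2 * (k : ℚ) + 1)))

noncomputable def φ (a : ℤ) : Γ →ₗ[ℚ] Γ :=
  (Polynomial.lsum fun j : ℕ => LinearMap.mulLeft ℚ (qz (a + j))) ∘ₗ S.toLinearMap

theorem φ_apply (a : ℤ) (f : Γ) : φ a f = (S f).sum fun j c => qz (a + j) * c := rfl

noncomputable def Q (β : List ℤ) : Γ := β.foldr (fun a f => φ a f) 1

theorem Q_nil : Q [] = 1 := rfl
theorem Q_cons (a : ℤ) (β : List ℤ) : Q (a :: β) = φ a (Q β) := rfl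

/-- All lists obtained by lowering one entry by `r`. -/
def low (r : ℤ) (β : List ℤ) : List (List ℤ) :=
  β.rec [] fun a β ih => ((a - r) :: β) :: ih.map (a :: ·)

theorem low_nil (r : ℤ) : low r [] = [] := rfl
theorem low_cons (r a : ℤ) (β : List ℤ) :
    low r (a :: β) = ((a - r) :: β) :: (low r β).map (a :: ·) := rfl

noncomputable def mon (ρ : Multiset ℕ) : ℕ →₀ ℕ := Multiset.toFinsupp (ρ.map (· / 2))

/-- The pairing of `f` with the power sum `p_ρ` (for `ρ` with odd parts). -/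
noncomputable def val (f : Γ) (ρ : Multiset ℕ) : ℚ :=
  ((mon ρ).prod fun _ e => (e.factorial : ℚ)) * coeff (mon ρ) f

noncomputable def wt (m : ℕ →₀ ℕ) : ℚ :=
  m.prod fun k e => (e.factorial : ℚ) * (2 / (2 * (k : ℚ) + 1)) ^ e

noncomputable def ip (f g : Γ) : ℚ := ∑ m ∈ f.support, wt m * coeff m f * coeff m g

def Pos (l : List ℤ) : Prop := ∀ a ∈ l, 0 < a
def Good (l : List ℤ) : Prop := l.Nodup ∧ Pos l
def OddM (ρ : Multiset ℕ) : Prop := ∀ r ∈ ρ, Odd r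

def cnt (p : ℕ) (a : ℤ) (l : List ℤ) : ℤ :=
  (l.countP fun b => decide ((p : ℤ) ∣ a + b) : ℤ) - (l.countP fun b => decide ((p : ℤ) ∣ a - b) : ℤ)

/-- The number of bar lengths divisible by `p`. -/
def N (p : ℕ) (l : List ℤ) : ℤ := l.rec 0 fun a l ih => ih + a / p + cnt p a l

theorem N_nil (p : ℕ) : N p [] = 0 := rfl
theorem N_cons (p : ℕ) (a : ℤ) (l : List ℤ) : N p (a :: l) = N p l + a / p + cnt p a l := rfl

/-- Schur's degree quotient. -/
def R (l : List ℤ) : ℚ := l.rec 1 fun a l ih =>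
  ih / a.toNat.factorial * (l.map fun b => ((a - b : ℤ) : ℚ) / ((a + b : ℤ) : ℚ)).prod

theorem R_nil : R [] = 1 := rfl
theorem R_cons (a : ℤ) (l : List ℤ) : R (a :: l) = R l / a.toNat.factorial *
    (l.map fun b => ((a - b : ℤ) : ℚ) / ((a + b : ℤ) : ℚ)).prod := rfl

noncomputable def gq (k : ℕ) : Γ := if k = 0 then 2 else q k

structure Kit : Prop where
  val_cons : ∀ f r ρ, val f (r ::ₘ ρ) = val (pderiv (r / 2) f) ρ
  val_zero : ∀ f, val f 0 = constantCoeff f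
  ext : ∀ f, (∀ ρ, OddM ρ → val f ρ = 0) → f = 0
  d_qz : ∀ (k : ℕ) (a : ℤ), pderiv k (qz a) = qz (a - (2 * k + 1))
  d_φ : ∀ (k : ℕ) (a : ℤ) f, pderiv k (φ a f) = φ (a - (2 * k + 1)) f + φ a (pderiv k f)
  d_Q : ∀ (k : ℕ) β, pderiv k (Q β) = ((low (2 * k + 1) β).map Q).sum
  φ_X : ∀ (k : ℕ) (a : ℤ) f,
    φ a (X k * f) = X k * φ a f - (2 / (2 * (k : ℚ) + 1)) • φ (a + (2 * k + 1)) f
  φ_one : ∀ a, φ a 1 = qz a
  cc_qz : ∀ a, constantCoeff (qz a) = if a = 0 then 1 else 0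
  S_q : ∀ n j : ℕ, (S (q n)).coeff j =
    if j = 0 then q n else (2 * (-1) ^ j : ℤ) • qz ((n : ℤ) - j)

def CAR : Prop := ∀ (a b : ℤ) (f : Γ),
  φ a (φ b f) + φ b (φ a f) = if a + b = 0 then (2 * (-1) ^ a.natAbs : ℚ) • f else 0

structure Com : Prop where
  swap : ∀ a b l, a + b ≠ 0 → Q (a :: b :: l) = -Q (b :: a :: l)
  zero : ∀ l, Pos l → φ 0 (Q l) = ((-1) ^ l.length : ℚ) • Q l
  mem : ∀ a l, 0 < a → Pos l → a ∈ l → φ a (Q l) = 0
  neg : ∀ a l, 0 < a → Pos l → a ∉ l → φ (-a) (Q l) = 0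
  neg_pos : ∀ a l, 0 < a → Pos l → a ∉ l → φ (-a) (φ a (Q l)) = (2 * (-1) ^ a.natAbs : ℚ) • Q l
  perm : ∀ l l', Pos l → l.Perm l' → ∃ ε : ℚ, ε * ε = 1 ∧ Q l' = ε • Q l
  dup : ∀ l, Pos l → ¬ l.Nodup → Q l = 0

def Norm : Prop := ∀ l, Good l → ip (Q l) (Q l) = 2 ^ l.length

def Str : Prop := ∀ β, Q β = 0 ∨ ∃ (l : List ℤ) (c : ℚ), Good l ∧ c ≠ 0 ∧ Q β = c • Q l ∧
  l.sum = β.sum ∧ ∀ p, Odd p → N p l = N p β

def Wt : Prop := ∀ β ρ, OddM ρ → val (Q β) ρ ≠ 0 → β.sum = (ρ.sum : ℕ)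

def NV : Prop := ∀ p, Odd p → ∀ (β : List ℤ) (σ : Multiset ℕ) (w : ℕ),
  val (Q β) (σ + Multiset.replicate w p) ≠ 0 → (w : ℤ) ≤ N p β

def Span : Prop := ∀ (m : ℕ) (α : Fin m → ℕ),
  ∏ j, q (α j) ∈ Submodule.span ℚ {f | ∃ l, Good l ∧ f = Q l}

def Intg : Prop := ∀ l, Pos l →
  Q l ∈ Submodule.span ℤ {f | ∃ α : Fin l.length → ℕ, f = ∏ j, gq (α j)}

def Vq : Prop := ∀ (m : ℕ) (α : Fin m → ℕ) (ρ : Multiset ℕ), OddM ρ →
  val (∏ j, q (α j)) ρ = H40.Sn.cf α (H40.Sn.pm (Fin m) ℚ ρ)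

def Lag : Prop := ∀ l, Good l → ((low 1 l).map R).sum = (l.sum : ℤ) * R l

def DegA : Prop := ∀ l, Good l →
  val (Q l) (Multiset.replicate l.sum.toNat 1) = l.sum.toNat.factorial * R l

def DegB : Prop := ∀ p : ℕ, p.Prime → Odd p → ∀ l, Good l →
  R l ≠ 0 ∧ padicValRat p (R l) + N p l ≤ 0

open Classical in
def GSum : Prop := ∀ (Ω : Type) [Fintype Ω] [DecidableEq Ω] (f g : Γ),
  (∀ ρ, OddM ρ → val f ρ ≠ 0 → ρ.sum = Fintype.card Ω) →
  ∑ σ ∈ Finset.univ.filter (fun σ : Perm Ω => OddM σ.partition.parts),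
    2 ^ σ.partition.parts.card * val f σ.partition.parts * val g σ.partition.parts =
    (Fintype.card Ω).factorial * ip f g

/-! ### The Pin cover of the symmetric group -/

structure Pin (Ω G V : Type) [Fintype Ω] [DecidableEq Ω] [Group G] [AddCommGroup V]
    [Module ℂ V] where
  π : G →* Perm Ω
  ρ : Representation ℂ G V
  z : G
  a : Option (Ω ⊕ Ω) → Module.End ℂ V
  sq : ∀ i, a i * a i = 1
  anti : ∀ i j, i ≠ j → a i * a j = -(a j * a i)
  dim : Module.finrank ℂ V = 2 ^ Fintype.card Ω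
  surj : Function.Surjective π
  ker : ∀ g, π g = 1 ↔ g = 1 ∨ g = z
  ne : z ≠ 1
  cen : ∀ g, Commute z g
  ρz : ρ z = -1
  actγ : ∀ g i, ρ g * a (some (.inl i)) =
    ((Perm.sign (π g) : ℤ) : ℂ) • (a (some (.inl (π g i))) * ρ g)
  actδ : ∀ g i, ρ g * a (some (.inr i)) = ((Perm.sign (π g) : ℤ) : ℂ) • (a (some (.inr i)) * ρ g)
  actP : ∀ g, ρ g * a none = ((Perm.sign (π g) : ℤ) : ℂ) • (a none * ρ g)
  swp : ∀ i j, i ≠ j → ∃ t, π t = swap i j ∧
    ρ t = ((Real.sqrt 2 : ℝ) : ℂ)⁻¹ • (a (some (.inl i)) - a (some (.inl j)))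

section
variable {Ω G V : Type} [Fintype Ω] [DecidableEq Ω] [Group G] [AddCommGroup V] [Module ℂ V]

/-- The even part. -/
def Pin.Ev (P : Pin Ω G V) : Subgroup G := (alternatingGroup Ω).comap P.π

/-- The spin class function of `f`. -/
noncomputable def Pin.Φ (P : Pin Ω G V) (f : Γ) : G → ℂ := fun g =>
  P.ρ.character g * ((val f (P.π g).partition.parts : ℚ) : ℂ)
end

/-- A statement about all Pin covers. -/
def AllPin (T : ∀ {Ω G V : Type} [Fintype Ω] [DecidableEq Ω] [Group G] [Fintype G] [AddCommGroup V]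
    [Module ℂ V] [FiniteDimensional ℂ V], Pin Ω G V → Prop) : Prop :=
  ∀ {Ω G V : Type} [Fintype Ω] [DecidableEq Ω] [Group G] [Fintype G] [AddCommGroup V]
    [Module ℂ V] [FiniteDimensional ℂ V] (P : Pin Ω G V), T P

def Cliff : Prop := ∀ (Ω : Type) [Fintype Ω], ∃ (V : Type) (_ : AddCommGroup V) (_ : Module ℂ V)
  (_ : FiniteDimensional ℂ V) (a : Option (Ω ⊕ Ω) → Module.End ℂ V), (∀ i, a i * a i = 1) ∧
  (∀ i j, i ≠ j → a i * a j = -(a j * a i)) ∧ Module.finrank ℂ V = 2 ^ Fintype.card Ω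

def HasPin : Prop := ∀ (Ω : Type) [Fintype Ω] [DecidableEq Ω] (H : Type u) [Group H] (z : H)
  (π : H →* Perm Ω), H49.DC z π → ∃ (G V : Type) (_ : Group G) (_ : Fintype G)
  (_ : AddCommGroup V) (_ : Module ℂ V) (_ : FiniteDimensional ℂ V) (P : Pin Ω G V) (ι : H →* G),
  Function.Injective ι ∧ ∀ h, P.π (ι h) = π h

def SC : Prop := AllPin fun P => ∀ x y, Perm.Disjoint (P.π x) (P.π y) →
  (Perm.sign (P.π x) = 1 ∨ Perm.sign (P.π y) = 1 → x * y = y * x) ∧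
  (Perm.sign (P.π x) = -1 → Perm.sign (P.π y) = -1 → x * y = P.z * (y * x))

def T2 : Prop := AllPin fun P => ∀ g, ¬ OddM (P.π g).partition.parts → P.ρ.character g = 0

def T1 : Prop := AllPin fun {Ω} _ _ _ _ _ _ _ _ _ P => ∀ g, OddM (P.π g).partition.parts →
  P.ρ.character g ^ 2 = 2 ^ (Fintype.card Ω + (P.π g).partition.parts.card)

def CL : Prop := ∀ (G V κ : Type) [Group G] [Finite G] [AddCommGroup V] [Module ℂ V]
  [FiniteDimensional ℂ V] [Fintype κ] (ρ : Representation ℂ G V) (a : κ → Module.End ℂ V)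
  (d : κ → ℂ), (∀ i, d i ≠ 0 ∧ a i * a i = d i • (1 : Module.End ℂ V)) →
  (∀ i j, i ≠ j → a i * a j = -(a j * a i)) → (∀ g i, ρ g * a i = a i * ρ g) →
  ∃ ψ, IsCharacter G ψ ∧ ∀ g, ρ.character g = 2 ^ (Fintype.card κ / 2) * ψ g

def Theta : Prop := AllPin fun {Ω G} _ _ _ _ _ _ _ _ P => ∀ (m : ℕ) (α : Fin m → ℕ),
  (∃ ψ, IsCharacter G ψ ∧ ∀ g, P.ρ.character g *
    H40.Sn.cf α (H40.Sn.pm (Fin m) ℂ (P.π g).partition.parts) =
    2 ^ ((Fintype.card Ω + (Finset.univ.filter fun j => α j ≠ 0).card) / 2) * ψ g) ∧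
  ∃ ψ, IsCharacter P.Ev ψ ∧ ∀ g : P.Ev, P.ρ.character g *
    H40.Sn.cf α (H40.Sn.pm (Fin m) ℂ (P.π g).partition.parts) =
    2 ^ ((Fintype.card Ω + (Finset.univ.filter fun j => α j ≠ 0).card + 1) / 2) * ψ g

def Comp : Prop := AllPin fun {_ G} _ _ _ _ _ _ _ _ P => ∀ ξ : IrrCharacter G,
  ξ.1 P.z ≠ ξ.1 1 → ∃ l, Good l ∧ classInner ξ.1 (P.Φ (Q l)) ≠ 0

def Nrm : Prop := AllPin fun {Ω} _ _ _ _ _ _ _ _ _ P => ∀ l, Good l → P.Φ (Q l) ≠ 0 →
  classInner (P.Φ (Q l)) (P.Φ (Q l)) = 2 ^ (Fintype.card Ω + l.length)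

def Gen : Prop := AllPin fun {Ω G} _ _ _ _ _ _ _ _ P => ∀ l, Pos l →
  (∃ ζ, IsGeneralizedCharacter G ζ ∧
    ∀ g, P.Φ (Q l) g = 2 ^ ((Fintype.card Ω + l.length) / 2) * ζ g) ∧
  ∃ ζ, IsGeneralizedCharacter P.Ev ζ ∧
    ∀ g : P.Ev, P.Φ (Q l) g = 2 ^ ((Fintype.card Ω + l.length + 1) / 2) * ζ g

def Idn : Prop := AllPin fun {Ω G} _ _ _ _ _ _ _ _ P => 2 ≤ Fintype.card Ω → ∀ ξ : IrrCharacter G,
  ξ.1 P.z ≠ ξ.1 1 → ∃ l, Good l ∧ ∃ (k : ℕ) (ε : ℤ), ε * ε = 1 ∧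
    ∀ g, Perm.sign (P.π g) = 1 → 2 ^ k * ξ.1 g = ε * P.Φ (Q l) g

/-! ### Weights bound the degrees -/

section
variable {Ω : Type} [Fintype Ω] [DecidableEq Ω]

def WE (p : ℕ) {G : Type*} [Group G] (π : G →* Perm Ω) : Prop :=
  ∀ (ξ : IrrCharacter G) (g : G) (σ : Multiset ℕ) (w : ℕ), Perm.sign (π g) = 1 →
    (π g).partition.parts = σ + Multiset.replicate w p → ξ.1 g ≠ 0 →
    (charDegree ξ.1).factorization p + w ≤ (Fintype.card Ω).factorial.factorization p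

def WH (p : ℕ) {H : Type*} [Group H] (π : H →* Perm Ω) : Prop :=
  ∀ (χ : IrrCharacter H) (c x : H) (w : ℕ), 2 ≤ w → c ^ p = 1 →
    (π c).cycleType = Multiset.replicate w p → Perm.Disjoint (π c) (π x) → χ.1 (c * x) ≠ 0 →
    (charDegree χ.1).factorization p + w ≤ (Fintype.card Ω).factorial.factorization p

/-- The points moved by `D`. -/
def mv (D : Subgroup (Perm Ω)) : Set Ω := {a | ∃ d ∈ D, d a ≠ a}

/-- The even permutations supported on `Δ`. -/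
def AltOn (Δ : Set Ω) : Subgroup (Perm Ω) := alternatingGroup Ω ⊓ fixingSubgroup (Perm Ω) Δᶜ

/-- `D` contains every even `p`-group that normalises it and is normalised by its even
normaliser. -/
def Rad (p : ℕ) (D : Subgroup (Perm Ω)) : Prop :=
  ∀ K : Subgroup (Perm Ω), K ≤ alternatingGroup Ω → IsPGroup p K →
    K ≤ Subgroup.normalizer (D : Set (Perm Ω)) →
    alternatingGroup Ω ⊓ Subgroup.normalizer (D : Set (Perm Ω)) ≤
      Subgroup.normalizer (K : Set (Perm Ω)) → K ≤ D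

/-- The group generated by the cycles of `c`. -/
def Ec (c : Perm Ω) : Subgroup (Perm Ω) := Subgroup.closure (c.cycleFactorsFinset : Set (Perm Ω))
end

def WS : Prop := ∀ (Ω : Type) [Fintype Ω] [DecidableEq Ω] (p : ℕ), p.Prime →
  ∀ (χ : IrrCharacter (Perm Ω)) (g : Perm Ω) (σ : Multiset ℕ) (w : ℕ),
    g.partition.parts = σ + Multiset.replicate w p → χ.1 g ≠ 0 →
    (charDegree χ.1).factorization p + w ≤ (Fintype.card Ω).factorial.factorization p

def WG : Prop := AllPin fun {Ω} _ _ _ _ _ _ _ _ _ P => 2 ≤ Fintype.card Ω →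
  ∀ p : ℕ, p.Prime → Odd p → WE p P.π

def W2 : Prop := ∀ (Ω : Type) [Fintype Ω] [DecidableEq Ω] (G : Type) (H : Type u) [Group G]
  [Finite G] [Group H] (πG : G →* Perm Ω) (πH : H →* Perm Ω) (ι : H →* G) (p : ℕ), p.Prime →
  Odd p → Function.Surjective πG → Function.Injective ι → (∀ h, πG (ι h) = πH h) →
  (∀ g, Perm.sign (πG g) = 1 ↔ g ∈ ι.range) → (∀ g, πG g = 1 → g * g = 1 ∧ ∀ h, Commute g h) →
  (∀ h x, Perm.Disjoint (πG h) (πG x) → Perm.sign (πG x) = 1 → Commute h x) →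
  WE p πG → WH p πH

/-! ### Defect groups -/

def PZ : Prop := ∀ (Ω : Type) [Fintype Ω] [DecidableEq Ω] (p : ℕ), p.Prime →
  ∀ D : Subgroup (Perm Ω), IsPGroup p D →
  (∀ a ∈ mv D, ∃ y : Perm Ω, y ^ p = 1 ∧ (∀ d ∈ D, Commute y d) ∧
    (∀ b, y b ≠ b ↔ ∃ d ∈ D, d a = b) ∧ ∀ b, ∃ d ∈ D, y b = d b) ∧
  ∃ (c : Perm Ω) (w : ℕ), c.cycleType = Multiset.replicate w p ∧ (∀ d ∈ D, Commute c d) ∧
    ∀ a, c a ≠ a ↔ a ∈ mv D

def PE : Prop := ∀ (Ω : Type) [Fintype Ω] [DecidableEq Ω] (p : ℕ), p.Prime →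
  ∀ (c : Perm Ω) (w : ℕ), c.cycleType = Multiset.replicate w p →
  Nat.card (Ec c) = p ^ w ∧ (∀ x ∈ Ec c, ∀ y ∈ Ec c, Commute x y) ∧
  (∀ x ∈ Ec c, ∀ a, x a ≠ a → c a ≠ a) ∧
  (∀ g, Commute g c → g ∈ Subgroup.normalizer (Ec c : Set (Perm Ω))) ∧
  ∀ g : Perm Ω, (∀ f ∈ c.cycleFactorsFinset, Commute g f) → (∀ a, g a ≠ a → c a ≠ a) → g ∈ Ec c

def Struct : Prop := ∀ (Ω : Type) [Fintype Ω] [DecidableEq Ω] (p : ℕ), p.Prime →
  ∀ (D : Subgroup (Perm Ω)) (x : Perm Ω), ¬ p ∣ orderOf x →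
  H98.IsSyl p D (alternatingGroup Ω ⊓ Subgroup.centralizer {x}) → Rad p D →
  (∀ a ∈ mv D, x a = a) ∧ H98.IsSyl p D (AltOn (mv D))

def OddP : Prop := ∀ (Ω : Type) [Fintype Ω] [DecidableEq Ω] (p : ℕ), p.Prime → Odd p →
  ∀ D : Subgroup (Perm Ω), H98.IsSyl p D (AltOn (mv D)) → ∃ c ∈ D, ∃ w : ℕ,
    c.cycleType = Multiset.replicate w p ∧ (∀ d ∈ D, Commute c d) ∧
    (IsMulCommutative D → Nat.card D ∣ p ^ w) ∧
    (¬ IsMulCommutative D → p * Nat.card (Subgroup.center D) ∣ p ^ w) ∧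
    (w ≤ 1 → Nat.card D ∣ p)

def TwoP : Prop := ∀ (Ω : Type) [Fintype Ω] [DecidableEq Ω] (K : Type u) [Group K] (z : K)
  (π : K →* Perm Ω), H49.DC z π → ∀ D : Subgroup K, z ∈ D →
  H98.IsSyl 2 (D.map π) (AltOn (mv (D.map π))) → ∀ v ∈ D, (∀ d ∈ D, Commute v d) → v = 1 ∨ v = z

def TwoA : Prop := ∀ w : ℕ, 3 ≤ w → ∀ P : Sylow 2 (Perm (Fin (2 * w))),
  ¬ IsMulCommutative ((P : Subgroup _) ⊓ alternatingGroup (Fin (2 * w)) : Subgroup _) ∧
  4 * Nat.card (Subgroup.center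
    ((P : Subgroup _) ⊓ alternatingGroup (Fin (2 * w)) : Subgroup _)) ∣ 2 ^ w

def Lift : Prop := ∀ (Ω : Type) [Fintype Ω] [DecidableEq Ω] (H : Type u) [Group H] [Finite H]
  (π : H →* Perm Ω), π.range = alternatingGroup Ω → π.ker ≤ Subgroup.center H →
  ∀ (p : ℕ) [Fact p.Prime] (M : Ideal AlgInt), IsPModular p M → ∀ B : Set (IrrCharacter H),
  IsPBlock M B → ∀ x, IsDefectClass M B x → ∀ (P : Sylow p (Subgroup.centralizer ({x} : Set H)))
  (D : Subgroup H), D = (P : Subgroup _).map (Subgroup.centralizer ({x} : Set H)).subtype →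
  ¬ p ∣ orderOf (π x) ∧ H98.IsSyl p (D.map π) (alternatingGroup Ω ⊓ Subgroup.centralizer {π x}) ∧
  Rad p (D.map π) ∧ ∀ v ∈ Subgroup.center H, ∀ k : ℕ, v ^ p ^ k = 1 → v ∈ D

/-- The conclusion of S4578. -/
def Res (p : ℕ) {H : Type*} [Group H] (B : Set (IrrCharacter H)) (D : Subgroup H)
    (χ : IrrCharacter H) : Prop :=
  blockHeight p B χ.1 ≤ ((Subgroup.center D).index).factorization p ∧
    (blockHeight p B χ.1 = ((Subgroup.center D).index).factorization p ↔ IsMulCommutative D)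

def Goal (p : ℕ) (H : Type*) [Group H] : Prop :=
  ∀ M : Ideal AlgInt, IsPModular p M → ∀ B : Set (IrrCharacter H), IsPBlock M B →
    ∀ D : Subgroup H, IsDefectGroup p M B D → ∀ χ ∈ B, Res p B D χ

def GOdd : Prop := ∀ (Ω : Type) [Fintype Ω] [DecidableEq Ω] (H : Type u) [Group H] [Finite H]
  (π : H →* Perm Ω), π.range = alternatingGroup Ω → π.ker ≤ Subgroup.center H →
  ∀ (p : ℕ) [Fact p.Prime], Odd p → ¬ p ∣ Nat.card π.ker → WH p π → Goal p H

def GTwo : Prop := ∀ (Ω : Type) [Fintype Ω] [DecidableEq Ω] (H K : Type u) [Group H] [Finite H]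
  [Group K] (z : K) (π : K →* Perm Ω) (τ : H →* K), H49.DC z π → Function.Surjective τ →
  Odd (Nat.card τ.ker) → (π.comp τ).ker ≤ Subgroup.center H → Goal 2 H

def GAn : Prop := ∀ n : ℕ, Goal 2 (alternatingGroup (Fin n))

def GSmall : Prop := ∀ (H : Type u) [Group H] [Finite H], Group.IsPerfect H → ∀ n : ℕ,
  n = 6 ∨ n = 7 → (H ⧸ Subgroup.center H ≃* alternatingGroup (Fin n)) → ∀ (p : ℕ) [Fact p.Prime],
  Nat.card (Subgroup.center H) = 3 ∨ Nat.card (Subgroup.center H) = 6 ∧ p ≠ 2 → Goal p H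

section
variable {H : Type*} [Group H] [Finite H] {p : ℕ} [hp : Fact p.Prime] {M : Ideal AlgInt}
  {B : Set (IrrCharacter H)} {D : Subgroup H} {χ : IrrCharacter H}

omit hp in
theorem nu_index (D : Subgroup H) : (Subgroup.center D).index.factorization p +
    (Nat.card (Subgroup.center D)).factorization p = (Nat.card D).factorization p := by
  rw [← (Subgroup.center D).index_mul_card, Nat.factorization_mul
    Subgroup.index_ne_zero_of_finite Nat.card_pos.ne', Finsupp.add_apply]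

omit [Finite H] hp in
theorem center_top (h : IsMulCommutative D) : Subgroup.center D = ⊤ :=
  Subgroup.center_eq_top_iff.2 h

theorem fin1 (hM : IsPModular p M) (hB : IsPBlock M B) (hD : IsDefectGroup p M B D) (hχ : χ ∈ B)
    (h1 : ¬ IsMulCommutative D → (Nat.card (Subgroup.center D)).factorization p + 1 +
      (charDegree χ.1).factorization p ≤ (Nat.card H).factorization p)
    (h2 : IsMulCommutative D → (Nat.card D).factorization p +
      (charDegree χ.1).factorization p ≤ (Nat.card H).factorization p) : Res p B D χ := by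
  have := hM.2.1
  have hc := H36.card_of_isDefectGroup hM hB hD
  have h3 := H40.An.height_add (p := p) hχ
  have h4 := nu_index (p := p) D
  rw [hc, Nat.Prime.factorization_pow hp.out, Finsupp.single_eq_same] at h2 h4
  by_cases h : IsMulCommutative D
  · have h5 := h2 h
    have h6 : (Subgroup.center D).index.factorization p = 0 := by simp [center_top h]
    exact ⟨by omega, fun _ => h, fun _ => by omega⟩
  · have h5 := h1 h
    exact ⟨by omega, fun _ => by omega, fun a => absurd a h⟩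

theorem fin2 (hM : IsPModular p M) (hB : IsPBlock M B) (hD : IsDefectGroup p M B D) (hχ : χ ∈ B)
    (h : Nat.card D ∣ p ^ 2) : Res p B D χ := by
  classical
  have := hM.2.1
  have := Fintype.ofFinite H
  have hc := H36.card_of_isDefectGroup hM hB hD
  have hd : blockDefect p B ≤ 2 := (Nat.pow_dvd_pow_iff_le_right hp.out.one_lt).1 (hc ▸ h)
  have h0 := H35.height_eq_zero_of_defect_le_two hM hB hd hχ
  have h1 : IsMulCommutative D := by
    rcases hd.eq_or_lt with h | h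
    · exact IsPGroup.isMulCommutative_of_card_eq_prime_sq (h ▸ hc)
    · have : IsCyclic D := isCyclic_of_card_dvd_prime (p := p)
        (hc ▸ (pow_dvd_pow p (by omega : _ ≤ 1)).trans (pow_one p).dvd)
      infer_instance
  have h6 : (Subgroup.center D).index.factorization p = 0 := by simp [center_top h1]
  exact ⟨by omega, fun _ => h1, fun _ => by omega⟩

theorem fin3 (hM : IsPModular p M) (hB : IsPBlock M B) (hD : IsDefectGroup p M B D) (hχ : χ ∈ B)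
    (h : Nat.card (Subgroup.center D) ∣ p) : Res p B D χ := by
  have := hM.2.1
  have hc := H36.card_of_isDefectGroup hM hB hD
  by_cases hd : blockDefect p B ≤ 2
  · exact fin2 hM hB hD hχ (hc ▸ pow_dvd_pow p hd)
  have h1 := ((Cfsg.Agent.S4710.result p M hM B hB _ rfl).2 χ hχ).2 (by omega)
  have h4 := nu_index (p := p) D
  rw [hc, Nat.Prime.factorization_pow hp.out, Finsupp.single_eq_same] at h4
  have h5 : (Nat.card (Subgroup.center D)).factorization p ≤ 1 :=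
    hp.out.factorization_self ▸ Nat.factorization_le_factorization_of_dvd_right h
      Nat.card_pos.ne' hp.out.ne_zero
  refine ⟨by omega, fun _ => by omega, fun a => ?_⟩
  have h6 : (Subgroup.center D).index.factorization p = 0 := by simp [center_top a]
  omega

end

end H2.Sp
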