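/- The basic identities for the neutral fermions. -/
import Cfsg.Agent.H2.SpSpec

set_option autoImplicit false

namespace H2.Sp
open MvPolynomial

theorem mon_cons (r : ℕ) (ρ : Multiset ℕ) : mon (r ::ₘ ρ) = mon ρ + Finsupp.single (r / 2) 1 := by
  rw [mon, mon, Multiset.map_cons, ← Multiset.singleton_add, map_add, Multiset.toFinsupp_singleton,
    add_comm]

theorem val_cons (f : Γ) (r : ℕ) (ρ : Multiset ℕ) :
    val f (r ::ₘ ρ) = val (pderiv (r / 2) f) ρ := by
  rw [val, val, mon_cons, coeff_pderiv, ← Finsupp.mul_prod_erase' _ (r / 2) _ (by simp),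
    ← Finsupp.mul_prod_erase' (mon ρ) (r / 2) _ (by simp), Finsupp.erase_add,
    Finsupp.erase_single, add_zero]
  simp [Nat.factorial_succ]; ring

theorem val_zero (f : Γ) : val f 0 = constantCoeff f := by simp [val, mon, constantCoeff_eq]

theorem val_ext (f : Γ) (h : ∀ ρ, OddM ρ → val f ρ = 0) : f = 0 := by
  ext m
  have e : mon ((Finsupp.toMultiset m).map (2 * · + 1)) = m := by
    rw [mon, Multiset.map_map, Multiset.map_congr rfl (g := id) fun x _ => by simp; omega]
    simp
  have := h ((Finsupp.toMultiset m).map (2 * · + 1)) fun r hr => by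
    obtain ⟨k, -, rfl⟩ := Multiset.mem_map.1 hr
    exact odd_two_mul_add_one k
  rw [val, e] at this
  exact (mul_eq_zero.1 this).resolve_left (Finsupp.prod_ne_zero_iff.2 fun _ _ => by positivity)

theorem qz_nat (n : ℕ) : qz n = q n := by simp [qz]

theorem qz_neg {a : ℤ} (h : a < 0) : qz a = 0 := if_neg h.not_ge

theorem qz_rec (a : ℤ) (L : ℕ) (h : a ≤ 2 * L) : (a : ℚ) • qz a =
    ∑ j ∈ Finset.range L, (2 * (j : ℚ) + 1) • (X j * qz (a - (2 * j + 1))) := by
  rcases le_or_gt a 0 with h0 | h0
  · rw [Finset.sum_eq_zero fun j _ => by rw [qz_neg (by omega)]; simp]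
    rcases h0.eq_or_lt with rfl | h0
    · simp
    · simp [qz_neg h0]
  obtain ⟨n, rfl⟩ : ∃ n : ℕ, a = (n + 1 : ℕ) := ⟨(a - 1).toNat, by omega⟩
  rw [qz_nat, q_succ, smul_eq_C_mul, ← mul_assoc, ← C_mul, Int.cast_natCast, Nat.cast_succ,
    mul_inv_cancel₀ (by positivity), C_1, one_mul,
    ← Finset.sum_subset (Finset.range_subset_range.2 (by omega : n / 2 + 1 ≤ L)) fun j _ hj => by
      rw [qz_neg (by simp at hj; omega)]; simp]
  refine Finset.sum_congr rfl fun j hj => ?_
  rw [smul_eq_C_mul, mul_assoc, ← qz_nat]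
  congr 3
  simp at hj; omega

theorem d_qz (k : ℕ) (a : ℤ) : pderiv k (qz a) = qz (a - (2 * k + 1)) := by
  rcases lt_or_ge a 0 with h0 | h0
  · rw [qz_neg h0, qz_neg (by omega), map_zero]
  lift a to ℕ using h0
  induction a using Nat.strong_induction_on with | _ n ih => ?_
  rcases Nat.eq_zero_or_pos n with rfl | hn
  · rw [qz_nat, q_zero, qz_neg (by omega)]; simp
  have ih' : ∀ b : ℤ, b < n → pderiv k (qz b) = qz (b - (2 * k + 1)) := fun b hb => by
    rcases lt_or_ge b 0 with h0 | h0
    · rw [qz_neg h0, qz_neg (by omega), map_zero]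
    · lift b to ℕ using h0
      exact ih b (by omega)
  have h1 := congrArg (pderiv k) (qz_rec n (n + k + 1) (by omega))
  have h2 := qz_rec (n - (2 * k + 1)) (n + k + 1) (by omega)
  rw [Derivation.map_smul, map_sum, Finset.sum_congr rfl (g := fun j : ℕ =>
    (2 * (j : ℚ) + 1) • (X j * qz (n - (2 * k + 1) - (2 * j + 1))) +
      if j = k then (2 * (k : ℚ) + 1) • qz (n - (2 * k + 1)) else 0) fun j _ => by
        rw [Derivation.map_smul, Derivation.leibniz, ih' _ (by omega), pderiv_X, sub_right_comm]
        by_cases e : j = k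
        · subst e; simp
        · simp [e],
    Finset.sum_add_distrib, ← h2, Finset.sum_ite_eq' , if_pos (by simp), ← add_smul] at h1
  refine smul_right_injective _ (r := ((n : ℤ) : ℚ)) (by simpa using hn.ne') (h1.trans ?_)
  congr 1; push_cast; ring

theorem cc_qz (a : ℤ) : constantCoeff (qz a) = if a = 0 then 1 else 0 := by
  split_ifs with h
  · subst h; exact map_one _
  have := congrArg constantCoeff (qz_rec a a.toNat (by omega))
  simpa [h] using this

noncomputable def TT (a : ℤ) : Polynomial Γ →ₗ[ℚ] Γ :=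
  Polynomial.lsum fun j : ℕ => LinearMap.mulLeft ℚ (qz (a + j))

theorem TT_monomial (a : ℤ) (j : ℕ) (c : Γ) : TT a (Polynomial.monomial j c) = qz (a + j) * c := by
  simp [TT]

theorem φ_eq (a : ℤ) (f : Γ) : φ a f = TT a (S f) := rfl

noncomputable def MD (k : ℕ) : Polynomial Γ →ₗ[ℚ] Polynomial Γ :=
  Polynomial.lsum fun j : ℕ =>
    (Polynomial.monomial j).restrictScalars ℚ ∘ₗ (pderiv k : Derivation ℚ Γ Γ).toLinearMap

theorem MD_monomial (k j : ℕ) (c : Γ) :
    MD k (Polynomial.monomial j c) = Polynomial.monomial j (pderiv k c) := by simp [MD]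

theorem MD_mul (k : ℕ) (P R : Polynomial Γ) : MD k (P * R) = MD k P * R + P * MD k R := by
  induction P using Polynomial.induction_on' with
  | add P P' h h' => simp only [add_mul, map_add, h, h']; ring
  | monomial i c =>
    induction R using Polynomial.induction_on' with
    | add P P' h h' => simp only [mul_add, map_add, h, h']; ring
    | monomial j d =>
      simp only [Polynomial.monomial_mul_monomial, MD_monomial, Derivation.leibniz, smul_eq_mul,
        ← map_add]
      congr 1; ring

theorem coeff_MD (k j : ℕ) (P : Polynomial Γ) : (MD k P).coeff j = pderiv k (P.coeff j) := by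
  induction P using Polynomial.induction_on' with
  | add P P' h h' => simp [h, h']
  | monomial i c => rw [MD_monomial, Polynomial.coeff_monomial, Polynomial.coeff_monomial]; aesop

theorem S_X (k : ℕ) : S (X k) = Polynomial.monomial 0 (X k) -
    Polynomial.monomial (2 * k + 1) (C (2 / (2 * (k : ℚ) + 1))) := by simp [S]

theorem S_d (k : ℕ) (f : Γ) : S (pderiv k f) = MD k (S f) := by
  induction f using MvPolynomial.induction_on with
  | C c =>
    rw [pderiv_C, map_zero, ← algebraMap_eq, AlgHom.commutes, Polynomial.algebraMap_apply,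
      ← Polynomial.monomial_zero_left, MD_monomial]
    simp
  | add f g h h' => simp [h, h']
  | mul_X f i h =>
    rw [Derivation.leibniz, map_mul, MD_mul, ← h, S_X, map_sub, MD_monomial, MD_monomial, ← S_X,
      pderiv_X, map_add, smul_eq_mul, smul_eq_mul, map_mul, map_mul]
    by_cases e : i = k
    · subst e; simp; ring
    · simp [e]; ring

theorem d_φ (k : ℕ) (a : ℤ) (f : Γ) :
    pderiv k (φ a f) = φ (a - (2 * k + 1)) f + φ a (pderiv k f) := by
  rw [φ_eq, φ_eq, φ_eq, S_d]
  induction S f using Polynomial.induction_on' with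
  | add P P' h h' => simp only [map_add, h, h']; ring
  | monomial i c =>
    rw [MD_monomial, TT_monomial, TT_monomial, TT_monomial, Derivation.leibniz, d_qz,
      sub_add_eq_add_sub, smul_eq_mul, smul_eq_mul, add_comm, mul_comm c]

theorem φ_X (k : ℕ) (a : ℤ) (f : Γ) :
    φ a (X k * f) = X k * φ a f - (2 / (2 * (k : ℚ) + 1)) • φ (a + (2 * k + 1)) f := by
  rw [φ_eq, φ_eq, φ_eq, map_mul, S_X]
  induction S f using Polynomial.induction_on' with
  | add P P' h h' => simp only [mul_add, map_add, h, h', smul_add]; ring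
  | monomial i c =>
    rw [sub_mul, map_sub, Polynomial.monomial_mul_monomial, Polynomial.monomial_mul_monomial,
      TT_monomial, TT_monomial, TT_monomial, TT_monomial, smul_eq_C_mul, zero_add]
    push_cast
    rw [add_assoc a, mul_left_comm, mul_left_comm (C _)]

theorem φ_one (a : ℤ) : φ a 1 = qz a := by
  rw [φ_eq, map_one, ← Polynomial.monomial_zero_one, TT_monomial]; simp

theorem d_Q (k : ℕ) (β : List ℤ) : pderiv k (Q β) = ((low (2 * k + 1) β).map Q).sum := by
  induction β with
  | nil => simp [Q_nil, low_nil]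
  | cons a β ih =>
    rw [Q_cons, d_φ, ih, low_cons, List.map_cons, List.sum_cons, Q_cons, map_list_sum,
      List.map_map, List.map_map]
    rfl

def κ (j : ℕ) : ℤ := if j = 0 then 1 else 2 * (-1) ^ j

theorem κ_sum (n : ℕ) :
    -2 * ∑ j ∈ Finset.range (n / 2 + 1), (κ (n - 2 * j) : ℚ) = (n + 1) * κ (n + 1) := by
  induction n using Nat.twoStepInduction with
  | zero => simp [κ]
  | one => simp [κ]; norm_num
  | more n ih _ =>
    rw [show (n + 2) / 2 + 1 = n / 2 + 1 + 1 by omega, Finset.sum_range_succ', mul_add,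
      Finset.sum_congr rfl (g := fun j => (κ (n - 2 * j) : ℚ)) fun j _ => by congr 2; omega, ih]
    simp [κ, pow_succ]; ring

theorem cc_S_q (n : ℕ) : (S (q n)).map constantCoeff = Polynomial.monomial n (κ n : ℚ) := by
  induction n using Nat.strong_induction_on with | _ n ih => ?_
  have hC : ∀ c : ℚ, (S (C c)).map constantCoeff = Polynomial.C c := fun c => by
    rw [← algebraMap_eq, AlgHom.commutes, Polynomial.algebraMap_apply]; simp
  rcases n with _ | n
  · simp [q_zero, κ]
  rw [q_succ, map_mul, Polynomial.map_mul, hC, map_sum, Polynomial.map_sum,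
    Finset.sum_congr rfl (g := fun j => Polynomial.monomial (n + 1) (-2 * (κ (n - 2 * j) : ℚ)))
      fun j hj => ?_, ← map_sum, ← Finset.mul_sum, κ_sum, Polynomial.C_mul_monomial,
    inv_mul_cancel_left₀ (by positivity)]
  rw [map_mul, map_mul, Polynomial.map_mul, Polynomial.map_mul, hC, ih _ (by omega), S_X,
    Polynomial.map_sub, Polynomial.map_monomial, Polynomial.map_monomial, constantCoeff_X,
    constantCoeff_C, map_zero, zero_sub, ← map_neg, Polynomial.C_mul_monomial,
    Polynomial.monomial_mul_monomial, show 2 * j + 1 + (n - 2 * j) = n + 1 by simp at hj; omega]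
  congr 1
  field_simp

theorem S_qz (a : ℤ) (j : ℕ) : (S (qz a)).coeff j = κ j • qz (a - j) := by
  refine sub_eq_zero.1 (val_ext _ fun ρ hρ => ?_)
  induction ρ using Multiset.induction_on generalizing a with
  | empty =>
    rw [val_zero, map_sub, map_zsmul, cc_qz, ← Polynomial.coeff_map]
    rcases lt_or_ge a 0 with h | h
    · rw [qz_neg h, if_neg (by omega)]; simp
    · lift a to ℕ using h
      rw [qz_nat, cc_S_q, Polynomial.coeff_monomial]
      by_cases e : a = j
      · simp [e]
      · rw [if_neg e, if_neg (by omega)]; simp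
  | cons r ρ ih =>
    rw [val_cons, map_sub, ← coeff_MD, ← S_d, d_qz, map_zsmul, d_qz, sub_right_comm]
    exact ih _ fun s hs => hρ s (Multiset.mem_cons_of_mem hs)

theorem jobKit : Kit := by
  refine ⟨val_cons, val_zero, val_ext, d_qz, d_φ, d_Q, φ_X, φ_one, cc_qz, fun n j => ?_⟩
  rw [← qz_nat, S_qz, κ]
  split_ifs with h
  · simp [h]
  · rfl

end H2.Sp
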