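/- Assembly of the SPIN tower. -/
import Cfsg.Agent.H2.SpSpec
import Cfsg.Agent.H21.Multiplier
import Cfsg.Agent.S0892
import Cfsg.Agent.S2116

set_option autoImplicit false

namespace H2.Sp
open Cfsg Equiv

universe u

theorem mk_dc {Ω K : Type*} [Fintype Ω] [DecidableEq Ω] [Group K] (π : K →* Perm Ω)
    (hp : commutator K = ⊤) (hr : π.range = alternatingGroup Ω) (hk : π.ker ≤ Subgroup.center K)
    (h2 : Nat.card π.ker = 2) : ∃ z, H49.DC z π := by
  obtain ⟨z, hz, hu⟩ := (Nat.card_eq_two_iff' (1 : π.ker)).1 h2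
  refine ⟨z, fun e => hz (Subtype.ext e), fun h => (Subgroup.mem_center_iff.1 (hk z.2) h).symm,
    fun h => ⟨fun e => or_iff_not_imp_left.2 fun e' =>
      congrArg Subtype.val (hu ⟨h, e⟩ fun a => e' (congrArg Subtype.val a)), ?_⟩, hr, fun L hL => ?_⟩
  · rintro (rfl | rfl)
    exacts [map_one π, z.2]
  have key : ∀ g, ∃ l ∈ L, ∃ c ∈ Subgroup.center K, g = l * c := fun g => by
    obtain ⟨l, h1, h3⟩ := hL (π g) (Perm.mem_alternatingGroup.1 (hr ▸ ⟨g, rfl⟩))
    exact ⟨l, h1, l⁻¹ * g, hk (by simp [MonoidHom.mem_ker, h3]), by simp⟩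
  refine (show commutator K ≤ L from Subgroup.commutator_le.2 fun g _ h _ => ?_) (hp ▸ trivial)
  obtain ⟨l, h1, c, h3, rfl⟩ := key g
  obtain ⟨m, h4, d, h5, rfl⟩ := key h
  have e1 := Subgroup.mem_center_iff.1 h3
  have e2 := Subgroup.mem_center_iff.1 h5
  have : l * c * (m * d) * (l * c)⁻¹ * (m * d)⁻¹ = l * m * l⁻¹ * m⁻¹ := by
    have a1 : c * (m * d) * c⁻¹ = m * d := by rw [← e1, mul_inv_cancel_right]
    have a2 : d * l⁻¹ * d⁻¹ = l⁻¹ := by rw [← e2, mul_inv_cancel_right]
    calc _ = l * (c * (m * d) * c⁻¹) * l⁻¹ * (m * d)⁻¹ := by group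
      _ = l * m * (d * l⁻¹ * d⁻¹) * m⁻¹ := by rw [a1]; group
      _ = _ := by rw [a2]
  rw [commutatorElement_def, this]
  exact L.mul_mem (L.mul_mem (L.mul_mem h1 h4) (L.inv_mem h1)) (L.inv_mem h4)

theorem goal_equiv {A H : Type*} [Group A] [Group H] {p : ℕ} (e : A ≃* H) (h : Goal p A) :
    Goal p H := by
  intro M hM B hB D hD χ hχ
  have hD' : (D.map e.symm.toMonoidHom).map e.toMonoidHom = D := by
    rw [Subgroup.map_map]; ext x; simp
  have := h M hM _ (H38.isPBlock_image_trI e hB) (D.map e.symm.toMonoidHom)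
    ((H38.isDefectGroup_image_trI e).2 (hD'.symm ▸ hD)) _ ⟨χ, hχ, rfl⟩
  let f := D.equivMapOfInjective e.symm.toMonoidHom e.symm.injective
  have h1 : (Subgroup.center (D.map e.symm.toMonoidHom)).index = (Subgroup.center D).index := by
    rw [← Subgroup.index_comap_of_surjective _ (f := f.toMonoidHom) f.surjective]
    congr 1
    ext x
    simp only [Subgroup.mem_comap, Subgroup.mem_center_iff, f.surjective.forall,
      MulEquiv.coe_toMonoidHom, ← map_mul, f.injective.eq_iff]
  have h2 : IsMulCommutative (D.map e.symm.toMonoidHom) ↔ IsMulCommutative D := by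
    rw [← Subgroup.center_eq_top_iff, ← Subgroup.center_eq_top_iff, ← Subgroup.index_eq_one,
      ← Subgroup.index_eq_one, h1]
  rwa [Res, H38.blockHeight_image_trI, h1, h2] at this

theorem wh_dc (h1 : HasPin.{u}) (h2 : SC) (h3 : WG) (h4 : W2.{u}) {n : ℕ} (hn : 2 ≤ n)
    {H : Type u} [Group H] {z : H} {π : H →* Perm (Fin n)} (D : H49.DC z π) {p : ℕ}
    (hp : p.Prime) (ho : Odd p) : WH p π := by
  obtain ⟨G, V, _, _, _, _, _, P, ι, hι, hπ⟩ := h1 _ H z π D
  have hz : ι z = P.z := ((P.ker _).1 ((hπ z).trans D.πz)).resolve_left fun e =>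
    D.ne (hι (e.trans (map_one ι).symm))
  refine h4 _ G H P.π π ι p hp ho P.surj hι hπ (fun g => ⟨fun hg => ?_, ?_⟩) (fun g hg => ?_)
    (fun h x a b => (h2 P h x a).1 (.inr b)) (h3 P (by simpa using hn) p hp ho)
  · obtain ⟨h, e⟩ := D.lift hg
    rcases (P.ker (g * (ι h)⁻¹)).1 (by simp [hπ, e]) with a | a
    · exact ⟨h, (mul_inv_eq_one.1 a).symm⟩
    · exact ⟨z * h, by rw [map_mul, hz, ← a]; simp⟩
  · rintro ⟨h, rfl⟩
    rw [hπ]; exact D.sign_π h
  · rcases (P.ker g).1 hg with rfl | rfl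
    · simp
    · exact ⟨by rw [← hz, ← map_mul, D.zz, map_one], P.cen⟩

theorem main (h1 : HasPin.{u}) (h2 : SC) (h3 : WG) (h4 : W2.{u}) (h5 : WS) (h6 : GOdd.{u})
    (h7 : GTwo.{u}) (h8 : GAn) (h9 : GSmall.{u}) {H : Type u} [Group H] [Finite H]
    (hq : IsQuasisimple H) (n : ℕ) (hn : 5 ≤ n)
    (e : H ⧸ Subgroup.center H ≃* alternatingGroup (Fin n)) (p : ℕ) [hp : Fact p.Prime] :
    Goal p H := by
  have hc : commutator H = ⊤ := hq.1.commutator_eq_top
  let σ : H →* alternatingGroup (Fin n) := e.toMonoidHom.comp (QuotientGroup.mk' _)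
  have s1 : Function.Surjective σ := e.surjective.comp (QuotientGroup.mk'_surjective _)
  have s2 : σ.ker = Subgroup.center H := by ext x; simp [σ]
  let π : H →* Perm (Fin n) := (Subgroup.subtype _).comp σ
  have k1 : π.ker = Subgroup.center H := by rw [← s2]; ext x; simp [π, MonoidHom.mem_ker]
  have k2 : π.range = alternatingGroup (Fin n) := by
    rw [MonoidHom.range_comp, MonoidHom.range_eq_top.2 s1, ← MonoidHom.range_eq_map,
      Subgroup.range_subtype]
  have hp2 := hp.out.eq_two_or_odd'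
  have two : Nat.card (Subgroup.center H) = 2 → Goal p H := fun h => by
    obtain ⟨z, D⟩ := mk_dc π hc k2 k1.le (k1 ▸ h)
    rcases hp2 with rfl | ho
    · exact h7 _ H H z π (.id H) D Function.surjective_id (by simp) k1.le
    · refine h6 _ H π k2 k1.le p ho (fun a => ?_) (wh_dc h1 h2 h3 h4 (by omega) D hp.out ho)
      rw [k1, h, Nat.prime_dvd_prime_iff_eq hp.out Nat.prime_two] at a
      exact absurd (a ▸ ho) (by decide)
  have one : Nat.card (Subgroup.center H) = 1 → Goal p H := fun h => by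
    have hb := Subgroup.card_eq_one.1 h
    rcases hp2 with rfl | ho
    · exact goal_equiv (MulEquiv.ofBijective σ ⟨(MonoidHom.ker_eq_bot_iff σ).1 (s2.trans hb),
        s1⟩).symm (h8 n)
    · refine h6 _ H π k2 k1.le p ho (by rw [k1, h]; simpa using hp.out.one_lt.ne') ?_
      exact h4 _ _ H (.id _) π π p hp.out ho Function.surjective_id
        ((MonoidHom.ker_eq_bot_iff π).1 (k1.trans hb)) (fun _ => rfl)
        (fun g => by rw [k2]; exact Perm.mem_alternatingGroup.symm)
        (fun g hg => by obtain rfl : g = 1 := hg; simp) (fun h x a _ => a.commute)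
        fun ξ g s w _ a b => h5 _ p hp.out ξ g s w a b
  have hpos : 0 < Nat.card (Subgroup.center H) := Nat.card_pos
  by_cases h67 : n = 6 ∨ n = 7
  swap
  · have := Cfsg.Agent.S0892.result n (by omega) (by omega) (by omega) (Subgroup.center H) le_rfl
      (hc ▸ le_top) e
    rcases (by omega : Nat.card (Subgroup.center H) = 1 ∨ Nat.card (Subgroup.center H) = 2) with
      h | h
    exacts [one h, two h]
  have hd := H21.card_ker_dvd_of_stem (Cfsg.Agent.S2116.result n h67) σ ⟨s1, s2.le, hc ▸ le_top⟩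
  rw [s2, Nat.card_congr Multiplicative.toAdd, Nat.card_zmod] at hd
  have hle := Nat.le_of_dvd (by decide) hd
  have h16 : Nat.card (Subgroup.center H) = 1 ∨ Nat.card (Subgroup.center H) = 2 ∨
      Nat.card (Subgroup.center H) = 3 ∨ Nat.card (Subgroup.center H) = 6 := by
    generalize Nat.card (Subgroup.center H) = m at hd hle hpos
    interval_cases m <;> simp_all
  rcases h16 with h | h | h | h
  · exact one h
  · exact two h
  · exact h9 H hq.1 n h67 e p (.inl h)
  by_cases hp2 : p = 2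
  swap
  · exact h9 H hq.1 n h67 e p (.inr ⟨h, hp2⟩)
  subst hp2
  have := Fact.mk Nat.prime_three
  obtain ⟨v, hv⟩ := exists_prime_orderOf_dvd_card' (G := Subgroup.center H) 3 (h ▸ by decide)
  let Z := Subgroup.zpowers (v : H)
  have z1 : Z ≤ Subgroup.center H := Subgroup.zpowers_le.2 v.2
  have z2 : Nat.card Z = 3 := by rw [Nat.card_zpowers, Subgroup.orderOf_coe, hv]
  have : Z.Normal := ⟨fun x hx g => by
    rwa [Subgroup.mem_center_iff.1 (z1 hx) g, mul_inv_cancel_right]⟩
  let π' : H ⧸ Z →* Perm (Fin n) := QuotientGroup.lift Z π (k1 ▸ z1)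
  have q1 : π'.comp (QuotientGroup.mk' Z) = π := rfl
  have q2 := QuotientGroup.mk'_surjective Z
  have q3 : π'.range = alternatingGroup (Fin n) := by
    rw [← k2, ← q1, MonoidHom.range_comp, MonoidHom.range_eq_top.2 q2, MonoidHom.range_eq_map]
  obtain ⟨z, D⟩ := mk_dc π' (by
      rw [← top_le_iff, ← MonoidHom.range_eq_top.2 q2, MonoidHom.range_eq_map, ← hc,
        commutator, Subgroup.map_commutator]
      exact Subgroup.commutator_mono le_top le_top) q3 (fun x hx => by
      obtain ⟨x, rfl⟩ := q2 x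
      refine Subgroup.mem_center_iff.2 fun y => ?_
      obtain ⟨y, rfl⟩ := q2 y
      rw [← map_mul, ← map_mul, Subgroup.mem_center_iff.1 (k1.le hx) y]) (by
      have a1 := H49.card_ker_mul π
      have a2 := H49.card_ker_mul π'
      have a3 := Z.card_eq_card_quotient_mul_card_subgroup
      have a4 : 0 < Nat.card (alternatingGroup (Fin n)) := Nat.card_pos
      rw [k1, h, k2] at a1
      rw [q3] at a2
      rw [z2, ← a1, ← a2] at a3
      nlinarith)
  exact h7 _ H _ z π' (QuotientGroup.mk' Z) D q2 (by rw [QuotientGroup.ker_mk', z2]; decide)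
    (q1 ▸ k1.le)

end H2.Sp
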